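import Cfsg.Agent.CLAS.DG4.Def
import Cfsg.Agent.CHAR.Prod

set_option autoImplicit false
set_option linter.unusedSectionVars false

namespace CL.DG4.GeoB

open Cfsg CL.Witt CL.Zel Module Submodule
open scoped ComplexConjugate

variable {F V : Type} [Field F] [Fintype F] [DecidableEq F] [AddCommGroup V] [Module F V]
  [Finite V] {T : FormType F} {f : Form T V} {r e a : ℕ}

theorem finO {T : FormType F} (f : Form T V) : Finite f.O :=
  Finite.of_injective (fun g : f.O => (g.1 : V → V)) fun _ _ h => Subtype.ext (DFunLike.coe_injective h)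

theorem phi_char (c : Par f a) {θ : GL (Fin a) F → ℂ} {ψ : c.fU.O → ℂ}
    (hθ : IsCharacter _ θ) (hψ : IsCharacter _ ψ) : IsCharacter _ (c.phi θ ψ) :=
  (hθ.comp c.ρ).mul (hψ.comp c.τ)

theorem phi_irr (c : Par f a) {θ : GL (Fin a) F → ℂ} {ψ : c.fU.O → ℂ}
    (hθ : IsIrrCharacter _ θ) (hψ : IsIrrCharacter _ ψ) : IsIrrCharacter _ (c.phi θ ψ) := by
  have := finO c.fU
  exact (hθ.prod hψ).comp_surjective (c.ρ.prod c.τ) fun p =>
    let ⟨g, h1, h2, _⟩ := c.lev p.1 p.2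
    ⟨g, Prod.ext h1 h2⟩

theorem eq_zero (c : Par f a) {u : V} (hu : u ∈ c.U) (hw : u ∈ c.W) : u = 0 :=
  (Submodule.disjoint_def.1 c.hyp.isCompl.disjoint) u
    (span_mono (by rintro _ ⟨i, rfl⟩; exact ⟨Sum.inl i, rfl⟩) hw) hu

theorem neg (c : Par f a) {z : f.O} (hz : IsNeg z) :
    (∀ g, g * z = z * g) ∧ ∃ hP : z ∈ c.P, c.ρ ⟨z, hP⟩ = -1 ∧ IsNeg (c.τ ⟨z, hP⟩) := by
  have hP : z ∈ c.P := ⟨z.2, fun v => by
    change _ ↔ z.1 v ∈ _
    rw [hz v]; exact neg_mem_iff.symm⟩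
  refine ⟨fun g => Subtype.ext (LinearEquiv.ext fun v => ?_), hP, ?_, fun u => Subtype.ext ?_⟩
  · change g.1 (z.1 v) = z.1 (g.1 v)
    rw [hz, hz, map_neg]
  · ext i j
    have h := c.hρ ⟨z, hP⟩ j
    have h2 : ∑ i, (c.ρ ⟨z, hP⟩).1 i j • c.x i = ∑ i, (-1 : GL (Fin a) F).1 i j • c.x i := by
      rw [← h, hz]
      simp [Matrix.one_apply, ite_smul]
    exact Fintype.linearIndependent_iffₛ.1 c.hyp.linearIndependent_left _ _ h2 i
  · have h := c.hτ ⟨z, hP⟩ u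
    rw [hz] at h
    have := eq_zero c (sub_mem (neg_mem u.2) (Subtype.coe_prop _)) h
    exact (sub_eq_zero.1 this).symm

theorem theta_eq (c : Par f a) {θ : GL (Fin a) F → ℂ} (hθ : IsClassFunction _ θ) (g : c.P)
    (A : End F c.W) (hA : ∀ v : c.W, g.1.1 v = (A v : V)) : θ (c.ρ g) = ofGL θ (cls A) := by
  let b : Basis (Fin a) F c.W := Basis.span c.hyp.linearIndependent_left
  have hb : ∀ i, (b i : V) = c.x i := fun i => congrArg Subtype.val (Basis.span_apply _ i)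
  have h1 : A = Matrix.toLin b b (c.ρ g).1 := b.ext fun j => Subtype.ext (by
    rw [← hA, hb, c.hρ, Matrix.toLin_self]
    simp [hb])
  rw [← congrFun (toGL_ofGL hθ) (c.ρ g), toGL]
  congr 1
  refine (cls_eq_of b.equivFun fun v => ?_).symm
  rw [h1]
  ext i
  simp [Matrix.toLin_apply, Finsupp.single_apply]

theorem tau_eq_one_iff (c : Par f a) (g : c.P) :
    c.τ g = 1 ↔ ∀ v ∈ f.perp c.W, g.1.1 v - v ∈ c.W := by
  refine ⟨fun h v hv => ?_, fun h => Subtype.ext (LinearEquiv.ext fun u => Subtype.ext ?_)⟩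
  · have h0 : ∀ i, f.B (c.x i) v = 0 := fun i => hv _ (subset_span ⟨i, rfl⟩)
    have h1 := c.hyp.sub_mem_perp v
    simp only [h0, zero_smul, Finset.sum_const_zero, add_zero] at h1
    set w := ∑ i, (T.ε * f.B (c.x' i) v) • c.x i
    have hw : w ∈ c.W := sum_mem fun i _ => smul_mem _ _ (subset_span ⟨i, rfl⟩)
    have h2 := c.hτ g ⟨_, h1⟩
    rw [h] at h2
    have h3 : g.1.1 v - v = (g.1.1 (v - w) - (v - w)) + (g.1.1 w - w) := by
      rw [map_sub]; abel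
    rw [h3]
    exact add_mem h2 (sub_mem ((g.2.2 w).1 hw) hw)
  · have h1 := h u fun w hw => u.2 w
      (span_mono (by rintro _ ⟨i, rfl⟩; exact ⟨Sum.inl i, rfl⟩) hw)
    have h2 := sub_mem h1 (c.hτ g u)
    rw [sub_sub_sub_cancel_left] at h2
    exact sub_eq_zero.1 (eq_zero c (sub_mem (Subtype.coe_prop _) u.2) h2)

end CL.DG4.GeoB
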