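/-
Definitions for S4984 (degree graph of the simple symplectic and orthogonal groups).
-/
import Cfsg.Agent.CLAS.WittCount
import Cfsg.Agent.CLAS.WittStd
import Cfsg.Agent.KSG.Zel7
import Cfsg.Agent.CHAR.Mackey

set_option autoImplicit false

namespace CL.DG4

open Cfsg CL.Witt CL.Zel Module Submodule
open scoped ComplexConjugate

section Abstract
variable {G : Type} [Group G]

/-- The Mackey term of the double coset of `g` vanishes. -/
def Van (P : Subgroup G) (φ : P → ℂ) (g : G) : Prop :=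
  ∑ᶠ s : G, extendByZero P φ (g⁻¹ * s * g) * conj (extendByZero P φ s) = 0

/-- `g` lies in the double coset `P w P`. -/
def InD (P : Subgroup G) (w g : G) : Prop := ∃ x ∈ P, ∃ y ∈ P, g = x * w * y

/-- `Φ u` is `φ y` when `w u w = u₁ w y`, and `0` when `w u w ∉ P w P`. -/
def PhiOK (P Q : Subgroup G) (w : G) (φ : P → ℂ) (Φ : G → ℂ) : Prop :=
  ∀ u ∈ Q, (∃ u₁ ∈ Q, ∃ y : P, w * u * w = u₁ * w * y ∧ Φ u = φ y) ∨
    (¬ InD P w (w * u * w) ∧ Φ u = 0)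

/-- Conclusions of the norm-two Hecke lemma: `Ind φ = χ₁ + χ₂`, `tᵢ` the eigenvalues of `∑ u w`. -/
structure H2Out (P Q : Subgroup G) (w : G) (φ : P → ℂ) (χ₁ χ₂ : G → ℂ) (t₁ t₂ : ℂ) : Prop where
  irr₁ : IsIrrCharacter G χ₁
  irr₂ : IsIrrCharacter G χ₂
  sum : χ₁ 1 + χ₂ 1 = P.index * φ 1
  prod : t₁ * t₂ = -(Nat.card Q : ℂ)
  tr : χ₁ 1 * t₁ + χ₂ 1 * t₂ = 0
  int₁ : IsIntegral ℤ t₁
  int₂ : IsIntegral ℤ t₂
  exPhi : ∃ Φ, PhiOK P Q w φ Φ
  alpha : ∀ Φ, PhiOK P Q w φ Φ → (t₁ + t₂) * φ 1 = ∑ᶠ u : Q, Φ u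
  kcl : ∀ K : Set G, (∀ k ∈ K, ∀ g, g * k * g⁻¹ ∈ K) → (∀ k ∈ K, ¬ InD P w k) →
    φ 1 * ∑ᶠ k : K, χ₁ k = χ₁ 1 * ∑ᶠ k : K, extendByZero P φ k ∧
    φ 1 * ∑ᶠ k : K, χ₂ k = χ₂ 1 * ∑ᶠ k : K, extendByZero P φ k

end Abstract

/-- Number of non-zero singular vectors of a form of Witt index `r` and polar type `e`. -/
def np (q r e : ℕ) : ℕ := (q ^ r - 1) * (q ^ (r + e - 1) + 1)

/-- `∏_{i < a} np q (r - i) e`. -/
def DD (q r e a : ℕ) : ℕ := ∏ i ∈ Finset.range a, np q (r - i) e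

variable {F V : Type} [Field F] [Fintype F] [DecidableEq F] [AddCommGroup V] [Module F V]
  [Finite V] {T : FormType F}

/-- Non-degenerate alternating (`e = 1`) or quadratic (`e` = anisotropic dimension) form of Witt
index `r`. -/
def Ty (f : Form T V) (r e : ℕ) : Prop :=
  f.Nondeg ∧ ((T = .alt F ∧ e = 1 ∧ finrank F V = 2 * r) ∨
    (T = .quad F ∧ e ≤ 2 ∧ finrank F V = 2 * r + e)) ∧
  ∃ x x' : Fin r → V, f.IsHyp x x' ∧
    ∀ v ∈ f.perp (span F (Set.range (Sum.elim x x'))), f.q v = 0 → v = 0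

/-- The stabilizer of the span of `x` in the isometry group. -/
abbrev PP (f : Form T V) {a : ℕ} (x : Fin a → V) : Subgroup f.O :=
  (f.stab (span F (Set.range x))).subgroupOf f.O

/-- The orthogonal complement of a hyperbolic frame. -/
abbrev UU (f : Form T V) {a : ℕ} (x x' : Fin a → V) : Submodule F V :=
  f.perp (span F (Set.range (Sum.elim x x')))

/-- A maximal parabolic with its Levi projections `ρ` (action on `W`), `τ` (action on `W^⊥/W`)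
and the swapping element `w`. -/
structure Par (f : Form T V) (a : ℕ) where
  x : Fin a → V
  x' : Fin a → V
  hyp : f.IsHyp x x'
  ρ : PP f x →* GL (Fin a) F
  τ : PP f x →* (f.restrict (UU f x x')).O
  hρ : ∀ (g : PP f x) (j : Fin a), g.1.1 (x j) = ∑ i, (ρ g).1 i j • x i
  hτ : ∀ (g : PP f x) (u : UU f x x'), g.1.1 u - ((τ g).1 u : V) ∈ span F (Set.range x)
  lev : ∀ (A : GL (Fin a) F) (h : (f.restrict (UU f x x')).O), ∃ g : PP f x, ρ g = A ∧ τ g = h ∧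
    (∀ j, g.1.1 (x' j) ∈ span F (Set.range x')) ∧ ∀ u : UU f x x', g.1.1 u = (h.1 u : V)
  w : f.O
  hw₁ : ∀ i, w.1 (x i) = x' i
  hw₂ : ∀ i, w.1 (x' i) = T.ε • x i
  hw₃ : ∀ u ∈ UU f x x', w.1 u = u

namespace Par
variable {f : Form T V} {a : ℕ} (c : Par f a)

abbrev W : Submodule F V := span F (Set.range c.x)
abbrev P : Subgroup f.O := PP f c.x
abbrev U : Submodule F V := UU f c.x c.x'
abbrev fU : Form T c.U := f.restrict c.U
/-- The unipotent radical. -/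
def Q : Subgroup f.O := (c.ρ.ker ⊓ c.τ.ker).map c.P.subtype
/-- The inflated character `θ ⊗ ψ`. -/
def phi (θ : GL (Fin a) F → ℂ) (ψ : c.fU.O → ℂ) (g : c.P) : ℂ := θ (c.ρ g) * ψ (c.τ g)
/-- `g W` is opposite to `W`. -/
def Opp (g : f.O) : Prop := ∀ v ∈ c.W, (∀ y ∈ c.W, f.B v (g.1 y) = 0) → v = 0

end Par

open Classical in
/-- `θ` does not occur in the Harish-Chandra restriction of `ψ` to `GL_a × O`. -/
def IV (f : Form T V) (a : ℕ) (θ : GL (Fin a) F → ℂ) (ψ : f.O → ℂ) : Prop :=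
  ∀ c : Par f a, ∑ᶠ h : c.P, (if c.τ h = 1 then ψ h * conj (θ (c.ρ h)) else 0) = 0

/-- Singular points. -/
abbrev Pt (f : Form T V) : Type := {W : Submodule F V // finrank F W = 1 ∧ f.TotSing W}

/-- Number of singular points fixed by `g`. -/
noncomputable def fixPt (f : Form T V) (g : f.O) : ℕ :=
  Nat.card {W : Pt f // W.1.map (g.1 : V →ₗ[F] V) = W.1}

/-- `ψ` is contained in the permutation character on singular points. -/
def PtC (f : Form T V) (ψ : f.O → ℂ) : Prop :=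
  ∃ ξ, IsCharacter _ ξ ∧ ∀ g, ψ g + ξ g = fixPt f g

/-- `ψ` is contained in the permutation character on an invariant set of vectors. -/
def VecC (f : Form T V) (ψ : f.O → ℂ) : Prop :=
  ∃ (Y : Set V) (ξ : f.O → ℂ), (∀ g : f.O, ∀ v ∈ Y, g.1 v ∈ Y) ∧ IsCharacter _ ξ ∧
    ∀ g : f.O, ψ g + ξ g = Nat.card {v // v ∈ Y ∧ g.1 v = v}

/-- `z = -1`. -/
def IsNeg {f : Form T V} (z : f.O) : Prop := ∀ v, z.1 v = -v

/-- `-1` acts as the scalar `s`. -/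
def Ev (f : Form T V) (χ : f.O → ℂ) (s : ℂ) : Prop := ∀ z : f.O, IsNeg z → χ z = s * χ 1

/-- Reflections. -/
def IsRefl {f : Form T V} (g : f.O) : Prop :=
  ∃ v, f.q v ≠ 0 ∧ ∀ y, g.1 y = y - ((f.q v)⁻¹ * f.B v y) • v

/-- Irreducible cuspidal characters of `GL_a`. -/
def Cu {a : ℕ} (θ : GL (Fin a) F → ℂ) : Prop := IsIrrCharacter _ θ ∧ Cusp (ofGL θ)

/-- Non-real. -/
def NRe {a : ℕ} (θ : GL (Fin a) F → ℂ) : Prop := ∃ A, conj (θ A) ≠ θ A

/-- Linear with values `±1`. -/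
def Lin {a : ℕ} (θ : GL (Fin a) F → ℂ) : Prop :=
  (∀ A B, θ (A * B) = θ A * θ B) ∧ ∀ A, θ A = 1 ∨ θ A = -1

/-- `H` is `Sp` or `Ω`. -/
structure Tgt (f : Form T V) (H : Subgroup f.O) : Prop where
  normal : H.Normal
  idx : (T = .alt F ∧ H.index = 1) ∨ (T = .quad F ∧ (∀ g, IsRefl g → g ∉ H) ∧
    ((Odd (Fintype.card F) ∧ H.index = 4) ∨ (Even (Fintype.card F) ∧ H.index = 2)))
  cen : ∀ z ∈ H, (∀ h ∈ H, h * z = z * h) → z = 1 ∨ IsNeg z

/-- A character of the isometry group that witnesses the edge `r s` after descent to `H / Z(H)`. -/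
def Wit (f : Form T V) (H : Subgroup f.O) (r s : ℕ) : Prop :=
  ∃ (χ : f.O → ℂ) (d : ℕ), IsIrrCharacter _ χ ∧ χ 1 = d ∧ (∀ z ∈ H, IsNeg z → χ z = χ 1) ∧
    r ∣ d ∧ s ∣ d ∧ ((r = 2 ∨ s = 2) →
      2 * H.index ∣ d ∨ (H.index ∣ d ∧ ∃ g, IsRefl g ∧ χ g ≠ 0))

/-- Irreducible polynomials not fixed by `x ↦ x⁻¹` nor by `x ↦ -x⁻¹` on roots. -/
def Good (p : IP F) : Prop :=
  ¬ p.1 ∣ p.1.reverse ∧ ¬ p.1 ∣ p.1.reverse.comp (-Polynomial.X)

end CL.DG4
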