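/-
S4984, block MX: Mackey criterion.
van_of_sub: both restrictions to mackeySub are characters; a common constituent on the big group
gives a non-zero inner product on N (inner products of characters are naturals).
irr_ind: classInner_indFun_indFun (Mackey.lean) gives norm 1; take chi = indFun P phi.
-/
import Cfsg.Agent.CLAS.DG4.Def
import Cfsg.Agent.CHAR.Constit
import Cfsg.Agent.CHAR.Values

set_option autoImplicit false

namespace CL.DG4

open Cfsg CL.Witt CL.Zel Module Submodule
open scoped ComplexConjugate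

variable {G : Type} [Group G] [Finite G] {P : Subgroup G} {φ : P → ℂ}

theorem van_of_sub (hφ : IsCharacter P φ) {g : G} (N : Subgroup G) (h1 : ∀ n ∈ N, n ∈ P)
    (h2 : ∀ n ∈ N, g⁻¹ * n * g ∈ P)
    (h : ∑ᶠ n : N, extendByZero P φ (g⁻¹ * n * g) * conj (extendByZero P φ n) = 0) :
    Van P φ g := by
  classical
  have := Fintype.ofFinite G
  have ha : IsCharacter _ (fun x : Char.mackeySub P P g => φ (Char.mackeyHom P P g x)) := hφ.comp _
  have hb : IsCharacter _ (fun x : Char.mackeySub P P g => φ x) := hφ.res _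
  have e : ∑ s : G, extendByZero P φ (g⁻¹ * s * g) * conj (extendByZero P φ s) =
      ∑ x : Char.mackeySub P P g, φ (Char.mackeyHom P P g x) * conj (φ x) := by
    rw [← Char.sum_extendByZero_mul (Char.mackeySub P P g) _ (fun x : P => conj (φ x))]
    simp only [Char.extendByZero_mackey]
    have := Char.sum_extendByZero_mul P (fun x => conj (φ x)) (fun s => extendByZero P φ (g⁻¹ * s * g))
    simp only [Char.extendByZero_conj] at this
    simp only [mul_comm (extendByZero P φ _) (conj _)]
    exact this
  unfold Van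
  rw [finsum_eq_sum_of_fintype, e, ← Char.card_mul_classInner]
  by_contra c
  obtain ⟨ψ, hψ, c1, c2⟩ := Char.exists_common_constituent ha.isClassFunction hb.isClassFunction
    (right_ne_zero_of_mul c)
  let f : N →* Char.mackeySub P P g :=
    ⟨⟨fun n => ⟨⟨n, h1 n n.2⟩, Char.mem_mackeySub.2 (h2 n n.2)⟩, rfl⟩, fun _ _ => rfl⟩
  have c3 : classInner (fun x => ψ (f x)) (fun x => ψ (f x)) ≠ 0 := fun c =>
    hψ.one_ne_zero (by simpa using congrFun (Char.classInner_self_eq_zero.1 c) 1)
  have c4 := Char.inner_comp_ne_zero_of_constituent f hb hψ c2 (hψ.isCharacter.comp f) c3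
  have c5 := Char.inner_comp_ne_zero_of_constituent f ha hψ c1 (hb.comp f)
    (fun c => c4 (Char.classInner_eq_zero_comm.1 c))
  apply mul_ne_zero (Char.card_ne_zero N) c5
  rw [Char.card_mul_classInner, ← h, finsum_eq_sum_of_fintype]
  refine Finset.sum_congr rfl fun n _ => ?_
  rw [Char.extendByZero_of_mem P φ (h1 n n.2), Char.extendByZero_of_mem P φ (h2 n n.2)]
  rfl

theorem van_mul (hφ : IsClassFunction P φ) {g x y : G} (hx : x ∈ P) (hy : y ∈ P)
    (h : Van P φ g) : Van P φ (x * g * y) := by
  have := Fintype.ofFinite G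
  unfold Van at h ⊢
  rw [finsum_eq_sum_of_fintype] at h ⊢
  rw [← h, ← Equiv.sum_comp (MulAut.conj x).toEquiv]
  refine Finset.sum_congr rfl fun s _ => ?_
  have e : (x * g * y)⁻¹ * (x * s * x⁻¹) * (x * g * y) = y⁻¹ * (g⁻¹ * s * g) * y := by group
  change extendByZero P φ ((x * g * y)⁻¹ * (x * s * x⁻¹) * (x * g * y)) *
    conj (extendByZero P φ (x * s * x⁻¹)) = _
  rw [e, Char.extendByZero_conj_mem' P hφ hy, Char.extendByZero_conj_mem P hφ hx]

theorem irr_ind (hφ : IsIrrCharacter P φ) (h : ∀ g, g ∉ P → Van P φ g) :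
    ∃ χ : G → ℂ, IsIrrCharacter G χ ∧ χ 1 = P.index * φ 1 ∧
      ∀ z : G, (∀ g, g * z = z * g) → extendByZero P φ z = φ 1 → χ z = χ 1 := by
  classical
  have := Fintype.ofFinite G
  refine ⟨indFun P φ, hφ.isCharacter.ind.isIrr_of_inner_self ?_, Char.indFun_one P φ, fun z hz e => ?_⟩
  · rw [Char.classInner_indFun_indFun]
    have e1 : ∀ g : G, ∑ k : P, extendByZero P φ (g⁻¹ * k * g) * conj (φ k) =
        extendByZero P (fun _ => (Nat.card P : ℂ)) g := fun g => by
      by_cases hg : g ∈ P
      · simp only [Char.extendByZero_conj_mem' P hφ.isClassFunction hg, Char.extendByZero_coe,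
          Char.extendByZero_of_mem P _ hg]
        rw [← Char.card_mul_classInner, hφ.inner_self, mul_one]
      · have := Char.sum_extendByZero_mul P (fun x => conj (φ x)) (fun s => extendByZero P φ (g⁻¹ * s * g))
        have h0 := h g hg
        unfold Van at h0
        rw [finsum_eq_sum_of_fintype] at h0
        simp only [Char.extendByZero_conj] at this
        simp only [mul_comm (extendByZero P φ _) (conj _)] at h0 ⊢
        rw [← this, h0, Char.extendByZero_of_not_mem P _ hg]
    simp only [e1]
    rw [Char.sum_extendByZero, Finset.sum_const, Finset.card_univ, ← Nat.card_eq_fintype_card, nsmul_eq_mul]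
    have := Char.card_subgroup_ne_zero P
    field_simp
  · rw [Char.indFun_apply, Char.indFun_apply]
    congr 1
    refine Finset.sum_congr rfl fun x _ => ?_
    rw [mul_assoc, ← hz x, inv_mul_cancel_left, mul_one, inv_mul_cancel, e, Char.extendByZero_one]

/-- A central involution acts as `-1` on some irreducible character. -/
theorem exists_odd_irr {z : G} (hz : ∀ g, g * z = z * g) (h2 : z * z = 1) (h1 : z ≠ 1) :
    ∃ χ : G → ℂ, IsIrrCharacter G χ ∧ χ z = -χ 1 := by
  by_contra c
  push Not at c
  refine h1 (Char.eq_one_of_irr_eq fun χ hχ => ?_)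
  have e := hχ.apply_center_mul (Subgroup.mem_center_iff.2 hz) z
  rw [h2] at e
  exact (mul_self_eq_mul_self_iff.1 e.symm).resolve_right (c χ hχ)

end CL.DG4
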