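/-
S4984, block VAN, part A: the opposite double coset.
-/
import Cfsg.Agent.CLAS.DG4.MX
import Cfsg.Agent.CLAS.DG4.GeoB
import Cfsg.Agent.KSG.GLnElemDiv

set_option autoImplicit false
set_option linter.unusedSectionVars false

namespace CL.DG4.VanA

open Cfsg CL.Witt CL.Zel Module Submodule
open scoped ComplexConjugate

variable {F V : Type} [Field F] [Fintype F] [DecidableEq F] [AddCommGroup V] [Module F V]
  [Finite V] {T : FormType F} {f : Form T V} {r e a : ℕ}

theorem memP {x : Fin a → V} {g : f.O} :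
    g ∈ PP f x ↔ ∀ i, g.1 (x i) ∈ span F (Set.range x) := by
  rw [Subgroup.mem_subgroupOf, Form.mem_stab_iff_le]
  refine ⟨fun h i => h.2 _ (subset_span ⟨i, rfl⟩), fun h => ⟨g.2, fun v hv => ?_⟩⟩
  have : span F (Set.range x) ≤ (span F (Set.range x)).comap (g.1 : V →ₗ[F] V) :=
    span_le.2 (by rintro _ ⟨i, rfl⟩; exact h i)
  exact this hv

theorem mapP {x : Fin a → V} {g : f.O} (hg : g ∈ PP f x) {v : V} (hv : v ∈ span F (Set.range x)) :
    g.1 v ∈ span F (Set.range x) := (hg.2 v).1 hv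

theorem opp_iff (c : Par f a) (h : Ty f r e) (g : f.O) : c.Opp g ↔ InD c.P c.w g := by
  have xW : ∀ i, c.x i ∈ c.W := fun i => subset_span ⟨i, rfl⟩
  have hW := c.hyp.totSing_left
  constructor
  · intro ho
    let M : Matrix (Fin a) (Fin a) F := Matrix.of fun i j => f.B (c.x i) (g.1 (c.x j))
    have hM : IsUnit M := by
      rw [← Matrix.vecMul_injective_iff_isUnit]
      refine (injective_iff_map_eq_zero M.vecMulLinear).2 fun u hu => ?_
      have h0 := ho (∑ i, T.σ (u i) • c.x i) (sum_mem fun i _ => smul_mem _ _ (xW i)) fun y hy => by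
        induction hy using span_induction with
        | mem y hy =>
          obtain ⟨j, rfl⟩ := hy
          have := congrFun hu j
          simp only [Matrix.vecMulLinear_apply, Matrix.vecMul, dotProduct, M, Matrix.of_apply,
            Pi.zero_apply] at this
          rw [← this, map_sum, LinearMap.sum_apply]
          exact Finset.sum_congr rfl fun i _ => by rw [f.B_smul_left, T.σσ]
        | zero => simp
        | add y z _ _ h1 h2 => rw [map_add, f.B_add_right, h1, h2, add_zero]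
        | smul t y _ h1 => rw [map_smul, f.B_smul_right, h1, mul_zero]
      funext i
      exact T.σ_eq_zero.1 (Fintype.linearIndependent_iff.1 c.hyp.linearIndependent_left _ h0 i)
    obtain ⟨N, hN⟩ := hM.exists_right_inv
    let z : Fin a → V := fun j => ∑ k, N k j • c.x k
    have zW : ∀ j, z j ∈ c.W := fun j => sum_mem fun i _ => smul_mem _ _ (xW i)
    have hy : f.IsHyp c.x fun j => g.1 (z j) := by
      refine ⟨c.hyp.q_left, fun i => ?_, c.hyp.B_left, fun i j => ?_, fun i j => ?_⟩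
      · rw [f.O_q]; exact hW.1 _ (zW i)
      · rw [f.O_B]; exact hW.le_perp (zW j) _ (zW i)
      · rw [← Matrix.one_apply, ← hN, Matrix.mul_apply]
        simp only [z, map_sum, map_smul, smul_eq_mul, M, Matrix.of_apply, mul_comm]
    obtain ⟨p, hp, h1, h2⟩ := Form.IsHyp.conj h.1 c.hyp hy
    refine ⟨⟨p, hp⟩, memP.2 fun i => (h1 i).symm ▸ xW i, (g⁻¹ * ⟨p, hp⟩ * c.w)⁻¹,
      inv_mem (memP.2 fun i => ?_), by group⟩
    change g.1.symm (p (c.w.1 (c.x i))) ∈ _
    rw [c.hw₁, h2, LinearEquiv.symm_apply_apply]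
    exact zW i
  · rintro ⟨x, hx, y, hy, rfl⟩ v hv h0
    have h1 := mapP (inv_mem hx) hv
    have h2 : (x⁻¹).1 v = 0 := GeoB.eq_zero c (c.hyp.mem_perp_span.2
      ⟨fun i => hW.le_perp h1 _ (xW i), fun i => by
        have := h0 _ (mapP (inv_mem hy) (xW i))
        change f.B v (x.1 (c.w.1 (y.1 (y.1.symm (c.x i))))) = 0 at this
        rw [LinearEquiv.apply_symm_apply, c.hw₁, ← f.O_B x⁻¹] at this
        change f.B _ (x.1.symm (x.1 _)) = 0 at this
        rw [LinearEquiv.symm_apply_apply] at this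
        exact f.B_eq_zero_symm this⟩) h1
    exact (x⁻¹).1.map_eq_zero_iff.1 h2

theorem theta_inv_transpose {θ : GL (Fin a) F → ℂ} (hθ : IsCharacter _ θ) {A B : GL (Fin a) F}
    (h : B.1.transpose * A.1 = 1) : θ B = conj (θ A) := by
  rw [← hθ.apply_inv]
  refine hθ.isClassFunction.eq_of_isConj ?_
  obtain ⟨u, hu⟩ := CL.GLn.isConj_transpose B.1
  have e : B.1.transpose = (A⁻¹).1 := by
    rw [← mul_one B.1.transpose, ← A.mul_inv, ← mul_assoc, h, one_mul]
  rw [e] at hu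
  exact isConj_iff.2 ⟨u, mul_inv_eq_iff_eq_mul.2 (Units.ext hu.eq)⟩

theorem tau_one (c : Par f a) (g : c.P) (hg : ∀ u ∈ c.U, g.1.1 u = u) : c.τ g = 1 := by
  refine Subtype.ext (LinearEquiv.ext fun u => Subtype.ext ?_)
  have h := c.hτ g u
  rw [hg u u.2] at h
  exact (sub_eq_zero.1 (GeoB.eq_zero c (sub_mem u.2 (Subtype.coe_prop _)) h)).symm

theorem van_opp (c : Par f a) (h : Ty f r e) {θ : GL (Fin a) F → ℂ} {ψ : c.fU.O → ℂ}
    (hθ : IsIrrCharacter _ θ) (hn : NRe θ) (hψ : IsCharacter _ ψ) {g : f.O} (ho : c.Opp g) :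
    Van c.P (c.phi θ ψ) g := by
  classical
  have := GeoB.finO f
  have hφ := GeoB.phi_char c hθ.isCharacter hψ
  obtain ⟨x, hx, y, hy, rfl⟩ := (opp_iff c h g).1 ho
  refine van_mul hφ.isClassFunction hx hy ?_
  have hσ : ∀ t, T.σ t = t := fun t => by
    rcases h.2.1 with ⟨rfl, -⟩ | ⟨rfl, -⟩ <;> rfl
  let N : Subgroup f.O := (c.P ⊓ PP f c.x') ⊓ (f.fix c.U).subgroupOf f.O
  have h1 : N ≤ c.P := fun n hn => hn.1.1
  have wi : ∀ v ∈ span F (Set.range c.x'), c.w.1.symm v ∈ c.W := fun v hv => by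
    have : span F (Set.range c.x') ≤ c.W.comap (c.w.1.symm : V →ₗ[F] V) := span_le.2 (by
      rintro _ ⟨i, rfl⟩
      change c.w.1.symm (c.x' i) ∈ c.W
      rw [← c.hw₁, LinearEquiv.symm_apply_apply]
      exact subset_span ⟨i, rfl⟩)
    exact this hv
  have h2 : ∀ n ∈ N, c.w⁻¹ * n * c.w ∈ c.P := fun n hn => memP.2 fun i => by
    change c.w.1.symm (n.1 (c.w.1 (c.x i))) ∈ _
    rw [c.hw₁]
    exact wi _ (memP.1 hn.1.2 i)
  refine van_of_sub hφ N h1 h2 ?_
  let ρ : N →* GL (Fin a) F := c.ρ.comp (Subgroup.inclusion h1)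
  have hs : Function.Surjective ρ := fun A => by
    obtain ⟨g, g1, -, g3, g4⟩ := c.lev A 1
    exact ⟨⟨g.1, ⟨g.2, memP.2 g3⟩, g.1.2, fun u hu => g4 ⟨u, hu⟩⟩, g1⟩
  have hχ := hθ.comp_surjective ρ hs
  have := Fintype.ofFinite N
  have h0 := hχ.conj.inner_of_ne hχ fun e => by
    obtain ⟨A, hA⟩ := hn
    obtain ⟨n, rfl⟩ := hs A
    exact hA (congrFun e n)
  have h3 := Char.card_mul_classInner (fun n : N => conj (θ (ρ n))) fun n => θ (ρ n)
  rw [h0, mul_zero] at h3
  rw [finsum_eq_sum_of_fintype, ← mul_zero (ψ 1 * conj (ψ 1)), h3, Finset.mul_sum]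
  refine Finset.sum_congr rfl fun n _ => ?_
  rw [Char.extendByZero_of_mem _ _ (h1 n.2), Char.extendByZero_of_mem _ _ (h2 n n.2), Par.phi,
    Par.phi, tau_one c ⟨n, h1 n.2⟩ n.2.2.2, tau_one c ⟨_, h2 n n.2⟩ fun u hu => by
      change c.w.1.symm (n.1.1 (c.w.1 u)) = u
      rw [c.hw₃ u hu, show n.1.1 u = u from n.2.2.2 u hu, LinearEquiv.symm_apply_eq, c.hw₃ u hu],
    theta_inv_transpose hθ.isCharacter (A := ρ n) (B := c.ρ ⟨_, h2 n n.2⟩) ?_, map_mul]
  · change _ * (conj (θ (ρ n)) * _) = _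
    ring
  · ext j i
    have e1 : n.1.1 (c.x i) = ∑ k, (ρ n).1 k i • c.x k := c.hρ ⟨n, h1 n.2⟩ i
    have e2 : n.1.1 (c.x' j) = ∑ k, (c.ρ ⟨_, h2 n n.2⟩).1 k j • c.x' k := by
      have := c.hρ ⟨_, h2 n n.2⟩ j
      change c.w.1.symm (n.1.1 (c.w.1 (c.x j))) = _ at this
      rw [c.hw₁, LinearEquiv.symm_apply_eq, map_sum] at this
      simpa only [map_smul, c.hw₁] using this
    have e3 := f.O_B n.1 (c.x i) (c.x' j)
    rw [e1, e2, c.hyp.B_pair] at e3
    rw [Matrix.one_apply, if_congr eq_comm rfl rfl, ← e3, Matrix.mul_apply, map_sum f.B,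
      LinearMap.sum_apply]
    refine Finset.sum_congr rfl fun k _ => ?_
    rw [f.B_smul_left, hσ, map_sum]
    simp only [map_smul, c.hyp.B_pair, smul_eq_mul, mul_ite, mul_one, mul_zero, Finset.sum_ite_eq,
      Finset.mem_univ, if_true, Matrix.transpose_apply]
    exact mul_comm _ _

end CL.DG4.VanA
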