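/-
S4984, block CNT: counting for Ty.  card_sing: split V = <x_0,x'_0> + U and count (or
Nondeg.card_partner_mul / OrthOrder.card_zero_QPlus_prod); ty_UU: Witt (IsHyp.conj / witt_family);
orders from Nondeg.card_O_of_pair by induction; the anisotropic kernel has order 1, 2 or 2(q+1)
(only the prime divisors matter).
-/
import Cfsg.Agent.CLAS.DG4.Def
import Cfsg.Agent.CLAS.OrthPOrder
import Cfsg.Agent.CLAS.Eichler3

set_option autoImplicit false

namespace CL.DG4

open Cfsg CL.Witt CL.Zel Module Submodule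
open scoped ComplexConjugate

variable {F V : Type} [Field F] [Fintype F] [DecidableEq F] [AddCommGroup V] [Module F V]
  [Finite V] {T : FormType F} {f : Form T V} {r e a : ℕ}

theorem Ty.an (h : Ty f 0 e) (v : V) (hv : f.q v = 0) : v = 0 := by
  obtain ⟨-, -, x, x', hx, an⟩ := h
  exact an v (hx.mem_perp_span.2 ⟨fun i => i.elim0, fun i => i.elim0⟩) hv

theorem Ty.le_of_isHyp (h : Ty f r e) {x x' : Fin a → V} (hx : f.IsHyp x x') : a ≤ r := by
  obtain ⟨hf, -, y, y', hy, an⟩ := h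
  have := hf.finrank_le_of_maximal_totSing hy.totSing_left (fun W le hW => le_antisymm (fun u hu => ?_) le) hx.totSing_left
  · simpa [finrank_span_eq_card hx.linearIndependent_left, finrank_span_eq_card hy.linearIndependent_left] using this
  have m : ∀ i, y i ∈ span F (Set.range y) := fun i => subset_span ⟨i, rfl⟩
  have p := hy.sub_mem_perp u
  simp only [hW.2 _ (le (m _)) u hu, zero_smul, Finset.sum_const_zero, add_zero] at p
  have s := sum_mem fun i (_ : i ∈ Finset.univ) => smul_mem _ (T.ε * f.B (y' i) u) (m i)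
  exact sub_eq_zero.1 (an _ p (hW.1 _ (sub_mem hu (le s)))) ▸ s

theorem Ty.exists_isHyp (h : Ty f r e) (ha : a ≤ r) : ∃ x x' : Fin a → V, f.IsHyp x x' := h.2.2.elim fun _ ⟨_, hy, _⟩ => ⟨_, _, hy.comp (Fin.castLE_injective ha)⟩

theorem Ty.ty_UU (h : Ty f r e) {x x' : Fin a → V} (hx : f.IsHyp x x') :
    Ty (f.restrict (UU f x x')) (r - a) e := by
  obtain ⟨b, rfl⟩ := Nat.exists_eq_add_of_le (h.le_of_isHyp hx)
  obtain ⟨hf, hd, y, y', hy, an⟩ := h
  obtain ⟨g, hg, e1, e2⟩ := hx.conj hf (hy.comp (Fin.castAdd_injective a b))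
  have iso := (f.mem_O.1 hg).symm
  have hz := hy.map iso
  have ne : ∀ (i : Fin a) (j : Fin b), Fin.castAdd b i ≠ Fin.natAdd a j := fun i j q => by
    have := congrArg Fin.val q; simp at this; omega
  obtain rfl : x = (g.symm ∘ y) ∘ Fin.castAdd b := funext fun i => g.eq_symm_apply.2 (e1 i)
  obtain rfl : x' = (g.symm ∘ y') ∘ Fin.castAdd b := funext fun i => g.eq_symm_apply.2 (e2 i)
  have an' : ∀ v, (∀ i, f.B ((g.symm ∘ y) i) v = 0) → (∀ i, f.B ((g.symm ∘ y') i) v = 0) → f.q v = 0 → v = 0 :=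
    fun v h1 h2 h3 => g.map_eq_zero_iff.1 (an _ (hy.mem_perp_span.2 ⟨fun i => by simpa using (f.mem_O_B hg _ _).trans (h1 i),
      fun i => by simpa using (f.mem_O_B hg _ _).trans (h2 i)⟩) ((f.mem_O_q hg _).trans h3))
  generalize g.symm ∘ y = z at *
  generalize g.symm ∘ y' = z' at *
  have fr := hx.finrank_perp
  rw [Nat.add_sub_cancel_left]
  have hw : (f.restrict (UU f (z ∘ Fin.castAdd b) (z' ∘ Fin.castAdd b))).IsHyp
      (fun j => ⟨z (Fin.natAdd a j), hx.mem_perp_span.2 ⟨fun i => hz.B_left _ _, fun i => hz.B_ne' (ne i j)⟩⟩)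
      fun j => ⟨z' (Fin.natAdd a j), hx.mem_perp_span.2 ⟨fun i => hz.B_ne (ne i j), fun i => hz.B_right _ _⟩⟩ :=
    ⟨fun _ => hz.q_left _, fun _ => hz.q_right _, fun _ _ => hz.B_left _ _, fun _ _ => hz.B_right _ _,
      fun i j => (hz.B_pair _ _).trans (by simp)⟩
  refine ⟨hf.restrict_perp hx.restrict_nondeg, hd.imp (fun ⟨p, q, d⟩ => ⟨p, q, fr.trans (by simp; omega)⟩)
    fun ⟨p, q, d⟩ => ⟨p, q, fr.trans (by simp; omega)⟩, _, _, hw, fun v hv q => Subtype.ext ?_⟩
  have p := hw.mem_perp_span.1 hv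
  have p' := hx.mem_perp_span.1 v.2
  exact an' _ (Fin.addCases p'.1 p.1) (Fin.addCases p'.2 p.2) q

theorem cnt {f : Form (.quad F) V} {x x' : Fin a → V} (hx : f.IsHyp x x') (c : F) :
    Nat.card {v // f.q v = c} = Nat.card {u : UU f x x' // f.q u = c} * Fintype.card F ^ a +
      Nat.card (UU f x x') * ((Fintype.card F ^ a - 1) * Fintype.card F ^ (a - 1)) := by
  rw [← CL.FormCount.card_quadFormPlus_add_eq rfl a (fun u : UU f x x' => f.q u) c]
  have pu := fun u : UU f x x' => hx.mem_perp_span.1 u.2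
  refine (Nat.card_congr ((Equiv.ofBijective (fun p : (Fin a ⊕ Fin a → F) × UU f x x' =>
    ∑ i, p.1 (.inl i) • x i + ∑ i, p.1 (.inr i) • x' i + p.2) ⟨fun p p' e => ?_, fun v =>
      ⟨(Sum.elim _ _, ⟨_, hx.sub_mem_perp v⟩), add_sub_cancel _ _⟩⟩).subtypeEquiv fun p => ?_)).symm
  · have : p.1 = p'.1 := by
      ext (i | i)
      · simpa [hx.B_pair', hx.B_right, pu, FormType.quad_ε] using congrArg (f.B (x' i)) e
      · simpa [hx.B_pair, hx.B_left, pu] using congrArg (f.B (x i)) e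
    exact Prod.ext this (Subtype.ext (by simpa [this] using e))
  · change _ ↔ f.q (_ + _ + _) = c
    rw [f.q_add_of_B_eq_zero (by simp [pu]), f.quad_q_add,
      hx.totSing_left.1 _ (sum_mem fun i _ => smul_mem _ _ (subset_span ⟨i, rfl⟩)),
      hx.totSing_right.1 _ (sum_mem fun i _ => smul_mem _ _ (subset_span ⟨i, rfl⟩))]
    simp [quadFormPlus, hx.B_pair, mul_comm, FormType.quad_σ]

theorem Ty.card_sing (h : Ty f r e) :
    Nat.card {v // v ≠ 0 ∧ f.q v = 0} = np (Fintype.card F) r e := by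
  have := Module.natCard_eq_pow_finrank (K := F) (V := V)
  rcases h.2.1 with ⟨rfl, rfl, d⟩ | ⟨rfl, -, d⟩
  · rw [Nat.card_congr (Equiv.subtypeEquivRight fun v => and_iff_left (f.alt_q v)), card_subtype_ne_zero, this, d,
      Nat.card_eq_fintype_card, np, Nat.add_sub_cancel, OrthE.sub_one_mul_add_one]
  obtain ⟨x, x', hx⟩ := h.exists_isHyp le_rfl
  have h0 := h.ty_UU hx
  rw [Nat.sub_self] at h0
  have c := cnt hx 0
  rw [Nat.card_eq_one_iff_exists.2 ⟨(⟨0, f.q_zero⟩ : {u : UU f x x' // f.q u = 0}), fun u => Subtype.ext (h0.an _ u.2)⟩,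
    card_submodule_eq_pow, hx.finrank_perp, d, Fintype.card_fin, Nat.add_sub_cancel_left, Nat.card_eq_fintype_card (α := F)] at c
  have c' := Set.ncard_sdiff_singleton_add_one (s := {v | f.q v = 0}) f.q_zero
  rw [show ({v | f.q v = 0} : Set V).ncard = _ from c] at c'
  rw [show Nat.card {v // v ≠ 0 ∧ f.q v = 0} = ({v | f.q v = 0} \ {0} : Set V).ncard from
    Nat.card_congr (Equiv.subtypeEquivRight fun v => and_comm), np]
  rcases r with _ | r
  · simpa using c'
  obtain ⟨n, hn⟩ := Nat.exists_eq_add_of_le' (Nat.one_le_pow (r + 1) _ (Fintype.card_pos (α := F)))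
  rw [hn, Nat.add_sub_cancel, Nat.add_sub_cancel] at c'
  rw [hn, Nat.add_sub_cancel, show r + 1 + e - 1 = r + e by omega, pow_add]
  linarith

theorem Ty.card_Pt (h : Ty f r e) :
    Nat.card (Pt f) * (Fintype.card F - 1) = np (Fintype.card F) r e := by
  have : Finite (Submodule F V) := .of_injective _ SetLike.coe_injective
  have := Fintype.ofFinite (Pt f)
  rw [← h.card_sing, ← Nat.card_congr (Equiv.sigmaFiberEquiv fun v : {v // v ≠ 0 ∧ f.q v = 0} =>
    (⟨F ∙ v.1, finrank_span_singleton v.2.1, f.totSing_span_singleton v.2.2⟩ : Pt f)), Nat.card_sigma,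
    Finset.sum_const_nat (m := Fintype.card F - 1) fun W _ => ?_, Nat.card_eq_fintype_card, Finset.card_univ]
  rw [← Nat.card_eq_fintype_card, ← show Nat.card W.1 = Nat.card F by rw [card_submodule_eq_pow, W.2.1, pow_one],
    ← card_subtype_ne_zero]
  refine (Nat.card_congr (Equiv.ofBijective (fun w : {w : W.1 // w ≠ 0} => ⟨⟨w.1, by simpa using w.2, W.2.2.1 _ w.1.2⟩,
    Subtype.ext (eq_of_le_of_finrank_eq ((span_singleton_le_iff_mem _ _).2 w.1.2)
      ((finrank_span_singleton (by simpa using w.2)).trans W.2.1.symm))⟩) ⟨fun w w' e => ?_, ?_⟩)).symm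
  · exact Subtype.ext (Subtype.ext (congrArg (·.1.1) e))
  · rintro ⟨v, rfl⟩
    exact ⟨⟨⟨v.1, mem_span_singleton_self _⟩, by simpa using v.2.1⟩, rfl⟩

theorem Ty.pair (h : Ty f r e) {x y : V} (hx : f.q x = 0) (hy : f.q y = 0) (hxy : f.B x y = 1) :
    Nat.card f.O = np (Fintype.card F) r e * Fintype.card F ^ (2 * (r - 1) + e) *
      Nat.card (f.restrict (f.perp (span F {x, y}))).O := by
  have := h.le_of_isHyp (f.isHyp_unique (ι := Fin 1) hx hy hxy)
  rw [h.1.card_O_of_pair hx hy hxy, h.card_sing, mul_assoc (np _ _ _), Nat.card_eq_fintype_card]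
  congr 2
  rcases h.2.1 with ⟨rfl, rfl, d⟩ | ⟨rfl, -, d⟩
  · rw [show (FormType.alt F).π.ker = ⊤ from eq_top_iff.2 fun _ _ => rfl, AddSubgroup.card_top, Nat.card_eq_fintype_card,
      ← pow_succ, d]
    congr 1; omega
  · rw [show (FormType.quad F).π.ker = ⊥ from eq_bot_iff.2 fun _ h => h, AddSubgroup.card_bot, mul_one, d]
    congr 1; omega

theorem Ty.card_O (h : Ty f r e) {x x' : Fin a → V} (hx : f.IsHyp x x') :
    Nat.card f.O = DD (Fintype.card F) r e a * Fintype.card F ^ (a * (2 * (r - a) + e) + a * (a - 1)) *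
      Nat.card (f.restrict (UU f x x')).O := by
  induction a with
  | zero =>
    have : UU f x x' = ⊤ := eq_top_iff.2 fun v _ => hx.mem_perp_span.2 ⟨fun i => i.elim0, fun i => i.elim0⟩
    simpa [DD] using (Form.IsIsom.card_O_eq (f := f.restrict (UU f x x')) (f' := f) (e := LinearEquiv.ofTop _ this)
      ⟨fun _ _ => rfl, fun _ => rfl⟩).symm
  | succ a ih =>
    have h1 := hx.comp (Fin.castSucc_injective a)
    obtain ⟨b, rfl⟩ := Nat.exists_eq_add_of_le (h.le_of_isHyp hx)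
    have ne := fun i : Fin a => (Fin.castSucc_lt_last i).ne
    have le : UU f x x' ≤ UU f (x ∘ Fin.castSucc) (x' ∘ Fin.castSucc) := fun v hv =>
      h1.mem_perp_span.2 ((hx.mem_perp_span.1 hv).imp (fun q i => q _) fun q i => q _)
    have p := (h.ty_UU h1).pair
      (x := ⟨x (Fin.last a), h1.mem_perp_span.2 ⟨fun i => hx.B_left _ _, fun i => hx.B_ne' (ne i)⟩⟩)
      (y := ⟨x' (Fin.last a), h1.mem_perp_span.2 ⟨fun i => hx.B_ne (ne i), fun i => hx.B_right _ _⟩⟩)
      (hx.q_left _) (hx.q_right _) (hx.B_self _)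
    rw [Form.IsIsom.card_O_eq (f' := f.restrict (UU f x x')) (e := (LinearEquiv.ofEq _ _ (Submodule.ext fun v => ?_)).trans
      (comapSubtypeEquivOfLe le)) ⟨fun _ _ => rfl, fun _ => rfl⟩] at p
    · rw [ih h1, p, DD, DD, Finset.prod_range_succ, show a + 1 + b - a = b + 1 by omega, Nat.add_sub_cancel_left,
        Nat.add_sub_cancel, Nat.add_sub_cancel, show (a + 1) * (2 * b + e) + (a + 1) * a =
          a * (2 * (b + 1) + e) + a * (a - 1) + (2 * b + e) by rcases a with _ | a; simp; simp; ring, pow_add _ _ (2 * b + e)]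
      ring
    · have p' := h1.mem_perp_span.1 v.2
      exact (Form.mem_perp_span_pair _).trans (Iff.trans ⟨fun q => ⟨Fin.lastCases q.1 p'.1, Fin.lastCases q.2 p'.2⟩,
        fun q => ⟨q.1 _, q.2 _⟩⟩ hx.mem_perp_span.symm)

theorem plane {f : Form (.quad F) V} (an : ∀ v, f.q v = 0 → v = 0) (d : finrank F V = 2) {c : F} (hc : c ≠ 0) :
    Nat.card {v // f.q v = c} = Fintype.card F + 1 := by
  let b := finBasisOfFinrankEq F V d
  have α := mt (an _) (b.ne_zero 0)
  have q : ∀ z : Fin 2 → F, f.q (b.equivFun.symm z) =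
      f.q (b 0) * (z 0 ^ 2 + f.B (b 0) (b 1) / f.q (b 0) * z 0 * z 1 + f.q (b 1) / f.q (b 0) * z 1 ^ 2) := fun z => by
    simp [f.quad_q_add, f.quad_q_smul, FormType.quad_σ]; field_simp; ring
  have := CL.QuadExt.card_aniso_eq (F := F) rfl (fun s t e => by
    simpa using b.equivFun.symm.map_eq_zero_iff.1 (an _ ((q ![s, t]).trans (mul_eq_zero_of_right _ e)))) (c / f.q (b 0))
  rw [if_neg (div_ne_zero hc α)] at this
  rw [← this]
  exact (Nat.card_congr (b.equivFun.symm.toEquiv.subtypeEquiv fun z => by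
    rw [eq_div_iff α, mul_comm, ← q]; rfl)).symm

theorem last {f : Form (.quad F) V} (hf : f.Nondeg) (an : ∀ v, f.q v = 0 → v = 0) {H : Submodule F V}
    (d : finrank F H + 1 = finrank F V) {l : ℕ} (hl : l.Prime) (hd : l ∣ Nat.card (f.fix H)) : l = 2 := by
  obtain ⟨x, hx⟩ : ∃ x, x ∉ H := by
    by_contra! q
    rw [eq_top_iff'.2 q, finrank_top] at d; omega
  have t : H ⊔ F ∙ x = ⊤ := eq_top_of_finrank_eq (by rw [finrank_sup_span_singleton hx, d])
  obtain ⟨⟨z, hz⟩, z0, sp⟩ := (finrank_eq_one_iff' (K := F) (V := f.perp H)).1 (by rw [hf.finrank_perp]; omega)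
  have zq := mt (an z) fun e => z0 (Subtype.ext e)
  have : Finite (V ≃ₗ[F] V) := DFunLike.finite _
  refine le_antisymm ((Nat.le_of_dvd Nat.card_pos hd).trans ?_) hl.two_le
  rw [hf.card_fix hx, t, f.fix_top, Subgroup.card_bot, mul_one]
  refine (Set.ncard_le_ncard (s := {y | y ∉ H ∧ (∀ h ∈ H, f.B y h = f.B x h) ∧ f.q y = f.q x})
    (t := {x, x + (-f.B x z / f.q z) • z}) fun y ⟨_, h1, h2⟩ => ?_).trans (Set.ncard_insert_le .. |>.trans (by simp))
  obtain ⟨s, e⟩ := sp ⟨y - x, f.mem_perp'.2 fun w hw => by simp [h1 w hw]⟩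
  obtain rfl : y = x + s • z := by rw [show s • z = y - x from congrArg Subtype.val e]; abel
  rw [f.quad_q_add, f.quad_q_smul, f.B_smul_right] at h2
  by_cases s0 : s = 0
  · simp [s0]
  · exact .inr (by rw [show s = -f.B x z / f.q z by field_simp; grind]; rfl)

theorem Ty.zero_prime (h : Ty f 0 e) {l : ℕ} (hl : l.Prime) (hd : l ∣ Nat.card f.O) :
    l = 2 ∨ l ∣ Fintype.card F + 1 := by
  have z : finrank F V ≠ 0 := fun d => by
    have := finrank_zero_iff.1 d
    rw [Nat.card_of_subsingleton (1 : f.O)] at hd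
    exact hl.not_dvd_one hd
  rcases h.2.1 with ⟨-, -, d⟩ | ⟨rfl, e2, d⟩
  · exact absurd d z
  by_cases d1 : finrank F V = 1
  · exact .inl (last h.1 h.an (H := ⊥) (by simp [d1]) hl (f.fix_bot ▸ hd))
  have := nontrivial_of_finrank_pos (Nat.pos_of_ne_zero z)
  obtain ⟨x, hx⟩ := exists_ne (0 : V)
  rw [h.1.card_O_eq_mul_fix hx, hl.dvd_mul] at hd
  refine hd.symm.imp (last h.1 h.an (by rw [finrank_span_singleton hx]; omega) hl) fun hd => ?_
  rwa [← plane h.an (by omega) (mt (h.an x) hx), ← Nat.card_congr (Equiv.subtypeEquivRight fun y => and_iff_right_of_imp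
    fun q (y0 : y = 0) => hx (h.an x (by rw [← q, y0, f.q_zero])))]

theorem Ty.prime_dvd (h : Ty f r e) (hr : 2 ≤ r) {l : ℕ} (hl : l.Prime) (hd : l ∣ Nat.card f.O) :
    l ∣ Fintype.card F ∨ l ∣ DD (Fintype.card F) r e r := by
  obtain ⟨x, x', hx⟩ := h.exists_isHyp le_rfl
  have h0 := h.ty_UU hx
  rw [Nat.sub_self] at h0
  have k : l ∣ Fintype.card F + 1 → l ∣ DD (Fintype.card F) r e r := fun q => q.trans (Dvd.dvd.trans ?_
    (Finset.dvd_prod_of_mem _ (Finset.mem_range.2 (by omega : r - 2 < r))))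
  · rw [h.card_O hx, hl.dvd_mul, hl.dvd_mul] at hd
    rcases hd with (q | q) | q
    exacts [.inr q, .inl (hl.dvd_of_dvd_pow q), (h0.zero_prime hl q).elim (fun e => by
      subst e; exact (by omega : _ ∨ 2 ∣ Fintype.card F + 1).imp_right k) fun q => .inr (k q)]
  · rw [show r - (r - 2) = 2 by omega, np]
    exact Dvd.dvd.mul_right ⟨_, by simpa using Nat.sq_sub_sq (Fintype.card F) 1⟩ _

theorem Ty.odd_card (h : Ty f r 1) (hT : T = .quad F) : Odd (Fintype.card F) := by
  subst hT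
  obtain ⟨x, x', hx⟩ := h.exists_isHyp le_rfl
  have h0 := h.ty_UU hx
  rcases h0.2.1 with ⟨q, -⟩ | ⟨-, -, d⟩
  · exact absurd (congrArg (·.π 1) q) one_ne_zero
  obtain ⟨z, z0, sp⟩ := finrank_eq_one_iff'.1 (d.trans (by simp))
  refine Nat.not_even_iff_odd.1 fun ev => z0 (h0.1 z fun y => ?_)
  obtain ⟨c, rfl⟩ := sp y
  rw [Form.B_smul_right, Form.quad_B_self, OrthE.two_eq_zero_of_even_card ev, zero_mul, mul_zero]

/-- Even-dimensional quadratic spaces represent all non-zero values equally often. -/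
theorem Ty.card_q_eq (h : Ty f r e) (he : e ≠ 1) {b b' : F} (hb : b ≠ 0) (hb' : b' ≠ 0) :
    Nat.card {v // f.q v = b} = Nat.card {v // f.q v = b'} := by
  obtain ⟨x, x', hx⟩ := h.exists_isHyp le_rfl
  have h0 := h.ty_UU hx
  rw [Nat.sub_self] at h0
  rcases h0.2.1 with ⟨-, q, -⟩ | ⟨rfl, e2, d⟩
  · exact absurd q he
  rw [cnt hx, cnt hx]
  congr 2
  rcases (by omega : e = 0 ∨ e = 2) with rfl | rfl
  · have := finrank_zero_iff.1 d
    exact Nat.card_congr (Equiv.subtypeEquivRight fun u => by simp [Subsingleton.elim u 0, f.q_zero, hb.symm, hb'.symm])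
  · exact (plane h0.an d hb).trans (plane h0.an d hb').symm

/-- The hyperplane orthogonal to a non-singular vector of an even-dimensional space, `q` odd. -/
theorem Ty.ty_perp (h : Ty f r e) (he : e ≠ 1) (hq : Odd (Fintype.card F)) {v : V} (hv : f.q v ≠ 0) :
    Ty (f.restrict (f.perp (F ∙ v))) (if e = 0 then r - 1 else r) 1 := by
  rcases h.2.1 with ⟨-, q, -⟩ | ⟨rfl, e2, d⟩
  · exact absurd q he
  have v0 : v ≠ 0 := fun q => hv (q ▸ f.q_zero)
  have nd : (f.restrict (f.perp (F ∙ v))).Nondeg := h.1.restrict_perp fun ⟨_, hw⟩ q => by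
    obtain ⟨c, rfl⟩ := mem_span_singleton.1 hw
    have := q ⟨v, mem_span_singleton_self v⟩
    rw [Form.restrict_B, f.B_smul_left, f.quad_B_self] at this
    simp [show c = 0 from (mul_eq_zero.1 this).resolve_right (mul_ne_zero (OrthE.two_ne_zero_of_odd_card hq) hv)]
  obtain ⟨m, y, y', hy, an⟩ := nd.exists_witt_decomp
  have d1 := h.1.finrank_add_finrank_perp (F ∙ v)
  have d2 := hy.finrank_perp
  have d3 := hy.two_mul_card_le
  have d4 := mt ((f.restrict (f.perp (F ∙ v))).quad_iso3 _) fun ⟨w, hw, w0, q⟩ => w0 (an w hw q)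
  rw [finrank_span_singleton v0] at d1
  rw [Fintype.card_fin] at d2 d3
  obtain rfl : m = if e = 0 then r - 1 else r := by split_ifs <;> omega
  exact ⟨nd, .inr ⟨rfl, one_le_two, by omega⟩, y, y', hy, an⟩

end CL.DG4
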