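/-
S4984, block GEO, part A: construction of the parabolic data `Par`.
-/
import Cfsg.Agent.CLAS.DG4.Def

set_option autoImplicit false
set_option linter.unusedSectionVars false

namespace CL.DG4

open Cfsg CL.Witt CL.Zel Module Submodule
open scoped ComplexConjugate

variable {F V : Type} [Field F] [Fintype F] [DecidableEq F] [AddCommGroup V] [Module F V]
  [Finite V] {T : FormType F} {f : Form T V} {r e a : ℕ}

namespace GeoA

/-- The projection on the span of `x`. -/
noncomputable def pW (f : Form T V) (x x' : Fin a → V) : V →ₗ[F] V :=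
  ∑ i, (T.ε • f.B (x' i)).smulRight (x i)

theorem pW_apply (x x' : Fin a → V) (v : V) :
    pW f x x' v = ∑ i, (T.ε * f.B (x' i) v) • x i := by
  simp [pW, LinearMap.sum_apply]

theorem pW_mem (x x' : Fin a → V) (v : V) : pW f x x' v ∈ span F (Set.range x) := by
  rw [pW_apply]
  exact Submodule.sum_mem _ fun i _ => Submodule.smul_mem _ _ (subset_span ⟨i, rfl⟩)

theorem B_sum {x x' : Fin a → V} (hx : f.IsHyp x x') (c : Fin a → F) (i : Fin a) :
    T.ε * f.B (x' i) (∑ j, c j • x j) = c i := by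
  rw [map_sum, Finset.sum_eq_single i]
  · rw [f.B_smul_right, hx.B_self', mul_comm (c i), T.ε_mul_ε_mul]
  · intro j _ hj
    rw [f.B_smul_right, hx.B_ne' hj.symm, mul_zero]
  · simp

theorem pW_of_mem {x x' : Fin a → V} (hx : f.IsHyp x x') {v : V} (hv : v ∈ span F (Set.range x)) :
    pW f x x' v = v := by
  obtain ⟨c, rfl⟩ := (Submodule.mem_span_range_iff_exists_fun F).1 hv
  rw [pW_apply]
  exact Finset.sum_congr rfl fun i _ => by rw [B_sum hx]

theorem pW_U {x x' : Fin a → V} (hx : f.IsHyp x x') {v : V} (hv : v ∈ UU f x x') :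
    pW f x x' v = 0 := by
  rw [pW_apply]
  exact Finset.sum_eq_zero fun i _ => by rw [(hx.mem_perp_span.1 hv).2 i, mul_zero, zero_smul]

theorem sub_pW {x x' : Fin a → V} (hx : f.IsHyp x x') {v : V}
    (hv : v ∈ f.perp (span F (Set.range x))) : v - pW f x x' v ∈ UU f x x' := by
  have := hx.sub_mem_perp v
  have h0 : ∑ i, f.B (x i) v • x' i = 0 :=
    Finset.sum_eq_zero fun i _ => by rw [hv (x i) (subset_span ⟨i, rfl⟩), zero_smul]
  rwa [h0, add_zero, ← pW_apply] at this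

theorem U_le {x x' : Fin a → V} (hx : f.IsHyp x x') : UU f x x' ≤ f.perp (span F (Set.range x)) :=
  fun _ hv => f.mem_perp_span.2 (by rintro _ ⟨i, rfl⟩; exact (hx.mem_perp_span.1 hv).1 i)

theorem P_mem {x : Fin a → V} (g : PP f x) {v : V} (hv : v ∈ span F (Set.range x)) :
    g.1.1 v ∈ span F (Set.range x) := ((f.mem_stab.1 g.2).2 v).1 hv

theorem P_perp {x : Fin a → V} (g : PP f x) {v : V} (hv : v ∈ f.perp (span F (Set.range x))) :
    g.1.1 v ∈ f.perp (span F (Set.range x)) :=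
  ((f.mem_stab.1 (f.stab_le_stab_perp _ g.2)).2 v).1 hv

/-- Uniqueness of the component in `U`. -/
theorem U_uniq {x x' : Fin a → V} (hx : f.IsHyp x x') {v : V} {u u' : UU f x x'}
    (h : v - u ∈ span F (Set.range x)) (h' : v - u' ∈ span F (Set.range x)) : u = u' := by
  have h1 := Submodule.sub_mem _ h' h
  have h2 : v - u' - (v - u) = ((u - u' : UU f x x') : V) := by simp
  rw [h2] at h1
  have h3 := pW_of_mem hx h1
  rw [pW_U hx (u - u').2] at h3
  exact sub_eq_zero.1 (Subtype.ext h3.symm)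

/-- Uniqueness of coefficients. -/
theorem c_uniq {x x' : Fin a → V} (hx : f.IsHyp x x') {c c' : Fin a → F}
    (h : ∑ j, c j • x j = ∑ j, c' j • x j) (i : Fin a) : c i = c' i := by
  rw [← B_sum hx c i, h, B_sum hx]

/-- The matrix of `g` on `W`. -/
noncomputable def ρ0 {x x' : Fin a → V} (hx : f.IsHyp x x') : PP f x →* Matrix (Fin a) (Fin a) F where
  toFun g := Matrix.of fun i j => T.ε * f.B (x' i) (g.1.1 (x j))
  map_one' := by
    ext i j
    simp only [Matrix.of_apply, OneMemClass.coe_one, LinearEquiv.coe_one, id_eq, hx.B_pair',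
      Matrix.one_apply]
    split_ifs
    · exact T.εε
    · exact mul_zero _
  map_mul' g h := by
    ext i j
    have h1 : h.1.1 (x j) = ∑ k, (T.ε * f.B (x' k) (h.1.1 (x j))) • x k := by
      rw [← pW_apply, pW_of_mem hx (P_mem h (subset_span ⟨j, rfl⟩))]
    simp only [Matrix.of_apply, Matrix.mul_apply, Subgroup.coe_mul, LinearEquiv.mul_apply]
    conv_lhs => rw [h1]
    simp only [map_sum, map_smul, smul_eq_mul, Finset.mul_sum]
    exact Finset.sum_congr rfl fun k _ => by ring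

theorem ρ0_spec {x x' : Fin a → V} (hx : f.IsHyp x x') (g : PP f x) (j : Fin a) :
    g.1.1 (x j) = ∑ i, ρ0 hx g i j • x i := by
  conv_lhs => rw [← pW_of_mem hx (P_mem g (subset_span ⟨j, rfl⟩)), pW_apply]
  rfl

/-- The action of `g` on `U`. -/
noncomputable def τ0 {x x' : Fin a → V} (hx : f.IsHyp x x') (g : PP f x) :
    UU f x x' →ₗ[F] UU f x x' :=
  LinearMap.codRestrict _ ((LinearMap.id - pW f x x') ∘ₗ (g.1.1 : V →ₗ[F] V) ∘ₗ (UU f x x').subtype)
    fun u => sub_pW hx (P_perp g (U_le hx u.2))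

theorem τ0_apply {x x' : Fin a → V} (hx : f.IsHyp x x') (g : PP f x) (u : UU f x x') :
    (τ0 hx g u : V) = g.1.1 u - pW f x x' (g.1.1 u) := rfl

theorem τ0_spec {x x' : Fin a → V} (hx : f.IsHyp x x') (g : PP f x) (u : UU f x x') :
    g.1.1 u - τ0 hx g u ∈ span F (Set.range x) := by
  rw [τ0_apply, sub_sub_cancel]; exact pW_mem x x' _

theorem τ0_one {x x' : Fin a → V} (hx : f.IsHyp x x') (u : UU f x x') : τ0 hx 1 u = u :=
  U_uniq hx (τ0_spec hx 1 u) (by simp)

theorem τ0_mul {x x' : Fin a → V} (hx : f.IsHyp x x') (g h : PP f x) (u : UU f x x') :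
    τ0 hx (g * h) u = τ0 hx g (τ0 hx h u) := by
  refine U_uniq hx (τ0_spec hx (g * h) u) ?_
  have h1 := Submodule.add_mem _ (P_mem g (τ0_spec hx h u)) (τ0_spec hx g (τ0 hx h u))
  rw [map_sub, sub_add_sub_cancel] at h1
  exact h1

theorem τ0_isom {x x' : Fin a → V} (hx : f.IsHyp x x') (g : PP f x) :
    Form.IsIsom (f.restrict (UU f x x')) (f.restrict (UU f x x')) (τ0 hx g) := by
  constructor
  · intro u v
    rw [Form.restrict_B, Form.restrict_B, τ0_apply, τ0_apply, f.B_sub_left, f.B_sub_right,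
      f.B_sub_right, f.O_B g.1, f.mem_perp'.1 (P_perp g (U_le hx u.2)) _ (pW_mem x x' _),
      P_perp g (U_le hx v.2) _ (pW_mem x x' _),
      hx.totSing_left.2 _ (pW_mem x x' _) _ (pW_mem x x' _)]
    simp
  · intro u
    rw [Form.restrict_q, Form.restrict_q, τ0_apply, f.q_sub, f.O_q g.1,
      f.mem_perp'.1 (P_perp g (U_le hx u.2)) _ (pW_mem x x' _),
      hx.totSing_left.1 _ (pW_mem x x' _)]
    simp

/-- The action on `U` as a homomorphism. -/
noncomputable def τ1 {x x' : Fin a → V} (hx : f.IsHyp x x') : PP f x →* (f.restrict (UU f x x')).O :=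
  MonoidHom.mk' (fun g => ⟨LinearEquiv.ofLinearMap (τ0 hx g) (τ0 hx g⁻¹)
      (LinearMap.ext fun u => by
        rw [LinearMap.comp_apply, ← τ0_mul, mul_inv_cancel, τ0_one]; rfl)
      (LinearMap.ext fun u => by
        rw [LinearMap.comp_apply, ← τ0_mul, inv_mul_cancel, τ0_one]; rfl), τ0_isom hx g⟩)
    fun g h => Subtype.ext (LinearEquiv.ext fun u => τ0_mul hx g h u)

theorem τ1_apply {x x' : Fin a → V} (hx : f.IsHyp x x') (g : PP f x) (u : UU f x x') :
    (τ1 hx g).1 u = τ0 hx g u := rfl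

/-- Extension of a change of frame inside the same span and an isometry of `U`. -/
theorem ext (hf : f.Nondeg) {x x' y y' : Fin a → V} (hx : f.IsHyp x x') (hy : f.IsHyp y y')
    (h1 : ∀ i, y i ∈ span F (Set.range (Sum.elim x x')))
    (h2 : ∀ i, y' i ∈ span F (Set.range (Sum.elim x x'))) (h : (f.restrict (UU f x x')).O) :
    ∃ g : f.O, (∀ i, g.1 (x i) = y i) ∧ (∀ i, g.1 (x' i) = y' i) ∧
      ∀ u : UU f x x', g.1 u = (h.1 u : V) := by
  obtain ⟨g0, hg0, e1, e2⟩ := hx.conj hf hy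
  have hs : g0 ∈ f.stab (span F (Set.range (Sum.elim x x'))) := by
    refine f.mem_stab_iff_le.2 ⟨hg0, fun v hv => ?_⟩
    have : span F (Set.range (Sum.elim x x')) ≤
        (span F (Set.range (Sum.elim x x'))).comap (g0 : V →ₗ[F] V) := by
      rw [Submodule.span_le]
      rintro _ ⟨i | i, rfl⟩
      · show g0 (x i) ∈ span F (Set.range (Sum.elim x x'))
        rw [e1]; exact h1 i
      · show g0 (x' i) ∈ span F (Set.range (Sum.elim x x'))
        rw [e2]; exact h2 i
    exact this hv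
  let k := f.stabRes (UU f x x') ⟨g0, f.stab_le_stab_perp _ hs⟩
  let m := (f.fixEquiv hx.isCompl).symm (h * k⁻¹)
  refine ⟨⟨m.1 * g0, f.O.mul_mem m.2.1 hg0⟩, fun i => ?_, fun i => ?_, fun u => ?_⟩
  · show m.1 (g0 (x i)) = y i
    rw [e1]; exact m.2.2 _ (h1 i)
  · show m.1 (g0 (x' i)) = y' i
    rw [e2]; exact m.2.2 _ (h2 i)
  · show m.1 (g0 u) = (h.1 u : V)
    have h3 : g0 u = (k.1 u : V) := rfl
    have h4 := f.fixEquiv_symm_apply hx.isCompl (h * k⁻¹) 0 (k.1 u)
    simp only [ZeroMemClass.coe_zero, zero_add] at h4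
    rw [h3]
    refine h4.trans ?_
    simp

theorem hyp_A {x x' : Fin a → V} (hx : f.IsHyp x x') (A : GL (Fin a) F) :
    f.IsHyp (fun j => ∑ i, A.1 i j • x i) (fun j => ∑ i, T.σ ((A⁻¹).1 j i) • x' i) := by
  have m1 : ∀ j, ∑ i, A.1 i j • x i ∈ span F (Set.range x) := fun j =>
    Submodule.sum_mem _ fun i _ => Submodule.smul_mem _ _ (subset_span ⟨i, rfl⟩)
  have m2 : ∀ j, ∑ i, T.σ ((A⁻¹).1 j i) • x' i ∈ span F (Set.range x') := fun j =>
    Submodule.sum_mem _ fun i _ => Submodule.smul_mem _ _ (subset_span ⟨i, rfl⟩)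
  refine ⟨fun i => hx.totSing_left.1 _ (m1 i), fun i => hx.totSing_right.1 _ (m2 i),
    fun i j => hx.totSing_left.2 _ (m1 i) _ (m1 j), fun i j => hx.totSing_right.2 _ (m2 i) _ (m2 j),
    fun i j => ?_⟩
  have h1 : ∀ k, f.B (x k) (∑ l, T.σ ((A⁻¹).1 j l) • x' l) = T.σ ((A⁻¹).1 j k) := by
    intro k
    rw [map_sum, Finset.sum_eq_single k]
    · rw [f.B_smul_right, hx.B_self, mul_one]
    · intro l _ hl
      rw [f.B_smul_right, hx.B_ne hl.symm, mul_zero]
    · simp
  have h2 : ((A⁻¹).1 * A.1) j i = (1 : Matrix (Fin a) (Fin a) F) j i := by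
    rw [← Units.val_mul, inv_mul_cancel, Units.val_one]
  rw [map_sum f.B, LinearMap.sum_apply]
  simp only [f.B_smul_left, h1]
  rw [Matrix.mul_apply, Matrix.one_apply] at h2
  have h3 := congrArg T.σ h2
  rw [map_sum] at h3
  simp only [map_mul] at h3
  rw [Finset.sum_congr rfl fun k _ => mul_comm _ _, h3]
  by_cases hij : i = j
  · simp [hij]
  · simp [hij, Ne.symm hij]

theorem exists_par_of (hf : f.Nondeg) {x x' : Fin a → V} (hx : f.IsHyp x x') :
    ∃ c : Par f a, c.x = x ∧ c.x' = x' := by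
  have l1 : span F (Set.range x) ≤ span F (Set.range (Sum.elim x x')) :=
    span_mono (by rintro _ ⟨i, rfl⟩; exact ⟨Sum.inl i, rfl⟩)
  have l2 : span F (Set.range x') ≤ span F (Set.range (Sum.elim x x')) :=
    span_mono (by rintro _ ⟨i, rfl⟩; exact ⟨Sum.inr i, rfl⟩)
  obtain ⟨w, w1, w2, w3⟩ := ext hf hx hx.swap (fun i => l2 (subset_span ⟨i, rfl⟩))
    (fun i => l1 (Submodule.smul_mem _ _ (subset_span ⟨i, rfl⟩))) 1
  refine ⟨⟨x, x', hx, (ρ0 hx).toHomUnits, τ1 hx, ρ0_spec hx, τ0_spec hx, fun A h => ?_, w, w1, w2,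
    fun u hu => w3 ⟨u, hu⟩⟩, rfl, rfl⟩
  have m1 : ∀ j, ∑ i, A.1 i j • x i ∈ span F (Set.range x) := fun j =>
    Submodule.sum_mem _ fun i _ => Submodule.smul_mem _ _ (subset_span ⟨i, rfl⟩)
  have m2 : ∀ j, ∑ i, T.σ ((A⁻¹).1 j i) • x' i ∈ span F (Set.range x') := fun j =>
    Submodule.sum_mem _ fun i _ => Submodule.smul_mem _ _ (subset_span ⟨i, rfl⟩)
  obtain ⟨g, g1, g2, g3⟩ := ext hf hx (hyp_A hx A) (fun i => l1 (m1 i)) (fun i => l2 (m2 i)) h
  have hg : g ∈ PP f x := by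
    refine f.mem_stab_iff_le.2 ⟨g.2, fun v hv => ?_⟩
    have : span F (Set.range x) ≤ (span F (Set.range x)).comap (g.1 : V →ₗ[F] V) := by
      rw [Submodule.span_le]
      rintro _ ⟨i, rfl⟩
      show g.1 (x i) ∈ span F (Set.range x)
      rw [g1]; exact m1 i
    exact this hv
  refine ⟨⟨g, hg⟩, Units.ext ?_, Subtype.ext (LinearEquiv.ext fun u => ?_), fun j => ?_, g3⟩
  · ext i j
    exact c_uniq hx ((ρ0_spec hx ⟨g, hg⟩ j).symm.trans (g1 j)) i
  · refine U_uniq hx (τ0_spec hx ⟨g, hg⟩ u) ?_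
    show g.1 u - _ ∈ _
    rw [g3, sub_self]; exact Submodule.zero_mem _
  · show g.1 (x' j) ∈ _
    rw [g2]; exact m2 j

end GeoA

end CL.DG4
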