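/-
S4984, block GEO: index and unipotent radical of a maximal parabolic.
-/
import Cfsg.Agent.CLAS.DG4.Cnt

set_option autoImplicit false

namespace CL.DG4.GeoI

open Cfsg CL.Witt CL.Zel Module Submodule

variable {F V : Type} [Field F] [Fintype F] [DecidableEq F] [AddCommGroup V] [Module F V]
  [Finite V] {T : FormType F} {f : Form T V} {r e a : ℕ}

theorem gl (q a : ℕ) : ∏ i : Fin a, (q ^ a - q ^ (i : ℕ)) =
    q ^ (a * (a - 1) / 2) * ∏ i ∈ Finset.range a, (q ^ (i + 1) - 1) := by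
  rw [Fin.prod_univ_eq_prod_range (fun i => q ^ a - q ^ i), ← Finset.prod_range_reflect (fun i => q ^ (i + 1) - 1),
    ← Finset.sum_range_id, ← Finset.prod_pow_eq_pow_sum, ← Finset.prod_mul_distrib]
  refine Finset.prod_congr rfl fun i hi => ?_
  have := Finset.mem_range.1 hi
  rw [Nat.mul_sub, mul_one, ← pow_add, show i + (a - 1 - i + 1) = a by omega]

theorem card_P (h : Ty f r e) (c : Par f a) : Nat.card c.P = (∏ i : Fin a, (Fintype.card F ^ a - Fintype.card F ^ (i : ℕ))) *
    (Fintype.card F ^ (a * (2 * (r - a) + e) + a * (a - 1) / 2) * Nat.card c.fU.O) := by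
  have := h.le_of_isHyp c.hyp
  rw [Nat.card_congr (Subgroup.subgroupOfEquivOfLe (f.stab_le_O _)).toEquiv, h.1.card_stab_isHyp c.hyp,
    Nat.card_eq_fintype_card (α := F)]
  congr 2
  rcases h.2.1 with ⟨rfl, rfl, d⟩ | ⟨rfl, -, d⟩
  · rw [show (FormType.alt F).π.ker = ⊤ by ext; simp [FormType.alt_π], AddSubgroup.card_top,
      Nat.card_eq_fintype_card, ← pow_add, d, show 2 * r - 2 * a = 2 * (r - a) by omega]
    congr 1
    ring
  · rw [show (FormType.quad F).π.ker = ⊥ by ext; simp [FormType.quad_π], AddSubgroup.card_bot, one_pow, mul_one, d,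
      show 2 * r + e - 2 * a = 2 * (r - a) + e by omega]

theorem index_P (h : Ty f r e) (c : Par f a) :
    c.P.index * ∏ i ∈ Finset.range a, (Fintype.card F ^ (i + 1) - 1) = DD (Fintype.card F) r e a := by
  have k := c.P.index_mul_card
  have e2 : a * (a - 1) = a * (a - 1) / 2 + a * (a - 1) / 2 := by
    have := Nat.even_iff.1 (Nat.even_mul_pred_self a)
    omega
  rw [card_P h, h.card_O c.hyp, gl] at k
  refine Nat.eq_of_mul_eq_mul_right (Nat.mul_pos (pow_pos Fintype.card_pos _) (Nat.card_pos (α := c.fU.O)))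
    (Eq.trans ?_ (k.trans (mul_assoc _ _ _)))
  generalize a * (a - 1) / 2 = m at e2 ⊢
  rw [e2]
  ring

theorem card_Q (h : Ty f r e) (c : Par f a) :
    Nat.card c.Q = Fintype.card F ^ (a * (2 * (r - a) + e) + a * (a - 1) / 2) := by
  have k := (c.ρ.prod c.τ).ker.card_mul_index
  have s : (c.ρ.prod c.τ).range = ⊤ := MonoidHom.range_eq_top.2 fun ⟨A, g⟩ =>
    let ⟨x, h1, h2, _⟩ := c.lev A g; ⟨x, Prod.ext h1 h2⟩
  rw [Subgroup.index_ker, s, Subgroup.card_top, Nat.card_prod, card_P h, ← Matrix.card_GL_field,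
    MonoidHom.ker_prod, mul_left_comm (Nat.card (GL _ _))] at k
  rw [Par.Q, Subgroup.card_map_of_injective c.P.subtype_injective]
  exact Nat.eq_of_mul_eq_mul_right (Nat.mul_pos Nat.card_pos Nat.card_pos) k

end CL.DG4.GeoI
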