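/-
S4984, block GEO: existence and structure of Par.  rho = matrix of g on W in the basis x; tau g u =
g u - sum_i eps B(x'_i, g u) x_i; lev and w by Nondeg.witt_maps / dsum (A on W, A^-T on W', h on U).
index and card Q from Ty.card_O and Nondeg.card_stab_isHyp (|P| = |Q| |GL_a| |O(U)| as (rho, tau) is onto).
-/
import Cfsg.Agent.CLAS.DG4.Cnt
import Cfsg.Agent.CLAS.DG4.GeoA
import Cfsg.Agent.CLAS.DG4.GeoB
import Cfsg.Agent.CLAS.DG4.GeoI

set_option autoImplicit false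
set_option linter.unusedSectionVars false

namespace CL.DG4

open Cfsg CL.Witt CL.Zel Module Submodule
open scoped ComplexConjugate

variable {F V : Type} [Field F] [Fintype F] [DecidableEq F] [AddCommGroup V] [Module F V]
  [Finite V] {T : FormType F} {f : Form T V} {r e a : ℕ}

theorem Ty.exists_par_of (h : Ty f r e) {x x' : Fin a → V} (hx : f.IsHyp x x') :
    ∃ c : Par f a, c.x = x ∧ c.x' = x' :=
  GeoA.exists_par_of h.1 hx

theorem Ty.exists_par (h : Ty f r e) (ha : a ≤ r) : Nonempty (Par f a) :=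
  (h.exists_isHyp ha).elim fun _ h1 => h1.elim fun _ h2 => (h.exists_par_of h2).elim fun c _ => ⟨c⟩

theorem Ty.index_P (h : Ty f r e) (c : Par f a) :
    c.P.index * ∏ i ∈ Finset.range a, (Fintype.card F ^ (i + 1) - 1) = DD (Fintype.card F) r e a :=
  GeoI.index_P h c

theorem Ty.card_Q (h : Ty f r e) (c : Par f a) :
    Nat.card c.Q = Fintype.card F ^ (a * (2 * (r - a) + e) + a * (a - 1) / 2) :=
  GeoI.card_Q h c

theorem Par.phi_char (c : Par f a) {θ : GL (Fin a) F → ℂ} {ψ : c.fU.O → ℂ}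
    (hθ : IsCharacter _ θ) (hψ : IsCharacter _ ψ) : IsCharacter _ (c.phi θ ψ) :=
  GeoB.phi_char c hθ hψ

theorem Par.phi_irr (c : Par f a) {θ : GL (Fin a) F → ℂ} {ψ : c.fU.O → ℂ}
    (hθ : IsIrrCharacter _ θ) (hψ : IsIrrCharacter _ ψ) : IsIrrCharacter _ (c.phi θ ψ) :=
  GeoB.phi_irr c hθ hψ

theorem Par.neg (c : Par f a) {z : f.O} (hz : IsNeg z) :
    (∀ g, g * z = z * g) ∧ ∃ hP : z ∈ c.P, c.ρ ⟨z, hP⟩ = -1 ∧ IsNeg (c.τ ⟨z, hP⟩) :=
  GeoB.neg c hz

/-- `θ (ρ g)` is the value of `ofGL θ` at any endomorphism describing `g` on `W`. -/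
theorem Par.theta_eq (c : Par f a) {θ : GL (Fin a) F → ℂ} (hθ : IsClassFunction _ θ) (g : c.P)
    (A : End F c.W) (hA : ∀ v : c.W, g.1.1 v = (A v : V)) : θ (c.ρ g) = ofGL θ (cls A) :=
  GeoB.theta_eq c hθ g A hA

/-- `τ g = 1` iff `g` is trivial on `W^⊥ / W`. -/
theorem Par.tau_eq_one_iff (c : Par f a) (g : c.P) :
    c.τ g = 1 ↔ ∀ v ∈ f.perp c.W, g.1.1 v - v ∈ c.W :=
  GeoB.tau_eq_one_iff c g

end CL.DG4
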