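/-
S4984, block VAN, part B: the Mackey terms killed by cuspidality.
-/
import Cfsg.Agent.CLAS.DG4.Geo
import Cfsg.Agent.CLAS.DG4.MX

set_option autoImplicit false

namespace CL.DG4.VanB

open Cfsg CL.Witt CL.Zel Module Submodule
open scoped ComplexConjugate

variable {F V : Type} [Field F] [Fintype F] [DecidableEq F] [AddCommGroup V] [Module F V]
  [Finite V] {T : FormType F} {f : Form T V} {r e a : ℕ}

/-- Isometries trivial on `A / B`, `B / C` and `C`. -/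
def trv (f : Form T V) (A : Submodule F V) {B C : Submodule F V} (h : C ≤ B) : Subgroup f.O where
  carrier := {n | (∀ v ∈ A, n.1 v - v ∈ B) ∧ (∀ v ∈ B, n.1 v - v ∈ C) ∧ ∀ v ∈ C, n.1 v = v}
  one_mem' := ⟨fun v _ => by simp, fun v _ => by simp, fun _ _ => rfl⟩
  mul_mem' {n m} hn hm := by
    have k : ∀ v, (n * m).1 v - v = (n.1 (m.1 v - v) - (m.1 v - v)) + (m.1 v - v) + (n.1 v - v) := fun v => by
      show n.1 (m.1 v) - v = _
      rw [map_sub]; abel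
    refine ⟨fun v hv => ?_, fun v hv => ?_, fun v hv => ?_⟩
    · rw [k]; exact add_mem (add_mem (h (hn.2.1 _ (hm.1 v hv))) (hm.1 v hv)) (hn.1 v hv)
    · rw [k, hn.2.2 _ (hm.2.1 v hv), sub_self, zero_add]; exact add_mem (hm.2.1 v hv) (hn.2.1 v hv)
    · show n.1 (m.1 v) = v
      rw [hm.2.2 v hv, hn.2.2 v hv]
  inv_mem' {n} hn := by
    have k0 : ∀ v, n⁻¹.1 (n.1 v) = v := fun v => n.1.symm_apply_apply v
    have k : ∀ v, n⁻¹.1 v - v = -n⁻¹.1 (n.1 v - v) := fun v => by rw [map_sub, k0, neg_sub]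
    have k3 : ∀ v ∈ C, n⁻¹.1 v = v := fun v hv => by
      conv_lhs => rw [← hn.2.2 v hv]
      exact k0 v
    have k2 : ∀ v ∈ B, n⁻¹.1 v - v ∈ C := fun v hv => by
      rw [k, k3 _ (hn.2.1 v hv)]; exact neg_mem (hn.2.1 v hv)
    refine ⟨fun v hv => ?_, k2, k3⟩
    rw [k, ← sub_add_cancel (n⁻¹.1 (n.1 v - v)) (n.1 v - v)]
    exact neg_mem (add_mem (h (k2 _ (hn.1 v hv))) (hn.1 v hv))

/-- the image `g W` -/
abbrev gW (c : Par f a) (g : f.O) : Submodule F V := c.W.map (g.1 : V →ₗ[F] V)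

/-- the subgroup on which the Mackey term is computed -/
def NN (c : Par f a) (g : f.O) {S : Submodule F V} (h : S ≤ c.W) : Subgroup f.O :=
  trv f (f.perp c.W) h ⊓ trv f (f.perp (gW c g)) (bot_le (a := gW c g))

omit [Fintype F] [DecidableEq F] in
theorem memP (c : Par f a) {n : f.O} (h : ∀ v ∈ c.W, n.1 v ∈ c.W) : n ∈ c.P :=
  Subgroup.mem_subgroupOf.2 (f.mem_stab_iff_le.2 ⟨n.2, h⟩)

theorem key (c : Par f a) {θ : GL (Fin a) F → ℂ} {ψ : c.fU.O → ℂ} (hθ : Cu θ) (hψ : IsCharacter _ ψ)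
    {g : f.O} {S : Submodule F V} (hS : S ≤ c.W) (h0 : S ≠ ⊥) (h1 : ¬ c.W ≤ S)
    (hE : ∀ l : c.W →ₗ[F] F, (∀ v : c.W, v.1 ∈ S → l v = 0) → ∀ p ∈ S,
      ∃ n ∈ NN c g hS, ∀ v : c.W, n.1 v = v + l v • p) : Van c.P (c.phi θ ψ) g := by
  classical
  have nW : ∀ n ∈ NN c g hS, ∀ v ∈ c.W, n.1 v ∈ c.W := fun n hn v hv => by
    rw [← sub_add_cancel (n.1 v) v]; exact add_mem (hS (hn.1.2.1 v hv)) hv
  have cj : ∀ n : f.O, ∀ v, (g⁻¹ * n * g).1 v - v = g⁻¹.1 (n.1 (g.1 v) - g.1 v) := fun n v => by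
    rw [map_sub]
    exact congrArg _ (g.1.symm_apply_apply v).symm
  have gfix : ∀ n ∈ NN c g hS, ∀ v ∈ c.W, (g⁻¹ * n * g).1 v = v := fun n hn v hv => by
    rw [← sub_eq_zero, cj, (mem_bot F).1 (hn.2.2.1 (g.1 v) ⟨v, hv, rfl⟩), map_zero]
  have P1 : ∀ n ∈ NN c g hS, n ∈ c.P := fun n hn => memP c (nW n hn)
  have P2 : ∀ n ∈ NN c g hS, g⁻¹ * n * g ∈ c.P := fun n hn => memP c fun v hv => by rwa [gfix n hn v hv]
  have cf := hθ.1.isClassFunction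
  refine van_of_sub (c.phi_char hθ.1.isCharacter hψ) (NN c g hS) P1 P2 ?_
  let S' : Submodule F c.W := S.comap c.W.subtype
  let A : NN c g hS → End F c.W := fun n => (n.1.1 : V →ₗ[F] V).restrict (nW n.1 n.2)
  have e1 : ∀ n : NN c g hS, extendByZero c.P (c.phi θ ψ) n = ofGL θ (cls (A n)) * ψ 1 := fun n => by
    rw [CL.Char.extendByZero_of_mem _ _ (P1 n.1 n.2), Par.phi, c.theta_eq cf _ (A n) fun _ => rfl,
      (c.tau_eq_one_iff _).2 n.2.1.1]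
  have e2 : ∀ n : NN c g hS, extendByZero c.P (c.phi θ ψ) (g⁻¹ * n * g) =
      ofGL θ (cls (1 : End F c.W)) * ψ 1 := fun n => by
    rw [CL.Char.extendByZero_of_mem _ _ (P2 n.1 n.2), Par.phi, c.theta_eq cf _ 1 fun v => gfix n.1 n.2 v v.2,
      (c.tau_eq_one_iff _).2 fun v hv => ?_]
    have : g.1 v ∈ f.perp (gW c g) := f.mem_perp.2 (by
      rintro _ ⟨w, hw, rfl⟩
      exact (f.O_B g w v).trans (f.mem_perp.1 hv w hw))
    obtain ⟨w, hw, k⟩ := n.2.2.1 _ this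
    show (g⁻¹ * n * g).1 v - v ∈ _
    rw [cj, ← k]
    exact (g.1.symm_apply_apply w).symm ▸ hw
  have onto : ∀ X : (c.W ⧸ S') →ₗ[F] S', ∃ n : NN c g hS, ∀ v : c.W, n.1.1 v = v + (X (S'.mkQ v)).1.1 := by
    intro X
    let b := finBasis F S'
    have eX : X = ∑ j, ((b.coord j) ∘ₗ X).smulRight (b j) := LinearMap.ext fun y => by
      simp only [LinearMap.sum_apply, LinearMap.smulRight_apply, LinearMap.comp_apply, Basis.coord_apply]
      exact (b.sum_repr _).symm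
    rw [eX]
    refine Finset.sum_induction _
      (fun X : (c.W ⧸ S') →ₗ[F] S' => ∃ n : NN c g hS, ∀ v : c.W, n.1.1 v = v + (X (S'.mkQ v)).1.1)
      ?_ ⟨1, fun v => (add_zero _).symm⟩ fun j _ => ?_
    · rintro X Y ⟨n, hn⟩ ⟨m, hm⟩
      refine ⟨n * m, fun v => ?_⟩
      show n.1.1 (m.1.1 v) = _
      rw [hm, map_add, hn, n.2.1.2.2 (Y (S'.mkQ v)).1.1 (Y (S'.mkQ v)).2, add_assoc]; rfl
    · obtain ⟨n, hn, k⟩ := hE ((b.coord j ∘ₗ X) ∘ₗ S'.mkQ) (fun v hv => by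
        rw [LinearMap.comp_apply, mkQ_apply, (Submodule.Quotient.mk_eq_zero S').2 hv, map_zero]) _ (b j).2
      exact ⟨⟨n, hn⟩, k⟩
  choose nX hX using onto
  have ses : ∀ n, Ses S'.subtype S'.mkQ 1 (A n) 1 := fun n =>
    ⟨S'.injective_subtype, S'.mkQ_surjective, by rw [range_subtype, ker_mkQ],
      fun w => Subtype.ext (n.2.1.2.2 _ w.2), fun v => (Submodule.Quotient.eq S').2 (n.2.1.2.1 _ v.2)⟩
  have d1 : (cls (1 : End F S')).dim ≠ 0 := by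
    rw [dim_cls, Ne, Submodule.finrank_eq_zero]
    intro k
    refine h0 (eq_bot_iff.2 fun v hv => ?_)
    have : (⟨v, hS hv⟩ : c.W) ∈ S' := hv
    rw [k, mem_bot] at this
    exact congrArg Subtype.val this
  have d2 : (cls (1 : End F (c.W ⧸ S'))).dim ≠ 0 := by
    rw [dim_cls, Ne, finrank_zero_iff, Submodule.Quotient.subsingleton_iff]
    exact fun k => h1 fun v hv => (k.ge mem_top : (⟨v, hv⟩ : c.W) ∈ S')
  have := Fintype.ofFinite (NN c g hS)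
  have sum0 : ∑ n, ofGL θ (cls (A n)) = 0 := by
    have k1 : ∀ X, ∑ n, ofGL θ (cls (A n)) = ∑ n, ofGL θ (cls (A n + S'.subtype ∘ₗ X ∘ₗ S'.mkQ)) := fun X => by
      rw [← Equiv.sum_comp (Equiv.mulLeft (nX X))]
      refine Finset.sum_congr rfl fun n _ => congrArg _ (congrArg _ (LinearMap.ext fun v => Subtype.ext ?_))
      have := hX X (A n v)
      rw [(ses n).right] at this
      exact this
    have k2 : ∑ _X : (c.W ⧸ S') →ₗ[F] S', ∑ n, ofGL θ (cls (A n)) = 0 := by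
      rw [Finset.sum_congr rfl fun X _ => k1 X, Finset.sum_comm]
      refine Finset.sum_eq_zero fun n _ => ?_
      rw [(ses n).sum_eq, hθ.2 _ _ d1 d2, mul_zero]
    rw [Finset.sum_const, nsmul_eq_mul, mul_eq_zero] at k2
    exact k2.resolve_left (Nat.cast_ne_zero.2 Fintype.card_ne_zero)
  rw [finsum_eq_sum_of_fintype]
  simp only [e1, e2]
  rw [← Finset.mul_sum, ← map_sum, ← Finset.sum_mul, sum0, zero_mul, map_zero, mul_zero]

omit [Fintype F] [DecidableEq F] in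
theorem rep (hf : f.Nondeg) {W S Y : Submodule F V} (hp : f.perp S ≤ f.perp W ⊔ Y) (hS : S ≤ W)
    (l : W →ₗ[F] F) (hl : ∀ v : W, v.1 ∈ S → l v = 0) : ∃ u ∈ Y, ∀ v : W, -(T.ε * f.B u v) = l v := by
  obtain ⟨l', hl'⟩ := LinearMap.exists_extend ((-T.ε) • l)
  obtain ⟨t, ht⟩ := hf.exists_rep l'
  have k : ∀ v : W, f.B t v = -T.ε * l v := fun v => (ht v).trans (LinearMap.congr_fun hl' v)
  obtain ⟨b, hb, u, hu, rfl⟩ := mem_sup.1 (hp (f.mem_perp'.2 fun w hw => by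
    rw [k ⟨w, hS hw⟩, hl _ hw, mul_zero]) : t ∈ _)
  refine ⟨u, hu, fun v => ?_⟩
  have := k v
  rw [f.B_add_left, f.mem_perp'.1 hb _ v.2, zero_add] at this
  rw [this, neg_mul, mul_neg, neg_neg, T.ε_mul_ε_mul]

omit [Fintype F] [DecidableEq F] [Finite V] in
theorem ts (c : Par f a) : f.TotSing c.W :=
  f.totSing_span (by rintro _ ⟨i, rfl⟩; exact c.hyp.q_left i)
    (by rintro _ ⟨i, rfl⟩ _ ⟨j, rfl⟩; exact c.hyp.B_left i j)

omit [Fintype F] [DecidableEq F] [Finite V] in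
theorem eich_mem (c : Par f a) (g : f.O) {S : Submodule F V} (hS : S ≤ c.W) {p u : V} {b : F} (pS : p ∈ S)
    (hu : f.B p u = 0) (hb : T.π b = f.q u) {l : c.W →ₗ[F] F} (hl : ∀ v : c.W, v.1 ∈ S → l v = 0)
    (ul : ∀ v : c.W, -(T.ε * f.B u v) = l v) (h1 : ∀ v ∈ gW c g, f.B p v = 0 ∧ f.B u v = 0)
    (h2 : ∀ v ∈ f.perp (gW c g), f.B p v • u - (T.ε * (f.B u v + b * f.B p v)) • p ∈ gW c g) :
    ∃ n ∈ NN c g hS, ∀ v : c.W, n.1 v = v + l v • p := by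
  have hp := (ts c).1 p (hS pS)
  let n : f.O := ⟨_, f.eichEquiv_mem_O p u b hp hu hb⟩
  have k : ∀ v, n.1 v = v + f.B p v • u - (T.ε * (f.B u v + b * f.B p v)) • p := f.eichEquiv_apply p u b hp hu hb
  have k1 : ∀ v, f.B p v = 0 → n.1 v = v + (-(T.ε * f.B u v)) • p := fun v hv => by
    rw [k, hv, zero_smul, add_zero, mul_zero, add_zero, neg_smul, sub_eq_add_neg]
  have k2 : ∀ v : c.W, n.1 v = v + l v • p := fun v => by rw [k1 _ ((ts c).2 p (hS pS) v v.2), ul]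
  refine ⟨n, ⟨⟨fun v hv => ?_, fun v hv => ?_, fun v hv => ?_⟩, fun v hv => ?_, fun v hv => ?_, fun v hv => ?_⟩, k2⟩
  · rw [k1 _ (f.mem_perp.1 hv p (hS pS)), add_sub_cancel_left]; exact smul_mem _ _ (hS pS)
  · rw [k2 ⟨v, hv⟩, add_sub_cancel_left]; exact smul_mem _ _ pS
  · rw [k2 ⟨v, hS hv⟩, hl _ hv, zero_smul, add_zero]
  · rw [k, add_sub_assoc, add_sub_cancel_left]; exact h2 v hv
  · rw [k1 _ (h1 v hv).1, (h1 v hv).2, mul_zero, neg_zero, zero_smul, add_zero, sub_self]; exact zero_mem _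
  · rw [(mem_bot F).1 hv, map_zero]

theorem van_ii (c : Par f a) (h : Ty f r e) {θ : GL (Fin a) F → ℂ} {ψ : c.fU.O → ℂ}
    (hθ : Cu θ) (hψ : IsCharacter _ ψ) {g : f.O} (ho : ¬ c.Opp g)
    (hR : ¬ ∀ v ∈ c.W, ∀ y ∈ c.W, f.B v (g.1 y) = 0) : Van c.P (c.phi θ ψ) g := by
  have t' : f.TotSing (gW c g) := (ts c).map (g := (g.1 : V →ₗ[F] V)) g.2
  refine key c hθ hψ (S := c.W ⊓ f.perp (gW c g)) inf_le_left (fun k => ho fun v hv h => ?_)
    (fun k => hR fun v hv y hy => f.mem_perp'.1 (k hv).2 _ ⟨y, hy, rfl⟩) fun l hl p hp => ?_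
  · refine (mem_bot F).1 (k.le ⟨hv, f.mem_perp'.2 ?_⟩)
    rintro _ ⟨y, hy, rfl⟩
    exact h y hy
  · obtain ⟨u, hu, ul⟩ := rep h.1 (Y := gW c g) (by rw [h.1.perp_inf, h.1.perp_perp]) inf_le_left l hl
    refine eich_mem c g _ hp (f.mem_perp'.1 hp.2 u hu) (b := 0) (by rw [map_zero, t'.1 u hu]) hl ul
      (fun v hv => ⟨f.mem_perp'.1 hp.2 v hv, t'.2 u hu v hv⟩) fun v hv => ?_
    rw [f.mem_perp.1 hv u hu, zero_mul, add_zero, mul_zero, zero_smul, sub_zero]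
    exact smul_mem _ _ hu

theorem van_i (c : Par f a) (h : Ty f r e) {θ : GL (Fin a) F → ℂ} {ψ : c.fU.O → ℂ}
    (hθ : Cu θ) (hψ : IsCharacter _ ψ) {g : f.O} (hg : g ∉ c.P)
    (hI : ∃ y ∈ c.W, y ≠ 0 ∧ g.1 y ∈ c.W) : Van c.P (c.phi θ ψ) g := by
  have t' : f.TotSing (gW c g) := (ts c).map (g := (g.1 : V →ₗ[F] V)) g.2
  refine key c hθ hψ (S := c.W ⊓ gW c g) inf_le_left (fun k => ?_) (fun k => hg ?_) fun l hl p hp => ?_
  · obtain ⟨y, hy, y0, hy'⟩ := hI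
    exact y0 (g.1.map_eq_zero_iff.1 ((mem_bot F).1 (k.le ⟨hy', y, hy, rfl⟩)))
  · refine inv_mem_iff.1 (memP c fun v hv => ?_)
    obtain ⟨y, hy, rfl⟩ := (k hv).2
    exact (g.1.symm_apply_apply y).symm ▸ hy
  · obtain ⟨u, hu, ul⟩ := rep h.1 (Y := f.perp (gW c g)) (by rw [h.1.perp_inf]) inf_le_left l hl
    obtain ⟨b, hb, -⟩ := f.lift u
    refine eich_mem c g _ hp (f.mem_perp.1 hu p hp.2) hb hl ul
      (fun v hv => ⟨t'.2 p hp.2 v hv, f.mem_perp'.1 hu v hv⟩) fun v hv => ?_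
    rw [f.mem_perp.1 hv p hp.2, zero_smul]
    exact sub_mem (zero_mem _) (smul_mem _ _ hp.2)

end CL.DG4.VanB
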