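/-
S4984, block VAN, case (iv): `g W ≤ W^⊥` and `W ∩ g W = 0`.
-/
import Cfsg.Agent.CLAS.DG4.GeoA
import Cfsg.Agent.CLAS.DG4.GeoB
import Cfsg.Agent.CLAS.DG4.MX

set_option autoImplicit false
set_option linter.unusedSectionVars false

namespace CL.DG4.VanC

open Cfsg CL.Witt CL.Zel Module Submodule
open scoped ComplexConjugate

theorem van_of_hom {G K : Type} [Group G] [Finite G] [Group K] {P : Subgroup G} {φ : P → ℂ}
    (hφ : IsCharacter P φ) {g : G} (L : K →* G) (hL : Function.Injective L) (h1 : ∀ k, L k ∈ P)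
    (h2 : ∀ k, g⁻¹ * L k * g ∈ P) (h : ∑ᶠ k : K, φ ⟨_, h2 k⟩ * conj (φ ⟨_, h1 k⟩) = 0) :
    Van P φ g := by
  refine van_of_sub hφ L.range (by rintro _ ⟨k, rfl⟩; exact h1 k)
    (by rintro _ ⟨k, rfl⟩; exact h2 k) ?_
  rw [← h, ← finsum_comp_equiv (MonoidHom.ofInjective hL).toEquiv]
  refine finsum_congr fun k => ?_
  change extendByZero P φ (g⁻¹ * L k * g) * conj (extendByZero P φ (L k)) = _
  rw [Char.extendByZero_of_mem P φ (h1 k), Char.extendByZero_of_mem P φ (h2 k)]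

theorem sum_ker {K H : Type} [Group K] [Finite K] [Group H] {τ : K →* H} {s : K → ℂ} (z : ℂ)
    {D : ∀ k, Decidable (τ k = 1)} (h : (∑ᶠ k : K, if τ k = 1 then s k else 0) = 0) :
    ∑ᶠ k : τ.ker, z * conj (s k) = 0 := by
  classical
  have := Fintype.ofFinite K
  rw [finsum_eq_sum_of_fintype, ← Finset.sum_filter,
    Finset.sum_subtype (p := fun k => k ∈ τ.ker) _ (by simp)] at h
  rw [finsum_eq_sum_of_fintype, ← Finset.mul_sum, ← map_sum, h, map_zero, mul_zero]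

variable {F V : Type} [Field F] [Fintype F] [DecidableEq F] [AddCommGroup V] [Module F V]
  [Finite V] {T : FormType F} {f : Form T V} {r e a : ℕ}

/-- Extension of an isometry of `U` by the identity on the hyperbolic frame. -/
noncomputable def L0 (c : Par f a) : c.fU.O →* f.O :=
  (Subgroup.inclusion (fun _ h => h.1 : f.fix (span F (Set.range (Sum.elim c.x c.x'))) ≤ f.O)).comp
    (f.fixEquiv c.hyp.isCompl).symm.toMonoidHom

theorem L0_inj (c : Par f a) : Function.Injective (L0 c) := fun _ _ h =>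
  (f.fixEquiv c.hyp.isCompl).symm.injective (Subtype.ext (congrArg (fun z : f.O => z.1) h))

theorem mem_P (c : Par f a) {g : f.O} (h : ∀ v ∈ c.W, g.1 v ∈ c.W) : g ∈ c.P :=
  f.mem_stab_iff_le.2 ⟨g.2, h⟩

theorem L0_add (c : Par f a) (k : c.fU.O) {s : V} (hs : s ∈ span F (Set.range (Sum.elim c.x c.x')))
    (u : c.U) : (L0 c k).1 (s + u) = s + k.1 u :=
  f.fixEquiv_symm_apply c.hyp.isCompl k ⟨s, hs⟩ u

theorem L0_U (c : Par f a) (k : c.fU.O) (u : c.U) : (L0 c k).1 u = k.1 u := by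
  simpa using L0_add c k (zero_mem _) u

theorem L0_W (c : Par f a) (k : c.fU.O) {w : V} (hw : w ∈ c.W) : (L0 c k).1 w = w := by
  simpa using L0_add c k (span_mono (by rintro _ ⟨i, rfl⟩; exact ⟨Sum.inl i, rfl⟩) hw) 0

theorem L0_P (c : Par f a) (k : c.fU.O) : L0 c k ∈ c.P :=
  mem_P c fun v hv => by rw [L0_W c k hv]; exact hv

theorem L0_rho (c : Par f a) (k : c.fU.O) : c.ρ ⟨L0 c k, L0_P c k⟩ = 1 := by
  ext i j
  refine GeoA.c_uniq c.hyp (c := fun i => (c.ρ ⟨L0 c k, L0_P c k⟩).1 i j)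
    (c' := fun i => (1 : GL (Fin a) F).1 i j) ?_ i
  rw [← c.hρ]
  change (L0 c k).1 _ = _
  rw [L0_W c k (subset_span ⟨j, rfl⟩)]
  simp [Matrix.one_apply, ite_smul]

theorem L0_tau (c : Par f a) (k : c.fU.O) : c.τ ⟨L0 c k, L0_P c k⟩ = k := by
  refine Subtype.ext (LinearEquiv.ext fun u => GeoA.U_uniq c.hyp (c.hτ _ u) ?_)
  change (L0 c k).1 u - _ ∈ _
  rw [L0_U, sub_self]; exact zero_mem _

theorem ap (g n : f.O) (v : V) : (g⁻¹ * n * g).1 v = g.1.symm (n.1 (g.1 v)) := rfl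

section
variable (c : Par f a) (d : Par c.fU a) {g : f.O} (dx : ∀ i, (d.x i : V) = g.1 (c.x i))
include dx

theorem mW (u : c.U) : u ∈ d.W ↔ ∃ w ∈ c.W, g.1 w = u := by
  have e1 : d.W.map c.U.subtype = c.W.map (g.1 : V →ₗ[F] V) := by
    rw [Par.W, Par.W, Submodule.map_span, Submodule.map_span, ← Set.range_comp, ← Set.range_comp]
    exact congrArg (fun z => span F (Set.range z)) (funext dx)
  have e2 : u ∈ d.W ↔ (u : V) ∈ d.W.map c.U.subtype :=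
    ⟨fun h => ⟨u, h, rfl⟩, fun ⟨v, h, e⟩ => (Subtype.ext e : v = u) ▸ h⟩
  rw [e2, e1]; rfl

theorem cj_P (hU : ∀ y ∈ c.W, g.1 y ∈ c.U) (k : d.P) : g⁻¹ * L0 c k.1 * g ∈ c.P := by
  refine mem_P c fun v hv => ?_
  obtain ⟨w, hw, e⟩ := (mW c d dx _).1 (GeoA.P_mem k ((mW c d dx ⟨_, hU v hv⟩).2 ⟨v, hv, rfl⟩))
  rw [ap, show (L0 c k.1).1 (g.1 v) = _ from L0_U c k.1 ⟨_, hU v hv⟩, ← e,
    LinearEquiv.symm_apply_apply]
  exact hw

theorem cj_rho (k : d.P) (h : g⁻¹ * L0 c k.1 * g ∈ c.P) : c.ρ ⟨_, h⟩ = d.ρ k := by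
  ext i j
  refine GeoA.c_uniq c.hyp (c := fun i => (c.ρ ⟨_, h⟩).1 i j) (c' := fun i => (d.ρ k).1 i j) ?_ i
  rw [← c.hρ]
  change (g⁻¹ * L0 c k.1 * g).1 _ = _
  rw [ap, ← dx, L0_U, d.hρ, LinearEquiv.symm_apply_eq]
  simp [dx]

theorem cj_tau (k : d.P) (hk : d.τ k = 1) (h : g⁻¹ * L0 c k.1 * g ∈ c.P) : c.τ ⟨_, h⟩ = 1 := by
  refine (GeoB.tau_eq_one_iff c _).2 fun v hv => ?_
  obtain ⟨s, hs, u, hu, e⟩ := Submodule.mem_sup.1
    (c.hyp.isCompl.codisjoint.top_le (Submodule.mem_top (x := g.1 v)))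
  have pu : (⟨u, hu⟩ : c.U) ∈ c.fU.perp d.W := fun w' hw' => by
    obtain ⟨w, hw, e'⟩ := (mW c d dx w').1 hw'
    change f.B w' u = 0
    rw [← add_sub_cancel_left s u, e, f.B_sub_right, f.mem_perp'.1 w'.2 s hs, ← e', f.O_B, hv w hw,
      sub_zero]
  obtain ⟨w, hw, e'⟩ := (mW c d dx _).1 ((GeoB.tau_eq_one_iff d k).1 hk _ pu)
  change (g⁻¹ * L0 c k.1 * g).1 v - v ∈ _
  have e4 : (L0 c k.1).1 (g.1 v) = g.1 (w + v) := by
    rw [← e, show (L0 c k.1).1 (s + u) = _ from L0_add c k.1 hs ⟨u, hu⟩, g.1.map_add, e', ← e]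
    simp only [AddSubgroupClass.coe_sub]
    abel
  rw [ap, e4, LinearEquiv.symm_apply_apply, add_sub_cancel_right]
  exact hw

end

theorem van_U (c : Par f a) (hf : f.Nondeg) {θ : GL (Fin a) F → ℂ} {ψ : c.fU.O → ℂ}
    (hθ : IsCharacter _ θ) (hψ : IsCharacter _ ψ) (hiv : IV c.fU a θ ψ) {g : f.O}
    (hU : ∀ y ∈ c.W, g.1 y ∈ c.U) : Van c.P (c.phi θ ψ) g := by
  classical
  have := GeoB.finO f
  have := GeoB.finO c.fU
  let y : Fin a → c.U := fun j => ⟨g.1 (c.x j), hU _ (subset_span ⟨j, rfl⟩)⟩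
  have hy : LinearIndependent F y :=
    LinearIndependent.of_comp c.U.subtype
      (c.hyp.linearIndependent_left.map' (g.1 : V →ₗ[F] V) g.1.ker)
  have nd : c.fU.Nondeg := hf.restrict_perp c.hyp.restrict_nondeg
  obtain ⟨y', hyy⟩ := nd.exists_isHyp hy (fun i => (f.O_q g _).trans (c.hyp.q_left i))
    (fun i j => (f.O_B g _ _).trans (c.hyp.B_left i j))
  obtain ⟨d, dx0, -⟩ := GeoA.exists_par_of nd hyy
  have dx : ∀ i, (d.x i : V) = g.1 (c.x i) := fun i => by rw [dx0]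
  let L : d.τ.ker →* f.O := (L0 c).comp (d.P.subtype.comp d.τ.ker.subtype)
  have hL : Function.Injective L :=
    (L0_inj c).comp (Subtype.val_injective.comp Subtype.val_injective)
  refine van_of_hom (GeoB.phi_char c hθ hψ) L hL (fun k => L0_P c _) (fun k => cj_P c d dx hU k.1) ?_
  refine (finsum_congr fun k => ?_).trans (sum_ker (ψ 1 * conj (θ 1)) (hiv d))
  have e1 : c.phi θ ψ ⟨_, cj_P c d dx hU k.1⟩ = θ (d.ρ k.1) * ψ 1 := by
    unfold Par.phi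
    rw [cj_rho c d dx, cj_tau c d dx k.1 k.2]
  have e2 : c.phi θ ψ ⟨_, L0_P c k.1.1⟩ = θ 1 * ψ k.1.1 := by
    unfold Par.phi
    rw [L0_rho, L0_tau]
  refine (congrArg₂ (fun s t => s * conj t) e1 e2).trans ?_
  simp only [map_mul, Complex.conj_conj]
  ring

theorem van_iv (c : Par f a) (h : Ty f r e) {θ : GL (Fin a) F → ℂ} {ψ : c.fU.O → ℂ}
    (hθ : IsCharacter _ θ) (hψ : IsCharacter _ ψ) (hiv : IV c.fU a θ ψ) {g : f.O}
    (hR : ∀ v ∈ c.W, ∀ y ∈ c.W, f.B v (g.1 y) = 0) (hI : ∀ y ∈ c.W, g.1 y ∈ c.W → y = 0) :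
    Van c.P (c.phi θ ψ) g := by
  have := GeoB.finO f
  have ts := c.hyp.totSing_left
  have hB : ∀ s ∈ c.W, ∀ t ∈ c.W, ∀ s' ∈ c.W, ∀ t' ∈ c.W,
      f.B (s + g.1 t) (s' + g.1 t') = 0 := fun s hs t ht s' hs' t' ht' => by
    simp only [map_add, LinearMap.add_apply]
    rw [ts.2 s hs s' hs', hR s hs t' ht', f.B_eq_zero_symm (hR s' hs' t ht), f.O_B, ts.2 t ht t' ht']
    simp
  have hq : ∀ s ∈ c.W, ∀ t ∈ c.W, f.q (s + g.1 t) = 0 := fun s hs t ht => by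
    rw [f.q_add_of_B_eq_zero (hR s hs t ht), ts.1 s hs, f.O_q, ts.1 t ht, add_zero]
  let gW : c.W →ₗ[F] V := (g.1 : V →ₗ[F] V) ∘ₗ c.W.subtype
  let φ₁ : c.W × c.W →ₗ[F] V := c.W.subtype.coprod gW
  let φ₂ : c.W × c.W →ₗ[F] V := c.W.subtype.coprod (gW - GeoA.pW f c.x c.x' ∘ₗ gW)
  have a1 : ∀ p, φ₁ p = p.1 + g.1 p.2 := fun _ => rfl
  have a2 : ∀ p, φ₂ p = (p.1 - GeoA.pW f c.x c.x' (g.1 p.2)) + g.1 p.2 := fun p => by
    change p.1 + (g.1 p.2 - GeoA.pW f c.x c.x' (g.1 p.2)) = _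
    abel
  have m2 : ∀ p : c.W × c.W, p.1 - GeoA.pW f c.x c.x' (g.1 p.2) ∈ c.W := fun p =>
    sub_mem p.1.2 (GeoA.pW_mem _ _ _)
  have z : ∀ s ∈ c.W, ∀ t ∈ c.W, s + g.1 t = 0 → t = 0 := fun s hs t ht e =>
    hI t ht (by rw [eq_neg_of_add_eq_zero_right e]; exact neg_mem hs)
  have i1 : Function.Injective φ₁ := (injective_iff_map_eq_zero _).2 fun p e => by
    rw [a1] at e
    have e2 := z _ p.1.2 _ p.2.2 e
    rw [e2, map_zero, add_zero] at e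
    exact Prod.ext (Subtype.ext e) (Subtype.ext e2)
  have i2 : Function.Injective φ₂ := (injective_iff_map_eq_zero _).2 fun p e => by
    rw [a2] at e
    have e2 := z _ (m2 p) _ p.2.2 e
    rw [e2, map_zero, map_zero, add_zero, sub_zero] at e
    exact Prod.ext (Subtype.ext e) (Subtype.ext e2)
  obtain ⟨p, hp, e⟩ := h.1.witt_maps φ₁ φ₂ i1 i2
    (fun s t => by
      rw [a1, a1, a2, a2, hB _ (m2 s) _ s.2.2 _ (m2 t) _ t.2.2, hB _ s.1.2 _ s.2.2 _ t.1.2 _ t.2.2])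
    (fun s => by rw [a1, a2, hq _ (m2 s) _ s.2.2, hq _ s.1.2 _ s.2.2])
  have pP : (⟨p, hp⟩ : f.O) ∈ c.P := by
    refine mem_P c fun v hv => ?_
    change p v ∈ _
    have := e (⟨v, hv⟩, 0)
    rw [a1, a2] at this
    simp only [ZeroMemClass.coe_zero, map_zero, add_zero, sub_zero] at this
    rw [this]; exact hv
  have := van_mul (GeoB.phi_char c hθ hψ).isClassFunction (inv_mem pP) (one_mem _)
    (van_U c h.1 hθ hψ hiv (g := ⟨p, hp⟩ * g) fun y hy => by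
      have := e (0, ⟨y, hy⟩)
      rw [a1, a2] at this
      simp only [ZeroMemClass.coe_zero, zero_add, zero_sub, neg_add_eq_sub] at this
      change p (g.1 y) ∈ _
      rw [this]
      exact GeoA.sub_pW c.hyp fun w hw => hR w hw y hy)
  rwa [inv_mul_cancel_left, mul_one] at this

end CL.DG4.VanC
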