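/-
S4984, block VAN: vanishing Mackey terms.  W' = g W, I = W cap W', R = W cap W'^perp; use van_of_sub.
opp_iff: Witt (dual bases of W in W' and in span x').  van_opp: WLOG g = w (van_mul); N = the elements
lev A 1; phi(n) = theta(A) psi(1), phi(w^-1 n w) = theta(A^-T) psi(1) = conj theta(A) psi(1)
(A is similar to its transpose), and <conj theta, theta> = 0.
van_nonopp, R <> 0.  (ii) R < W: N = elements preserving W, trivial on W', W'^perp/W', W^perp/W, on R and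
on W/R; phi(g^-1 n g) = phi(1), phi(n) = theta(1 + X) psi(1), and n -> X is ONTO Hom(W/R, R): products of
Eichler maps eichEquiv p u 0, p in R, u in W' (functionals B(u,.) on W, u in W', are all those killing R).
Sum over X of theta(1+X) = 0 by Cusp (Zel Ses.sum_eq, Par.theta_eq).  (i) R = W, I <> 0 (I < W as g notin P):
same with I, Eichler maps with centre p in I, u in W'^perp.  (iv) R = W, I = 0: WLOG W' <= U (move W' by
an element of P, Witt); c' = Par of fU with x_j := g x_j (exists_par_of); N = lev 1 h with c'.tau h = 1;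
phi(n) = theta(1) psi(h), phi(g^-1 n g) = theta(c'.rho h) psi(1): the sum is conj of the IV sum.
-/
import Cfsg.Agent.CLAS.DG4.VanA
import Cfsg.Agent.CLAS.DG4.VanB
import Cfsg.Agent.CLAS.DG4.VanC

set_option autoImplicit false

namespace CL.DG4

open Cfsg CL.Witt CL.Zel Module Submodule
open scoped ComplexConjugate

variable {F V : Type} [Field F] [Fintype F] [DecidableEq F] [AddCommGroup V] [Module F V]
  [Finite V] {T : FormType F} {f : Form T V} {r e a : ℕ}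

theorem Par.opp_iff (c : Par f a) (h : Ty f r e) (g : f.O) : c.Opp g ↔ InD c.P c.w g :=
  VanA.opp_iff c h g

theorem theta_inv_transpose {θ : GL (Fin a) F → ℂ} (hθ : IsCharacter _ θ) {A B : GL (Fin a) F}
    (h : B.1.transpose * A.1 = 1) : θ B = conj (θ A) :=
  VanA.theta_inv_transpose hθ h

theorem Par.van_opp (c : Par f a) (h : Ty f r e) {θ : GL (Fin a) F → ℂ} {ψ : c.fU.O → ℂ}
    (hθ : IsIrrCharacter _ θ) (hn : NRe θ) (hψ : IsCharacter _ ψ) {g : f.O} (ho : c.Opp g) :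
    Van c.P (c.phi θ ψ) g :=
  VanA.van_opp c h hθ hn hψ ho

theorem Par.van_ii (c : Par f a) (h : Ty f r e) {θ : GL (Fin a) F → ℂ} {ψ : c.fU.O → ℂ}
    (hθ : Cu θ) (hψ : IsCharacter _ ψ) {g : f.O} (ho : ¬ c.Opp g)
    (hR : ¬ ∀ v ∈ c.W, ∀ y ∈ c.W, f.B v (g.1 y) = 0) : Van c.P (c.phi θ ψ) g :=
  VanB.van_ii c h hθ hψ ho hR

theorem Par.van_i (c : Par f a) (h : Ty f r e) {θ : GL (Fin a) F → ℂ} {ψ : c.fU.O → ℂ}
    (hθ : Cu θ) (hψ : IsCharacter _ ψ) {g : f.O} (hg : g ∉ c.P)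
    (hR : ∀ v ∈ c.W, ∀ y ∈ c.W, f.B v (g.1 y) = 0) (hI : ∃ y ∈ c.W, y ≠ 0 ∧ g.1 y ∈ c.W) :
    Van c.P (c.phi θ ψ) g :=
  (fun _ => VanB.van_i c h hθ hψ hg hI) hR

theorem Par.van_iv (c : Par f a) (h : Ty f r e) {θ : GL (Fin a) F → ℂ} {ψ : c.fU.O → ℂ}
    (hθ : IsCharacter _ θ) (hψ : IsCharacter _ ψ) (hiv : IV c.fU a θ ψ) {g : f.O}
    (hR : ∀ v ∈ c.W, ∀ y ∈ c.W, f.B v (g.1 y) = 0) (hI : ∀ y ∈ c.W, g.1 y ∈ c.W → y = 0) :
    Van c.P (c.phi θ ψ) g :=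
  VanC.van_iv c h hθ hψ hiv hR hI

theorem Par.van_nonopp (c : Par f a) (h : Ty f r e) {θ : GL (Fin a) F → ℂ} {ψ : c.fU.O → ℂ}
    (hθ : Cu θ) (hψ : IsCharacter _ ψ) (hiv : IV c.fU a θ ψ) {g : f.O} (hg : g ∉ c.P)
    (ho : ¬ c.Opp g) : Van c.P (c.phi θ ψ) g := by
  by_cases hR : ∀ v ∈ c.W, ∀ y ∈ c.W, f.B v (g.1 y) = 0
  · by_cases hI : ∃ y ∈ c.W, y ≠ 0 ∧ g.1 y ∈ c.W
    · exact c.van_i h hθ hψ hg hR hI
    · obtain ⟨n, ρ, -, hρ⟩ := hθ.1
      exact c.van_iv h ⟨n, ρ, hρ⟩ hψ hiv hR fun y hy h1 => by_contra fun h2 => hI ⟨y, hy, h2, h1⟩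
  · exact c.van_ii h hθ hψ ho hR

end CL.DG4
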