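/-
S4984, block AL: the structure constant for a = 1.  x = c.x 0, x' = c.x' 0.  Q = Eichler maps
E(u, b) = eichEquiv x u b, u in U, pi b = q u, bijectively.  g = w E w has g x = eps x + u - eps b x',
g z = z - eps B(u,z) x' (z in U).  b = 0: B(x, g x) = 0, not opposite, so not InD (opp_iff).  b <> 0:
with k = -eps b, u1 = E(u/k, eps/b), y = w^-1 u1^-1 g lies in P, rho y = k, tau y z = z - b^-1 B(u,z) u.
-/
import Cfsg.Agent.CLAS.DG4.Van

set_option autoImplicit false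
set_option linter.unusedSectionVars false

namespace CL.DG4

open Cfsg CL.Witt CL.Zel Module Submodule
open scoped ComplexConjugate

variable {F V : Type} [Field F] [Fintype F] [DecidableEq F] [AddCommGroup V] [Module F V]
  [Finite V] {T : FormType F} {f : Form T V} {r e a : ℕ}

theorem Ty.sigma (h : Ty f r e) (t : F) : T.σ t = t := by
  rcases h.2.1 with ⟨rfl, -⟩ | ⟨rfl, -⟩ <;> rfl

namespace Al

theorem pi_inv (hσ : ∀ t, T.σ t = t) {b : F} (hb : b ≠ 0) : T.π b⁻¹ = b⁻¹ * b⁻¹ * T.π b := by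
  have := T.π_norm b⁻¹ b
  rw [hσ, mul_assoc, inv_mul_cancel₀ hb, mul_one] at this
  exact this

variable (c : Par f 1)

theorem memW {v : V} : v ∈ c.W ↔ ∃ t : F, t • c.x 0 = v := by
  have : Set.range c.x = {c.x 0} := by
    ext y
    simp only [Set.mem_range, Set.mem_singleton_iff]
    exact ⟨fun ⟨i, hi⟩ => by rw [← hi, Subsingleton.elim i 0], fun hy => ⟨0, hy.symm⟩⟩
  unfold Par.W
  rw [this, mem_span_singleton]

theorem xu (u : c.U) : f.B (c.x 0) u = 0 := (c.hyp.mem_perp_span.1 u.2).1 0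
theorem x'u (u : c.U) : f.B (c.x' 0) u = 0 := (c.hyp.mem_perp_span.1 u.2).2 0
theorem ux (u : c.U) : f.B u (c.x 0) = 0 := f.B_eq_zero_symm (xu c u)
theorem ux' (u : c.U) : f.B u (c.x' 0) = 0 := f.B_eq_zero_symm (x'u c u)
theorem xx : f.B (c.x 0) (c.x 0) = 0 := c.hyp.B_left 0 0
theorem x'x' : f.B (c.x' 0) (c.x' 0) = 0 := c.hyp.B_right 0 0
theorem xx' : f.B (c.x 0) (c.x' 0) = 1 := c.hyp.B_self 0
theorem x'x : f.B (c.x' 0) (c.x 0) = T.ε := c.hyp.B_self' 0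

theorem smul_x {s t : F} (h : s • c.x 0 = t • c.x 0) : s = t := by
  have := congrArg (f.B (c.x' 0)) h
  rw [f.B_smul_right, f.B_smul_right, x'x] at this
  exact mul_right_cancel₀ T.ε_ne_zero this

/-- The `U`-component of a vector. -/
def pU (v : V) : c.U :=
  ⟨v - ((T.ε * f.B (c.x' 0) v) • c.x 0 + f.B (c.x 0) v • c.x' 0), by
    simpa only [Fin.sum_univ_one] using c.hyp.sub_mem_perp v⟩

theorem dec (v : V) :
    v = (pU c v : V) + ((T.ε * f.B (c.x' 0) v) • c.x 0 + f.B (c.x 0) v • c.x' 0) := by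
  simp [pU]

theorem ext3 {g k : f.O} (h1 : g.1 (c.x 0) = k.1 (c.x 0)) (h2 : g.1 (c.x' 0) = k.1 (c.x' 0))
    (h3 : ∀ z : c.U, g.1 z = k.1 z) : g = k := by
  refine Subtype.ext (LinearEquiv.ext fun v => ?_)
  rw [dec c v]
  simp only [map_add, map_smul, h1, h2, h3]

/-- The Eichler map with centre `x`. -/
def E (u : c.U) (b : F) (hb : T.π b = c.fU.q u) : f.O :=
  ⟨f.eichEquiv (c.x 0) u b (c.hyp.q_left 0) (xu c u) hb, f.eichEquiv_mem_O _ _ _ _ _ _⟩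

theorem E_app (u : c.U) (b : F) (hb) (v : V) : (E c u b hb).1 v =
    v + f.B (c.x 0) v • (u : V) - (T.ε * (f.B u v + b * f.B (c.x 0) v)) • c.x 0 := rfl

theorem E_x (u : c.U) (b : F) (hb) : (E c u b hb).1 (c.x 0) = c.x 0 := by
  simp [E_app, xx, ux]

theorem E_x' (u : c.U) (b : F) (hb) :
    (E c u b hb).1 (c.x' 0) = c.x' 0 + u - (T.ε * b) • c.x 0 := by
  simp [E_app, xx', ux']

theorem E_U (u : c.U) (b : F) (hb) (z : c.U) :
    (E c u b hb).1 z = z - (T.ε * f.B u z) • c.x 0 := by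
  simp [E_app, xu]

theorem memP {g : f.O} {k : F} (hg : g.1 (c.x 0) = k • c.x 0) : g ∈ c.P := by
  refine (f.mem_stab_iff_le).2 ⟨g.2, fun v hv => ?_⟩
  obtain ⟨t, rfl⟩ := (memW c).1 hv
  exact (memW c).2 ⟨t * k, show _ = g.1 _ by rw [map_smul, hg, smul_smul]⟩

theorem rho_eq (g : c.P) {k : F} (hg : g.1.1 (c.x 0) = k • c.x 0) : (c.ρ g).1 0 0 = k := by
  have := c.hρ g 0
  rw [hg, Fin.sum_univ_one] at this
  exact (smul_x c this).symm

theorem E_mem (u : c.U) (b : F) (hb) : E c u b hb ∈ c.Q := by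
  have hP : E c u b hb ∈ c.P := memP c (k := 1) (by rw [E_x, one_smul])
  refine ⟨⟨_, hP⟩, ⟨?_, ?_⟩, rfl⟩
  · refine Units.ext (Matrix.ext fun i j => ?_)
    rw [Subsingleton.elim i 0, Subsingleton.elim j 0, rho_eq c ⟨_, hP⟩ (k := 1)
      (by rw [one_smul]; exact E_x c u b hb)]
    simp
  · refine (c.tau_eq_one_iff _).2 fun v hv => (memW c).2 ⟨-(T.ε * f.B u v), ?_⟩
    have h0 : f.B (c.x 0) v = 0 := hv _ ((memW c).2 ⟨1, one_smul _ _⟩)
    simp [E_app, h0]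

/-- The parameters of an element of `Q`. -/
def par (g : f.O) : c.U × F := (pU c (g.1 (c.x' 0)), -f.B (c.x' 0) (g.1 (c.x' 0)))

theorem par_E (u : c.U) (b : F) (hb) : par c (E c u b hb) = (u, b) := by
  have h1 : f.B (c.x' 0) ((E c u b hb).1 (c.x' 0)) = -b := by
    rw [E_x', f.B_sub_right, f.B_add_right, f.B_smul_right, x'x', x'u, x'x]
    linear_combination (-b) * T.εε
  have h2 : f.B (c.x 0) ((E c u b hb).1 (c.x' 0)) = 1 := by
    rw [E_x', f.B_sub_right, f.B_add_right, f.B_smul_right, xx', xu, xx]; ring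
  refine Prod.ext (Subtype.ext ?_) (by rw [par, h1, neg_neg])
  change _ - _ = _
  rw [h1, h2, E_x']
  module

theorem exists_E (hσ : ∀ t, T.σ t = t) {g : f.O} (hg : g ∈ c.Q) :
    ∃ u b hb, g = E c u b hb := by
  obtain ⟨p, ⟨h1, h2⟩, rfl⟩ := hg
  have hx : p.1.1 (c.x 0) = c.x 0 := by
    have := c.hρ p 0
    rw [MonoidHom.mem_ker.1 h1] at this
    simpa using this
  have hτ := (c.tau_eq_one_iff p).1 h2
  have h3 : f.B (c.x 0) (p.1.1 (c.x' 0)) = 1 := by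
    conv_lhs => rw [← hx]
    rw [f.O_B, xx']
  obtain ⟨u, b, hx'⟩ : ∃ (u : c.U) (b : F), p.1.1 (c.x' 0) = c.x' 0 + u - (T.ε * b) • c.x 0 := by
    refine ⟨pU c (p.1.1 (c.x' 0)), -f.B (c.x' 0) (p.1.1 (c.x' 0)), ?_⟩
    conv_lhs => rw [dec c (p.1.1 (c.x' 0)), h3]
    module
  have hb : T.π b = c.fU.q u := by
    have h4 := f.O_q p.1 (c.x' 0)
    rw [hx', f.q_sub, f.q_add, f.q_smul, c.hyp.q_left, c.hyp.q_right, x'u, f.B_smul_right,
      f.B_add_left, x'x, ux, add_zero T.ε, map_zero, mul_right_comm T.ε, T.εε, one_mul] at h4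
    change _ = f.q u
    linear_combination -h4
  refine ⟨u, b, hb, ext3 c (hx.trans (E_x c u b hb).symm) (hx'.trans (E_x' c u b hb).symm)
    fun z => ?_⟩
  obtain ⟨t, ht⟩ := (memW c).1 (hτ z fun w hw => by
    obtain ⟨s, rfl⟩ := (memW c).1 hw
    rw [f.B_smul_left, xu, mul_zero])
  have hz : p.1.1 z = z + t • c.x 0 := by rw [ht]; abel
  have h5 := f.O_B p.1 (c.x' 0) z
  rw [hx', hz, x'u] at h5
  simp only [f.B_sub_left, f.B_add_left, f.B_add_right, f.B_smul_left, f.B_smul_right, x'u, x'x,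
    ux, xu, xx] at h5
  rw [E_U]
  change p.1.1 z = _
  rw [hz, show t = -(T.ε * f.B u z) by linear_combination T.ε * h5 - t * T.εε]
  module

theorem G_x (u : c.U) (b : F) (hb) :
    (c.w * E c u b hb * c.w).1 (c.x 0) = T.ε • c.x 0 + u - (T.ε * b) • c.x' 0 := by
  change c.w.1 ((E c u b hb).1 (c.w.1 _)) = _
  rw [c.hw₁, E_x', map_sub, map_add, map_smul, c.hw₁, c.hw₂, c.hw₃ _ u.2]

theorem G_U (u : c.U) (b : F) (hb) (z : c.U) :
    (c.w * E c u b hb * c.w).1 z = z - (T.ε * f.B u z) • c.x' 0 := by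
  change c.w.1 ((E c u b hb).1 (c.w.1 _)) = _
  rw [c.hw₃ _ z.2, E_U, map_sub, map_smul, c.hw₁, c.hw₃ _ z.2]

theorem not_opp (u : c.U) (hb) : ¬ c.Opp (c.w * E c u 0 hb * c.w) := fun ho => by
  have h0 := ho (c.x 0) ((memW c).2 ⟨1, one_smul _ _⟩) fun y hy => by
    obtain ⟨s, rfl⟩ := (memW c).1 hy
    rw [map_smul, G_x]
    simp [xx, xu]
  have := xx' c
  rw [h0] at this
  simp at this

theorem main (hσ : ∀ t, T.σ t = t) (u : c.U) {b : F} (hb) (hb0 : b ≠ 0) :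
    ∃ u₁ ∈ c.Q, ∃ y : c.P, c.w * E c u b hb * c.w = u₁ * c.w * y ∧ (c.ρ y).1 0 0 = -(T.ε * b) ∧
      ∀ z, (c.τ y).1 z = z - (b⁻¹ * c.fU.B u z) • u := by
  have hb' : T.π (T.ε * b⁻¹) = c.fU.q ((-(T.ε * b⁻¹)) • u) := by
    rw [T.π_ε_mul, hσ, pi_inv hσ hb0, c.fU.q_smul, hσ, hb]
    linear_combination (-(b⁻¹ * b⁻¹ * c.fU.q u)) * T.εε
  set u₁ := E c _ _ hb' with hu₁
  set G := c.w * E c u b hb * c.w with hG
  have hbb : b⁻¹ * b = 1 := inv_mul_cancel₀ hb0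
  have key : ∀ v v' : V, u₁.1 (c.w.1 v') = G.1 v → ((u₁ * c.w)⁻¹ * G).1 v = v' := fun v v' hv => by
    change (u₁ * c.w).1.symm (G.1 v) = v'
    rw [LinearEquiv.symm_apply_eq, ← hv]; rfl
  have hy : ((u₁ * c.w)⁻¹ * G).1 (c.x 0) = (-(T.ε * b)) • c.x 0 := key _ _ (by
    rw [map_smul, map_smul, c.hw₁, hu₁, E_x', hG, G_x, Submodule.coe_smul]
    match_scalars
    · ring
    · linear_combination (b⁻¹ * b) * T.εε + hbb
    · linear_combination (T.ε * b⁻¹ * b) * T.εε + T.ε * hbb)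
  refine ⟨u₁, E_mem c _ _ _, ⟨_, memP c hy⟩, (mul_inv_cancel_left _ _).symm, rho_eq c _ hy, fun z => ?_⟩
  have huu : f.B u u = b + T.ε * b := by
    have := f.B_self_of_lift (x := u) hb
    rwa [hσ] at this
  have hz : ((u₁ * c.w)⁻¹ * G).1 z =
      ((z - (b⁻¹ * c.fU.B u z) • u : c.U) : V) + (-(T.ε * f.B u z)) • c.x 0 := key _ _ (by
    rw [map_add, map_smul, c.hw₁, c.hw₃ _ (Subtype.coe_prop _), map_add, map_smul, hu₁, E_x', E_U,
      hG, G_U]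
    simp only [Submodule.coe_smul, Submodule.coe_sub, f.B_smul_left, f.B_sub_right, f.B_smul_right,
      hσ, huu, Form.restrict_B]
    match_scalars
    · ring
    · linear_combination (b⁻¹ * f.B u z) * T.εε
    · linear_combination (-(b⁻¹ * f.B u z * (1 + T.ε) * T.ε * T.ε)) * hbb
    · ring)
  have h1 := c.hτ ⟨_, memP c hy⟩ z
  rw [hz, add_sub_right_comm, add_mem_cancel_right ((memW c).2 ⟨_, rfl⟩)] at h1
  exact Subtype.ext (sub_eq_zero.1 (GeoB.eq_zero c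
    (sub_mem (Subtype.coe_prop _) (Subtype.coe_prop _)) h1)).symm

end Al

theorem Ty.exists_R (h : Ty f r e) : ∃ R : V → F → f.O, ∀ u b, b ≠ 0 → T.π b = f.q u →
    ∀ z, (R u b).1 z = z - (b⁻¹ * f.B u z) • u := by
  classical
  have hc : ∀ u b, b ≠ 0 ∧ T.π b = f.q u → T.π (T.σ (-b⁻¹)) + T.σ (-b⁻¹) * -b⁻¹ * f.q u = 0 :=
    fun u b hb => by
      rw [h.sigma, map_neg, Al.pi_inv h.sigma hb.1, hb.2]; ring
  refine ⟨fun u b => if hb : b ≠ 0 ∧ T.π b = f.q u then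
    ⟨f.rk1Equiv u (-b⁻¹) (hc u b hb), f.rk1Equiv_mem_O _ _ _⟩ else 1, fun u b h1 h2 z => ?_⟩
  simp only [dif_pos (And.intro h1 h2), Form.rk1Equiv_apply]
  module

open Classical in
theorem alpha1 (h : Ty f r e) (c : Par f 1) (θ : GL (Fin 1) F → ℂ) (ψ : c.fU.O → ℂ) (lam : F → ℂ)
    (hlam : ∀ A, θ A = lam (A.1 0 0)) (R : c.U → F → c.fU.O)
    (hR : ∀ u b, b ≠ 0 → T.π b = c.fU.q u → ∀ z, (R u b).1 z = z - (b⁻¹ * c.fU.B u z) • u) :
    ∃ Φ, PhiOK c.P c.Q c.w (c.phi θ ψ) Φ ∧ ∑ᶠ u : c.Q, Φ u =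
      ∑ᶠ u : c.U, ∑ b : F, if b ≠ 0 ∧ T.π b = c.fU.q u then lam (-(T.ε * b)) * ψ (R u b) else 0 := by
  set Ψ : c.U × F → ℂ := fun p => if p.2 ≠ 0 ∧ T.π p.2 = c.fU.q p.1 then
    lam (-(T.ε * p.2)) * ψ (R p.1 p.2) else 0 with hΨ
  refine ⟨fun g => Ψ (Al.par c g), fun g hg => ?_, ?_⟩
  · obtain ⟨u, b, hb, rfl⟩ := Al.exists_E c h.sigma hg
    by_cases hb0 : b = 0
    · subst hb0
      exact Or.inr ⟨fun hI => Al.not_opp c u hb ((c.opp_iff h _).2 hI), by simp [Al.par_E, hΨ]⟩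
    · obtain ⟨u₁, h1, y, h2, h3, h4⟩ := Al.main c h.sigma u hb hb0
      refine Or.inl ⟨u₁, h1, y, h2, ?_⟩
      have h5 : c.τ y = R u b := Subtype.ext (LinearEquiv.ext fun z => by
        rw [h4, hR u b hb0 hb])
      simp only [Al.par_E, hΨ, if_pos (And.intro hb0 hb), Par.phi, hlam, h3, h5]
  · have := GeoB.finO f
    have := Fintype.ofFinite c.Q
    have := Fintype.ofFinite c.U
    rw [finsum_eq_sum_of_fintype, finsum_eq_sum_of_fintype, ← Fintype.sum_prod_type']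
    refine Fintype.sum_of_injective (fun g : c.Q => Al.par c g) (fun g k hgk => ?_) _ Ψ
      (fun p hp => ?_) fun _ => rfl
    · obtain ⟨u, b, hb, h1⟩ := Al.exists_E c h.sigma g.2
      obtain ⟨u', b', hb', h2⟩ := Al.exists_E c h.sigma k.2
      simp only [h1, h2, Al.par_E, Prod.mk.injEq] at hgk
      obtain ⟨rfl, rfl⟩ := hgk
      exact Subtype.ext (h1.trans h2.symm)
    · refine if_neg fun hh => hp ⟨⟨_, Al.E_mem c p.1 p.2 hh.2⟩, Al.par_E c _ _ _⟩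

end CL.DG4
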