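/-
S4984, block BR: the four families as H / Z(H).  Sp: f = Sp.spForm, H = top, SpCenter.  Orthogonal:
f = ofQuad (QOdd / QPlus / QMinus), H = commutator f.O (ofQuad_O, pOmegaEquiv, index_commutator_*,
mem_center_commutator_iff; reflections have det -1 resp. are all conjugate-generating for q even).
-1 notin H: card_O_eq_pOm_of_mem against card_pOm_QOdd / QPlus / QMinus.
-/
import Cfsg.Agent.CLAS.DG4.Cnt
import Cfsg.Agent.CLAS.SpForm
import Cfsg.Agent.CLAS.SpCenter
import Cfsg.Agent.CLAS.OrthPOrder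

set_option autoImplicit false
set_option linter.unusedSectionVars false
set_option linter.unusedVariables false

namespace CL.DG4

open Cfsg CL.Witt CL.Zel Module Submodule
open scoped ComplexConjugate

variable {F : Type} [Field F] [Fintype F] [DecidableEq F]

namespace Br
open CL.Orth CL.OrthE QuadraticMap

variable {V : Type} [AddCommGroup V] [Module F V] [Finite V] {Q : QuadraticForm F V}

/-- the two isometry groups -/
def eO (Q : QuadraticForm F V) : (Form.ofQuad Q).O ≃* O Q := MulEquiv.subgroupCongr (ofQuad_O Q)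

omit [Fintype F] [DecidableEq F] [Finite V] in
theorem mem_iff (g : (Form.ofQuad Q).O) : g ∈ commutator (Form.ofQuad Q).O ↔ eO Q g ∈ commutator (O Q) :=
  (mem_commutator_mulEquiv (eO Q) g).symm

omit [DecidableEq F] in
theorem tgt (hQ : (polarBilin Q).Nondegenerate) (h5 : 5 ≤ finrank F V) :
    Tgt (Form.ofQuad Q) (commutator (Form.ofQuad Q).O) := by
  have hF : Nat.card F ≠ 2 ∨ finrank F V ≠ 4 := Or.inr (by omega)
  have hi : (commutator (Form.ofQuad Q).O).index = (commutator (O Q)).index := by rw [ofQuad_O]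
  refine ⟨inferInstance, Or.inr ⟨rfl, ?_, ?_⟩, fun z hz hc => ?_⟩
  · rintro g ⟨v, hv, hg⟩ hm
    have e : eO Q g = Orth.refl Q v := O_ext fun y => by rw [refl_apply]; exact hg y
    rw [mem_iff, e, mem_commutator_iff hQ hF, dsign_refl hQ hv] at hm
    exact absurd hm.1 (by decide)
  · rw [hi]
    rcases Nat.even_or_odd (Fintype.card F) with h | h
    · exact Or.inr ⟨h, OrthE.index_commutator_of_two_eq_zero (two_eq_zero_of_even_card h) hQ hF (by omega)⟩
    · exact Or.inl ⟨h, OrthE.index_commutator_of_two_ne_zero (Orth.two_ne_zero_of_odd_card h) hQ (by omega)⟩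
  · have h1 : (⟨eO Q z, (mem_iff z).1 hz⟩ : commutator (O Q)) ∈ Subgroup.center (commutator (O Q)) := by
      refine Subgroup.mem_center_iff.2 fun k => Subtype.ext ?_
      obtain ⟨k', hk'⟩ := (eO Q).surjective k.1
      have := congrArg (eO Q) (hc k' ((mem_iff k').2 (hk' ▸ k.2)))
      rw [map_mul, map_mul, hk'] at this
      exact this
    rcases (mem_center_commutator_iff hQ h5 _).1 h1 with e | e
    · exact Or.inl ((eO Q).injective (e.trans (map_one _).symm))
    · exact Or.inr e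

omit [Fintype F] [DecidableEq F] [Finite V] in
theorem neg (h : (2 : F) = 0 ∨ negOne Q ∉ commutator (O Q)) :
    ∀ z ∈ commutator (Form.ofQuad Q).O, IsNeg z → z = 1 := by
  intro z hz hn
  rcases h with h | h
  · refine Subtype.ext (LinearEquiv.ext fun x => ?_)
    rw [hn, neg_eq_iff_add_eq_zero]
    change x + x = 0
    rw [← two_smul F x, h, zero_smul]
  · refine absurd ?_ h
    have e : eO Q z = negOne Q := O_ext hn
    exact e ▸ (mem_iff z).1 hz

omit [Fintype F] [DecidableEq F] in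
theorem iso {ι : Type} [Fintype ι] [DecidableEq ι] (Q : QuadraticForm F (ι → F)) :
    Nonempty (POmega F ⇑Q ≃* commutator (Form.ofQuad Q).O ⧸ Subgroup.center (commutator (Form.ofQuad Q).O)) :=
  ⟨(pOmegaEquiv Q).trans (pOmCongr (eO Q).symm)⟩

end Br

open CL.Orth CL.OrthE QuadraticMap

theorem br_sp {m : ℕ} (hm : 1 ≤ m) : Ty (Sp.spForm m F) m 1 ∧ Tgt (Sp.spForm m F) ⊤ ∧
    Nonempty (PSp m F ≃* (⊤ : Subgroup (Sp.spForm m F).O) ⧸
      Subgroup.center (⊤ : Subgroup (Sp.spForm m F).O)) := by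
  refine ⟨⟨Sp.spForm_nondeg m F, Or.inl ⟨rfl, rfl, Sp.finrank_sp m F⟩, _, _, Sp.isHyp_std m F,
    fun v hv _ => ?_⟩, ⟨inferInstance, Or.inl ⟨rfl, Subgroup.index_top⟩, fun z _ hc => ?_⟩,
    ⟨centerQuotCongr ((Sp.spEquiv m F).trans Subgroup.topEquiv.symm)⟩⟩
  · obtain ⟨h1, h2⟩ := (Sp.isHyp_std m F).mem_perp_span.1 hv
    funext i
    rcases i with i | i
    · simpa [Sp.spForm_B_single_inr] using h2 i
    · simpa [Sp.spForm_B_single_inl] using h1 i
  · obtain ⟨A, rfl⟩ := (Sp.spEquiv m F).surjective z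
    have hA : A ∈ Subgroup.center (Matrix.symplecticGroup (Fin m) F) :=
      Subgroup.mem_center_iff.2 fun B => (Sp.spEquiv m F).injective (by
        rw [map_mul, map_mul]; exact hc _ (Subgroup.mem_top _))
    rcases SpCenter.mem_center_iff.1 hA with e | e
    · left
      rw [show A = 1 from Subtype.ext e, map_one]
    · right
      intro v
      rw [Sp.spEquiv_apply, e, Matrix.neg_mulVec, Matrix.one_mulVec]

theorem br_odd {m : ℕ} (hm : 3 ≤ m) (hq : Odd (Fintype.card F)) :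
    ∃ (f : Form (.quad F) (Unit ⊕ (Fin m ⊕ Fin m) → F)) (H : Subgroup f.O), Ty f m 1 ∧ Tgt f H ∧
      (∀ z ∈ H, IsNeg z → z = 1) ∧
      Nonempty (POmega F (quadFormOdd m F) ≃* H ⧸ Subgroup.center H) := by
  have h2 := Orth.two_ne_zero_of_odd_card hq
  have hQ := QOdd_nondeg m F h2
  have hd : finrank F (Unit ⊕ (Fin m ⊕ Fin m) → F) = 2 * m + 1 := by simp; ring
  have hy : (Form.ofQuad (QOdd m F)).IsHyp (fun i : Fin m => Pi.single (.inr (.inl i)) 1)
      (fun i => Pi.single (.inr (.inr i)) 1) := by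
    constructor <;> intros <;>
      simp [Form.ofQuad_q, Form.ofQuad_B, QOdd_apply, polar_QOdd, Pi.single_apply, eq_comm]
  refine ⟨Form.ofQuad (QOdd m F), commutator _, ⟨(Form.ofQuad_nondeg_iff _).2 hQ,
    Or.inr ⟨rfl, by omega, hd⟩, _, _, hy, fun v hv h0 => ?_⟩, Br.tgt hQ (by omega), Br.neg (Or.inr ?_),
    Br.iso (QOdd m F)⟩
  · obtain ⟨h1, h1'⟩ := hy.mem_perp_span.1 hv
    have a1 : ∀ i, v (.inr (.inr i)) = 0 := fun i => by
      simpa [Form.ofQuad_B, polar_QOdd, Pi.single_apply] using h1 i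
    have a2 : ∀ i, v (.inr (.inl i)) = 0 := fun i => by
      simpa [Form.ofQuad_B, polar_QOdd, Pi.single_apply] using h1' i
    rw [Form.ofQuad_q, QOdd_apply] at h0
    funext i
    rcases i with i | i | i
    · simpa [a1] using h0
    · exact a2 i
    · exact a1 i
  · rw [negOne_mem_commutator_iff h2 hQ, hd]
    rintro ⟨h, -⟩
    exact (Nat.not_even_iff_odd.2 (odd_two_mul_add_one m)) h

theorem br_plus {m : ℕ} (hm : 4 ≤ m) :
    ∃ (f : Form (.quad F) (Fin m ⊕ Fin m → F)) (H : Subgroup f.O), Ty f m 0 ∧ Tgt f H ∧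
      (m = 5 → Fintype.card F = 3 → ∀ z ∈ H, IsNeg z → z = 1) ∧
      Nonempty (POmega F (quadFormPlus m F) ≃* H ⧸ Subgroup.center H) := by
  have hQ := QPlus_nondeg m F
  have hd : finrank F (Fin m ⊕ Fin m → F) = 2 * m + 0 := by simp; ring
  have hy : (Form.ofQuad (QPlus m F)).IsHyp (fun i : Fin m => Pi.single (.inl i) 1)
      (fun i => Pi.single (.inr i) 1) := by
    constructor <;> intros <;>
      simp [Form.ofQuad_q, Form.ofQuad_B, QPlus_apply, polar_QPlus, Pi.single_apply, eq_comm]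
  refine ⟨Form.ofQuad (QPlus m F), commutator _, ⟨(Form.ofQuad_nondeg_iff _).2 hQ,
    Or.inr ⟨rfl, by omega, hd⟩, _, _, hy, fun v hv _ => ?_⟩, Br.tgt hQ (by omega),
    fun h5 h3 => Br.neg (Or.inr ?_), Br.iso (QPlus m F)⟩
  · obtain ⟨h1, h1'⟩ := hy.mem_perp_span.1 hv
    funext i
    rcases i with i | i
    · simpa [Form.ofQuad_B, polar_QPlus, Pi.single_apply] using h1' i
    · simpa [Form.ofQuad_B, polar_QPlus, Pi.single_apply] using h1 i
  · have ho : Odd (Fintype.card F) := by rw [h3]; decide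
    rw [negOne_mem_commutator_iff (Orth.two_ne_zero_of_odd_card ho) hQ, dsc_QPlus, sqSign_neg_one_pow ho, h3, h5]
    rintro ⟨-, h⟩
    exact absurd h (by decide)

theorem br_minus {m : ℕ} (hm : 3 ≤ m) {a b : F}
    (hab : ∀ z₁ z₂ : F, z₁ ^ 2 + a * z₁ * z₂ + b * z₂ ^ 2 = 0 → z₁ = 0 ∧ z₂ = 0) :
    ∃ (f : Form (.quad F) ((Fin m ⊕ Fin m) ⊕ Fin 2 → F)) (H : Subgroup f.O), Ty f m 2 ∧ Tgt f H ∧
      (m = 3 → ∀ z ∈ H, IsNeg z → z = 1) ∧
      Nonempty (POmega F (quadFormMinus m F a b) ≃* H ⧸ Subgroup.center H) := by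
  have hQ := QMinus_nondeg m F hab
  have hd : finrank F ((Fin m ⊕ Fin m) ⊕ Fin 2 → F) = 2 * m + 2 := by simp; ring
  have hy : (Form.ofQuad (QMinus m F a b)).IsHyp (fun i : Fin m => Pi.single (.inl (.inl i)) 1)
      (fun i => Pi.single (.inl (.inr i)) 1) := by
    constructor <;> intros <;>
      simp [Form.ofQuad_q, Form.ofQuad_B, QMinus_apply, polar_QMinus, Pi.single_apply, eq_comm]
  refine ⟨Form.ofQuad (QMinus m F a b), commutator _, ⟨(Form.ofQuad_nondeg_iff _).2 hQ,
    Or.inr ⟨rfl, le_rfl, hd⟩, _, _, hy, fun v hv h0 => ?_⟩, Br.tgt hQ (by omega),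
    fun h3 => Br.neg ?_, Br.iso (QMinus m F a b)⟩
  · obtain ⟨h1, h1'⟩ := hy.mem_perp_span.1 hv
    have a1 : ∀ i, v (.inl (.inr i)) = 0 := fun i => by
      simpa [Form.ofQuad_B, polar_QMinus, Pi.single_apply] using h1 i
    have a2 : ∀ i, v (.inl (.inl i)) = 0 := fun i => by
      simpa [Form.ofQuad_B, polar_QMinus, Pi.single_apply] using h1' i
    rw [Form.ofQuad_q, QMinus_apply] at h0
    obtain ⟨b0, b1⟩ := hab (v (.inr 0)) (v (.inr 1)) (by simpa [a1] using h0)
    funext i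
    rcases i with (i | i) | i
    · exact a2 i
    · exact a1 i
    · fin_cases i
      exacts [b0, b1]
  · rcases Nat.even_or_odd (Fintype.card F) with h | h
    · exact Or.inl (two_eq_zero_of_even_card h)
    · right
      have h2 := Orth.two_ne_zero_of_odd_card h
      have h4 : Fintype.card F ^ (m + 1) % 4 = 1 := by
        obtain ⟨k, hk⟩ := h
        rw [h3, hk, show (2 * k + 1) ^ (3 + 1) = 4 * (4 * k ^ 4 + 8 * k ^ 3 + 6 * k ^ 2 + 2 * k) + 1 by ring]
        omega
      rw [negOne_mem_commutator_iff h2 hQ, dsc_QMinus h2 m hab, sqSign_neg_one_pow h, if_pos h4]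
      rintro ⟨-, h⟩
      exact absurd h (by decide)

end CL.DG4
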