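/-
S4984, block DES: descent from the isometry group to H / Z(H).
chi|H = e * (sum of t conjugates of chi'), t divides the index (1, 2, 4), e^2 t = <chi|H,chi|H> <= index
with equality iff chi vanishes off H.  So chi(1) = e t chi'(1) with e t | index, and 2 e t | index
(or index = 1) when chi(g) <> 0 for some g outside H.  Z(H) <= ker chi (cen), so chi' inflates from H/Z(H).
-/
import Cfsg.Agent.CLAS.DG4.Def
import Cfsg.Prelude.Def_DegreeGraph
import Cfsg.Agent.CHAR.Ramified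
import Cfsg.Agent.CHAR.Faithful
import Cfsg.Agent.CHAR.Quot

set_option autoImplicit false
set_option linter.unusedSectionVars false

namespace CL.DG4

open Cfsg CL.Witt CL.Zel Module Submodule
open scoped ComplexConjugate

variable {F V : Type} [Field F] [Fintype F] [DecidableEq F] [AddCommGroup V] [Module F V]
  [Finite V] {T : FormType F} {f : Form T V} {r e a : ℕ}

namespace Des
open CL.Char

/-- Clifford descent to `H / Z(H)`. -/
theorem gen {G : Type} [Group G] [Finite G] (H : Subgroup G) [H.Normal] {χ : G → ℂ}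
    (hχ : IsIrrCharacter G χ) {d : ℕ} (hd : χ 1 = d)
    (hz : ∀ z ∈ H, (∀ h ∈ H, h * z = z * h) → χ z = χ 1) :
    ∃ e t c : ℕ, c ∈ charDegrees (H ⧸ Subgroup.center H) ∧ d = e * t * c ∧ 0 < e ∧ t ∣ H.index ∧
      e ^ 2 * t ≤ H.index ∧ (e ^ 2 * t = H.index → ∀ g, g ∉ H → χ g = 0) := by
  have := Fintype.ofFinite G
  have := Fintype.ofFinite H
  have hr := hχ.isCharacter.res H
  obtain ⟨θ, hθ, hne⟩ := hr.exists_irr_inner_ne_zero fun h => hχ.one_ne_zero (congrFun h 1)
  obtain ⟨e, he⟩ := hr.exists_nat_inner hθ.isCharacter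
  have h1 := clifford_degree hχ hθ hne
  have h2 := clifford_norm hχ hθ hne
  have h3 : classInner χ χ = 1 := hχ.inner_self
  obtain ⟨ψ, hψ, e1⟩ := hθ.exists_quot (N := Subgroup.center H) fun z hz' =>
    hθ.mem_charKer.1 (hr.charKer_le_of_inner_ne_zero hθ hne (hr.mem_charKer.2
      (hz z z.2 fun h hh => congrArg Subtype.val (Subgroup.mem_center_iff.1 hz' ⟨h, hh⟩))))
  have e2 : θ 1 = charDegree ψ := by rw [e1]; exact hψ.apply_one_eq_charDegree
  rw [he] at h1 h2 hne
  have h4 : classInner (fun n : H => χ n) (fun n : H => χ n) = (e ^ 2 * (inertia H θ).index : ℕ) := by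
    rw [h2]; push_cast; rfl
  refine ⟨e, (inertia H θ).index, charDegree ψ, ⟨⟨ψ, hψ⟩, rfl⟩, ?_, Nat.pos_of_ne_zero ?_,
    Subgroup.index_dvd_of_le (le_inertia hθ.isClassFunction), inner_res_self_le_index H h3 h4,
    fun h => (inner_res_self_eq_index_iff H h3).1 (by rw [h4, h])⟩
  · rw [hd, e2] at h1; exact_mod_cast h1
  · rintro rfl; exact hne Nat.cast_zero

theorem ar {n e t : ℕ} (hn : n = 1 ∨ n = 2 ∨ n = 4) (he : 0 < e) (ht : t ∣ n) (h : e ^ 2 * t ≤ n) :
    e * t ∣ n ∧ (e ^ 2 * t ≠ n → 2 * (e * t) ∣ n) := by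
  have t0 : 0 < t := Nat.pos_of_dvd_of_pos ht (by omega)
  have t4 : t ≤ 4 := (Nat.le_of_dvd (by omega) ht).trans (by omega)
  have e2 : e ≤ 2 := by
    by_contra c
    have : 9 * 1 ≤ e ^ 2 * t := Nat.mul_le_mul (by nlinarith) t0
    omega
  rcases hn with rfl | rfl | rfl <;> interval_cases e <;> interval_cases t <;> simp_all

end Des

theorem desc {H : Subgroup f.O} (hT : Tgt f H) {p s : ℕ} (hp : p.Prime) (hs : s.Prime) (hps : p ≠ s)
    (h : Wit f H p s) : ∃ d ∈ charDegrees (H ⧸ Subgroup.center H), p * s ∣ d := by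
  obtain ⟨χ, d, hχ, hd, hz, hpd, hsd, h2⟩ := h
  have := hT.normal
  obtain ⟨e, t, c, hc, rfl, he, ht, hle, hv⟩ := Des.gen H hχ hd fun z hzH hc => by
    rcases hT.cen z hzH hc with rfl | h
    · rfl
    · exact hz z hzH h
  have hn : H.index = 1 ∨ H.index = 2 ∨ H.index = 4 := by
    rcases hT.idx with h | ⟨-, -, h | h⟩
    · exact Or.inl h.2
    · exact Or.inr (Or.inr h.2)
    · exact Or.inr (Or.inl h.2)
  obtain ⟨a1, a2⟩ := Des.ar hn he ht hle
  have m0 : 0 < e * t := Nat.pos_of_dvd_of_pos a1 (by omega)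
  have key : ∀ q : ℕ, q.Prime → q ∣ e * t * c → (q = 2 → p = 2 ∨ s = 2) → q ∣ c := by
    intro q hq hqd h
    by_cases q2 : q = 2
    · have two : 2 * (e * t) ∣ e * t * c → q ∣ c := fun h' => by
        rw [q2]; exact Nat.dvd_of_mul_dvd_mul_left m0 (by rwa [mul_comm 2] at h')
      rcases h2 (h q2) with h3 | ⟨h3, g, hg, hg0⟩
      · exact two ((Nat.mul_dvd_mul_left 2 a1).trans h3)
      · rcases hT.idx with h4 | ⟨-, h4, -⟩
        · rw [h4.2, Nat.dvd_one] at a1
          rwa [a1, one_mul] at hqd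
        · exact two ((a2 fun h5 => hg0 (hv h5 g (h4 g hg))).trans h3)
    · refine (hq.dvd_mul.1 hqd).resolve_left fun h' => q2 ?_
      have h4 : q ∣ 2 ^ 2 := (h'.trans a1).trans (by rcases hn with h | h | h <;> rw [h] <;> decide)
      exact (Nat.prime_dvd_prime_iff_eq hq Nat.prime_two).1 (hq.dvd_of_dvd_pow h4)
  exact ⟨c, hc, ((Nat.coprime_primes hp hs).2 hps).mul_dvd_of_dvd_of_dvd (key p hp hpd Or.inl)
    (key s hs hsd Or.inr)⟩

end CL.DG4
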