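/-
S4984, block T2: rank 2 and rank 3 permutation characters.
pi(g) = #fixed points has norm 2 resp. <= 3.  Rank 3: A = adjacency matrix, commutes with G,
A^2 = k I + lam A + mu (J - I - A); E_s = (A - t I - (k-t)/n J)/(s-t) and E_t are orthogonal
idempotents with E_s + E_t + J/n = I, non-zero (A, I, J independent); their images are
subrepresentations, chi_s(g) = trace(g E_s) = sum_x E_s(x, g x); norm <= 3 makes them irreducible.
-/
import Cfsg.Agent.CLAS.DG4.Def
import Cfsg.Agent.CHAR.PermRank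
import Cfsg.Agent.CHAR.FS

set_option autoImplicit false

namespace CL.DG4

open Cfsg CL.Witt CL.Zel Module Submodule
open scoped ComplexConjugate

variable {G X : Type} [Group G] [Finite G] [Finite X] [MulAction G X]

namespace T2
open Matrix MulAction CL.Char

section
variable {G X : Type} [Group G] [Fintype X] [DecidableEq X] [MulAction G X]

/-- The trace of `g` against an invariant matrix. -/
def ph (M : Matrix X X ℂ) (g : G) : ℂ := ∑ x, M x (g • x)

theorem tr (M : Matrix X X ℂ) (g : G) :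
    LinearMap.trace ℂ _ (CL.Char.permRep G X g * toLin' M) = ph M g := by
  rw [LinearMap.trace_eq_matrix_trace ℂ (Pi.basisFun ℂ X), Matrix.trace, ph,
    ← Fintype.sum_equiv (MulAction.toPerm g) (fun x => _) _ (fun _ => rfl)]
  simp [CL.Char.permRep_apply]

theorem isChar (M : Matrix X X ℂ) (hM : M * M = M)
    (hi : ∀ (g : G) x y, M (g • x) (g • y) = M x y) : IsCharacter G (ph M) := by
  have h := isCharacter_trace_mul_proj (CL.Char.permRep G X) (toLin' M)
    (by rw [Module.End.mul_eq_comp, ← toLin'_mul, hM]) (fun g => by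
      refine LinearMap.ext fun f => funext fun x => ?_
      simp only [Module.End.mul_apply, CL.Char.permRep_apply, toLin'_apply, mulVec, dotProduct]
      refine (Fintype.sum_equiv (MulAction.toPerm g) _ _ fun y => ?_).symm
      simp only [MulAction.toPerm_apply, inv_smul_smul]
      rw [← hi g (g⁻¹ • x) y, smul_inv_smul])
  simpa only [tr] using h

theorem ne_zero (M : Matrix X X ℂ) (hM : M * M = M) (h0 : M ≠ 0) : (ph M : G → ℂ) ≠ 0 := by
  intro h
  have h1 := tr M (1 : G)
  rw [h, map_one, one_mul] at h1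
  have h2 : IsIdempotentElem (toLin' M) := by
    rw [IsIdempotentElem, Module.End.mul_eq_comp, ← toLin'_mul, hM]
  have h3 := LinearMap.IsIdempotentElem.eq_zero_of_trace_eq_zero h2 h1
  exact h0 (toLin'.injective (by rw [h3, map_zero]))

end

theorem cnt {X : Type} [Fintype X] (P : X → Prop) [DecidablePred P] :
    (Nat.card {z // P z} : ℂ) = ∑ z, if P z then 1 else 0 := by
  rw [Nat.card_eq_fintype_card, Fintype.card_subtype, Finset.sum_boole]

theorem idem {M : Type} [Ring M] [Algebra ℂ M] (A J : M) (k lam mu n s t : ℂ)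
    (hAA : A * A = k • 1 + lam • A + mu • (J - 1 - A)) (hAJ : A * J = k • J) (hJA : J * A = k • J)
    (hJJ : J * J = n • J) (hn : n ≠ 0) (hid : k * k = k + lam * k + mu * (n - 1 - k))
    (h1 : s + t = lam - mu) (h2 : s * t = mu - k) (hne : s - t ≠ 0) :
    ((s - t)⁻¹ • (A - t • 1 - ((k - t) / n) • J)) * ((s - t)⁻¹ • (A - t • 1 - ((k - t) / n) • J)) =
      (s - t)⁻¹ • (A - t • 1 - ((k - t) / n) • J) := by
  simp only [mul_sub, sub_mul, smul_mul_assoc, mul_smul_comm, mul_one, one_mul, hAA, hAJ, hJA, hJJ]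
  match_scalars
  · field_simp
    linear_combination h2
  · field_simp
    linear_combination (-1) * h1
  · field_simp
    linear_combination (-1) * hid + k * h1 - h2

theorem irr {G : Type} [Group G] [Fintype G] {a b π : G → ℂ} (ha : IsCharacter G a)
    (hb : IsCharacter G b) (ha0 : a ≠ 0) (hb0 : b ≠ 0) (h : ∀ g, 1 + a g + b g = π g) {m : ℕ}
    (hm : classInner π π = m) (h3 : m ≤ 3) : IsIrrCharacter G a ∧ IsIrrCharacter G b := by
  have e : π = (fun _ => 1) + a + b := funext fun g => (h g).symm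
  have h1 : IsCharacter G fun _ => (1 : ℂ) := isCharacter_one
  obtain ⟨n1, p1, e1⟩ := ha.exists_pos_inner_self ha0
  obtain ⟨n2, p2, e2⟩ := hb.exists_pos_inner_self hb0
  obtain ⟨n3, e3⟩ := h1.exists_nat_inner ha
  obtain ⟨n4, e4⟩ := h1.exists_nat_inner hb
  obtain ⟨n5, e5⟩ := ha.exists_nat_inner h1
  obtain ⟨n6, e6⟩ := ha.exists_nat_inner hb
  obtain ⟨n7, e7⟩ := hb.exists_nat_inner h1
  obtain ⟨n8, e8⟩ := hb.exists_nat_inner ha
  rw [e] at hm
  simp only [classInner_add_left, classInner_add_right, isIrrCharacter_one.inner_self,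
    e1, e2, e3, e4, e5, e6, e7, e8] at hm
  have hm' : 1 + n5 + n7 + (n3 + n1 + n8) + (n4 + n6 + n2) = m := by
    have : ((1 + n5 + n7 + (n3 + n1 + n8) + (n4 + n6 + n2) : ℕ) : ℂ) = m := by
      push_cast
      linear_combination hm
    exact_mod_cast this
  obtain rfl : n1 = 1 := by omega
  obtain rfl : n2 = 1 := by omega
  exact ⟨ha.isIrr_of_inner_self (by rw [e1, Nat.cast_one]),
    hb.isIrr_of_inner_self (by rw [e2, Nat.cast_one])⟩

end T2

theorem isCharacter_fix : IsCharacter G fun g => (Nat.card {x : X // g • x = x} : ℂ) := by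
  exact CL.Char.isCharacter_perm G X

theorem rank2 (h1 : 2 ≤ Nat.card X) (h2 : ∀ x y x' y' : X, x ≠ y → x' ≠ y' → ∃ g : G, g • x = x' ∧ g • y = y') :
    IsIrrCharacter G fun g => (Nat.card {x : X // g • x = x} : ℂ) - 1 := by
  have : Nontrivial X := Finite.one_lt_card_iff_nontrivial.1 h1
  have : MulAction.IsPretransitive G X := ⟨fun x x' => by
    obtain ⟨y, hy⟩ := exists_ne x
    obtain ⟨y', hy'⟩ := exists_ne x'
    obtain ⟨g, hg, -⟩ := h2 x y x' y' hy.symm hy'.symm
    exact ⟨g, hg⟩⟩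
  exact (CL.Char.isIrr_perm_sub_one_iff X).2
    (MulAction.is_two_pretransitive_iff.2 fun h h' => h2 _ _ _ _ h h')

theorem rank3 (R : X → X → Prop) (hs : ∀ x y, R x y → R y x) (hi : ∀ x, ¬ R x x)
    (hG : ∀ (g : G) x y, R x y → R (g • x) (g • y))
    (h2 : ∀ x y x' y' : X, x ≠ y → x' ≠ y' → (R x y ↔ R x' y') → ∃ g : G, g • x = x' ∧ g • y = y')
    (hR : ∃ x y, R x y) (hR' : ∃ x y, x ≠ y ∧ ¬ R x y) {k lam mu : ℕ} {s t : ℤ}
    (hk : ∀ x, Nat.card {y // R x y} = k)
    (hl : ∀ x y, R x y → Nat.card {z // R x z ∧ R y z} = lam)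
    (hm : ∀ x y, x ≠ y → ¬ R x y → Nat.card {z // R x z ∧ R y z} = mu)
    (hst : s + t = lam - mu) (hst' : s * t = mu - k) (hne : s ≠ t) :
    ∃ χs χt : G → ℂ, IsIrrCharacter G χs ∧ IsIrrCharacter G χt ∧
      (∀ g : G, 1 + χs g + χt g = Nat.card {x : X // g • x = x}) ∧
      ∀ g : G, ((s : ℂ) - t) * χs g = Nat.card {x : X // R x (g • x)} -
        t * Nat.card {x : X // g • x = x} - (k - t) := by
  classical
  let := Fintype.ofFinite G
  let := Fintype.ofFinite X
  obtain ⟨x₀, y₀, r₀⟩ := hR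
  obtain ⟨x₁, y₁, n₁, r₁⟩ := hR'
  have ne : ∀ {x y}, R x y → x ≠ y := fun h e => hi _ (e ▸ h)
  have hGi : ∀ (g : G) x y, R (g • x) (g • y) ↔ R x y := fun g x y =>
    ⟨fun h => by simpa using hG g⁻¹ _ _ h, hG g x y⟩
  have nb : ∀ x, ∃ y, R x y := fun x => by
    have h0 : 0 < Nat.card {y // R x y} := by
      rw [hk x, ← hk x₀]
      exact Nat.card_pos_iff.2 ⟨⟨⟨y₀, r₀⟩⟩, inferInstance⟩
    obtain ⟨⟨y, hy⟩⟩ := (Nat.card_pos_iff.1 h0).1
    exact ⟨y, hy⟩
  have h3 : Nat.card (MulAction.orbitRel.Quotient G (X × X)) ≤ 3 := by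
    have := Nat.card_le_card_of_surjective (fun i : Fin 3 =>
      (Quotient.mk'' (![(x₀, x₀), (x₀, y₀), (x₁, y₁)] i) : MulAction.orbitRel.Quotient G (X × X)))
      (fun q => by
        induction q using Quotient.inductionOn' with
        | h p =>
          obtain ⟨x, y⟩ := p
          by_cases e : x = y
          · subst e
            obtain ⟨y, hy⟩ := nb x
            obtain ⟨g, hg, -⟩ := h2 x y x₀ y₀ (ne hy) (ne r₀) (iff_of_true hy r₀)
            exact ⟨0, Quotient.eq''.2 (MulAction.orbitRel_apply.2 ⟨g, Prod.ext hg hg⟩)⟩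
          by_cases r : R x y
          · obtain ⟨g, hg, hg'⟩ := h2 x y x₀ y₀ e (ne r₀) (iff_of_true r r₀)
            exact ⟨1, Quotient.eq''.2 (MulAction.orbitRel_apply.2 ⟨g, Prod.ext hg hg'⟩)⟩
          · obtain ⟨g, hg, hg'⟩ := h2 x y x₁ y₁ e n₁ (iff_of_false r r₁)
            exact ⟨2, Quotient.eq''.2 (MulAction.orbitRel_apply.2 ⟨g, Prod.ext hg hg'⟩)⟩)
    simpa using this
  set n : ℂ := (Fintype.card X : ℂ) with hn
  have n0 : n ≠ 0 := by
    have : Nonempty X := ⟨x₀⟩
    exact Nat.cast_ne_zero.2 Fintype.card_ne_zero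
  obtain ⟨A, hA⟩ : ∃ A : Matrix X X ℂ, ∀ x y, A x y = if R x y then 1 else 0 :=
    ⟨Matrix.of fun x y => if R x y then 1 else 0, fun _ _ => rfl⟩
  obtain ⟨J, hJ⟩ : ∃ J : Matrix X X ℂ, ∀ x y, J x y = 1 := ⟨Matrix.of fun _ _ => 1, fun _ _ => rfl⟩
  have row : ∀ x, ∑ z, (if R x z then (1 : ℂ) else 0) = k := fun x => by rw [← T2.cnt, hk]
  have hAJ : A * J = (k : ℂ) • J := by
    ext x y
    simp only [Matrix.mul_apply, hA, hJ, mul_one, Matrix.smul_apply, smul_eq_mul, row]
  have hJA : J * A = (k : ℂ) • J := by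
    ext x y
    simp only [Matrix.mul_apply, hA, hJ, mul_one, one_mul, Matrix.smul_apply, smul_eq_mul]
    rw [← row y]
    exact Finset.sum_congr rfl fun z _ => if_congr ⟨hs _ _, hs _ _⟩ rfl rfl
  have hJJ : J * J = n • J := by
    ext x y
    simp [Matrix.mul_apply, hJ, hn]
  have hAA : A * A = (k : ℂ) • (1 : Matrix X X ℂ) + (lam : ℂ) • A + (mu : ℂ) • (J - 1 - A) := by
    ext x y
    have e : (A * A) x y = Nat.card {z // R x z ∧ R y z} := by
      rw [T2.cnt, Matrix.mul_apply]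
      refine Finset.sum_congr rfl fun z _ => ?_
      have : R z y ↔ R y z := ⟨hs _ _, hs _ _⟩
      by_cases a : R x z <;> by_cases b : R y z <;> simp [hA, a, b, this]
    rw [e]
    by_cases exy : x = y
    · subst exy
      simp [hA, hJ, hi, ← hk x]
    by_cases r : R x y
    · rw [hl x y r]
      simp [hA, hJ, r, exy]
    · rw [hm x y exy r]
      simp [hA, hJ, r, exy]
  have hid : (k : ℂ) * k = k + lam * k + mu * (n - 1 - k) := by
    have e : A * (A * J) = (A * A) * J := (mul_assoc _ _ _).symm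
    rw [hAA, hAJ] at e
    simp only [mul_smul_comm, add_mul, sub_mul, smul_mul_assoc, one_mul, hAJ, hJJ] at e
    have := congrFun (congrFun e x₀) x₀
    simpa [hJ] using this
  have c1 : (s : ℂ) + t = lam - mu := by exact_mod_cast hst
  have c2 : (s : ℂ) * t = mu - k := by exact_mod_cast hst'
  have c3 : (s : ℂ) - t ≠ 0 := sub_ne_zero.2 (by exact_mod_cast hne)
  have key : ∀ s t : ℂ, s + t = lam - mu → s * t = mu - k → s - t ≠ 0 → ∃ χ : G → ℂ,
      IsCharacter G χ ∧ χ ≠ 0 ∧ ∀ g : G, (s - t) * χ g = Nat.card {x : X // R x (g • x)} -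
        t * Nat.card {x : X // g • x = x} - (k - t) := by
    intro s t c1 c2 c3
    have hE := T2.idem A J k lam mu n s t hAA hAJ hJA hJJ n0 hid c1 c2 c3
    refine ⟨T2.ph _, T2.isChar _ hE fun g x y => ?_, T2.ne_zero _ hE fun h => ?_, fun g => ?_⟩
    · simp [hA, hJ, hGi, Matrix.one_apply]
    · have e0 := congrFun (congrFun h x₀) y₀
      have e1 := congrFun (congrFun h x₁) y₁
      simp only [Matrix.smul_apply, Matrix.sub_apply, hA, hJ, Matrix.one_apply_ne (ne r₀),
        Matrix.one_apply_ne n₁, if_pos r₀, if_neg r₁, smul_eq_mul, Matrix.zero_apply,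
        mul_eq_zero, inv_eq_zero, c3, false_or] at e0 e1
      exact one_ne_zero (α := ℂ) (by linear_combination e0 - e1)
    · rw [T2.cnt, T2.cnt, T2.ph]
      simp only [Matrix.smul_apply, Matrix.sub_apply, hA, hJ, smul_eq_mul, ← Finset.mul_sum,
        Finset.sum_sub_distrib, Matrix.one_apply, Finset.sum_const, Finset.card_univ,
        nsmul_eq_mul, mul_one, ← hn, eq_comm (a := g • _)]
      field_simp
  obtain ⟨a, ha, ha0, ea⟩ := key s t c1 c2 c3
  obtain ⟨b, hb, hb0, eb⟩ := key t s (by rw [add_comm, c1]) (by rw [mul_comm, c2])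
    (by rw [← neg_sub]; exact neg_ne_zero.2 c3)
  have hsum : ∀ g : G, 1 + a g + b g = Nat.card {x : X // g • x = x} := fun g => by
    apply mul_left_cancel₀ c3
    linear_combination ea g - eb g
  obtain ⟨i1, i2⟩ := T2.irr ha hb ha0 hb0 hsum (CL.Char.classInner_perm_perm X X) h3
  exact ⟨a, b, i1, i2, hsum, ea⟩

end CL.DG4
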