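/-
S4984, block IV.  S = ker c.tau <= c.P.  psi and theta o rho restrict to characters of S, so it is enough
to do the permutation character: sum_h fix(h) conj theta(rho h) = sum_x sum_{h in S_x} conj theta(rho h).
The inner sum is 0 as soon as S_x contains a subgroup N with sum_{n in N} theta(rho n) = 0.
a >= 2, x a vector (for a point take a spanning vector): N = Eichler maps eichEquiv y u b with centre
y in W, u perp y, fixing x; they act on W as 1 + X, X in Hom(W/y, y) ONTO.  x in W^perp: y = x if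
x in W - 0, else any y; u perp x, y.  x notin W^perp: H = W cap x^perp; use N = products with centres
y in H, u = t(x + w0), w0 in W with B(x + w0, x) = 0: X runs over Hom(W/H, H).
a = 1, theta <> 1 linear, x a point: S_x maps ONTO GL_1 (Witt: scale x_0 by c, fix or scale x by c^-1).
-/
import Cfsg.Agent.CLAS.DG4.Geo
import Cfsg.Agent.CLAS.DG4.GeoB
import Cfsg.Agent.CLAS.DG4.T2
import Cfsg.Agent.CHAR.Faithful
import Cfsg.Agent.CHAR.Quot

set_option autoImplicit false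
set_option linter.unusedSectionVars false

namespace CL.DG4

open Cfsg CL.Witt CL.Zel Module Submodule
open scoped ComplexConjugate

namespace IVl
open CL.Char

theorem inn {G : Type} [Group G] [Fintype G] (γ : G → ℂ) :
    classInner γ (fun _ => 1) = 0 ↔ ∑ g, γ g = 0 := by
  have h := card_mul_classInner γ (fun _ => 1)
  simp only [map_one, mul_one] at h
  rw [← h, mul_eq_zero, or_iff_right (card_ne_zero G)]

theorem img {G H L : Type} [Group G] [Group H] [Group L] [Fintype G] [Fintype H] [Finite L] (j : G →* L)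
    (u : H →* L) {θ : L → ℂ} (hθ : IsCharacter L θ) (hu : ∀ h, ∃ g, j g = u h)
    (h0 : ∑ h, θ (u h) = 0) : ∑ g, θ (j g) = 0 := by
  have := Fintype.ofFinite j.range
  by_contra n
  have h1 : classInner (fun m : j.range => θ m) (fun _ => 1) ≠ 0 := by
    rw [← classInner_comp_surjective j.rangeRestrict j.rangeRestrict_surjective]
    exact fun h => n ((inn _).1 h)
  exact inner_comp_ne_zero_of_constituent (u.codRestrict j.range hu) (hθ.res _) isIrrCharacter_one h1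
    isCharacter_one (by rw [isIrrCharacter_one.inner_self]; exact one_ne_zero) ((inn _).2 h0)

theorem absA {S X : Type} [Group S] [Fintype S] [Finite X] {α β γ : S → ℂ} (hα : IsCharacter S α)
    (hβ : IsCharacter S β) (hγ : IsCharacter S γ) (K : X → Subgroup S)
    (h : ∀ s, α s + β s = Nat.card {x // s ∈ K x}) (hK : ∀ x, ∑ᶠ k : K x, γ k = 0) :
    ∑ s, α s * conj (γ s) = 0 := by
  classical
  have := Fintype.ofFinite X
  have h1 : classInner (α + β) γ = 0 := by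
    rw [classInner_def]
    refine mul_eq_zero_of_right _ ?_
    simp only [Pi.add_apply, h, T2.cnt, Finset.sum_mul]
    rw [Finset.sum_comm]
    refine Finset.sum_eq_zero fun x _ => ?_
    have h2 := congrArg (starRingEnd ℂ) (hK x)
    rw [finsum_eq_sum_of_fintype, map_sum, map_zero] at h2
    rw [← Finset.sum_subtype (Finset.univ.filter (· ∈ K x)) (by simp) (fun s => conj (γ s)),
      Finset.sum_filter] at h2
    refine Eq.trans (Finset.sum_congr rfl fun s _ => ?_) h2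
    split_ifs <;> simp
  rw [← card_mul_classInner, inner_eq_zero_of_add_left hα hβ hγ h1, mul_zero]

variable {F V : Type} [Field F] [Fintype F] [DecidableEq F] [AddCommGroup V] [Module F V]
  [Finite V] {T : FormType F} {f : Form T V} {r e a : ℕ}

theorem red (c : Par f a) {X : Type} [Finite X] {θ : GL (Fin a) F → ℂ} {ψ ξ : f.O → ℂ}
    (hθ : IsCharacter _ θ) (hψ : IsCharacter _ ψ) (hξ : IsCharacter _ ξ) (K : X → Subgroup c.τ.ker)
    (h : ∀ s : c.τ.ker, ψ s.1.1 + ξ s.1.1 = Nat.card {x // s ∈ K x})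
    (hK : ∀ x, ∑ᶠ k : K x, θ (c.ρ k.1.1) = 0) [∀ g, Decidable (c.τ g = 1)] :
    ∑ᶠ g : c.P, (if c.τ g = 1 then ψ g * conj (θ (c.ρ g)) else 0) = 0 := by
  have := GeoB.finO f
  have := Fintype.ofFinite c.P
  have := Fintype.ofFinite c.τ.ker
  rw [finsum_eq_sum_of_fintype, ← Finset.sum_filter,
    Finset.sum_subtype (p := fun g => g ∈ c.τ.ker) _ (by simp)]
  exact absA ((hψ.res c.P).res c.τ.ker) ((hξ.res c.P).res c.τ.ker) ((hθ.comp c.ρ).res c.τ.ker) K h hK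

theorem rho_ext (c : Par f a) {g g' : c.P} (h : ∀ w ∈ c.W, g.1.1 w = g'.1.1 w) : c.ρ g = c.ρ g' := by
  ext i j
  refine Fintype.linearIndependent_iffₛ.1 c.hyp.linearIndependent_left (fun i => (c.ρ g).1 i j)
    (fun i => (c.ρ g').1 i j) ?_ i
  rw [← c.hρ, ← c.hρ, h _ (subset_span ⟨j, rfl⟩)]

theorem cusp (c : Par f a) {θ : GL (Fin a) F → ℂ} (hθ : Cu θ) {G : Type} [Group G] [Finite G] (j : G →* c.P)
    (R : Submodule F c.W) (h0 : R ≠ ⊥) (h1 : R ≠ ⊤)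
    (h : ∀ Z : End F c.W, (∀ w, Z w ∈ R) → (∀ w ∈ R, Z w = 0) →
      ∃ k : G, ∀ w : c.W, (j k).1.1 w = w + Z w) : ∑ᶠ k : G, θ (c.ρ (j k)) = 0 := by
  have := Fintype.ofFinite G
  rw [finsum_eq_sum_of_fintype]
  choose k hk using fun X : (c.W ⧸ R) →ₗ[F] R =>
    h (R.subtype ∘ₗ X ∘ₗ R.mkQ) (fun w => (X _).2) fun w hw => by
      rw [LinearMap.comp_apply, LinearMap.comp_apply, mkQ_apply, (Quotient.mk_eq_zero R).2 hw, map_zero, map_zero]
  let u : Multiplicative ((c.W ⧸ R) →ₗ[F] R) →* GL (Fin a) F :=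
    MonoidHom.mk' (fun X => c.ρ (j (k X.toAdd))) fun X Y => by
      rw [← map_mul]
      refine rho_ext c fun w hw => ?_
      have e1 := hk X.toAdd (⟨w, hw⟩ + (R.subtype ∘ₗ Y.toAdd ∘ₗ R.mkQ) ⟨w, hw⟩)
      have e2 := hk Y.toAdd ⟨w, hw⟩
      have e3 := hk (X * Y).toAdd ⟨w, hw⟩
      have e4 : R.mkQ ((R.subtype ∘ₗ Y.toAdd ∘ₗ R.mkQ) ⟨w, hw⟩) = 0 :=
        (Quotient.mk_eq_zero R).2 (Y.toAdd _).2
      change (j (k (X * Y).toAdd)).1.1 w = (j (k X.toAdd)).1.1 ((j (k Y.toAdd)).1.1 w)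
      rw [LinearMap.comp_apply _ _ (_ + _), LinearMap.comp_apply _ _ (_ + _),
        map_add R.mkQ, e4, add_zero, coe_add] at e1
      refine e3.trans (Eq.trans ?_ ((congrArg _ e2).trans e1).symm)
      simp only [toAdd_mul, LinearMap.comp_apply, LinearMap.add_apply, map_add, coe_add]
      abel
  refine img (c.ρ.comp j) u hθ.1.isCharacter (fun X => ⟨k (Multiplicative.toAdd X), rfl⟩) ?_
  have hs : Ses R.subtype R.mkQ 1 1 1 :=
    ⟨R.injective_subtype, R.mkQ_surjective, by simp, fun _ => rfl, fun _ => rfl⟩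
  have h2 := hs.sum_eq (ofGL θ)
  rw [hθ.2 _ _ (by rw [dim_cls]; exact fun h => h0 (finrank_eq_zero.1 h))
    (by
      rw [dim_cls]
      intro h
      exact h1 (eq_top_of_finrank_eq (by have := R.finrank_quotient_add_finrank; omega))),
    mul_zero] at h2
  rw [← h2]
  refine Fintype.sum_equiv Multiplicative.toAdd _ _ fun X => ?_
  exact GeoB.theta_eq c hθ.1.isClassFunction _ _ fun v => hk X.toAdd v

/-- An Eichler map with centre in `W`. -/
theorem eic (c : Par f a) {p u : V} (hp : p ∈ c.W) (hu : f.B p u = 0) {b : F} (hb : T.π b = f.q u) :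
    ∃ k : c.τ.ker, ∀ v, k.1.1.1 v = f.eich p u b v := by
  have ts := c.hyp.totSing_left
  have h1 : ∀ v ∈ f.perp c.W, f.eich p u b v - v ∈ c.W := fun v hv => by
    rw [f.eich_apply_of_B_eq_zero u b (hv p hp), sub_sub_cancel_left]
    exact neg_mem (smul_mem _ _ hp)
  have hP : f.eichEquiv p u b (ts.1 p hp) hu hb ∈ f.stab c.W :=
    f.mem_stab_iff_le.2 ⟨f.eichEquiv_mem_O _ _ _ _ _ _, fun v hv => by
      have := add_mem (h1 v (ts.le_perp hv)) hv
      rwa [sub_add_cancel] at this⟩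
  exact ⟨⟨⟨⟨_, hP.1⟩, hP⟩, (GeoB.tau_eq_one_iff c _).2 h1⟩, fun _ => rfl⟩

theorem rkW (c : Par f a) : finrank F c.W = a := by
  rw [finrank_span_eq_card c.hyp.linearIndependent_left, Fintype.card_fin]

theorem key (c : Par f a) {x : V} {K : Subgroup c.τ.ker} (hK : ∀ k : c.τ.ker, k.1.1.1 x = x → k ∈ K)
    {p u : V} (hp : p ∈ c.W) (hu : f.B p u = 0) (hx : f.B p x = 0) (hx' : f.B u x = 0) :
    ∃ k : K, ∀ w : c.W, ((c.τ.ker.subtype.comp K.subtype) k).1.1 w = w - (T.ε * f.B u w) • p := by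
  obtain ⟨b, hb, -⟩ := f.lift u
  obtain ⟨k, hk⟩ := eic c hp hu hb
  refine ⟨⟨k, hK k ?_⟩, fun w =>
    (hk w).trans (f.eich_apply_of_B_eq_zero u b (c.hyp.totSing_left.2 p hp w w.2))⟩
  rw [hk, f.eich_apply_of_B_eq_zero u b hx, hx', mul_zero, zero_smul, sub_zero]

theorem rep (hf : f.Nondeg) (W : Submodule F V) (l : W →ₗ[F] F) (x : V) (h : ∀ h : x ∈ W, l ⟨x, h⟩ = 0) :
    ∃ u, (∀ w : W, f.B u w = l w) ∧ f.B u x = 0 := by
  obtain ⟨l', hl'⟩ := l.exists_extend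
  obtain ⟨t, ht⟩ := hf.exists_rep l'
  have ht' : ∀ w : W, f.B t w = l w := fun w => (ht w).trans (LinearMap.congr_fun hl' w)
  by_cases hx : x ∈ W
  · exact ⟨t, ht', by rw [ht' ⟨x, hx⟩, h hx]⟩
  · obtain ⟨t', h3, h4⟩ := hf.exists_perp_eq hx (-f.B t x)
    exact ⟨t + t', fun w => by rw [f.B_add_left, h3 w w.2, add_zero, ht'],
      by rw [f.B_add_left, h4, add_neg_cancel]⟩

theorem lin {W : Type} [AddCommGroup W] [Module F W] {p : W} (p0 : p ≠ 0) (Z : End F W) (h1 : ∀ w, Z w ∈ F ∙ p) :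
    ∃ l : W →ₗ[F] F, ∀ w, l w • p = Z w :=
  ⟨(LinearEquiv.coord F W p p0).toLinearMap ∘ₗ Z.codRestrict _ h1, fun w =>
    LinearEquiv.coord_apply_smul F W p p0 ⟨Z w, h1 w⟩⟩

theorem vecA (hf : f.Nondeg) (ha : 2 ≤ a) (c : Par f a) {θ : GL (Fin a) F → ℂ} (hθ : Cu θ) {x : V}
    {K : Subgroup c.τ.ker} (hK : ∀ k : c.τ.ker, k.1.1.1 x = x → k ∈ K) (hx : x ∈ f.perp c.W) :
    ∑ᶠ k : K, θ (c.ρ k.1.1) = 0 := by
  have := GeoB.finO f
  obtain ⟨p, p0, hp⟩ : ∃ p : c.W, p ≠ 0 ∧ ∀ h : x ∈ c.W, (⟨x, h⟩ : c.W) ∈ F ∙ p := by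
    by_cases h : x ∈ c.W ∧ x ≠ 0
    · exact ⟨⟨x, h.1⟩, fun e => h.2 (congrArg Subtype.val e), fun _ => mem_span_singleton_self _⟩
    · refine ⟨⟨c.x ⟨0, by omega⟩, subset_span ⟨_, rfl⟩⟩, fun e =>
        c.hyp.linearIndependent_left.ne_zero _ (congrArg Subtype.val e), fun h' => ?_⟩
      obtain rfl : x = 0 := by_contra fun n => h ⟨h', n⟩
      exact zero_mem _
  refine cusp c hθ (c.τ.ker.subtype.comp K.subtype) (F ∙ p) (by simpa using p0) (fun h => ?_) fun Z h1 h2 => ?_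
  · have h1 := finrank_span_singleton (K := F) p0
    rw [h, finrank_top, rkW] at h1
    omega
  · obtain ⟨l, hl⟩ := lin p0 Z h1
    have hl0 : ∀ w ∈ F ∙ p, l w = 0 := fun w hw =>
      (smul_eq_zero.1 ((hl w).trans (h2 w hw))).resolve_right p0
    obtain ⟨u, hu, hux⟩ := rep hf c.W (-T.ε • l) x fun h => by
      rw [LinearMap.smul_apply, hl0 _ (hp h), smul_zero]
    obtain ⟨k, hk⟩ := key c hK p.2 (f.B_eq_zero_symm (x := u)
      (by rw [hu, LinearMap.smul_apply, hl0 p (mem_span_singleton_self p), smul_zero])) (hx p p.2) hux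
    refine ⟨k, fun w => ?_⟩
    rw [hk, hu, ← hl, LinearMap.smul_apply, smul_eq_mul, neg_mul, mul_neg, T.ε_mul_ε_mul, neg_smul,
      sub_neg_eq_add, coe_smul]

theorem vecB (ha : 2 ≤ a) (c : Par f a) {θ : GL (Fin a) F → ℂ} (hθ : Cu θ) {x : V}
    {K : Subgroup c.τ.ker} (hK : ∀ k : c.τ.ker, k.1.1.1 x = x → k ∈ K) (hx : x ∉ f.perp c.W) :
    ∑ᶠ k : K, θ (c.ρ k.1.1) = 0 := by
  have := GeoB.finO f
  have ts := c.hyp.totSing_left
  obtain ⟨w1, hw1⟩ : ∃ w1 : c.W, f.B x w1 = 1 := by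
    rw [f.mem_perp'] at hx
    push Not at hx
    obtain ⟨w, hw, n⟩ := hx
    exact ⟨⟨(f.B x w)⁻¹ • w, smul_mem _ _ hw⟩, by rw [f.B_smul_right, inv_mul_cancel₀ n]⟩
  obtain ⟨l, hl⟩ : ∃ l : c.W →ₗ[F] F, ∀ w : c.W, l w = f.B x w := ⟨f.B x ∘ₗ c.W.subtype, fun _ => rfl⟩
  refine cusp c hθ (c.τ.ker.subtype.comp K.subtype) (LinearMap.ker l) (fun h => ?_) (fun h => ?_)
    fun Z h1 h2 => ?_
  · have h1 := LinearMap.finrank_le_finrank_of_injective (LinearMap.ker_eq_bot.1 h)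
    rw [rkW, finrank_self] at h1
    omega
  · have h1 : w1 ∈ LinearMap.ker l := h ▸ mem_top
    rw [LinearMap.mem_ker, hl, hw1] at h1
    exact one_ne_zero h1
  · have hZ : ∀ w : c.W, Z w = f.B x w • Z w1 := fun w => by
      have h3 := h2 (w - f.B x w • w1) (by
        rw [LinearMap.mem_ker, map_sub, map_smul, hl, hl, hw1, smul_eq_mul, mul_one, sub_self])
      rwa [map_sub, map_smul, sub_eq_zero] at h3
    have y0 : f.B x (Z w1) = 0 := (hl _).symm.trans (h1 w1)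
    obtain ⟨u, hu, hux⟩ : ∃ u, (∀ w ∈ c.W, f.B u w = f.B x w) ∧ f.B u x = 0 := by
      refine ⟨x + T.σ (-T.ε * f.B x x) • (w1 : V), fun w hw => ?_, ?_⟩
      · rw [f.B_add_left, f.B_smul_left, ts.2 _ w1.2 _ hw, mul_zero, add_zero]
      · rw [f.B_add_left, f.B_smul_left, T.σσ, f.symm x w1, hw1, map_one]
        linear_combination (-f.B x x) * T.εε
    have hm : -T.ε • (Z w1 : V) ∈ c.W := smul_mem _ _ (Z w1).2
    have y1 : f.B x (-T.ε • (Z w1 : V)) = 0 := by rw [f.B_smul_right, y0, mul_zero]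
    obtain ⟨k, hk⟩ := key c hK hm (f.B_eq_zero_symm ((hu _ hm).trans y1)) (f.B_eq_zero_symm y1) hux
    refine ⟨k, fun w => ?_⟩
    rw [hk, hu _ w.2, hZ w, coe_smul, smul_smul, sub_eq_add_neg, ← neg_smul]
    congr 2
    linear_combination f.B x w * T.εε

theorem vec (hf : f.Nondeg) (ha : 2 ≤ a) (c : Par f a) {θ : GL (Fin a) F → ℂ} (hθ : Cu θ) (x : V)
    (K : Subgroup c.τ.ker) (hK : ∀ k : c.τ.ker, k.1.1.1 x = x → k ∈ K) :
    ∑ᶠ k : K, θ (c.ρ k.1.1) = 0 :=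
  (em _).elim (vecA hf ha c hθ hK) (vecB ha c hθ hK)

/-- The stabilizer of a point. -/
def st (c : Par f a) (x : Pt f) : Subgroup c.τ.ker :=
  (f.stab x.1).comap (f.O.subtype.comp (c.P.subtype.comp c.τ.ker.subtype))

theorem st_card (c : Par f a) (s : c.τ.ker) : fixPt f s.1.1 = Nat.card {x // s ∈ st c x} :=
  Nat.card_congr (Equiv.subtypeEquivRight fun _ =>
    ((f.mem_stab_iff_map.trans (and_iff_right s.1.1.2))).symm)

theorem st_mem (c : Par f a) {x : Pt f} {v : V} (hv : x.1 = F ∙ v) {k : c.τ.ker} (h : k.1.1.1 v ∈ F ∙ v) :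
    k ∈ st c x := by
  refine f.mem_stab_iff_le.2 ⟨k.1.1.2, fun w hw => ?_⟩
  rw [hv] at hw ⊢
  obtain ⟨t, rfl⟩ := mem_span_singleton.1 hw
  change k.1.1.1 (t • v) ∈ _
  rw [map_smul]
  exact smul_mem _ _ h

theorem gen (x : Pt f) : ∃ v, x.1 = F ∙ v := by
  obtain ⟨v, hv⟩ := (finrank_le_one_iff_isPrincipal x.1).1 x.2.1.le
  exact ⟨v, hv⟩

theorem one (hf : f.Nondeg) (c : Par f 1) {v : V} (hv : f.q v = 0) (A : GL (Fin 1) F) :
    ∃ k : c.τ.ker, c.ρ k.1 = A ∧ k.1.1.1 v ∈ F ∙ v := by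
  obtain ⟨g, g1, g2, -, -⟩ := c.lev A 1
  have ts := c.hyp.totSing_left
  have hW : c.W = F ∙ c.x 0 := by rw [Par.W, Set.range_unique]; rfl
  have hp : c.x 0 ∈ c.W := subset_span ⟨0, rfl⟩
  have key : ∀ u b, f.B (c.x 0) u = 0 → T.π b = f.q u → f.eich (c.x 0) u b (g.1.1 v) ∈ F ∙ v →
      ∃ k : c.τ.ker, c.ρ k.1 = A ∧ k.1.1.1 v ∈ F ∙ v := by
    intro u b hu hb h
    obtain ⟨k, hk⟩ := eic c hp hu hb
    refine ⟨k * ⟨g, g2⟩, ?_, ?_⟩
    · have : c.ρ k.1 = c.ρ 1 := rho_ext c fun w hw => by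
        rw [hW] at hw
        obtain ⟨t, rfl⟩ := mem_span_singleton.1 hw
        rw [hk, map_smul, f.eich_self b (ts.1 _ hp) hu]; rfl
      rw [Subgroup.coe_mul, map_mul, this, map_one, one_mul]; exact g1
    · exact (hk (g.1.1 v)).symm ▸ h
  by_cases hx : v ∈ f.perp c.W
  · have gx : g.1.1 v ∈ f.perp c.W := ((f.stab_le_stab_perp c.W g.2).2 v).1 hx
    by_cases h : v ∈ c.W
    · refine ⟨⟨g, g2⟩, g1, ?_⟩
      have h1 : g.1.1 (c.x 0) ∈ c.W := (g.2.2 _).1 hp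
      rw [hW] at h h1
      obtain ⟨t, rfl⟩ := mem_span_singleton.1 h
      obtain ⟨s, hs⟩ := mem_span_singleton.1 h1
      change g.1.1 _ ∈ _
      rw [map_smul, ← hs, smul_comm]
      exact smul_mem _ _ (mem_span_singleton_self _)
    · have h1 := (GeoB.tau_eq_one_iff c g).1 g2 v hx
      rw [hW] at h1
      obtain ⟨d, hd⟩ := mem_span_singleton.1 h1
      obtain ⟨u, h3, h4⟩ := hf.exists_perp_eq (H := c.W) (x := g.1.1 v) (fun h' => h ((g.2.2 v).2 h')) (T.ε * d)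
      obtain ⟨b, hb, -⟩ := f.lift u
      refine key u b (f.B_eq_zero_symm (h3 _ hp)) hb ?_
      rw [f.eich_apply_of_B_eq_zero u b (gx _ hp), h4, T.ε_mul_ε_mul, hd, sub_sub_cancel]
      exact mem_span_singleton_self v
  · have n1 : f.B (c.x 0) v ≠ 0 := fun h => hx (by rw [hW]; exact f.mem_perp_span_singleton.2 h)
    have n2 : f.B (c.x 0) (g.1.1 v) ≠ 0 := fun h => hx (((f.stab_le_stab_perp c.W g.2).2 v).2
      (by rw [hW]; exact f.mem_perp_span_singleton.2 h))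
    obtain ⟨u, b, hu, hb, h⟩ := f.exists_eich_apply_eq
      (w' := (f.B (c.x 0) (g.1.1 v) / f.B (c.x 0) v) • v) n2
      (by rw [f.B_smul_right, div_mul_cancel₀ _ n1]) (by rw [f.q_smul_eq_zero hv, f.O_q, hv])
    exact key u b hu hb (h ▸ smul_mem _ _ (mem_span_singleton_self v))

end IVl

variable {F V : Type} [Field F] [Fintype F] [DecidableEq F] [AddCommGroup V] [Module F V]
  [Finite V] {T : FormType F} {f : Form T V} {r e a : ℕ}

theorem iv_big (h : Ty f r e) (ha : r < a) (θ : GL (Fin a) F → ℂ) (ψ : f.O → ℂ) : IV f a θ ψ :=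
  fun c => absurd (h.le_of_isHyp c.hyp) (by omega)

theorem iv_vec (h : Ty f r e) (ha : 2 ≤ a) {θ : GL (Fin a) F → ℂ} {ψ : f.O → ℂ} (hθ : Cu θ)
    (hψ : IsCharacter _ ψ) (hv : VecC f ψ) : IV f a θ ψ := by
  classical
  obtain ⟨Y, ξ, -, hξ, h1⟩ := hv
  intro c
  refine IVl.red c (X := Y) hθ.1.isCharacter hψ hξ
    (fun y => (MulAction.stabilizer (V ≃ₗ[F] V) y.1).comap
      (f.O.subtype.comp (c.P.subtype.comp c.τ.ker.subtype))) (fun s => ?_)
    fun y => IVl.vec h.1 ha c hθ y.1 _ fun k hk => hk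
  rw [h1]
  exact congrArg _ (Nat.card_congr (Equiv.subtypeSubtypeEquivSubtypeInter (· ∈ Y) _).symm)

theorem iv_pt (h : Ty f r e) (ha : 2 ≤ a) {θ : GL (Fin a) F → ℂ} {ψ : f.O → ℂ} (hθ : Cu θ)
    (hψ : IsCharacter _ ψ) (hv : PtC f ψ) : IV f a θ ψ := by
  classical
  obtain ⟨ξ, hξ, h1⟩ := hv
  intro c
  refine IVl.red c hθ.1.isCharacter hψ hξ (IVl.st c) (fun s => by rw [h1, IVl.st_card]) fun x => ?_
  obtain ⟨v, hv⟩ := IVl.gen x
  exact IVl.vec h.1 ha c hθ v _ fun k hk => IVl.st_mem c hv (hk.symm ▸ mem_span_singleton_self v)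

theorem iv_pt_one (h : Ty f r e) {θ : GL (Fin 1) F → ℂ} {ψ : f.O → ℂ} (hθ : IsIrrCharacter _ θ)
    (h1 : ∃ A, θ A ≠ 1) (hψ : IsCharacter _ ψ) (hv : PtC f ψ) : IV f 1 θ ψ := by
  classical
  obtain ⟨ξ, hξ, h2⟩ := hv
  intro c
  refine IVl.red c hθ.isCharacter hψ hξ (IVl.st c) (fun s => by rw [h2, IVl.st_card]) fun x => ?_
  obtain ⟨v, hv⟩ := IVl.gen x
  have := GeoB.finO f
  have := Fintype.ofFinite (IVl.st c x)
  rw [finsum_eq_sum_of_fintype]
  refine IVl.img (c.ρ.comp (c.τ.ker.subtype.comp (IVl.st c x).subtype)) (MonoidHom.id _) hθ.isCharacter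
    (fun A => ?_) (hθ.sum_eq_zero fun e => h1.elim fun A n => n (congrFun e A))
  obtain ⟨k, k1, k2⟩ := IVl.one h.1 c (x.2.2.1 v (hv ▸ mem_span_singleton_self v)) A
  exact ⟨⟨k, IVl.st_mem c hv k2⟩, k1⟩

theorem vecC_one : VecC f fun _ => 1 := by
  refine ⟨{0}, 0, fun g v hv => ?_, Char.isCharacter_zero, fun g => ?_⟩
  · rw [Set.mem_singleton_iff.1 hv]; exact map_zero _
  · rw [Pi.zero_apply, add_zero, eq_comm, Nat.cast_eq_one, Nat.card_eq_one_iff_exists]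
    exact ⟨⟨0, rfl, map_zero _⟩, fun y => Subtype.ext y.2.1⟩

theorem PtC.ev {ψ : f.O → ℂ} (hψ : IsCharacter _ ψ) (hv : PtC f ψ) : Ev f ψ 1 := by
  obtain ⟨ξ, hξ, h⟩ := hv
  have := GeoB.finO f
  intro z hz
  have h1 : fixPt f z = fixPt f 1 := Nat.card_congr (Equiv.subtypeEquivRight fun W => iff_of_true
    (f.mem_stab_iff_map.1 (f.mem_stab_iff_le.2 ⟨z.2, fun v hv => by rw [hz v]; exact neg_mem hv⟩)).2
    (f.mem_stab_iff_map.1 (f.stab W.1).one_mem).2)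
  have h2 : z ∈ Char.charKer (ψ + ξ) :=
    (hψ.add hξ).mem_charKer.2 (by rw [Pi.add_apply, Pi.add_apply, h, h, h1])
  rw [hψ.charKer_add hξ] at h2
  rw [one_mul]
  exact hψ.mem_charKer.1 h2.1

end CL.DG4
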