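/- S4984, block NRb: irreducible polynomials of degree `a` with square and non-square norm of the roots. -/
import Cfsg.Agent.CLAS.DG4.Def

set_option autoImplicit false

namespace CL.DG4.NRb2

open Cfsg CL.Witt CL.Zel Module Polynomial
open scoped IntermediateField

variable {F : Type} [Field F] [Fintype F] [DecidableEq F] {a : ℕ}

theorem of_elt {K : Type} [Field K] [Algebra F K] [Finite K] (hK : finrank F K = a) (hq : 3 ≤ Fintype.card F)
    (y : Kˣ) (ho : Fintype.card F ^ a - 1 ≤ 2 * orderOf y) :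
    ∃ p : IP F, p.deg F = a ∧ (-1) ^ a * p.1.coeff 0 = Algebra.norm F (y : K) := by
  have hi : IsIntegral F (y : K) := .of_finite F _
  have h1 := IntermediateField.adjoin.finrank hi
  have h2 := Module.finrank_mul_finrank F F⟮(y : K)⟯ K
  have hp : 0 < finrank F⟮(y : K)⟯ K := Module.finrank_pos
  have hd : 0 < finrank F F⟮(y : K)⟯ := Module.finrank_pos
  have hc : Nat.card F⟮(y : K)⟯ = Fintype.card F ^ finrank F F⟮(y : K)⟯ := by
    rw [Module.natCard_eq_pow_finrank (K := F), Nat.card_eq_fintype_card]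
  have h3 : orderOf y ∣ Fintype.card F ^ finrank F F⟮(y : K)⟯ - 1 := by
    have := Fintype.ofFinite F⟮(y : K)⟯
    have e := FiniteField.pow_card_sub_one_eq_one (IntermediateField.AdjoinSimple.gen F (y : K))
      fun e => y.ne_zero (by simpa using congrArg (algebraMap _ K) e)
    rw [← Nat.card_eq_fintype_card, hc] at e
    apply orderOf_dvd_of_pow_eq_one
    ext
    simpa using congrArg (algebraMap _ K) e
  have h4 : 1 < Fintype.card F ^ finrank F F⟮(y : K)⟯ := Nat.one_lt_pow hd.ne' (by omega)
  have h5 := Nat.le_of_dvd (by omega) h3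
  have h6 : finrank F⟮(y : K)⟯ K = 1 := by
    by_contra c
    have : finrank F F⟮(y : K)⟯ + 1 ≤ a := by nlinarith [show 2 ≤ finrank F⟮(y : K)⟯ K by omega]
    have := Nat.pow_le_pow_right (show 0 < Fintype.card F by omega) this
    rw [pow_succ] at this
    have : Fintype.card F ^ finrank F F⟮(y : K)⟯ * 3 ≤ Fintype.card F ^ a :=
      (Nat.mul_le_mul_left _ hq).trans this
    omega
  rw [h6, mul_one, hK, h1] at h2
  refine ⟨⟨minpoly F (y : K), minpoly.monic hi, minpoly.irreducible hi, minpoly.coeff_zero_ne_zero hi y.ne_zero⟩,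
    h2, ?_⟩
  have := Algebra.PowerBasis.norm_gen_eq_coeff_zero_minpoly (IntermediateField.adjoin.powerBasis hi)
  rw [IntermediateField.adjoin.powerBasis_gen, IntermediateField.adjoin.powerBasis_dim,
    IntermediateField.minpoly_gen, h2] at this
  rw [Algebra.norm_eq_norm_adjoin, h6, pow_one, this]

theorem ell_det (ha : 3 ≤ a) (hq : Odd (Fintype.card F)) : ∃ p p' : IP F, p.deg F = a ∧
    p'.deg F = a ∧ IsSquare ((-1) ^ a * p.1.coeff 0) ∧ ¬ IsSquare ((-1) ^ a * p'.1.coeff 0) := by
  obtain ⟨l, hl⟩ := CharP.exists F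
  have : Fact l.Prime := ⟨CharP.char_is_prime F l⟩
  have : NeZero a := ⟨by omega⟩
  have h3 : 3 ≤ Fintype.card F := by
    have := Fintype.one_lt_card (α := F)
    obtain ⟨k, e⟩ := hq
    omega
  have hK := FiniteField.finrank_extension F l a
  obtain ⟨x, hx⟩ := IsCyclic.exists_generator (α := (FiniteField.Extension F l a)ˣ)
  have ox : orderOf x = Fintype.card F ^ a - 1 := by
    rw [orderOf_eq_card_of_forall_mem_zpowers hx, Nat.card_units, FiniteField.natCard_extension,
      Nat.card_eq_fintype_card]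
  obtain ⟨p, hp, ep⟩ := of_elt hK h3 (x ^ 2) (by
    rw [← ox]
    exact Nat.le_of_dvd (Nat.mul_pos two_pos (orderOf_pos _))
      (orderOf_dvd_of_pow_eq_one (by rw [pow_mul, pow_orderOf_eq_one])))
  obtain ⟨p', hp', ep'⟩ := of_elt hK h3 x (by omega)
  refine ⟨p, p', hp, hp', ?_, ?_⟩
  · rw [ep, Units.val_pow_eq_pow_val, map_pow, sq]
    exact ⟨_, rfl⟩
  · rw [ep']
    intro hs
    obtain ⟨c, hc⟩ := FiniteField.exists_nonsquare (F := F) fun e => by
      have := FiniteField.even_card_of_char_two e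
      obtain ⟨k, e⟩ := hq
      omega
    obtain ⟨y, rfl⟩ := FiniteField.norm_surjective F (FiniteField.Extension F l a) c
    rcases eq_or_ne y 0 with rfl | h0
    · exact hc (by rw [Algebra.norm_zero]; exact ⟨0, by simp⟩)
    · obtain ⟨k, hk⟩ := (mem_powers_iff_mem_zpowers).2 (hx (Units.mk0 y h0))
      have : y = (x : FiniteField.Extension F l a) ^ k := by simpa using (congrArg Units.val hk).symm
      rw [this, map_pow] at hc
      exact hc (hs.pow k)

end CL.DG4.NRb2
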