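/-
S4984, block NRb: counting irreducible polynomials, N_d = #IP_d.  Work in K = a field with q^a elements:
d N_d = #elements of degree d (non-zero), so d N_d <= q^d - 1 (<= q^d - q for d >= 2) and
q^a - 1 = sum_{d | a} d N_d.  If p of degree a >= 3 with root x is not Good then x^(q^i + 1) = 1 or -1 for
some i < a, then x^(q^(2i)) = x, so a = 2 i: a * #bad <= 2 (q^(a/2) + 1) (q odd), <= q^(a/2) (q even), 0 for
odd a.  Tight cases: (a,q) = (4,3): S = 5, N = 18, bad <= 5; (3,2): S = 1, N = 2; (6,2): S = 4, N = 9, bad <= 1.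
ell_det: a generator x of K^* and x^2 have degree a, norms non-square resp. square.
-/
import Cfsg.Agent.CLAS.DG4.Def
import Cfsg.Agent.CLAS.DG4.NRb2

set_option autoImplicit false
set_option linter.unusedSectionVars false

namespace CL.DG4

open Cfsg CL.Witt CL.Zel Module Submodule
open scoped ComplexConjugate

open Polynomial

namespace NRb

theorem big {q a c G : ℕ} {N : ℕ → ℕ} (hq : 2 ≤ q) (ha : 3 ≤ a) (hc : c ≤ 2)
    (h2 : ∀ d ∈ a.properDivisors, d * N d ≤ q ^ d)
    (h : q ^ a ≤ 1 + ∑ d ∈ a.properDivisors, d * N d + a * G + c * (q ^ (a / 2) + 1))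
    (hb : 4 * c * a + 2 + c < q ^ (a - a / 2)) : 2 * c * ∑ d ∈ a.properDivisors, N d < G + 2 := by
  by_contra hn
  have k1 : ∑ d ∈ a.properDivisors, q ^ d ≤ 2 * q ^ (a / 2) := by
    have := Nat.geomSum_lt (s := Finset.range (a / 2)) (n := a / 2) hq fun k hk => Finset.mem_range.1 hk
    have h3 : ∑ d ∈ a.properDivisors, q ^ d ≤ ∑ d ∈ Finset.range (a / 2 + 1), q ^ d :=
      Finset.sum_le_sum_of_subset fun d hd => by
        obtain ⟨⟨e, rfl⟩, h4⟩ := Nat.mem_properDivisors.1 hd
        have : 2 * d ≤ d * e := by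
          rcases e with _ | _ | e
          · omega
          · omega
          · nlinarith
        exact Finset.mem_range.2 (by omega)
    rw [Finset.sum_range_succ] at h3
    omega
  have k2 := (Finset.sum_le_sum h2).trans k1
  have k3 : ∑ d ∈ a.properDivisors, N d ≤ ∑ d ∈ a.properDivisors, d * N d :=
    Finset.sum_le_sum fun d hd => Nat.le_mul_of_pos_left _ (Nat.pos_of_mem_properDivisors hd)
  have k4 : q ^ a = q ^ (a - a / 2) * q ^ (a / 2) := by rw [← pow_add]; congr 1; omega
  generalize ∑ d ∈ a.properDivisors, N d = S at *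
  generalize ∑ d ∈ a.properDivisors, d * N d = T at *
  have k5 : 0 < q ^ (a / 2) := by positivity
  generalize q ^ (a / 2) = x at *
  have k6 := Nat.mul_le_mul_right x (show 4 * c * a + 2 + c + 1 ≤ _ from hb)
  have k7 := Nat.mul_le_mul_left a (not_lt.1 hn)
  have k8 := Nat.mul_le_mul_left (2 * c * a) (k3.trans k2)
  nlinarith

theorem pw {q b u v t : ℕ} (hq : 2 ≤ q) (h0 : u * b + v < q ^ b) (hu : u ≤ q ^ b) (ht : b ≤ t) :
    u * t + v < q ^ t := by
  induction t, ht using Nat.le_induction with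
  | base => exact h0
  | succ t ht ih =>
    have := Nat.pow_le_pow_right (show 0 < q by omega) ht
    rw [pow_succ]; nlinarith

theorem arE {q a G : ℕ} {N : ℕ → ℕ} (hq : 2 ≤ q) (ha : 3 ≤ a) (h42 : ¬ (a = 4 ∧ q = 2)) (h1 : N 1 + 1 ≤ q)
    (h2 : ∀ d ∈ a.properDivisors, d ≠ 1 → d * N d + q ≤ q ^ d)
    (h : q ^ a ≤ 1 + ∑ d ∈ a.properDivisors, d * N d + a * G + 1 * (q ^ (a / 2) + 1)) :
    2 * ∑ d ∈ a.properDivisors, N d < G + 2 := by
  by_cases hb : 11 ≤ a
  · refine big hq ha (c := 1) (by norm_num) (fun d hd => ?_) h ?_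
    · by_cases e : d = 1
      · rw [e, one_mul, pow_one]; omega
      · exact le_trans (Nat.le_add_right _ _) (h2 d hd e)
    · have := pw (q := 2) (b := 6) (u := 8) (v := 3) (t := a - a / 2) le_rfl (by norm_num) (by norm_num) (by omega)
      have := Nat.pow_le_pow_left hq (a - a / 2)
      omega
  by_contra hn
  obtain ⟨k, rfl⟩ := Nat.exists_eq_add_of_le' hq
  have z := fun i => Nat.zero_le (k ^ i)
  have hb' : a ≤ 10 := by omega
  interval_cases a
  · rw [show Nat.properDivisors 3 = {1} by decide] at h hn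
    norm_num at h hn
    linarith [z 2, z 3]
  · rw [show Nat.properDivisors 4 = {1, 2} by decide] at h hn h2
    have := h2 2 (by simp) (by simp)
    obtain ⟨j, rfl⟩ : ∃ j, k = j + 1 := ⟨k - 1, by omega⟩
    have z := fun i => Nat.zero_le (j ^ i)
    norm_num at h hn
    linarith [z 2, z 3, z 4]
  · rw [show Nat.properDivisors 5 = {1} by decide] at h hn
    norm_num at h hn
    linarith [z 2, z 3, z 4, z 5]
  · rw [show Nat.properDivisors 6 = {1, 2, 3} by decide] at h hn h2
    have := h2 2 (by simp) (by simp)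
    have := h2 3 (by simp) (by simp)
    norm_num at h hn
    linarith [z 2, z 3, z 4, z 5, z 6]
  · rw [show Nat.properDivisors 7 = {1} by decide] at h hn
    norm_num at h hn
    linarith [z 2, z 3, z 4, z 5, z 6, z 7]
  · rw [show Nat.properDivisors 8 = {1, 2, 4} by decide] at h hn h2
    have := h2 2 (by simp) (by simp)
    have := h2 4 (by simp) (by simp)
    norm_num at h hn
    linarith [z 2, z 3, z 4, z 5, z 6, z 7, z 8]
  · rw [show Nat.properDivisors 9 = {1, 3} by decide] at h hn h2
    have := h2 3 (by simp) (by simp)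
    norm_num at h hn
    linarith [z 2, z 3, z 4, z 5, z 6, z 7, z 8, z 9]
  · rw [show Nat.properDivisors 10 = {1, 2, 5} by decide] at h hn h2
    have := h2 2 (by simp) (by simp)
    have := h2 5 (by simp) (by simp)
    norm_num at h hn
    linarith [z 2, z 3, z 4, z 5, z 6, z 7, z 8, z 9, z 10]

theorem arO {q a G : ℕ} {N : ℕ → ℕ} (hq : 3 ≤ q) (ha : 3 ≤ a) (h1 : N 1 + 1 ≤ q)
    (h2 : ∀ d ∈ a.properDivisors, d ≠ 1 → d * N d + q ≤ q ^ d)
    (h : q ^ a ≤ 1 + ∑ d ∈ a.properDivisors, d * N d + a * G + 2 * (q ^ (a / 2) + 1)) :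
    4 * ∑ d ∈ a.properDivisors, N d < G + 8 := by
  by_cases hb : 7 ≤ a
  · refine lt_of_lt_of_le (big (by omega) ha (c := 2) (by norm_num) (fun d hd => ?_) h ?_) (by omega)
    · by_cases e : d = 1
      · rw [e, one_mul, pow_one]; omega
      · exact le_trans (Nat.le_add_right _ _) (h2 d hd e)
    · have := pw (q := 3) (b := 4) (u := 16) (v := 4) (t := a - a / 2) (by norm_num) (by norm_num) (by norm_num) (by omega)
      have := Nat.pow_le_pow_left hq (a - a / 2)
      omega
  by_contra hn
  obtain ⟨k, rfl⟩ := Nat.exists_eq_add_of_le' hq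
  have z := fun i => Nat.zero_le (k ^ i)
  have hb' : a ≤ 6 := by omega
  interval_cases a
  · rw [show Nat.properDivisors 3 = {1} by decide] at h hn
    norm_num at h hn
    linarith [z 2, z 3]
  · rw [show Nat.properDivisors 4 = {1, 2} by decide] at h hn h2
    have := h2 2 (by simp) (by simp)
    norm_num at h hn
    linarith [z 2, z 3, z 4]
  · rw [show Nat.properDivisors 5 = {1} by decide] at h hn
    norm_num at h hn
    linarith [z 2, z 3, z 4, z 5]
  · rw [show Nat.properDivisors 6 = {1, 2, 3} by decide] at h hn h2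
    have := h2 2 (by simp) (by simp)
    have := h2 3 (by simp) (by simp)
    norm_num at h hn
    linarith [z 2, z 3, z 4, z 5, z 6]

variable {F K : Type} [Field F] [Fintype F] [Field K] [Fintype K] [Algebra F K]

theorem itg (x : K) : IsIntegral F x := Algebra.IsIntegral.isIntegral x

open Classical in
/-- the elements whose minimal polynomial has degree `d` and property `R` -/
theorem fib {d : ℕ} (hd : d ∣ finrank F K) (R : F[X] → Prop) :
    (Finset.univ.filter fun x : K => x ≠ 0 ∧ (minpoly F x).natDegree = d ∧ R (minpoly F x)).card =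
      d * Nat.card {p : IP F // p.deg F = d ∧ R p.1} := by
  have := CL.GLn.finite_MP (F := F) d
  have : Finite {p : IP F // p.deg F = d ∧ R p.1} := Finite.of_injective (β := {f : CL.GLn.MP F // f.1.natDegree = d})
    (fun p => ⟨⟨p.1.1, p.1.2.1, p.1.2.2.2⟩, p.2.1⟩) fun _ _ h =>
      Subtype.ext (Subtype.ext (congrArg (·.1.1) h))
  have := Fintype.ofFinite {p : IP F // p.deg F = d ∧ R p.1}
  rw [Nat.card_eq_fintype_card, ← Finset.card_univ,
    ← Finset.card_image_of_injective _ (Subtype.val_injective.comp Subtype.val_injective),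
    Finset.card_eq_sum_card_fiberwise (f := fun x : K => minpoly F x)
      (t := Finset.univ.image (Subtype.val ∘ Subtype.val : {p : IP F // p.deg F = d ∧ R p.1} → F[X])), mul_comm]
  · refine Finset.sum_const_nat fun f hf => ?_
    obtain ⟨⟨⟨f, h1, h2, h3⟩, h4, h5⟩, -, rfl⟩ := Finset.mem_image.1 hf
    have h6 : f.natDegree = d := h4
    have sp : (f.map (algebraMap F K)).Splits := by
      refine (FiniteField.isSplittingField_sub K F).splits.of_dvd
        (map_ne_zero (FiniteField.X_pow_card_sub_X_ne_zero _ Fintype.one_lt_card)) (Polynomial.map_dvd _ ?_)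
      rw [Module.card_eq_pow_finrank (K := F), ← Nat.card_eq_fintype_card]
      exact h2.natDegree_dvd_iff_dvd_X_pow_card_pow_sub_X.1 (h6 ▸ hd)
    refine Eq.trans ?_ ((card_rootSet_eq_natDegree (PerfectField.separable_of_irreducible h2) sp).trans h6)
    rw [← Set.toFinset_card]
    congr 1
    ext x
    simp only [Finset.mem_filter, Finset.mem_univ, true_and, Set.mem_toFinset, mem_rootSet, Function.comp]
    constructor
    · rintro ⟨-, e⟩
      exact ⟨h2.ne_zero, e ▸ minpoly.aeval F x⟩
    · rintro ⟨-, e⟩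
      have e2 := minpoly.eq_of_irreducible_of_monic h2 e h1
      refine ⟨⟨?_, by rw [← e2, h6], e2 ▸ h5⟩, e2.symm⟩
      rintro rfl
      rw [minpoly.zero] at e2
      exact h3 (by rw [e2, coeff_X_zero])
  · intro x hx
    obtain ⟨-, h1, h2, h3⟩ := Finset.mem_filter.1 hx
    exact Finset.mem_image.2 ⟨⟨⟨_, minpoly.monic (itg x), minpoly.irreducible (itg x),
      minpoly.coeff_zero_ne_zero (itg x) h1⟩, h2, h3⟩, Finset.mem_univ _, rfl⟩

theorem frob {x : K} {n : ℕ} : (minpoly F x).natDegree ∣ n ↔ x ^ Fintype.card F ^ n = x := by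
  rw [(minpoly.irreducible (itg x)).natDegree_dvd_iff_dvd_X_pow_card_pow_sub_X, minpoly.dvd_iff,
    Nat.card_eq_fintype_card]
  simp [sub_eq_zero]

omit [Fintype K] in
theorem rts {n : ℕ} (hn : 1 < n) {s : Finset K} (h : ∀ x ∈ s, x ^ n = x) : s.card ≤ n := by
  refine (card_le_degree_of_subset_roots (p := X ^ n - X) fun x hx => ?_).trans
    (FiniteField.X_pow_card_sub_X_natDegree_eq K hn).le
  rw [mem_roots (FiniteField.X_pow_card_sub_X_ne_zero K hn)]
  simp [h x hx]

omit [Fintype K] in
theorem nth {n : ℕ} (hn : 0 < n) (c : K) {s : Finset K} (h : ∀ x ∈ s, x ^ n = c) : s.card ≤ n := by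
  classical
  refine (Finset.card_le_card (t := (nthRoots n c).toFinset) fun x hx => ?_).trans
    ((Multiset.toFinset_card_le _).trans (card_nthRoots n c))
  rw [Multiset.mem_toFinset, mem_nthRoots hn]
  exact h x hx

theorem bad {x : K} (h0 : x ≠ 0) (ha : 3 ≤ finrank F K) (hd : (minpoly F x).natDegree = finrank F K) {ε : F}
    (hε : ε * ε = 1) (h : aeval (ε • x⁻¹) (minpoly F x) = 0) :
    x ^ (Fintype.card F ^ (finrank F K / 2) + 1) = algebraMap F K ε := by
  obtain ⟨σ, hσ⟩ := minpoly.exists_algEquiv_of_root' (itg x).isAlgebraic h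
  obtain ⟨⟨i, hi⟩, rfl⟩ := (FiniteField.bijective_frobeniusAlgEquivOfAlgebraic_pow F K).2 σ
  simp only [AlgEquiv.coe_pow, FiniteField.coe_frobeniusAlgEquivOfAlgebraic_iterate] at hσ
  have e0 : algebraMap F K ε * algebraMap F K ε = 1 := by rw [← map_mul, hε, map_one]
  have e1 : x ^ Fintype.card F ^ i * x = algebraMap F K ε := by
    rw [hσ, Algebra.smul_def, mul_assoc, inv_mul_cancel₀ h0, mul_one]
  have e2 : x ^ Fintype.card F ^ (2 * i) = x := by
    have e3 := congrArg (· ^ Fintype.card F ^ i) e1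
    beta_reduce at e3
    rw [mul_pow, ← pow_mul, ← pow_add (Fintype.card F), ← two_mul, ← map_pow, FiniteField.pow_card_pow, ← e1, mul_comm] at e3
    exact mul_left_cancel₀ (pow_ne_zero _ h0) e3
  have d1 := frob.2 e2
  rw [hd] at d1
  have i0 : i ≠ 0 := by
    rintro rfl
    rw [pow_zero, pow_one] at e1
    have := natDegree_le_of_dvd (minpoly.dvd F x (p := X ^ 2 - C ε) (by simp [sq, e1]))
      (X_pow_sub_C_ne_zero (by norm_num) ε)
    rw [natDegree_X_pow_sub_C] at this
    omega
  obtain ⟨e, he⟩ := d1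
  have : e = 1 := by
    rcases e with _ | _ | e
    · omega
    · rfl
    · nlinarith
  rw [this, mul_one] at he
  rw [← he, Nat.mul_div_cancel_left _ (by norm_num : 0 < 2), pow_succ, e1]

theorem rev {x : K} (h0 : x ≠ 0) {f : F[X]} (h : aeval x f.reverse = 0) : aeval x⁻¹ f = 0 := by
  have := invertibleOfNonzero (inv_ne_zero h0)
  rw [aeval_def, ← eval₂_reverse_eq_zero_iff, invOf_eq_inv, inv_inv]
  exact h

open Classical in
theorem main (ha : 3 ≤ finrank F K) (c : ℕ) (hc : c = 2 ∨ (c = 1 ∧ (-1 : F) = 1)) :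
    Fintype.card F ^ finrank F K ≤ 1 + ∑ d ∈ (finrank F K).properDivisors, d * Nat.card {p : IP F // p.deg F = d} +
      finrank F K * Nat.card {p : IP F // p.deg F = finrank F K ∧ Good p} +
      c * (Fintype.card F ^ (finrank F K / 2) + 1) := by
  have k1 : ∑ d ∈ (finrank F K).properDivisors, d * Nat.card {p : IP F // p.deg F = d} =
      (Finset.univ.filter fun x : K => x ≠ 0 ∧ (minpoly F x).natDegree ≠ finrank F K).card := by
    rw [Finset.card_eq_sum_card_fiberwise (f := fun x : K => (minpoly F x).natDegree) (t := (finrank F K).properDivisors)]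
    · refine Finset.sum_congr rfl fun d hd => ?_
      obtain ⟨h1, h2⟩ := Nat.mem_properDivisors.1 hd
      have := fib h1 fun _ => True
      simp only [and_true] at this
      rw [← this, Finset.filter_filter]
      congr 1
      exact Finset.filter_congr fun x _ => ⟨fun h => ⟨⟨h.1, by omega⟩, h.2⟩, fun h => ⟨h.1.1, h.2⟩⟩
    · intro x hx
      have := minpoly.degree_dvd (itg x) (K := F)
      exact Nat.mem_properDivisors.2 ⟨this, lt_of_le_of_ne (Nat.le_of_dvd (by omega) this) (Finset.mem_filter.1 hx).2.2⟩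
  have k2 := fib (F := F) (K := K) dvd_rfl fun f => ¬ f ∣ f.reverse ∧ ¬ f ∣ f.reverse.comp (-X)
  have k3 := fun e : K => nth (n := Fintype.card F ^ (finrank F K / 2) + 1) (by omega) e
    (s := Finset.univ.filter fun x : K => x ^ (Fintype.card F ^ (finrank F K / 2) + 1) = e) fun x hx => (Finset.mem_filter.1 hx).2
  have k4 : (Finset.univ.filter fun x : K => x ^ (Fintype.card F ^ (finrank F K / 2) + 1) = 1 ∨
      x ^ (Fintype.card F ^ (finrank F K / 2) + 1) = algebraMap F K (-1)).card ≤
      c * (Fintype.card F ^ (finrank F K / 2) + 1) := by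
    rcases hc with rfl | ⟨rfl, e⟩
    · rw [Finset.filter_or, two_mul]
      exact (Finset.card_union_le _ _).trans (add_le_add (k3 _) (k3 _))
    · simpa only [e, map_one, or_self, one_mul] using k3 1
  rw [k1, ← Module.card_eq_pow_finrank, show Nat.card {p : IP F // p.deg F = finrank F K ∧ Good p} =
    Nat.card {p : IP F // p.deg F = finrank F K ∧ ¬ p.1 ∣ p.1.reverse ∧ ¬ p.1 ∣ p.1.reverse.comp (-X)} from rfl, ← k2]
  refine le_trans ?_ (Nat.add_le_add_left k4 _)
  rw [← Finset.card_singleton (0 : K), ← Finset.card_univ]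
  refine le_trans (Finset.card_le_card fun x _ => ?_) ((Finset.card_union_le _ _).trans (Nat.add_le_add_right
    ((Finset.card_union_le _ _).trans (Nat.add_le_add_right (Finset.card_union_le _ _) _)) _))
  simp only [Finset.mem_union, Finset.mem_singleton, Finset.mem_filter, Finset.mem_univ, true_and]
  by_cases h0 : x = 0
  · exact .inl (.inl (.inl h0))
  by_cases hd : (minpoly F x).natDegree = finrank F K
  swap
  · exact .inl (.inl (.inr ⟨h0, hd⟩))
  by_cases h1 : minpoly F x ∣ (minpoly F x).reverse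
  · have := bad h0 ha hd (ε := 1) (one_mul 1) (by rw [one_smul]; exact rev h0 (minpoly.dvd_iff.1 h1))
    exact .inr (.inl (by rwa [map_one] at this))
  by_cases h2 : minpoly F x ∣ (minpoly F x).reverse.comp (-X)
  · refine .inr (.inr (bad h0 ha hd (ε := -1) (by ring) ?_))
    have := minpoly.dvd_iff.1 h2
    rw [aeval_comp, map_neg, aeval_X] at this
    rw [neg_smul, one_smul, ← inv_neg]
    exact rev (neg_ne_zero.2 h0) this
  exact .inl (.inr ⟨h0, hd, h1, h2⟩)

open Classical in
theorem up {d : ℕ} (hd : d ∣ finrank F K) (h0 : d ≠ 0) :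
    (d * Nat.card {p : IP F // p.deg F = d} + 1 ≤ Fintype.card F ^ d) ∧
    (d ≠ 1 → d * Nat.card {p : IP F // p.deg F = d} + Fintype.card F ≤ Fintype.card F ^ d) := by
  have k := fib hd fun _ => True
  simp only [and_true] at k
  have h1 : 1 < Fintype.card F ^ d := Nat.one_lt_pow h0 Fintype.one_lt_card
  rw [← k]
  constructor
  · rw [← Finset.card_insert_of_notMem (a := (0 : K)) (by simp)]
    refine rts h1 fun x hx => ?_
    rcases Finset.mem_insert.1 hx with rfl | hx
    · exact zero_pow (by omega)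
    · exact frob.1 (Finset.mem_filter.1 hx).2.2.dvd
  · intro h2
    rw [← Finset.card_univ (α := F), ← Finset.card_image_of_injective _ (algebraMap F K).injective,
      ← Finset.card_union_of_disjoint]
    · rw [Finset.card_image_of_injective _ (algebraMap F K).injective, Finset.card_univ]
      refine rts h1 fun x hx => ?_
      rcases Finset.mem_union.1 hx with hx | hx
      · exact frob.1 (Finset.mem_filter.1 hx).2.2.dvd
      · obtain ⟨y, -, rfl⟩ := Finset.mem_image.1 hx
        rw [← map_pow, FiniteField.pow_card_pow]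
    · refine Finset.disjoint_left.2 fun x hx hx' => h2 ?_
      obtain ⟨y, -, rfl⟩ := Finset.mem_image.1 hx'
      rw [← (Finset.mem_filter.1 hx).2.2, minpoly.eq_X_sub_C, natDegree_X_sub_C]

end NRb

variable {F : Type} [Field F] [Fintype F] [DecidableEq F] {a : ℕ}

theorem good_count (ha : 3 ≤ a) (h42 : ¬ (a = 4 ∧ Fintype.card F = 2)) :
    (Odd (Fintype.card F) → 4 * ∑ d ∈ a.properDivisors, Nat.card {p : IP F // p.deg F = d} <
      Nat.card {p : IP F // p.deg F = a ∧ Good p} + 8) ∧
    (Even (Fintype.card F) → 2 * ∑ d ∈ a.properDivisors, Nat.card {p : IP F // p.deg F = d} <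
      Nat.card {p : IP F // p.deg F = a ∧ Good p} + 2) := by
  obtain ⟨p, _⟩ := CharP.exists F
  have := Fact.mk (CharP.char_is_prime F p)
  have := NeZero.mk (show a ≠ 0 by omega)
  have := Fintype.ofFinite (FiniteField.Extension F p a)
  have e := FiniteField.finrank_extension F p a
  have m := NRb.main (F := F) (K := FiniteField.Extension F p a) (by omega)
  have u := fun d => NRb.up (F := F) (K := FiniteField.Extension F p a) (d := d)
  rw [e] at m u
  have h1 := (u 1 (one_dvd a) one_ne_zero).1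
  rw [one_mul, pow_one] at h1
  have h2 := fun d (hd : d ∈ a.properDivisors) =>
    (u d (Nat.mem_properDivisors.1 hd).1 (Nat.pos_of_mem_properDivisors hd).ne').2
  have h3 : 1 < Fintype.card F := Fintype.one_lt_card
  refine ⟨fun ho => NRb.arO (N := fun d => Nat.card {p : IP F // p.deg F = d}) ?_ ha h1 h2 (m 2 (.inl rfl)),
    fun he => NRb.arE (N := fun d => Nat.card {p : IP F // p.deg F = d}) h3 ha h42 h1 h2 (m 1 (.inr ⟨rfl, ?_⟩))⟩
  · obtain ⟨k, hk⟩ := ho
    omega
  · have := ringChar.of_eq (FiniteField.even_card_iff_char_two.2 (Nat.even_iff.1 he))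
    exact CharTwo.neg_eq 1

theorem ell_det (ha : 3 ≤ a) (hq : Odd (Fintype.card F)) : ∃ p p' : IP F, p.deg F = a ∧
    p'.deg F = a ∧ IsSquare ((-1) ^ a * p.1.coeff 0) ∧ ¬ IsSquare ((-1) ^ a * p'.1.coeff 0) := by
  exact NRb2.ell_det ha hq

end CL.DG4
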