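/-
S4984, block NRa: primitive class functions of GL_a.
prim_ext: fix an irreducible p (a factor of minpoly A) and induct DOWN on dim ker p(A).  If
S = ker p(A) is everything use h0.  Else Ses S V V/S, B = A|S killed by p, C = A on V/S;
0 = sum_X g(cls(A + i X pi)) (Ses.sum_eq, Cusp).  Each A_X has ker p(A_X) >= S; those with a bigger
kernel give 0 by induction, those with ker p(A_X) = S are similar to A (dim ker p(A_X)^(j+1) =
dim S + dim ker p(C)^j, and dim ker p'(A_X)^j = dim ker p'(C)^j for other irreducible p'; GLnSimil /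
GLnElemDiv criterion), X = 0 is one of them.
-/
import Cfsg.Agent.CLAS.DG4.Def

set_option autoImplicit false

namespace CL.DG4

open Cfsg CL.Witt CL.Zel Module Submodule
open scoped ComplexConjugate

open Polynomial

variable {F : Type} [Field F] [Fintype F] [DecidableEq F] {a : ℕ}

namespace NRa
open CL.GLn LinearMap

variable {V W Y : Type} [AddCommGroup V] [Module F V] [Finite V] [AddCommGroup W] [Module F W] [Finite W]
  [AddCommGroup Y] [Module F Y] [Finite Y]

omit [Fintype F] [DecidableEq F] [Finite V] in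
theorem unit_of_coprime {A : End F V} {p f : F[X]} (hA : aeval A p = 0) (h : IsCoprime p f) :
    IsUnit (aeval A f) := by
  obtain ⟨u, v, e⟩ := h
  have h1 := congrArg (aeval A) e
  have h2 := congrArg (aeval A) (mul_comm v f ▸ e)
  rw [map_add, map_mul, map_mul, hA, mul_zero, zero_add, map_one] at h1 h2
  exact ⟨⟨_, _, h2, h1⟩, rfl⟩

omit [Fintype F] [DecidableEq F] in
theorem kd_mul (A : End F V) {p f : F[X]} (h : IsCoprime p f) : kd A (p * f) = kd A p + kd A f := by
  unfold kd
  rw [← Polynomial.sup_ker_aeval_eq_ker_aeval_mul_of_coprime A h, ← Submodule.finrank_sup_add_finrank_inf_eq,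
    (Polynomial.disjoint_ker_aeval_of_isCoprime A h).eq_bot, finrank_bot, add_zero]

omit [Fintype F] [DecidableEq F] [Finite V] [Finite W] [Finite Y] in
theorem ker_mul {i : W →ₗ[F] V} {π : V →ₗ[F] Y} {B : End F W} {A : End F V} {C : End F Y} (h : Ses i π B A C)
    {p : F[X]} (hp : ker (aeval A p) = range i) (f : F[X]) :
    ker (aeval A (p * f)) = (ker (aeval C f)).comap π := by
  ext v
  rw [mem_ker, map_mul, Module.End.mul_apply, ← mem_ker, hp, h.ex, mem_ker, intertwine_aeval π h.right,
    Submodule.mem_comap, mem_ker]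

omit [DecidableEq F] [Finite W] [Finite Y] in
theorem cls_eq {i : W →ₗ[F] V} {π : V →ₗ[F] Y} {B : End F W} {A A' : End F V} {C : End F Y}
    (h : Ses i π B A C) (h' : Ses i π B A' C) {p : F[X]} (hp : Irreducible p)
    (e : ker (aeval A p) = range i) (e' : ker (aeval A' p) = range i) : cls A = cls A' := by
  have k : ∀ f, kd A (p * f) = kd A' (p * f) := fun f => by
    unfold kd
    rw [ker_mul h e, ker_mul h' e']
  refine cls_eq_iff.2 (simil_iff_kd.2 fun f => ?_)
  rcases hp.isCoprime_or_dvd f with c | ⟨f, rfl⟩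
  · have h1 := k f
    have h2 := k 1
    rw [kd_mul A c, kd_mul A' c] at h1
    rw [mul_one] at h2
    omega
  · exact k f

omit [Fintype F] [DecidableEq F] in
theorem exists_irr [Nontrivial V] (A : End F V) : ∃ p : F[X], Irreducible p ∧ kd A p ≠ 0 := by
  by_contra! h
  have : ∀ f : F[X], f ≠ 0 → IsUnit (aeval A f) := fun f => by
    refine WfDvdMonoid.induction_on_irreducible f (fun h => (h rfl).elim) (fun u hu _ => hu.map _) ?_
    intro f p hf hp ih _
    rw [map_mul]
    exact ((kd_eq_zero_iff A p).1 (h p hp)).mul (ih hf)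
  have h1 := this _ A.charpoly_monic.ne_zero
  rw [LinearMap.aeval_self_charpoly] at h1
  exact not_isUnit_zero h1

end NRa
open NRa CL.GLn LinearMap

theorem prim_ext {g : Cls F → ℂ} (hc : Cusp g)
    (h0 : ∀ (A : End F (Fin a → F)) (p : F[X]), Irreducible p → aeval A p = 0 → g (cls A) = 0)
    (A : End F (Fin a → F)) : g (cls A) = 0 := by
  classical
  rcases subsingleton_or_nontrivial (Fin a → F) with hs | hs
  · exact h0 A X irreducible_X (Subsingleton.elim _ _)
  obtain ⟨p, hp, hk⟩ := exists_irr A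
  induction hn : a - kd A p using Nat.strong_induction_on generalizing A with
  | _ n ih =>
  have hle : ∀ A : End F (Fin a → F), kd A p ≤ a := fun A => by
    simpa [kd] using Submodule.finrank_le (ker (aeval A p))
  by_cases ht : kd A p = a
  · exact h0 A p hp ((kd_eq_finrank_iff A p).1 (by simpa using ht))
  have hi : ∀ v ∈ ker (aeval A p), A v ∈ ker (aeval A p) := fun v hv => by
    rw [mem_ker, ← intertwine_aeval A (fun _ => rfl), mem_ker.1 hv, map_zero]
  have hs := ses_sub hi
  have e : ker (aeval A p) = range (ker (aeval A p)).subtype := (Submodule.range_subtype _).symm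
  have h1 := hs.sum_eq g
  rw [hc _ _ (by rw [dim_cls]; exact hk) (by
    rw [dim_cls]
    have := hs.finrank_eq
    simp only [finrank_fintype_fun_eq_card, Fintype.card_fin] at this
    unfold kd at ht
    omega), mul_zero] at h1
  have h2 : ∀ X : ((Fin a → F) ⧸ ker (aeval A p)) →ₗ[F] ker (aeval A p),
      g (cls (A + (ker (aeval A p)).subtype ∘ₗ X ∘ₗ (ker (aeval A p)).mkQ)) =
        if ker (aeval (A + (ker (aeval A p)).subtype ∘ₗ X ∘ₗ (ker (aeval A p)).mkQ) p) = ker (aeval A p)
        then g (cls A) else 0 := by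
    intro X
    have hs' : Ses (ker (aeval A p)).subtype (ker (aeval A p)).mkQ (A.restrict hi)
        (A + (ker (aeval A p)).subtype ∘ₗ X ∘ₗ (ker (aeval A p)).mkQ) ((ker (aeval A p)).mapQ _ A hi) :=
      ⟨hs.inj, hs.surj, hs.ex, fun w => by simp [(Submodule.Quotient.mk_eq_zero _).2 w.2], fun v => by
        simp [(Submodule.Quotient.mk_eq_zero _).2 (X _).2]⟩
    split_ifs with h
    · rw [cls_eq hs' hs hp (h.trans e) e]
    · have h3 : ker (aeval A p) < ker (aeval (A + (ker (aeval A p)).subtype ∘ₗ X ∘ₗ (ker (aeval A p)).mkQ) p) := by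
        refine lt_of_le_of_ne (fun v hv => ?_) (Ne.symm h)
        have h4 := intertwine_aeval _ (fun w => (hs.left w).symm) p ⟨v, hv⟩
        have h5 := intertwine_aeval _ (fun w => (hs'.left w).symm) p ⟨v, hv⟩
        exact h5.symm.trans (h4.trans hv)
      have h4 : kd A p < kd (A + (ker (aeval A p)).subtype ∘ₗ X ∘ₗ (ker (aeval A p)).mkQ) p :=
        Submodule.finrank_lt_finrank_of_lt h3
      have h5 := hle (A + (ker (aeval A p)).subtype ∘ₗ X ∘ₗ (ker (aeval A p)).mkQ)
      exact ih _ (by omega) _ (by omega) rfl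
  rw [Finset.sum_congr rfl fun X _ => h2 X, ← Finset.sum_filter, Finset.sum_const, nsmul_eq_mul,
    mul_eq_zero, Nat.cast_eq_zero, Finset.card_eq_zero] at h1
  refine h1.resolve_left (Finset.ne_empty_of_mem (a := 0) ?_)
  simp

theorem cls_eq_of_irr {A B : End F (Fin a → F)} {p : F[X]} (hp : Irreducible p)
    (hA : aeval A p = 0) (hB : aeval B p = 0) : cls A = cls B := by
  refine cls_eq_iff.2 (simil_iff_kd.2 fun f => ?_)
  rcases hp.isCoprime_or_dvd f with c | ⟨f, rfl⟩
  · rw [(kd_eq_zero_iff A f).2 (unit_of_coprime hA c), (kd_eq_zero_iff B f).2 (unit_of_coprime hB c)]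
  · rw [(kd_eq_finrank_iff A _).2 (by rw [map_mul, hA, zero_mul]),
      (kd_eq_finrank_iff B _).2 (by rw [map_mul, hB, zero_mul])]

theorem natDegree_dvd {A : End F (Fin a → F)} {p : F[X]} (hp : Irreducible p)
    (hA : aeval A p = 0) : p.natDegree ∣ a := by
  obtain ⟨s, hs⟩ := exists_hasED A
  have h1 := hs.finrank_eq
  rw [finrank_fintype_fun_eq_card, Fintype.card_fin] at h1
  rw [h1]
  refine Multiset.dvd_sum fun k hk => ?_
  obtain ⟨x, hx, rfl⟩ := Multiset.mem_map.1 hk
  obtain ⟨-, h2, h3⟩ := hs.1 x hx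
  have h4 : x.1 ∣ p := (dvd_pow_self _ h3.ne').trans ((hs.aeval_eq_zero_iff p).1 hA x hx)
  rw [natDegree_eq_of_degree_eq (degree_eq_degree_of_associated (h2.associated_of_dvd hp h4))]
  exact dvd_mul_left _ _

theorem exists_ell (p : IP F) (hp : p.deg F = a) :
    ∃ g : GL (Fin a) F, aeval (Matrix.toLin' g.1) p.1 = 0 ∧ g.1.det = (-1) ^ a * p.1.coeff 0 := by
  obtain ⟨M, hM⟩ := exists_matrix_hasED (n := Fin a) (s := {(p.1, 1)})
    (fun x hx => by rw [Multiset.mem_singleton.1 hx]; exact ⟨p.2.1, p.2.2.1, one_pos⟩) (by simpa [IP.deg] using hp)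
  have h1 := hM.charpoly_eq
  simp only [Multiset.map_singleton, Multiset.prod_singleton, pow_one] at h1
  have h2 : M.det = (-1) ^ a * p.1.coeff 0 := by
    rw [Matrix.det_eq_sign_charpoly_coeff, ← Matrix.charpoly_toLin', h1, Fintype.card_fin]
  refine ⟨Matrix.GeneralLinearGroup.mkOfDetNeZero M (h2 ▸ mul_ne_zero (by simp) p.2.2.2), ?_, h2⟩
  exact (congrArg (aeval (Matrix.toLin' M)) h1).symm.trans (LinearMap.aeval_self_charpoly _)

/-- A function supported on classes with irreducible characteristic polynomial is primitive. -/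
theorem cusp_of_ell {g : Cls F → ℂ} (h : ∀ c, g c ≠ 0 → ∃ (A : End F (Fin a → F)) (p : F[X]),
    Irreducible p ∧ p.natDegree = a ∧ aeval A p = 0 ∧ cls A = c) : Cusp g := by
  intro c d hc hd
  rw [res, Finset.sum_eq_zero fun Z _ => ?_, zero_div]
  by_contra hne
  obtain ⟨A, p, hp, hpa, hA, e⟩ := h _ hne
  have e' := cls_eq_iff.1 e
  have h1 := e'.finrank_eq
  simp only [finrank_prod, finrank_fintype_fun_eq_card, Fintype.card_fin] at h1
  have h2 : aeval c.rep p = 0 := LinearMap.ext fun w => (ses_blk c.rep Z d.rep).inj (by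
    rw [intertwine_aeval _ (fun w => ((ses_blk c.rep Z d.rep).left w).symm), (e'.aeval_eq_zero_iff p).1 hA]
    rfl)
  have h3 := Nat.le_of_dvd (Nat.pos_of_ne_zero hc) (natDegree_dvd hp h2)
  omega

/-- The space of primitive class functions of `GL_a` has dimension at most `∑_{d ∣ a} N_d`. -/
theorem card_le_of_prim (ha : a ≠ 0) {ι : Type} [Fintype ι] (v : ι → GL (Fin a) F → ℂ)
    (hv : LinearIndependent ℂ v) (h1 : ∀ i, IsClassFunction _ (v i)) (h2 : ∀ i, Cusp (ofGL (v i))) :
    Fintype.card ι ≤ ∑ d ∈ a.divisors, Nat.card {p : IP F // p.deg F = d} := by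
  classical
  have fin : ∀ d, Finite {p : IP F // p.deg F = d} := fun d =>
    have := finite_monic (F := F) d
    Finite.of_injective (fun p : {p : IP F // p.deg F = d} =>
      (⟨p.1.1, p.1.2.1, p.2⟩ : {f : F[X] // f.Monic ∧ f.natDegree = d}))
      fun p q e => Subtype.ext (Subtype.ext (Subtype.mk.inj e))
  let I := Σ d : a.divisors, {p : IP F // p.deg F = d}
  have := Fintype.ofFinite I
  let B : F[X] → End F (Fin a → F) := fun p => Classical.epsilon fun A => aeval A p = 0
  have li : LinearIndependent ℂ fun (i : ι) (x : I) => ofGL (v i) (cls (B x.2.1.1)) := by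
    rw [Fintype.linearIndependent_iff] at hv ⊢
    intro c hc
    refine hv c (funext fun g => ?_)
    have h3 := prim_ext (a := a) (g := fun x => ∑ i, c i * ofGL (v i) x) (fun x y hx hy => by
      have h4 := fun i => h2 i x y hx hy
      simp only [res, div_eq_zero_iff, card_pow_ne_zero, or_false] at h4 ⊢
      rw [Finset.sum_comm]
      simp only [← Finset.mul_sum, h4, mul_zero, Finset.sum_const_zero]) (fun A p hp hA => by
      by_cases hd : LinearMap.det A = 0
      · refine Finset.sum_eq_zero fun i _ => ?_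
        rw [by_contra fun hne => (sup_ofGL (v i) _ hne).2 (by rw [det_cls, hd]), mul_zero]
      have hq : Irreducible (normalize p) := (associated_normalize p).irreducible hp
      have hA' : aeval A (normalize p) = 0 := by
        obtain ⟨u, hu⟩ := (associated_normalize p).dvd
        rw [hu, map_mul, hA, zero_mul]
      have h0 : (normalize p).coeff 0 ≠ 0 := fun h0 => by
        obtain ⟨u, hu⟩ := (irreducible_X.associated_of_dvd hq (X_dvd_iff.2 h0)).symm.dvd
        have h5 := congrArg (aeval A) hu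
        rw [map_mul, hA', zero_mul, aeval_X] at h5
        rw [h5, LinearMap.det_zero, finrank_fintype_fun_eq_card, Fintype.card_fin, zero_pow ha] at hd
        exact hd rfl
      have h6 := congrFun hc ⟨⟨_, Nat.mem_divisors.2 ⟨natDegree_dvd hq hA', ha⟩⟩,
        ⟨normalize p, monic_normalize hp.ne_zero, hq, h0⟩, rfl⟩
      rw [cls_eq_of_irr hq hA' (Classical.epsilon_spec (p := fun A => aeval A (normalize p) = 0) ⟨A, hA'⟩)]
      simpa only [Finset.sum_apply, Pi.smul_apply, smul_eq_mul, Pi.zero_apply] using h6)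
      (Matrix.toLin' g.1)
    simp only [Finset.sum_apply, Pi.smul_apply, smul_eq_mul, Pi.zero_apply]
    rw [← h3]
    exact Finset.sum_congr rfl fun i _ => congrArg _ (congrFun (toGL_ofGL (h1 i)) g).symm
  have h3 := li.fintype_card_le_finrank
  rw [finrank_fintype_fun_eq_card, ← Nat.card_eq_fintype_card (α := I), Nat.card_sigma] at h3
  rwa [← Finset.sum_coe_sort a.divisors]

end CL.DG4
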