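/-
S4984, block NRc: GL_4(2) has a non-real cuspidal.  N_1 = N_2 = 1, N_4 = 3 (X^4+X^3+X^2+X+1 self-inverse,
X^4+X+1 and X^4+X^3+1 inverse to each other; centralisers of order 15).  Suppose theta_1..3 (card_cusp) all
real, so symmetric under inversion.  Symmetric primitive functions are determined by 4 values
(prim_ext), and theta_1..3, eps5 = delta of the first class, eps15 = delta of the other two are primitive
and symmetric: a non-zero eta = a eps5 + b eps15 lies in the span of the theta_i, it is orthogonal to 1,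
so eta = 2 eps5 - eps15.  Norm 6/15 = sum c_i^2, c_i = 2 d_i/15, d_i = theta_i(x5) - theta_i(x15) an
algebraic integer: sum d_i^2 = 45/2, contradiction.
-/
import Cfsg.Agent.CLAS.DG4.NRa

set_option autoImplicit false
set_option linter.unusedSectionVars false

namespace CL.DG4

open Cfsg CL.Witt CL.Zel Module Submodule
open scoped ComplexConjugate

variable {F : Type} [Field F] [Fintype F] [DecidableEq F] {a : ℕ}

namespace NRc

open Polynomial CL.Char

open Classical in
/-- the indicator function of a class -/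
noncomputable def dl {G : Type} [Group G] (x : G) : G → ℂ := fun g => if IsConj x g then 1 else 0

theorem dlc {G : Type} [Group G] (x : G) : IsClassFunction G (dl x) := by
  classical
  exact isClassFunction_indicator x

theorem indep {G ι : Type} [Group G] [Fintype G] [Fintype ι] (θ : ι → G → ℂ) (hθ : ∀ i, IsIrrCharacter G (θ i)) (inj : Function.Injective θ)
    (n1 : ∀ i, θ i ≠ fun _ => 1) (re : ∀ i g, conj (θ i g) = θ i g) {x z : G} (h1 : ¬ IsConj z x) (h2 : ¬ IsConj z x⁻¹)
    (h3 : ¬ IsConj x x⁻¹) (od : ¬ 2 ∣ Nat.card (Subgroup.centralizer ({x} : Set G))) :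
    LinearIndependent ℂ (Sum.elim θ ![dl z, dl x, dl x⁻¹]) := by
  classical
  refine Fintype.linearIndependent_iff.2 fun g hg => ?_
  simp only [Fintype.sum_sum_type, Sum.elim_inl, Sum.elim_inr, Fin.sum_univ_three, Matrix.cons_val] at hg
  have e1 := congrFun hg x
  have e2 := congrFun hg x⁻¹
  have ri : ∀ i, θ i x⁻¹ = θ i x := fun i => by rw [(hθ i).apply_inv, re]
  simp only [Pi.add_apply, Finset.sum_apply, Pi.smul_apply, smul_eq_mul, dl, if_neg h1, if_neg h2, if_neg h3, if_neg (mt IsConj.symm h3),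
    if_pos (IsConj.refl _), ri, mul_zero, mul_one, add_zero, zero_add, Pi.zero_apply] at e1 e2
  have eb : g (.inr 2) = g (.inr 1) := by linear_combination e2 - e1
  obtain ⟨m, hm⟩ : ∃ m, m = Nat.card (Subgroup.centralizer ({x} : Set G)) := ⟨_, rfl⟩
  obtain ⟨k, hk⟩ : ∃ k, k = Nat.card (Subgroup.centralizer ({z} : Set G)) := ⟨_, rfl⟩
  have m0 : (m : ℂ) ≠ 0 := by rw [hm]; exact card_ne_zero _
  have k0 : (k : ℂ) ≠ 0 := by rw [hk]; exact card_ne_zero _
  have ci : Subgroup.centralizer ({x⁻¹} : Set G) = Subgroup.centralizer {x} := by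
    ext y
    simp only [Subgroup.mem_centralizer_singleton_iff]
    exact Commute.inv_right_iff
  have ip : ∀ χ, IsIrrCharacter G χ → ∑ i, g (.inl i) * classInner (θ i) χ + (g (.inr 0) * conj (χ z) / k + g (.inr 1) * conj (χ x) / m +
      g (.inr 1) * conj (χ x⁻¹) / m) = 0 := fun χ hχ => by
    have a := congrArg (classInner · χ) hg
    simp only [classInner_add_left, classInner_sum_left, classInner_smul_left, classInner_zero_left, eb] at a
    have b : ∀ y, (Nat.card (Subgroup.centralizer ({y} : Set G)) : ℂ) * classInner (dl y) χ = conj (χ y) := fun y =>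
      @classInner_indicator G _ _ _ hχ.isClassFunction y fun _ => Classical.propDecidable _
    rw [← b, ← b, ← b, ci, ← hm, ← hk]
    refine Eq.trans ?_ a
    field_simp
  have i1 := ip _ isIrrCharacter_one
  simp only [fun i => (hθ i).inner_of_ne isIrrCharacter_one (n1 i), mul_zero, Finset.sum_const_zero, map_one, mul_one, zero_add] at i1
  have ij : ∀ j, g (.inl j) = 2 * g (.inr 1) / m * (θ j z - θ j x) := fun j => by
    have a := ip _ (hθ j)
    rw [Finset.sum_eq_single j (fun i _ ne => by rw [(hθ i).inner_of_ne (hθ j) (inj.ne ne), mul_zero]) (by simp), (hθ j).inner_self, ri, re, re] at a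
    linear_combination a - θ j z * i1
  have b0 : g (.inr 1) = 0 := by
    by_contra b
    obtain ⟨s, hs⟩ : ∃ s, s = -∑ j, (θ j z - θ j x) * θ j x := ⟨_, rfl⟩
    have si : IsIntegral ℤ s := hs ▸ (IsIntegral.sum _ fun j _ => (((hθ j).isIntegral z).sub ((hθ j).isIntegral x)).mul ((hθ j).isIntegral x)).neg
    have e : s = algebraMap ℚ ℂ (m / 2) := by
      simp only [ij, mul_assoc, ← Finset.mul_sum] at e1
      rw [← neg_eq_iff_eq_neg.2 hs] at e1
      field_simp at e1
      simp only [eq_ratCast, Rat.cast_div, Rat.cast_natCast, Rat.cast_ofNat]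
      refine mul_left_cancel₀ b ?_
      linear_combination (-1 / 2 : ℂ) * e1
    rw [e, isIntegral_algebraMap_iff (algebraMap ℚ ℂ).injective] at si
    obtain ⟨y, hy⟩ := IsIntegrallyClosed.isIntegral_iff.1 si
    have : (m : ℤ) = 2 * y := by
      have : (m : ℚ) = 2 * y := by rw [eq_intCast] at hy; rw [hy]; ring
      exact_mod_cast this
    exact od (hm ▸ by omega)
  rintro (j | j)
  · rw [ij, b0]; simp
  · fin_cases j
    · simpa [b0, k0] using i1
    · exact b0
    · exact eb.trans b0

theorem aev {W V : Type} [AddCommGroup W] [Module F W] [AddCommGroup V] [Module F V] (f : W →ₗ[F] V) {B : End F W} {A : End F V}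
    (h : ∀ w, f (B w) = A (f w)) (p : F[X]) (w : W) : f (aeval B p w) = aeval A p (f w) := by
  have k : ∀ n w, f ((B ^ n) w) = (A ^ n) (f w) := fun n => by
    induction n with
    | zero => simp
    | succ n ih => intro w; simp [pow_succ, ih, h]
  induction p using Polynomial.induction_on' with
  | add p q a b => simp [a, b]
  | monomial n c => simp [aeval_monomial, k]

/-- `p` kills `g` -/
abbrev An (g : GL (Fin 4) F) (p : F[X]) : Prop := aeval (Matrix.toLin' g.1) p = 0

theorem An.conj {g k : GL (Fin 4) F} {p : F[X]} (h : An g p) (c : IsConj g k) : An k p := by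
  obtain ⟨u, rfl⟩ := isConj_iff.1 c
  refine LinearMap.ext fun v => ?_
  have := aev (Matrix.toLin' u.1) (B := Matrix.toLin' g.1) (A := Matrix.toLin' (u * g * u⁻¹).1) (fun w => by simp) p (Matrix.toLin' (u⁻¹).1 v)
  rw [h] at this
  simpa using this.symm

theorem An.eq {g : GL (Fin 4) F} {p q : IP F} (h : An g p.1) (k : An g q.1) : p.1 = q.1 :=
  (minpoly.eq_of_irreducible_of_monic p.2.2.1 h p.2.1).trans (minpoly.eq_of_irreducible_of_monic q.2.2.1 k q.2.1).symm

theorem An.cusp {g : GL (Fin 4) F} {p : IP F} (h : An g p.1) (d : p.deg F = 4) : Cusp (ofGL (dl g)) :=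
  cusp_of_ell (a := 4) fun c hc => by
    unfold ofGL at hc
    split_ifs at hc with e
    · exact ⟨_, p.1, p.2.2.1, d, h, (cls_gl_eq_iff.2 (by simpa [dl, -isConj_iff] using hc)).trans e.choose_spec⟩
    · exact absurd rfl hc

theorem An.odd (two : (2 : F) = 0) {g : GL (Fin 4) F} {p : IP F} (h : An g p.1) (d : p.deg F = 4) :
    ¬ 2 ∣ Nat.card (Subgroup.centralizer ({g} : Set (GL (Fin 4) F))) := fun e => by
  obtain ⟨⟨t, ht⟩, ho⟩ := exists_prime_orderOf_dvd_card' 2 e
  rw [← Subgroup.orderOf_coe, orderOf_eq_prime_iff] at ho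
  have c : t.1 * g.1 = g.1 * t.1 := congrArg Units.val (Subgroup.mem_centralizer_singleton_iff.1 ht)
  have t2 : t.1 * t.1 = 1 := by simpa [sq] using congrArg Units.val ho.1
  obtain ⟨N, hN⟩ : ∃ N, N = Matrix.toLin' (t.1 - 1) := ⟨_, rfl⟩
  have NN : ∀ v, N (N v) = 0 := fun v => by
    have : (t.1 - 1) * (t.1 - 1) = (2 : F) • (1 - t.1) := by rw [two_smul, mul_sub, sub_mul, t2]; simp; abel
    rw [hN, ← Matrix.toLin'_mul_apply, this, two]; simp
  have iv : ∀ v ∈ LinearMap.ker N, Matrix.toLin' g.1 v ∈ LinearMap.ker N := fun v hv => by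
    rw [LinearMap.mem_ker, hN] at *
    rw [← Matrix.toLin'_mul_apply, sub_mul, c, one_mul, ← mul_sub_one, Matrix.toLin'_mul_apply, hv, map_zero]
  have N0 : N ≠ 0 := fun e => ho.2 (Units.ext (sub_eq_zero.1 (Matrix.toLin'.map_eq_zero_iff.1 (hN ▸ e))))
  obtain ⟨v, hv⟩ : ∃ v, N v ≠ 0 := by simpa [LinearMap.ext_iff] using N0
  have : Nontrivial (LinearMap.ker N) := ⟨⟨N v, NN v⟩, 0, fun e => hv (congrArg Subtype.val e)⟩
  have a : aeval ((Matrix.toLin' g.1).restrict iv) p.1 = 0 := LinearMap.ext fun w => Subtype.ext (by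
    have := aev (LinearMap.ker N).subtype (B := (Matrix.toLin' g.1).restrict iv) (A := Matrix.toLin' g.1) (fun w => rfl) p.1 w
    rw [h] at this
    simpa using this)
  have b := natDegree_le_of_dvd (LinearMap.minpoly_dvd_charpoly ((Matrix.toLin' g.1).restrict iv)) (LinearMap.charpoly_monic _).ne_zero
  rw [← minpoly.eq_of_irreducible_of_monic p.2.2.1 a p.2.1, LinearMap.charpoly_natDegree, show p.1.natDegree = 4 from d] at b
  exact N0 (LinearMap.ker_eq_top.1 (eq_top_of_finrank_eq (le_antisymm (finrank_le _) (by simpa using b))))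

theorem el (hq : Fintype.card F = 2) {c : F} (h : c ≠ 0) : c = 1 := by simpa [hq] using FiniteField.pow_card_sub_one_eq_one c h

theorem low1 (hq : Fintype.card F = 2) {q : F[X]} (m : q.Monic) (d : q.natDegree = 1) (h : q.coeff 0 ≠ 0) : q = X + 1 := by
  rw [m.as_sum, d]; simp [el hq h]

theorem low2 (hq : Fintype.card F = 2) (two : (2 : F) = 0) {q : F[X]} (m : q.Monic) (d : q.natDegree = 2) (h : q.coeff 0 ≠ 0)
    (h1 : q.eval 1 ≠ 0) : q = X ^ 2 + X + 1 := by
  have e := m.as_sum
  rw [d] at e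
  simp only [Finset.sum_range_succ, Finset.range_zero, Finset.sum_empty, el hq h] at e
  have : q.coeff 1 ≠ 0 := fun z => h1 (by rw [e, z]; simp [one_add_one_eq_two, two])
  rw [e, el hq this]; simp; ring

theorem irr4 (hq : Fintype.card F = 2) (two : (2 : F) = 0) {p k r : F[X]} (m : p.Monic) (d : p.natDegree = 4) (h : p.coeff 0 ≠ 0)
    (h1 : p.eval 1 ≠ 0) (e : p = (X ^ 2 + X + 1) * k + r) (r0 : r ≠ 0) (r1 : r.natDegree ≤ 1) : Irreducible p := by
  refine (m.irreducible_iff_lt_natDegree_lt (by rintro rfl; simp at d)).2 fun q mq dq hd => ?_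
  have a0 : q.coeff 0 ≠ 0 := fun z => h (by obtain ⟨s, rfl⟩ := hd; simp [z])
  have a1 : q.eval 1 ≠ 0 := fun z => h1 (by obtain ⟨s, rfl⟩ := hd; simp [z])
  rw [d, Finset.mem_Ioc] at dq
  obtain c | c : q.natDegree = 1 ∨ q.natDegree = 2 := by omega
  · exact a1 (by rw [low1 hq mq c a0]; simp [one_add_one_eq_two, two])
  · have := natDegree_le_of_dvd ((dvd_add_right (by rw [low2 hq two mq c a0 a1]; exact dvd_mul_right _ _)).1 (e ▸ hd)) r0
    omega

end NRc

open NRc Polynomial CL.Char in
theorem nr42 (hq : Fintype.card F = 2) : ∃ θ : GL (Fin 4) F → ℂ, Cu θ ∧ NRe θ := by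
  classical
  by_contra hn
  have two : (2 : F) = 0 := by simpa [hq] using FiniteField.cast_card_eq_zero F
  have tw : (2 : F[X]) = 0 := by rw [← map_ofNat C, two, map_zero]
  have thr : (1 + 1 + 1 : F) ≠ 0 := by rw [one_add_one_eq_two, two]; simp
  have da : (X ^ 4 + X + 1 : F[X]).natDegree = 4 := by compute_degree!
  have db : (X ^ 4 + X ^ 3 + 1 : F[X]).natDegree = 4 := by compute_degree!
  have dc : (X ^ 4 + X ^ 3 + X ^ 2 + X + 1 : F[X]).natDegree = 4 := by compute_degree!
  let pa : IP F := ⟨X ^ 4 + X + 1, by monicity!, irr4 hq two (k := X ^ 2 + X) (r := 1) (by monicity!) da (by simp) (by simpa using thr)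
    (by linear_combination (-X ^ 3 - X ^ 2) * tw) one_ne_zero (by simp), by simp⟩
  let pb : IP F := ⟨X ^ 4 + X ^ 3 + 1, by monicity!, irr4 hq two (k := X ^ 2 + 1) (r := X) (by monicity!) db (by simp) (by simpa using thr)
    (by linear_combination (-X ^ 2 - X) * tw) X_ne_zero (by simp), by simp⟩
  let pc : IP F := ⟨X ^ 4 + X ^ 3 + X ^ 2 + X + 1, by monicity!, irr4 hq two (k := X ^ 2) (r := X + 1) (by monicity!) dc (by simp)
    (by simp only [eval_add, eval_pow, eval_X, eval_one, one_pow]; exact fun e => thr (by linear_combination e - two)) (by ring)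
    (by simpa using X_add_C_ne_zero (1 : F)) (by compute_degree), by simp⟩
  obtain ⟨x, hx, -⟩ := exists_ell pa da
  obtain ⟨z, hz, -⟩ := exists_ell pc dc
  have hy : An x⁻¹ pb.1 := by
    have e : Matrix.toLin' (x⁻¹).1 * Matrix.toLin' x.1 = 1 := by rw [Module.End.mul_eq_comp, ← Matrix.toLin'_mul]; simp [Module.End.one_eq_id]
    simp only [pa, pb, An, map_add, map_pow, aeval_X, map_one] at hx ⊢
    generalize Matrix.toLin' (x⁻¹).1 = Y at *
    generalize Matrix.toLin' x.1 = A at *
    calc Y ^ 4 + Y ^ 3 + 1 = Y ^ 3 * (Y * A) + Y * (Y * (Y * (Y * A) * A) * A) * A + Y ^ 4 := by simp only [e, mul_one]; abel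
      _ = Y ^ 4 * (A ^ 4 + A + 1) := by noncomm_ring
      _ = 0 := by rw [hx, mul_zero]
  let ι := {χ : IrrCharacter (GL (Fin 4) F) // Cusp (ofGL χ.1)}
  have : Fintype ι := Fintype.ofFinite _
  have li := indep (fun i : ι => i.1.1) (fun i => i.1.2) (fun i j e => Subtype.ext (Subtype.ext e)) (fun i e => by
      have a := Cusp.sum_eq_zero i.1.2.isClassFunction i.2 (m := 1) (by norm_num) (by norm_num)
      rw [e, Finset.sum_boole, Nat.cast_eq_zero, Finset.card_eq_zero, Finset.filter_eq_empty_iff] at a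
      exact a (Finset.mem_univ 1) fun _ _ _ => rfl)
    (fun i g => by_contra fun e => hn ⟨_, ⟨i.1.2, i.2⟩, g, e⟩) (x := x) (z := z)
    (fun c => by simpa [pa, pc, coeff_X, coeff_one] using congrArg (coeff · 3) (An.eq (An.conj hz c) hx))
    (fun c => by simpa [pb, pc, coeff_X, coeff_one] using congrArg (coeff · 1) (An.eq (An.conj hz c) hy))
    (fun c => by simpa [pa, pb, coeff_X, coeff_one] using congrArg (coeff · 1) (An.eq (An.conj hx c) hy)) (An.odd two hx da)
  have le := card_le_of_prim (by norm_num) _ li (by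
      rintro (i | i)
      · exact i.1.2.isClassFunction
      · fin_cases i
        exacts [dlc z, dlc x, dlc x⁻¹]) (by
      rintro (i | i)
      · exact i.2
      · fin_cases i
        exacts [An.cusp hz dc, An.cusp hx da, An.cusp hy db])
  have c1 : Nat.card {p : IP F // p.deg F = 1} ≤ 1 := by
    have : Subsingleton {p : IP F // p.deg F = 1} := ⟨fun p q => Subtype.ext (Subtype.ext
      ((low1 hq p.1.2.1 p.2 p.1.2.2.2).trans (low1 hq q.1.2.1 q.2 q.1.2.2.2).symm))⟩
    exact Finite.card_le_one_iff_subsingleton.2 this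
  have c2 : Nat.card {p : IP F // p.deg F = 2} ≤ 1 := by
    have k : ∀ p : {p : IP F // p.deg F = 2}, p.1.1 = X ^ 2 + X + 1 := fun p => low2 hq two p.1.2.1 p.2 p.1.2.2.2 fun e => by
      have := natDegree_eq_of_degree_eq_some (degree_eq_one_of_irreducible_of_root p.1.2.2.1 e)
      exact absurd (p.2.symm.trans this) (by norm_num)
    have : Subsingleton {p : IP F // p.deg F = 2} := ⟨fun p q => Subtype.ext (Subtype.ext ((k p).trans (k q).symm))⟩
    exact Finite.card_le_one_iff_subsingleton.2 this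
  have c4 : Nat.card {p : IP F // p.deg F = 4} ≤ Nat.card ι := by
    rw [← card_cusp]
    exact Nat.card_le_card_of_surjective (fun i : ι => ⟨⟨4, i.1, by norm_num, i.2⟩, rfl⟩) (by
      rintro ⟨⟨d, χ, h⟩, e⟩
      dsimp only at e
      subst e
      exact ⟨⟨χ, h.2⟩, rfl⟩)
  rw [show Nat.divisors 4 = {1, 2, 4} by decide, Finset.sum_insert (by decide), Finset.sum_pair (by decide), Fintype.card_sum,
    ← Nat.card_eq_fintype_card, Fintype.card_fin] at le
  omega

end CL.DG4
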