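/-
S4984, block NR: non-real even cuspidals, a >= 3.  Suppose every even cuspidal is real.  Each cuspidal
irreducible theta is even or odd (-1 central).  For a Good p with elliptic class c put
f_p = delta_c + delta_{-c} - delta_{c^-1} - delta_{-c^-1} (primitive, f(-g) = f(g), f(g^-1) = -f(g),
f_p(c) <> 0 by Good); one p from each orbit under inversion and negation gives >= Gd/4 (q odd), Gd/2
(q even) independent functions E, all orthogonal to every cuspidal theta (odd: parity; even: real), to 1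
and to eta o det (real).  On the space Prim of primitive class functions (dim <= N_a + S, card_le_of_prim)
the functionals <., theta> (N_a of them, card_cusp), <., 1>, <., eta o det> (q odd) are independent (test on
theta, then on deltas of elliptic classes, ell_det), so dim E <= S - 2 resp. S - 1: contra good_count.
Concretely: theta's, E and deltas d1 (, d2) of elliptic classes are independent primitive functions.
-/
import Cfsg.Agent.CLAS.DG4.NRb
import Cfsg.Agent.CLAS.DG4.NRc

set_option autoImplicit false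

namespace CL.DG4

open Cfsg CL.Witt CL.Zel Module Submodule
open scoped ComplexConjugate

variable {F : Type} [Field F] [Fintype F] [DecidableEq F] {a : ℕ}

namespace NR
open Polynomial CL.Char

theorem exists_sub {X : Type} [Fintype X] (r : X → X → Prop) (rf : ∀ x, r x x) (sy : ∀ x y, r x y → r y x) (m : ℕ)
    (h : ∀ x, Nat.card {y // r x y} ≤ m) :
    ∃ R : Finset X, Nat.card X ≤ m * R.card ∧ ∀ x ∈ R, ∀ y ∈ R, r x y → x = y := by
  classical
  obtain ⟨R, hR, mx⟩ := (Finset.univ.filter fun R : Finset X => ∀ x ∈ R, ∀ y ∈ R, r x y → x = y).exists_max_image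
    Finset.card ⟨∅, by simp⟩
  have h1 := (Finset.mem_filter.1 hR).2
  refine ⟨R, ?_, h1⟩
  have h2 : Finset.univ ⊆ R.biUnion fun y => Finset.univ.filter (r y) := fun x _ => by
    by_contra c
    have c' : ∀ y ∈ R, ¬ r y x := by simpa using c
    have := mx (insert x R) (Finset.mem_filter.2 ⟨Finset.mem_univ _, fun u hu v hv e => by
      rcases Finset.mem_insert.1 hu with a | a <;> rcases Finset.mem_insert.1 hv with b | b
      exacts [a.trans b.symm, (c' v b (sy _ _ (a ▸ e))).elim, (c' u a (b ▸ e)).elim, h1 u a v b e]⟩)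
    rw [Finset.card_insert_of_notMem fun e => c' x e (rf x)] at this
    omega
  rw [Nat.card_eq_fintype_card, mul_comm]
  exact (Finset.card_le_card h2).trans (Finset.card_biUnion_le_card_mul _ _ _ fun y _ => by
    simpa [Fintype.card_subtype] using h y)

theorem indep {G ι₁ ι₂ ι₃ : Type} [Group G] [Fintype G] [Fintype ι₁] [Fintype ι₂] [Fintype ι₃] {Θ : ι₁ → G → ℂ}
    {E : ι₂ → G → ℂ} {D Λ : ι₃ → G → ℂ} {g : ι₂ → G} (h1 : ∀ i, IsIrrCharacter G (Θ i)) (h2 : Function.Injective Θ)
    (h3 : ∀ i j, E i (g j) = 0 ↔ i ≠ j) (h4 : ∀ k l, classInner (D k) (Λ l) = 0 ↔ k ≠ l)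
    (h5 : ∀ i l, classInner (Θ i) (Λ l) = 0) (h6 : ∀ i l, classInner (E i) (Λ l) = 0)
    (h7 : ∀ i j, classInner (E i) (Θ j) = 0) : LinearIndependent ℂ (Sum.elim Θ (Sum.elim E D)) := by
  refine Fintype.linearIndependent_iff.2 fun c hc => ?_
  simp only [Fintype.sum_sum_type, Sum.elim_inl, Sum.elim_inr] at hc
  have k3 : ∀ l, c (.inr (.inr l)) = 0 := fun l => by
    have := congrArg (classInner · (Λ l)) hc
    simp only [classInner_add_left, classInner_sum_left, classInner_smul_left, h5, h6, mul_zero, Finset.sum_const_zero,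
      zero_add, classInner_zero_left] at this
    rw [Finset.sum_eq_single l (fun k _ ne => by rw [(h4 k l).2 ne, mul_zero]) (by simp)] at this
    exact (mul_eq_zero.1 this).resolve_right fun e => (h4 l l).1 e rfl
  simp only [k3, zero_smul, Finset.sum_const_zero, add_zero] at hc
  have k1 : ∀ j, c (.inl j) = 0 := fun j => by
    have := congrArg (classInner · (Θ j)) hc
    simp only [classInner_add_left, classInner_sum_left, classInner_smul_left, h7, mul_zero, Finset.sum_const_zero,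
      add_zero, classInner_zero_left] at this
    rwa [Finset.sum_eq_single j (fun k _ ne => by rw [(h1 k).inner_of_ne (h1 j) (h2.ne ne), mul_zero]) (by simp),
      (h1 j).inner_self, mul_one] at this
  simp only [k1, zero_smul, Finset.sum_const_zero, zero_add] at hc
  rintro (j | j | j)
  · exact k1 j
  · have := congrFun hc (g j)
    rw [Finset.sum_apply, Finset.sum_eq_single j (fun k _ ne => by
      rw [Pi.smul_apply, (h3 k j).2 ne, smul_zero]) (by simp)] at this
    exact (mul_eq_zero.1 this).resolve_right fun e => (h3 j j).1 e rfl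
  · exact k3 j

theorem anti {G : Type} [Group G] [Fintype G] (e : G ≃ G) {f φ : G → ℂ} (h : ∀ x, f (e x) * conj (φ (e x)) = -(f x * conj (φ x))) :
    classInner f φ = 0 := by
  have := classInner_comp_equiv e f φ
  simp only [classInner, h, Finset.sum_neg_distrib, mul_neg] at this ⊢
  linear_combination -this / 2

theorem aeval_rev {A : Type} [Ring A] [Algebra F A] (u : Aˣ) (N : ℕ) (f : F[X]) (hf : f.natDegree ≤ N) :
    aeval ((u⁻¹ : Aˣ) : A) (reflect N f) * (u : A) ^ N = aeval (u : A) f := by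
  refine induction_with_natDegree_le (fun f => aeval ((u⁻¹ : Aˣ) : A) (reflect N f) * (u : A) ^ N = aeval (u : A) f)
    _ (by simp) (fun n r _ h => ?_) (fun f g _ _ a b => by simp only [reflect_add, map_add, add_mul, a, b]) f hf
  simp only [revAt_le h, reflect_C_mul_X_pow, map_mul, map_pow, aeval_X, mul_assoc, ← Units.val_pow_eq_pow_val,
    ← Units.val_mul]
  rw [show u ^ N = u ^ (N - n) * u ^ n by rw [← pow_add, Nat.sub_add_cancel h], inv_pow, inv_mul_cancel_left,
    aeval_C, aeval_C]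

theorem deg_rev {p : F[X]} (h : p.coeff 0 ≠ 0) : p.reverse.natDegree = p.natDegree := by
  rw [reverse_natDegree, natTrailingDegree_eq_zero.2 (.inr h), Nat.sub_zero]

theorem irr_rev {p : F[X]} (hp : Irreducible p) (h : p.coeff 0 ≠ 0) : Irreducible p.reverse := by
  have k : ∀ {u : F[X]}, u.coeff 0 ≠ 0 → IsUnit u.reverse → IsUnit u := fun {u} h0 e =>
    isUnit_iff_degree_eq_zero.2 (by
      rw [degree_eq_natDegree (by rintro rfl; simp at h0), ← deg_rev h0, natDegree_eq_zero_of_isUnit e]; rfl)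
  refine ⟨fun e => hp.1 (k h e), fun u v e => ?_⟩
  have h0 : u.coeff 0 * v.coeff 0 ≠ 0 := by
    rw [← mul_coeff_zero, ← e, coeff_zero_reverse]; exact leadingCoeff_ne_zero.2 hp.ne_zero
  have : p = u.reverse * v.reverse := by
    rw [← reverse_mul_of_domain, ← e, reverse, deg_rev h, reverse, reflect_reflect]
  exact (hp.2 this).imp (k (left_ne_zero_of_mul h0)) (k (right_ne_zero_of_mul h0))

/-- `p(g) = 0` -/
def Z (g : GL (Fin a) F) (p : F[X]) : Prop := aeval g.1 p = 0

theorem z_iff {g : GL (Fin a) F} {p : F[X]} : aeval (Matrix.toLin' g.1) p = 0 ↔ Z g p := by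
  rw [Z, ← map_eq_zero_iff (Matrix.toLinAlgEquiv' (R := F) (n := Fin a)) (AlgEquiv.injective _), ← aeval_algHom_apply]
  rfl

theorem Z.cj {g k : GL (Fin a) F} {p : F[X]} (h : Z g p) (c : IsConj g k) : Z k p := by
  obtain ⟨u, rfl⟩ := isConj_iff.1 c
  have := aeval_algHom_apply (MulSemiringAction.toAlgHom F (Matrix (Fin a) (Fin a) F) (ConjAct.toConjAct u)) g.1 p
  rw [show aeval g.1 p = 0 from h, map_zero] at this
  exact this

theorem Z.neg {g : GL (Fin a) F} {p : F[X]} (h : Z g p) : Z (-g) (p.comp (-X)) := by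
  rw [Z, aeval_comp]; simpa [Z] using h

theorem Z.inv {g : GL (Fin a) F} {p : F[X]} (h : Z g p) : Z g⁻¹ p.reverse :=
  (Units.mul_left_eq_zero (g ^ p.natDegree)).1 ((aeval_rev g _ p le_rfl).trans h)

theorem Z.dvd (ha : a ≠ 0) {g : GL (Fin a) F} {p : IP F} {q : F[X]} (h : Z g p.1) (h' : Z g q) : p.1 ∣ q := by
  have : Nonempty (Fin a) := ⟨⟨0, Nat.pos_of_ne_zero ha⟩⟩
  rw [minpoly.eq_of_irreducible_of_monic p.2.2.1 h p.2.1]
  exact minpoly.dvd F _ h'

/-- elliptic elements -/
def El (g : GL (Fin a) F) : Prop := ∃ p : F[X], Irreducible p ∧ p.coeff 0 ≠ 0 ∧ p.natDegree = a ∧ Z g p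

theorem El.neg {g : GL (Fin a) F} (h : El g) : El (-g) :=
  let ⟨p, a, b, c, d⟩ := h
  ⟨p.comp (-X), (MulEquiv.irreducible_iff (algEquivAevalNegX (R := F)).toMulEquiv).2 a,
    by simpa [coeff_zero_eq_eval_zero, eval_comp] using b, by simp [natDegree_comp, c], d.neg⟩

theorem El.inv {g : GL (Fin a) F} (h : El g) : El g⁻¹ :=
  let ⟨p, a, b, c, d⟩ := h
  ⟨p.reverse, irr_rev a b, by rw [coeff_zero_reverse]; exact leadingCoeff_ne_zero.2 a.ne_zero, (deg_rev b).trans c, d.inv⟩

theorem cusp {f : GL (Fin a) F → ℂ} (h : ∀ x, f x ≠ 0 → El x) : Cusp (ofGL f) :=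
  cusp_of_ell (a := a) fun c hc => by
    unfold ofGL at hc
    split_ifs at hc with e
    · obtain ⟨p, a, -, b, d⟩ := h _ hc
      exact ⟨_, p, a, b, z_iff.2 d, e.choose_spec⟩
    · exact (hc rfl).elim

theorem cn {g x : GL (Fin a) F} : IsConj g (-x) ↔ IsConj (-g) x := by
  simp only [isConj_iff, mul_neg, neg_mul, neg_eq_iff_eq_neg]

theorem ci {g x : GL (Fin a) F} : IsConj g x⁻¹ ↔ IsConj g⁻¹ x := by
  simp only [isConj_iff, ← inv_eq_iff_eq_inv, conj_inv]

open Classical in
/-- indicator of a class -/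
noncomputable def δ (g x : GL (Fin a) F) : ℂ := if IsConj g x then 1 else 0

/-- the antisymmetric function -/
noncomputable def ff (g : GL (Fin a) F) : GL (Fin a) F → ℂ := δ g + δ (-g) - δ g⁻¹ - δ (-g⁻¹)

/-- the relation -/
def rr (g x : GL (Fin a) F) : Prop := IsConj g x ∨ IsConj (-g) x ∨ IsConj g⁻¹ x ∨ IsConj (-g⁻¹) x

theorem rr.symm {g x : GL (Fin a) F} (h : rr g x) : rr x g := by
  rcases h with h | h | h | h
  · exact .inl h.symm
  · exact .inr (.inl (cn.2 h).symm)
  · exact .inr (.inr (.inl (ci.2 h).symm))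
  · exact .inr (.inr (.inr (cn.1 (ci.1 (by rw [inv_neg]; exact h.symm)))))

theorem δ_cls (g : GL (Fin a) F) : IsClassFunction _ (δ g) :=
  isClassFunction_iff_isConj.2 fun _ _ h => if_congr ⟨fun e => e.trans h, fun e => e.trans h.symm⟩ rfl rfl

theorem of_δ {g x : GL (Fin a) F} (h : δ g x ≠ 0) : IsConj g x := by_contra fun c => h (if_neg c)

theorem of_ff {g x : GL (Fin a) F} (h : ff g x ≠ 0) : rr g x := by_contra fun c => by
  simp only [rr, not_or] at c
  simp [ff, δ, -isConj_iff, c] at h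

theorem El.cj {g x : GL (Fin a) F} (h : El g) (c : IsConj g x) : El x :=
  let ⟨p, a, b, d, e⟩ := h; ⟨p, a, b, d, e.cj c⟩

theorem key (ha : 3 ≤ a) (hcon : ∀ θ : GL (Fin a) F → ℂ, Cu θ → θ (-1) = θ 1 → ¬ NRe θ) {κ : Type} [Fintype κ]
    (d : κ → GL (Fin a) F) (hd : ∀ k, El (d k)) (Λ : κ → GL (Fin a) F → ℂ) (l1 : ∀ l, IsClassFunction _ (Λ l))
    (l2 : ∀ l x, Λ l x⁻¹ = Λ l x) (l3 : ∀ θ, IsIrrCharacter _ θ → θ 1 ≠ 1 → ∀ l, classInner θ (Λ l) = 0)
    (l4 : ∀ k l, Λ l (d k) = 0 ↔ k ≠ l) {m : ℕ}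
    (hm : ∀ g : GL (Fin a) F, ∃ T : Finset (GL (Fin a) F), T.card ≤ m ∧ ∀ x, rr g x → ∃ t ∈ T, IsConj t x) :
    ∃ ρ, Nat.card {p : IP F // p.deg F = a ∧ Good p} ≤ m * ρ ∧
      ρ + Fintype.card κ ≤ ∑ d ∈ a.properDivisors, Nat.card {p : IP F // p.deg F = d} := by
  classical
  have a0 : a ≠ 0 := by omega
  choose g hg _ using fun p : {p : IP F // p.deg F = a ∧ Good p} => exists_ell p.1 p.2.1
  simp only [z_iff] at hg
  have inj : ∀ p q, IsConj (g p) (g q) → p = q := fun p q c => Subtype.ext (Subtype.ext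
    (eq_of_monic_of_associated p.1.2.1 q.1.2.1 (p.1.2.2.1.associated_of_dvd q.1.2.2.1 (((hg p).cj c).dvd a0 (hg q)))))
  have : Finite {p : IP F // p.deg F = a ∧ Good p} :=
    Finite.of_injective g fun p q e => inj p q (e ▸ IsConj.refl _)
  have := Fintype.ofFinite {p : IP F // p.deg F = a ∧ Good p}
  obtain ⟨R, r1, r2⟩ := exists_sub (fun p q => rr (g p) (g q)) (fun _ => .inl (IsConj.refl _)) (fun _ _ => rr.symm) m
    fun p => by
      obtain ⟨T, t1, t2⟩ := hm (g p)
      choose t t3 t4 using fun q : {q // rr (g p) (g q)} => t2 _ q.2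
      exact (Nat.card_le_card_of_injective (fun q => (⟨t q, t3 q⟩ : T)) fun q q' e => Subtype.ext (inj _ _
        ((t4 q).symm.trans ((show t q = t q' from congrArg Subtype.val e) ▸ t4 q')))).trans (by simpa using t1)
  refine ⟨R.card, r1, ?_⟩
  have el : ∀ p, El (g p) := fun p => ⟨_, p.1.2.2.1, p.1.2.2.2, p.2.1, hg p⟩
  have fi : ∀ g x : GL (Fin a) F, ff g x⁻¹ = -ff g x := fun g x => by
    simp only [ff, δ, Pi.add_apply, Pi.sub_apply, ci, inv_neg, inv_inv]; ring
  have fn : ∀ g x : GL (Fin a) F, ff g (-x) = ff g x := fun g x => by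
    simp only [ff, δ, Pi.add_apply, Pi.sub_apply, cn, neg_neg]; ring
  have li := indep (Θ := fun χ : {χ : IrrCharacter (GL (Fin a) F) // a ≠ 0 ∧ Cusp (ofGL χ.1)} => χ.1.1)
    (E := fun p : R => ff (g p)) (D := fun k => δ (d k)) (Λ := Λ) (g := fun p => g p) (fun χ => χ.1.2)
    (fun _ _ e => Subtype.ext (Subtype.ext e))
    (fun p q => ⟨?_, fun ne => by_contra fun c => ne (Subtype.ext (r2 _ p.2 _ q.2 (of_ff c)))⟩) (fun k l => ?_)
    (fun χ => l3 _ χ.1.2 ?_) (fun p l => anti (Equiv.inv _) fun x => by rw [Equiv.inv_apply, fi, l2, neg_mul])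
    fun p χ => ?_
  · have := card_le_of_prim a0 _ li (by
      rintro (χ | p | k)
      exacts [χ.1.2.isClassFunction, (((δ_cls _).add (δ_cls _)).sub (δ_cls _)).sub (δ_cls _), δ_cls _]) (by
      rintro (χ | p | k)
      · exact χ.2.2
      · refine cusp fun x hx => ?_
        rcases of_ff hx with c | c | c | c
        exacts [(el p).cj c, (el p).neg.cj c, (el p).inv.cj c, (el p).inv.neg.cj c]
      · exact cusp fun x hx => (hd k).cj (of_δ hx))
    rw [← Nat.insert_self_properDivisors a0, Finset.sum_insert Nat.self_notMem_properDivisors, ← card_cusp,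
      Nat.card_congr (Equiv.sigmaSubtype a), Fintype.card_sum, Fintype.card_sum, Fintype.card_coe,
      Nat.card_eq_fintype_card] at this
    omega
  · rintro e rfl
    have c1 : ¬ IsConj (g p)⁻¹ (g p) := fun c => p.1.2.2.1 ((hg p).dvd a0 ((hg p).inv.cj c))
    have c2 : ¬ IsConj (-(g p)⁻¹) (g p) := fun c => p.1.2.2.2 ((hg p).dvd a0 ((hg p).inv.neg.cj c))
    simp only [ff, δ, Pi.add_apply, Pi.sub_apply, if_neg c1, if_neg c2, if_pos (IsConj.refl _), sub_zero] at e
    split_ifs at e <;> norm_num at e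
  · have : classInner (δ (d k)) (Λ l) = (Nat.card (GL (Fin a) F) : ℂ)⁻¹ *
        ((Finset.univ.filter (IsConj (d k))).card * conj (Λ l (d k))) := by
      rw [classInner, ← nsmul_eq_mul, ← Finset.sum_const, Finset.sum_filter]
      refine congrArg _ (Finset.sum_congr rfl fun x _ => ?_)
      rw [δ]
      split_ifs with c
      · rw [one_mul, (l1 l).eq_of_isConj c]
      · exact zero_mul _
    rw [this, ← l4, mul_eq_zero, mul_eq_zero, map_eq_zero, or_iff_right (inv_ne_zero (card_ne_zero _)), or_iff_right]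
    exact Nat.cast_ne_zero.2 (Finset.card_ne_zero.2 ⟨d k, Finset.mem_filter.2 ⟨Finset.mem_univ _, IsConj.refl _⟩⟩)
  · obtain ⟨n, rfl⟩ := Nat.exists_eq_add_one_of_ne_zero a0
    rw [χ.2.2.irr.2, phi]
    intro e
    have e1 : ∏ i ∈ Finset.range n, ((Fintype.card F : ℤ) ^ (i + 1) - 1) = 1 := by exact_mod_cast e
    have h2 : (2 : ℤ) ≤ Fintype.card F := by exact_mod_cast Fintype.one_lt_card
    have := Finset.dvd_prod_of_mem (fun i => (Fintype.card F : ℤ) ^ (i + 1) - 1) (Finset.mem_range.2 (show 1 < n by omega))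
    rw [e1] at this
    have := Int.le_of_dvd one_pos this
    rw [pow_succ, pow_one] at this
    nlinarith
  · have hz : (-1 : GL (Fin a) F) ∈ Subgroup.center _ := Subgroup.mem_center_iff.2 fun x => by simp
    have h1 := χ.1.2.apply_center_mul hz
    have h2 := h1 (-1)
    rw [neg_mul_neg, mul_one] at h2
    rcases mul_self_eq_mul_self_iff.1 h2 with e | e
    · refine anti (Equiv.inv _) fun x => ?_
      have := hcon _ ⟨χ.1.2, χ.2.2⟩ e.symm
      simp only [NRe, not_exists, not_not] at this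
      simp only [Equiv.inv_apply, fi, χ.1.2.apply_inv, this x, neg_mul]
    · refine anti (Equiv.neg _) fun x => ?_
      have := h1 x
      rw [neg_one_mul, ← neg_neg (χ.1.1 (-1)), ← e, neg_mul, ← mul_neg] at this
      rw [Equiv.neg_apply, fn, mul_left_cancel₀ χ.1.2.one_ne_zero this, map_neg, mul_neg]

end NR

theorem nr3 (ha : 3 ≤ a) : ∃ θ : GL (Fin a) F → ℂ, Cu θ ∧ NRe θ ∧ θ (-1) = θ 1 := by
  classical
  by_cases h42 : a = 4 ∧ Fintype.card F = 2
  · obtain ⟨rfl, hq⟩ := h42
    obtain ⟨θ, h1, h2⟩ := nr42 hq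
    have : CharP F 2 := charP_of_card_eq_prime_pow (p := 2) (f := 1) hq
    exact ⟨θ, h1, h2, congrArg θ (Units.ext (by ext i j; simp [CharTwo.neg_eq]))⟩
  by_contra! hc
  have hcon : ∀ θ : GL (Fin a) F → ℂ, Cu θ → θ (-1) = θ 1 → ¬ NRe θ := fun θ a b c => hc θ a c b
  have o1 : ∀ θ : GL (Fin a) F → ℂ, IsIrrCharacter _ θ → θ 1 ≠ 1 → classInner θ 1 = 0 := fun θ h1 h2 =>
    h1.inner_of_ne CL.Char.isIrrCharacter_one' fun e => h2 (by rw [e]; rfl)
  rcases Nat.even_or_odd (Fintype.card F) with hq | hq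
  · have h2 : ringChar F = 2 := (FiniteField.even_card_iff_char_two).2 (Nat.even_iff.1 hq)
    have : CharP F 2 := ringChar.of_eq h2
    have ng : ∀ g : GL (Fin a) F, -g = g := fun g => Units.ext (by ext i j; simp [CharTwo.neg_eq])
    have := (good_count ha h42).2 hq
    by_cases c : Nat.card {p : IP F // p.deg F = a ∧ Good p} = 0
    · have h1 : Nat.card {p : IP F // p.deg F = 1} ≠ 0 := by
        have : Finite {p : IP F // p.deg F = 1} := by
          choose g hg _ using fun p : {p : IP F // p.deg F = 1} => exists_ell p.1 p.2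
          exact Finite.of_injective g fun p q e => Subtype.ext (Subtype.ext (Polynomial.eq_of_monic_of_associated p.1.2.1
            q.1.2.1 (p.1.2.2.1.associated_of_dvd q.1.2.2.1 ((NR.z_iff.1 (hg p)).dvd one_ne_zero (e ▸ NR.z_iff.1 (hg q))))))
        exact (Nat.card_pos_iff.2 ⟨⟨⟨Polynomial.X - Polynomial.C 1, Polynomial.monic_X_sub_C _,
          Polynomial.irreducible_X_sub_C _, by simp⟩, Polynomial.natDegree_X_sub_C _⟩, this⟩).ne'
      have := Finset.single_le_sum (f := fun d => Nat.card {p : IP F // p.deg F = d}) (fun _ _ => Nat.zero_le _)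
        (Nat.one_mem_properDivisors_iff_one_lt.2 (show 1 < a by omega))
      omega
    obtain ⟨⟨p, hp, -⟩⟩ := (Nat.card_ne_zero.1 c).1
    obtain ⟨g, hg, -⟩ := exists_ell p hp
    obtain ⟨ρ, r1, r2⟩ := NR.key ha hcon (κ := Unit) (fun _ => g) (fun _ => ⟨_, p.2.2.1, p.2.2.2, hp, NR.z_iff.1 hg⟩)
      (fun _ => 1) (fun _ => CL.Char.isClassFunction_one) (fun _ _ => rfl) (fun θ a b _ => o1 θ a b) (by simp) (m := 2)
      fun g => ⟨{g, g⁻¹}, Finset.card_le_two, fun x hx => by simpa only [NR.rr, ng, Finset.mem_insert,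
        Finset.mem_singleton, exists_eq_or_imp, exists_eq_left, or_self, or_self_left] using hx⟩
    rw [Fintype.card_unit] at r2
    omega
  · obtain ⟨p, p', hp, hp', s, s'⟩ := ell_det ha hq
    obtain ⟨g, hg, e⟩ := exists_ell p hp
    obtain ⟨g', hg', e'⟩ := exists_ell p' hp'
    let η : GL (Fin a) F →* ℂ := ((Int.castRingHom ℂ).toMonoidHom.comp (quadraticChar F).toMonoidHom).comp
      ((Units.coeHom F).comp Matrix.GeneralLinearGroup.det)
    have hη : ∀ x : GL (Fin a) F, η x = (quadraticChar F x.1.det : ℤ) := fun _ => rfl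
    have d0 : ∀ x : GL (Fin a) F, x.1.det ≠ 0 := fun x => (Matrix.GeneralLinearGroup.det x).ne_zero
    have η1 : η g = 1 := by rw [hη, (quadraticChar_one_iff_isSquare (d0 g)).2 (e ▸ s)]; simp
    have η2 : η g' = -1 := by rw [hη, quadraticChar_neg_one_iff_not_isSquare.2 (e' ▸ s')]; simp
    have ηi : ∀ x, η x⁻¹ = η x := fun x => by
      rw [map_inv, hη]
      rcases quadraticChar_dichotomy (d0 x) with c | c <;> rw [c] <;> simp
    have ηc := CL.Char.isIrrCharacter_monoidHom η
    have o2 : ∀ θ : GL (Fin a) F → ℂ, IsIrrCharacter _ θ → θ 1 ≠ 1 → classInner θ η = 0 := fun θ h1 h2 =>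
      h1.inner_of_ne ηc fun e => h2 (by rw [e, map_one])
    obtain ⟨ρ, r1, r2⟩ := NR.key ha hcon (κ := Bool) (fun b => bif b then g else g')
      (by rintro (_ | _)
          exacts [⟨_, p'.2.2.1, p'.2.2.2, hp', NR.z_iff.1 hg'⟩, ⟨_, p.2.2.1, p.2.2.2, hp, NR.z_iff.1 hg⟩])
      (fun b => bif b then 1 + η else 1 - η)
      (by rintro (_ | _)
          exacts [CL.Char.isClassFunction_one.sub ηc.isClassFunction, CL.Char.isClassFunction_one.add ηc.isClassFunction])
      (by rintro (_ | _) x <;> simp only [cond_true, cond_false, Pi.add_apply, Pi.sub_apply, Pi.one_apply, ηi])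
      (by rintro θ a b (_ | _) <;> simp only [cond_true, cond_false, CL.Char.classInner_add_right,
        CL.Char.classInner_sub_right, o1 θ a b, o2 θ a b, add_zero, sub_zero])
      (by rintro (_ | _) (_ | _) <;> simp [η1, η2] <;> norm_num) (m := 4)
      fun g => ⟨{g, -g, g⁻¹, -g⁻¹}, Finset.card_le_four, fun x hx => by simpa only [NR.rr, Finset.mem_insert,
        Finset.mem_singleton, exists_eq_or_imp, exists_eq_left] using hx⟩
    have := (good_count ha h42).1 hq
    rw [Fintype.card_bool] at r2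
    omega

end CL.DG4
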