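/-
S4984, block NRd: a <= 2.  KSG/GL2Char has the explicit discrete series dsG theta (theta a character of
F_{q^2}^* with theta^q <> theta; value -(theta(x) + theta(x^q)) on elliptic x, (q-1) theta(z) on scalars,
-theta(z) on z*unipotent, 0 on split classes, hence Cusp).  Choose theta of order q^2 - 1 resp. its square.
For a = 1 every class function is Cusp (ofGL theta vanishes in dimension >= 2).
-/
import Cfsg.Agent.CLAS.DG4.Def
import Cfsg.Agent.KSG.GL2Char

set_option autoImplicit false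

namespace CL.DG4

open Cfsg CL.Witt CL.Zel Module Submodule
open scoped ComplexConjugate

variable {F : Type} [Field F] [Fintype F] [DecidableEq F] {a : ℕ}

namespace NRd
open CL.GL2 CL.Char

theorem res_dim {n : ℕ} (χ : GL (Fin n) F → ℂ) {c d : Cls F} (h : c.dim + d.dim ≠ n) :
    res (ofGL χ) c d = 0 := by
  rw [res, Finset.sum_eq_zero, zero_div]
  intro X _
  by_contra h1
  have := (sup_ofGL χ _ h1).1
  rw [dim_cls] at this
  simp at this
  exact h this

omit [DecidableEq F] in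
theorem ex_mat {n : ℕ} {c : Cls F} (h : c.dim = n) :
    ∃ B : Matrix (Fin n) (Fin n) F, cls (Matrix.toLin' B) = c := by
  subst h
  exact ⟨LinearMap.toMatrix' c.rep, by simp⟩

theorem ex_char (K : Type) [Field K] [Fintype K] :
    ∃ χ : MulChar K ℂ, orderOf χ = Fintype.card K - 1 :=
  MulChar.exists_mulChar_orderOf K dvd_rfl (Complex.isPrimitiveRoot_exp _ (by
    have := Fintype.one_lt_card (α := K); omega))

variable {m : Matrix (Fin 2) (Fin 2) F} [hm : Fact (NoEig m)]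

theorem cu {θ : MulChar (QK m) ℂ} (h : θ ≠ θ ^ Fintype.card F) : Cu (dsG θ) := by
  have hi := isIrr_dsG h
  refine ⟨hi, fun c d hc hd => ?_⟩
  by_cases h2 : c.dim + d.dim = 2
  swap
  · exact res_dim _ h2
  obtain ⟨B, rfl⟩ := ex_mat (show c.dim = 1 by omega)
  obtain ⟨C, rfl⟩ := ex_mat (show d.dim = 1 by omega)
  have e := sum_fb_eq B C (ofGL (dsG θ))
  have e1 : ∀ M : Matrix (Fin 2) (Fin 2) F, ofGL (dsG θ) (cls (Matrix.toLin' M)) = ds θ M := fun M => by
    by_cases h0 : M.det = 0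
    · rw [ds_eq_zero_of_det θ M h0]
      by_contra h1
      have := (sup_ofGL _ _ h1).2
      rw [det_cls, LinearMap.det_toLin'] at this
      exact this h0
    · exact congrFun (toGL_ofGL hi.isClassFunction) (Matrix.GeneralLinearGroup.mkOfDetNeZero M h0)
  have e2 : ∑ X : Matrix (Fin 1) (Fin 1) F, ds θ (fb B X C : Matrix (Fin 2) (Fin 2) F) = 0 := by
    have a00 : ∀ X : Matrix (Fin 1) (Fin 1) F, (fb B X C : Matrix (Fin 2) (Fin 2) F) 0 0 = B 0 0 :=
      fun X => fb_cc B X C 0 0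
    have a01 : ∀ X : Matrix (Fin 1) (Fin 1) F, (fb B X C : Matrix (Fin 2) (Fin 2) F) 0 1 = X 0 0 :=
      fun X => fb_cn B X C 0 0
    have a10 : ∀ X : Matrix (Fin 1) (Fin 1) F, (fb B X C : Matrix (Fin 2) (Fin 2) F) 1 0 = 0 :=
      fun X => fb_nc B X C 0 0
    have a11 : ∀ X : Matrix (Fin 1) (Fin 1) F, (fb B X C : Matrix (Fin 2) (Fin 2) F) 1 1 = C 0 0 :=
      fun X => fb_nn B X C 0 0
    by_cases hBC : B 0 0 = C 0 0
    · have e3 : ∀ X : Matrix (Fin 1) (Fin 1) F, ds θ (fb B X C : Matrix (Fin 2) (Fin 2) F) =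
          (if X = 0 then (Fintype.card F : ℂ) * θ (algebraMap F _ (B 0 0)) else 0) -
            θ (algebraMap F _ (B 0 0)) := fun X => by
        split_ifs with hX
        · rw [ds_scal _ ⟨by rw [a01, hX]; rfl, a10 X, by rw [a00, a11, hBC]⟩, a00]; ring
        · rw [ds_unip _ (a10 X) (by rw [a00, a11, hBC]) (by
            rw [a01]; intro h0; apply hX; ext i j; rw [Subsingleton.elim i 0, Subsingleton.elim j 0, h0]; rfl),
            a00, zero_sub]
      simp only [e3, Finset.sum_sub_distrib, Finset.sum_ite_eq', Finset.mem_univ, if_true,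
        Finset.sum_const, Finset.card_univ, nsmul_eq_mul]
      have : Fintype.card (Matrix (Fin 1) (Fin 1) F) = Fintype.card F := by
        exact (Fintype.card_congr (Matrix.of.symm)).trans (by simp)
      rw [this, sub_self]
    · exact Finset.sum_eq_zero fun X _ => ds_upper _ (a10 X) (by rw [a00, a11]; exact hBC)
  rw [Finset.sum_congr rfl fun X _ => e1 (fb B X C), e2] at e
  exact (mul_eq_zero.mp e.symm).resolve_left (card_pow_ne_zero _)

theorem conj_dsG (θ : MulChar (QK m) ℂ) (g : GL (Fin 2) F) : conj (dsG θ g) = dsG θ⁻¹ g := by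
  rw [dsG, conj_ds, dsG]
  simp only [conj_mulChar]

theorem nre {θ : MulChar (QK m) ℂ} (h1 : θ ^ 2 ≠ 1) (h2 : θ ^ (Fintype.card F + 1) ≠ 1) :
    NRe (dsG θ) := by
  by_contra hn
  have : dsG θ⁻¹ = dsG θ := funext fun g => by
    rw [← conj_dsG]; by_contra h3; exact hn ⟨g, h3⟩
  rcases dsG_eq_iff.mp this with h | h
  · exact h1 (by rw [pow_two]; nth_rewrite 1 [← h]; exact inv_mul_cancel θ)
  · exact h2 (by rw [pow_succ, ← h]; exact inv_mul_cancel θ)

theorem ds_neg (θ : MulChar (QK m) ℂ) : dsG θ (-1) = θ (-1) * dsG θ 1 := by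
  have e : ((-1 : GL (Fin 2) F) : Matrix (Fin 2) (Fin 2) F) = (-1 : F) • 1 := by simp
  rw [dsG_one, dsG, e, ds_smul_one, map_neg, map_one, mul_comm]

omit [DecidableEq F] in
theorem ne_pow {θ : MulChar (QK m) ℂ} (h : θ ^ (Fintype.card F - 1) ≠ 1) :
    θ ≠ θ ^ Fintype.card F := fun e => h (by
  have := Fintype.card_pos (α := F)
  have e2 : θ ^ Fintype.card F = θ * θ ^ (Fintype.card F - 1) := by
    rw [← pow_succ']; congr 1; omega
  rw [e2] at e
  exact (left_eq_mul.mp e))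

omit [DecidableEq F] in
theorem ex_q : ∃ χ : MulChar (QK m) ℂ, ∀ k, 0 < k → k + 1 < Fintype.card F ^ 2 → χ ^ k ≠ 1 := by
  obtain ⟨χ, h⟩ := ex_char (QK m)
  rw [card_quad] at h
  exact ⟨χ, fun k h0 h1 => pow_ne_one_of_lt_orderOf h0.ne' (by omega)⟩

omit [DecidableEq F] in
theorem sq_neg (χ : MulChar (QK m) ℂ) : (χ ^ 2) (-1) = 1 := by
  rw [MulChar.pow_apply' _ two_ne_zero, ← map_pow]; simp

end NRd

open CL.GL2 CL.Char NRd

theorem cusp_one (θ : GL (Fin 1) F → ℂ) : Cusp (ofGL θ) := by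
  exact fun c d hc hd => res_dim θ (by omega)

theorem nr1 (hq : 4 ≤ Fintype.card F) : ∃ θ : GL (Fin 1) F → ℂ, Cu θ ∧ NRe θ := by
  obtain ⟨α, h⟩ := ex_char F
  refine ⟨fun A => α A.1.det, ⟨isIrrCharacter_of_map_mul (by simp)
    (fun g k => by rw [Units.val_mul, Matrix.det_mul, map_mul]), cusp_one _⟩, ?_⟩
  by_contra hn
  refine pow_ne_one_of_lt_orderOf (x := α) two_ne_zero (by omega) ?_
  have : α⁻¹ = α := by
    ext u
    rw [← conj_mulChar]
    by_contra h3
    refine hn ⟨Matrix.GeneralLinearGroup.mkOfDetNeZero !![(u : F)] (by simp), ?_⟩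
    simpa using h3
  rw [pow_two]; nth_rewrite 1 [← this]; exact inv_mul_cancel α

theorem quad1 (hq : Fintype.card F = 3) : ∃ (θ : GL (Fin 1) F → ℂ) (lam : F → ℂ), Cu θ ∧ Lin θ ∧
    (∀ A, θ A = lam (A.1 0 0)) ∧ lam 1 = 1 ∧ lam (-1) = -1 := by
  have h2 : ringChar F ≠ 2 := fun e => by
    have := FiniteField.even_card_iff_char_two.mp e
    omega
  have hm : ∀ A B : GL (Fin 1) F, ((quadraticChar F ((A * B).1 0 0) : ℤ) : ℂ) =
      (quadraticChar F (A.1 0 0) : ℤ) * (quadraticChar F (B.1 0 0) : ℤ) := fun A B => by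
    rw [Units.val_mul, Matrix.mul_apply, Fin.sum_univ_one, map_mul, Int.cast_mul]
  refine ⟨fun A => (quadraticChar F (A.1 0 0) : ℤ), fun x => (quadraticChar F x : ℤ),
    ⟨isIrrCharacter_of_map_mul (by simp) hm, cusp_one _⟩, ⟨hm, fun A => ?_⟩, fun _ => rfl, by simp, ?_⟩
  · have h0 : A.1 0 0 ≠ 0 := by
      have := A.det_ne_zero
      rwa [Matrix.det_fin_one] at this
    rcases quadraticChar_dichotomy h0 with h | h <;> simp only [h] <;> simp
  · simp only [quadraticChar_neg_one h2, hq]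
    have : ZMod.χ₄ ((3 : ℕ) : ZMod 4) = -1 := by decide
    rw [this]; simp

theorem nr2 (hq : 4 ≤ Fintype.card F) : ∃ θ : GL (Fin 2) F → ℂ, Cu θ ∧ NRe θ ∧ θ (-1) = θ 1 := by
  obtain ⟨m, hm, -⟩ := exists_noEig_det_one (F := F)
  have := Fact.mk hm
  obtain ⟨χ, h⟩ := ex_q (m := m)
  refine ⟨dsG (χ ^ 2), cu (ne_pow ?_), nre ?_ ?_, by rw [ds_neg, sq_neg, one_mul]⟩
  · rw [← pow_mul]
    obtain ⟨k, hk⟩ := Nat.exists_eq_add_of_le' (show 1 ≤ Fintype.card F by omega)
    exact h _ (by omega) (by rw [hk, Nat.add_sub_cancel]; nlinarith)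
  · rw [← pow_mul]; exact h _ (by omega) (by nlinarith)
  · rw [← pow_mul]; exact h _ (by omega) (by nlinarith)

theorem nr23 (hq : Fintype.card F = 3) : ∃ θ : GL (Fin 2) F → ℂ, Cu θ ∧ NRe θ ∧ θ (-1) = -θ 1 := by
  obtain ⟨m, hm, -⟩ := exists_noEig_det_one (F := F)
  have := Fact.mk hm
  obtain ⟨χ, h⟩ := ex_q (m := m)
  rw [hq] at h
  refine ⟨dsG χ, cu (ne_pow ?_), nre ?_ ?_, ?_⟩
  · rw [hq]; exact h _ (by omega) (by omega)
  · exact h _ (by omega) (by omega)
  · rw [hq]; exact h _ (by omega) (by omega)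
  · have h1 : χ (-1) ^ 2 = 1 := by rw [← map_pow]; simp
    rcases sq_eq_one_iff.mp h1 with h2 | h2
    · refine absurd ?_ (h 4 (by omega) (by omega))
      ext u
      have h8 : ((u : QK m) ^ 4) ^ 2 = 1 := by
        have := FiniteField.pow_card_sub_one_eq_one (u : QK m) u.ne_zero
        rwa [card_quad, hq, show 3 ^ 2 - 1 = 4 * 2 from rfl, pow_mul] at this
      rw [MulChar.pow_apply_coe, ← map_pow, MulChar.one_apply_coe]
      rcases sq_eq_one_iff.mp h8 with h3 | h3 <;> rw [h3]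
      · exact map_one χ
      · exact h2
    · rw [ds_neg, h2, neg_one_mul]

theorem even2 (hq : 3 ≤ Fintype.card F) : ∃ θ : GL (Fin 2) F → ℂ, Cu θ ∧ θ (-1) = θ 1 := by
  obtain ⟨m, hm, -⟩ := exists_noEig_det_one (F := F)
  have := Fact.mk hm
  obtain ⟨χ, h⟩ := ex_q (m := m)
  refine ⟨dsG (χ ^ 2), cu (ne_pow ?_), by rw [ds_neg, sq_neg, one_mul]⟩
  rw [← pow_mul]
  obtain ⟨k, hk⟩ := Nat.exists_eq_add_of_le' (show 1 ≤ Fintype.card F by omega)
  exact h _ (by omega) (by rw [hk, Nat.add_sub_cancel]; nlinarith)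

theorem sgn2 (hq : Fintype.card F = 2) : ∃ θ : GL (Fin 2) F → ℂ, Cu θ ∧ Lin θ := by
  obtain ⟨m, hm, -⟩ := exists_noEig_det_one (F := F)
  have := Fact.mk hm
  obtain ⟨χ, h⟩ := ex_q (m := m)
  rw [hq] at h
  have hc : Cu (dsG χ) := cu (ne_pow (by rw [hq]; exact h _ (by omega) (by omega)))
  have h1 : dsG χ 1 = 1 := by rw [dsG_one, hq]; norm_num
  have hmul := hc.1.isCharacter.map_mul_of_apply_one h1
  refine ⟨dsG χ, hc, hmul, fun A => ?_⟩
  have h3 : χ⁻¹ = χ ^ Fintype.card F := by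
    rw [inv_eq_iff_mul_eq_one, ← pow_succ', hq]
    have := MulChar.pow_card_eq_one χ
    rwa [Fintype.card_units, card_quad, hq] at this
  have h4 := hmul A A⁻¹
  rw [mul_inv_cancel, h1, hc.1.apply_inv, conj_dsG, h3, dsG_pow_card] at h4
  exact mul_self_eq_one_iff.mp h4.symm

end CL.DG4
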