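/-
S4984, block XH: glue.  xchar = irr_ind + van_opp/van_nonopp + index_P + Cusp.irr (theta(1) =
prod_{i<a-1} (q^(i+1) - 1)) + Par.neg.  h2geo = h2 with Q = c.Q, L = P cap stab(span x'), w = c.w:
P = Q L by lev; an element of L preserves U, so rho = 1, tau = 1 force it to be 1 (dual bases);
rho(w^-1 l w) = rho(l)^-T, tau(w^-1 l w) = tau l; theta_inv_transpose and Lin give hker.
-/
import Cfsg.Agent.CLAS.DG4.Van
import Cfsg.Agent.CLAS.DG4.H2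

set_option autoImplicit false
set_option linter.unusedSectionVars false

namespace CL.DG4

open Cfsg CL.Witt CL.Zel Module Submodule
open scoped ComplexConjugate

variable {F V : Type} [Field F] [Fintype F] [DecidableEq F] [AddCommGroup V] [Module F V]
  [Finite V] {T : FormType F} {f : Form T V} {r e a : ℕ}

namespace XH

theorem fin (f : Form T V) : Finite f.O :=
  Finite.of_injective (fun g : f.O => (g.1 : V → V)) fun _ _ h => Subtype.ext (DFunLike.coe_injective h)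

theorem memP {x : Fin a → V} {g : f.O} : g ∈ PP f x ↔ ∀ v, v ∈ span F (Set.range x) ↔ g.1 v ∈ span F (Set.range x) :=
  ⟨fun h => h.2, fun h => ⟨g.2, h⟩⟩

theorem swp {x y : Fin a → V} (g : V ≃ₗ[F] V) (hx : LinearIndependent F x) (hy : LinearIndependent F y)
    (h : ∀ i, g (x i) ∈ span F (Set.range y)) (v : V) : v ∈ span F (Set.range x) ↔ g v ∈ span F (Set.range y) := by
  have e : (span F (Set.range x)).map (g : V →ₗ[F] V) = span F (Set.range y) :=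
    Submodule.eq_of_le_of_finrank_eq (map_le_iff_le_comap.2 (span_le.2 (by rintro _ ⟨i, rfl⟩; exact h i))) (by
      rw [LinearEquiv.finrank_map_eq, finrank_span_eq_card hx, finrank_span_eq_card hy])
  rw [← e]
  exact ⟨fun hv => ⟨v, hv, rfl⟩, fun ⟨u, hu, e⟩ => g.injective e ▸ hu⟩

theorem zW (c : Par f a) {v : V} (hv : v ∈ c.W) (h : ∀ j, f.B (c.x' j) v = 0) : v = 0 :=
  (Submodule.disjoint_def.1 c.hyp.isCompl.disjoint) v
    (span_mono (by rintro _ ⟨i, rfl⟩; exact ⟨Sum.inl i, rfl⟩) hv) (c.hyp.mem_perp_span.2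
      ⟨fun i => c.hyp.totSing_left.2 _ (subset_span ⟨i, rfl⟩) _ hv, h⟩)

theorem zW' (c : Par f a) {v : V} (hv : v ∈ span F (Set.range c.x')) (h : ∀ j, f.B (c.x j) v = 0) : v = 0 :=
  (Submodule.disjoint_def.1 c.hyp.isCompl.disjoint) v
    (span_mono (by rintro _ ⟨i, rfl⟩; exact ⟨Sum.inr i, rfl⟩) hv) (c.hyp.mem_perp_span.2
      ⟨h, fun i => c.hyp.totSing_right.2 _ (subset_span ⟨i, rfl⟩) _ hv⟩)

theorem w1 (c : Par f a) (v : V) : v ∈ c.W ↔ c.w.1 v ∈ span F (Set.range c.x') :=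
  swp _ c.hyp.linearIndependent_left c.hyp.linearIndependent_right (fun i => c.hw₁ i ▸ subset_span ⟨i, rfl⟩) v

theorem w2 (c : Par f a) (v : V) : v ∈ span F (Set.range c.x') ↔ c.w.1 v ∈ c.W :=
  swp _ c.hyp.linearIndependent_right c.hyp.linearIndependent_left
    (fun i => c.hw₂ i ▸ smul_mem _ _ (subset_span ⟨i, rfl⟩)) v

theorem ap (g h : f.O) (v : V) : (g * h).1 v = g.1 (h.1 v) := rfl

theorem wi (g : f.O) (v : V) : g.1 (g⁻¹.1 v) = v := by rw [← ap, mul_inv_cancel]; rfl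

theorem iw (g : f.O) (v : V) : g⁻¹.1 (g.1 v) = v := by rw [← ap, inv_mul_cancel]; rfl

theorem memU (c : Par f a) {l : f.O} (h1 : l ∈ c.P) (h2 : l ∈ PP f c.x') {u : V} (hu : u ∈ c.U) : l.1 u ∈ c.U := by
  refine c.hyp.mem_perp_span.2 ⟨fun i => ?_, fun i => ?_⟩
  · rw [← wi l (c.x i), f.O_B]
    exact hu _ (span_mono (by rintro _ ⟨i, rfl⟩; exact ⟨Sum.inl i, rfl⟩)
      ((memP.1 (inv_mem h1) _).1 (subset_span ⟨i, rfl⟩)))
  · rw [← wi l (c.x' i), f.O_B]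
    exact hu _ (span_mono (by rintro _ ⟨i, rfl⟩; exact ⟨Sum.inr i, rfl⟩)
      ((memP.1 (inv_mem h2) _).1 (subset_span ⟨i, rfl⟩)))

theorem tau_eq (c : Par f a) {g g' : c.P} (h : ∀ u ∈ c.U, g.1.1 u = g'.1.1 u) : c.τ g = c.τ g' := by
  refine Subtype.ext (LinearEquiv.ext fun u => Subtype.ext ?_)
  have h1 := sub_mem (c.hτ g' u) (c.hτ g u)
  rw [h u u.2, sub_sub_sub_cancel_left] at h1
  exact sub_eq_zero.1 (zW c h1 (c.hyp.mem_perp_span.1 (sub_mem (Subtype.coe_prop _) (Subtype.coe_prop _))).2)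

theorem rho_eq (c : Par f a) {g : c.P} {A : GL (Fin a) F} (h : ∀ j, g.1.1 (c.x j) = ∑ i, A.1 i j • c.x i) :
    c.ρ g = A := by
  ext i j
  exact Fintype.linearIndependent_iffₛ.1 c.hyp.linearIndependent_left _ _ ((c.hρ g j).symm.trans (h j)) i

theorem dis (c : Par f a) {u : f.O} (h1 : u ∈ c.Q) (h2 : u ∈ PP f c.x') : u = 1 := by
  obtain ⟨u, ⟨h3, h4⟩, rfl⟩ := h1
  have a1 : ∀ j, u.1.1 (c.x j) = c.x j := fun j => by
    rw [c.hρ, MonoidHom.mem_ker.1 h3]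
    simp [Matrix.one_apply, ite_smul]
  have a2 : ∀ j, u.1.1 (c.x' j) = c.x' j := fun j => sub_eq_zero.1 (zW' c
    (sub_mem ((memP.1 h2 _).1 (subset_span ⟨j, rfl⟩)) (subset_span ⟨j, rfl⟩)) fun i => by
      rw [map_sub, sub_eq_zero]
      conv_lhs => rw [← a1 i]
      exact f.O_B ..)
  have a3 : ∀ v ∈ c.U, u.1.1 v = v := fun v hv => by
    have h5 := c.hτ u ⟨v, hv⟩
    rw [MonoidHom.mem_ker.1 h4] at h5
    exact sub_eq_zero.1 (zW c h5 (c.hyp.mem_perp_span.1 (sub_mem (memU c u.2 h2 hv) hv)).2)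
  refine Subtype.ext (LinearEquiv.ext fun v => ?_)
  have := a3 _ (c.hyp.sub_mem_perp v)
  simp only [map_sub, map_add, map_sum, map_smul, a1, a2] at this
  exact sub_left_injective this

end XH

theorem xchar (h : Ty f r e) (c : Par f a) {θ : GL (Fin a) F → ℂ} {ψ : c.fU.O → ℂ} (hθ : Cu θ)
    (hn : NRe θ) (hψ : IsIrrCharacter _ ψ) (hiv : IV c.fU a θ ψ) {n : ℕ} (hψ1 : ψ 1 = n) :
    ∃ (χ : f.O → ℂ) (D : ℕ), IsIrrCharacter _ χ ∧ χ 1 = (n * D : ℕ) ∧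
      D * (Fintype.card F ^ a - 1) = DD (Fintype.card F) r e a ∧
      ∀ s : ℂ, s * s = 1 → θ (-1) = s * θ 1 → Ev c.fU ψ s → Ev f χ 1 := by
  have := XH.fin f
  obtain _ | m := a
  · obtain ⟨A, hA⟩ := hn
    obtain ⟨k, ρ, -, rfl⟩ := hθ.1
    rw [Subsingleton.elim A 1, Representation.char_one] at hA
    simp at hA
  obtain ⟨χ, h1, h2, h3⟩ := irr_ind (c.phi_irr hθ.1 hψ) fun g hg => by
    by_cases ho : c.Opp g
    · exact c.van_opp h hθ.1 hn hψ.isCharacter ho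
    · exact c.van_nonopp h hθ hψ.isCharacter hiv hg ho
  have h4 : θ 1 = phi F m := (Cusp.irr (χ := ⟨θ, hθ.1⟩) hθ.2).2
  refine ⟨χ, c.P.index * ∏ i ∈ Finset.range m, (Fintype.card F ^ (i + 1) - 1), h1, ?_, ?_, fun s hs h5 h6 z hz => ?_⟩
  · rw [h2, Par.phi, map_one, map_one, h4, hψ1, phi]
    push_cast
    rw [Finset.prod_congr rfl fun i _ => Nat.cast_sub (R := ℂ) (Nat.one_le_pow (i + 1) _ Fintype.card_pos)]
    push_cast
    ring
  · rw [mul_assoc, ← Finset.prod_range_succ (fun i => Fintype.card F ^ (i + 1) - 1), h.index_P c]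
  · obtain ⟨h7, hP, h8, h9⟩ := c.neg hz
    rw [one_mul]
    refine h3 z h7 ?_
    rw [CL.Char.extendByZero_of_mem _ _ hP, Par.phi, Par.phi, h8, h5, h6 _ h9, map_one, map_one]
    linear_combination θ 1 * ψ 1 * hs

theorem Par.w_notMem (c : Par f a) (ha : 1 ≤ a) : c.w ∉ c.P := by
  intro hw
  have h1 := (XH.memP.1 hw (c.x ⟨0, ha⟩)).1 (subset_span ⟨_, rfl⟩)
  rw [c.hw₁] at h1
  exact one_ne_zero ((c.hyp.B_self ⟨0, ha⟩).symm.trans (c.hyp.totSing_left.2 _ (subset_span ⟨_, rfl⟩) _ h1))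

theorem h2geo (h : Ty f r e) (c : Par f a) (ha : 1 ≤ a) {θ : GL (Fin a) F → ℂ} {ψ : c.fU.O → ℂ}
    (hθ : Cu θ) (hl : Lin θ) (hε : T = .alt F → θ (-1) = 1) (hψ : IsIrrCharacter _ ψ)
    (hiv : IV c.fU a θ ψ) : ∃ χ₁ χ₂ t₁ t₂, H2Out c.P c.Q c.w (c.phi θ ψ) χ₁ χ₂ t₁ t₂ := by
  have := XH.fin f
  have t1 : θ 1 = 1 := (hl.2 1).resolve_right fun e => by
    have := hl.1 1 1
    rw [mul_one, e] at this
    norm_num at this
  have hσ : ∀ t, T.σ t = t := by rcases h.2.1 with ⟨rfl, -⟩ | ⟨rfl, -⟩ <;> exact fun _ => rfl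
  have key : ∀ (g : f.O) (hg : g ∈ c.P), θ (c.ρ ⟨g, hg⟩) = 1 → c.τ ⟨g, hg⟩ = 1 → ∀ x : c.P,
      extendByZero c.P (c.phi θ ψ) (g * x) = c.phi θ ψ x := fun g hg h1 h2 x => by
    refine (CL.Char.extendByZero_coe _ _ (⟨g, hg⟩ * x)).trans ?_
    rw [Par.phi, Par.phi, map_mul, map_mul, hl.1, h1, h2, one_mul, one_mul]
  have wL : ∀ l ∈ c.P ⊓ PP f c.x', c.w * l * c.w⁻¹ ∈ c.P ⊓ PP f c.x' ∧ c.w⁻¹ * l * c.w ∈ c.P ⊓ PP f c.x' := by
    rintro l ⟨h1, h2⟩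
    have h3 := XH.memP.1 h1
    have h4 := XH.memP.1 h2
    refine ⟨⟨XH.memP.2 fun v => ?_, XH.memP.2 fun v => ?_⟩, XH.memP.2 fun v => ?_, XH.memP.2 fun v => ?_⟩
    · rw [XH.ap, XH.ap, ← XH.w2, ← h4, XH.w2, XH.wi]
    · rw [XH.ap, XH.ap, ← XH.w1, ← h3, XH.w1, XH.wi]
    · rw [XH.ap, XH.ap, XH.w1, h4, XH.w1, XH.wi]
    · rw [XH.ap, XH.ap, XH.w2, h3, XH.w2, XH.wi]
  have ww : c.w * c.w ∈ c.P ⊓ PP f c.x' :=
    ⟨XH.memP.2 fun v => (XH.w1 c v).trans (XH.w2 c _), XH.memP.2 fun v => (XH.w2 c v).trans (XH.w1 c _)⟩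
  refine h2 (L := c.P ⊓ PP f c.x') (c.phi_irr hθ.1 hψ) (Subgroup.map_subtype_le _) inf_le_left ?_ ?_ ?_
    (fun u h1 h2 => XH.dis c h1 h2.2) wL ?_ (c.w_notMem ha) ww ?_ ?_ fun g hg hD =>
      c.van_nonopp h hθ hψ.isCharacter hiv hg (mt (c.opp_iff h g).1 hD)
  · rintro x hx _ ⟨u, hu, rfl⟩
    exact ⟨⟨x, hx⟩ * u * ⟨x, hx⟩⁻¹, (inferInstance : (c.ρ.ker ⊓ c.τ.ker).Normal).conj_mem u hu ⟨x, hx⟩, rfl⟩
  · rintro _ ⟨u, ⟨h1, h2⟩, rfl⟩
    exact key u.1 u.2 (by rw [MonoidHom.mem_ker.1 h1, t1]) h2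
  · intro x hx
    obtain ⟨g, h1, h2, h3, -⟩ := c.lev (c.ρ ⟨x, hx⟩) (c.τ ⟨x, hx⟩)
    refine ⟨_, ⟨⟨x, hx⟩ * g⁻¹, ⟨MonoidHom.mem_ker.2 ?_, MonoidHom.mem_ker.2 ?_⟩, rfl⟩, g, ⟨g.2, XH.memP.2 (XH.swp _ c.hyp.linearIndependent_right
      c.hyp.linearIndependent_right h3)⟩, by simp⟩
    · rw [map_mul, map_inv, h1, mul_inv_cancel]
    · rw [map_mul, map_inv, h2, mul_inv_cancel]
  · refine fun x h1 h2 => ⟨h1, XH.memP.2 fun v => ?_⟩
    have := XH.memP.1 h2 (c.w⁻¹.1 v)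
    rwa [XH.ap, XH.ap, XH.wi, XH.w1, XH.w1, XH.wi, XH.wi] at this
  · refine key _ ww.1 ?_ ((XH.tau_eq c (g' := 1) fun u hu => ?_).trans (map_one _))
    · have e : ∀ j, (c.w * c.w).1 (c.x j) = T.ε • c.x j := fun j => by rw [XH.ap, c.hw₁, c.hw₂]
      rcases h.2.1 with ⟨rfl, -⟩ | ⟨rfl, -⟩
      · rw [XH.rho_eq c (A := -1) fun j => by
          rw [e]; simp [FormType.alt, Matrix.one_apply, ite_smul], hε rfl]
      · rw [XH.rho_eq c (A := 1) fun j => by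
          rw [e]; simp [FormType.quad, Matrix.one_apply, ite_smul], t1]
    · exact (XH.ap ..).trans (by rw [c.hw₃ u hu, c.hw₃ u hu]; rfl)
  · intro l hL
    have h1 := (wL l hL).2.1
    refine key _ (mul_mem h1 (inv_mem hL.1)) ?_ ?_
    · change θ (c.ρ (⟨_, h1⟩ * (⟨l, hL.1⟩ : c.P)⁻¹)) = 1
      have h2 : θ (c.ρ ⟨_, h1⟩) = conj (θ (c.ρ ⟨l, hL.1⟩)) := by
        refine theta_inv_transpose hθ.1.isCharacter ?_
        ext j k
        have h3 := congrArg c.w.1 (c.hρ ⟨_, h1⟩ j)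
        rw [XH.ap, XH.ap, XH.wi, c.hw₁] at h3
        have h4 := f.O_B l (c.x k) (c.x' j)
        rw [h3, c.hρ ⟨l, hL.1⟩ k] at h4
        simp only [map_sum, map_smul, c.hw₁, LinearMap.sum_apply, f.B_smul_left, hσ, c.hyp.B_pair, smul_eq_mul,
          mul_ite, mul_one, mul_zero, Finset.sum_ite_eq', Finset.mem_univ, if_true] at h4
        rw [Matrix.mul_apply, Matrix.one_apply, if_congr eq_comm rfl rfl, ← h4]
        rfl
      have h3 : conj (θ (c.ρ ⟨l, hL.1⟩)) = θ (c.ρ ⟨l, hL.1⟩) := by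
        rcases hl.2 (c.ρ ⟨l, hL.1⟩) with e | e <;> simp [e]
      rw [map_mul, hl.1, h2, h3, ← hl.1, ← map_mul, mul_inv_cancel, map_one, t1]
    · change c.τ (⟨_, h1⟩ * (⟨l, hL.1⟩ : c.P)⁻¹) = 1
      rw [map_mul, map_inv, XH.tau_eq c (g' := ⟨l, hL.1⟩) fun u hu => ?_, mul_inv_cancel]
      change c.w⁻¹.1 (l.1 (c.w.1 u)) = l.1 u
      rw [c.hw₃ u hu, ← c.hw₃ _ (XH.memU c hL.1 hL.2 hu), XH.iw, c.hw₃ _ (XH.memU c hL.1 hL.2 hu)]

end CL.DG4
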