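/-
S4984, block FamX: packaged induced characters X(a, theta, psi) (xchar on exists_par, ty_UU).
witX: d = n D; primes l <> p divide D by nt, p | n; 2-part by nt8 (q odd) or 4 | n (q even).
-/
import Cfsg.Agent.CLAS.DG4.XH
import Cfsg.Agent.CLAS.DG4.IVl
import Cfsg.Agent.CLAS.DG4.PT
import Cfsg.Agent.CLAS.DG4.NR
import Cfsg.Agent.CLAS.DG4.NRd

set_option autoImplicit false

namespace CL.DG4

open Cfsg CL.Witt CL.Zel Module Submodule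
open scoped ComplexConjugate

variable {F V : Type} [Field F] [Fintype F] [DecidableEq F] [AddCommGroup V] [Module F V]
  [Finite V] {T : FormType F} {f : Form T V} {r e a : ℕ}

/-- There is a suitable cuspidal: even and non-real, or only non-real when `-1 ∉ H`. -/
theorem exists_theta (H : Subgroup f.O) (ha : 1 ≤ a)
    (h : 3 ≤ a ∨ (a = 2 ∧ 4 ≤ Fintype.card F) ∨ ((∀ z ∈ H, IsNeg z → z = 1) ∧
      ((a = 2 ∧ Fintype.card F = 3) ∨ (a = 1 ∧ 4 ≤ Fintype.card F)))) :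
    ∃ θ : GL (Fin a) F → ℂ, Cu θ ∧ NRe θ ∧ (θ (-1) = θ 1 ∨ ∀ z ∈ H, IsNeg z → z = 1) := by
  rcases h with h | ⟨rfl, h⟩ | ⟨k, ⟨rfl, h⟩ | ⟨rfl, h⟩⟩
  · obtain ⟨θ, h1, h2, h3⟩ := nr3 (F := F) h
    exact ⟨θ, h1, h2, .inl h3⟩
  · obtain ⟨θ, h1, h2, h3⟩ := nr2 h
    exact ⟨θ, h1, h2, .inl h3⟩
  · obtain ⟨θ, h1, h2, -⟩ := nr23 h
    exact ⟨θ, h1, h2, .inr k⟩
  · obtain ⟨θ, h1, h2⟩ := nr1 h
    exact ⟨θ, h1, h2, .inr k⟩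

/-- `X(a, θ, ψ)` for `ψ` trivial (`k = 0`), or a point character of degree `n` of every form of type
`(r - a, e)`. -/
theorem exX (h : Ty f r e) (H : Subgroup f.O) (har : a ≤ r) {θ : GL (Fin a) F → ℂ} (hθ : Cu θ)
    (hn : NRe θ) (hpar : θ (-1) = θ 1 ∨ ∀ z ∈ H, IsNeg z → z = 1) {n : ℕ}
    (hψ : (n = 1 ∧ 2 ≤ a) ∨ ∀ c : Par f a, ∃ ψ : c.fU.O → ℂ, IsIrrCharacter _ ψ ∧ ψ 1 = n ∧ PtC c.fU ψ) :
    ∃ (χ : f.O → ℂ) (D : ℕ), IsIrrCharacter _ χ ∧ χ 1 = (n * D : ℕ) ∧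
      (∀ z ∈ H, IsNeg z → χ z = χ 1) ∧
      D * (Fintype.card F ^ a - 1) = DD (Fintype.card F) r e a := by
  obtain ⟨c⟩ := h.exists_par har
  have hU := h.ty_UU c.hyp
  obtain ⟨ψ, h1, h2, h3, h4⟩ : ∃ ψ : c.fU.O → ℂ, IsIrrCharacter _ ψ ∧ ψ 1 = n ∧ IV c.fU a θ ψ ∧ Ev c.fU ψ 1 := by
    rcases hψ with ⟨rfl, ha⟩ | hψ
    · exact ⟨fun _ => 1, CL.Char.isIrrCharacter_one, by simp, iv_vec hU ha hθ CL.Char.isCharacter_one vecC_one, fun _ _ => by simp⟩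
    obtain ⟨ψ, h1, h2, h3⟩ := hψ c
    refine ⟨ψ, h1, h2, ?_, h3.ev h1.isCharacter⟩
    obtain ⟨A, hA⟩ := hn
    match a, c, θ, hθ, A, hA, ψ, h1, h3, hU with
    | 0, _, θ, hθ, A, hA, _, _, _, _ =>
      obtain ⟨m, ρ, rfl⟩ := hθ.1.isCharacter
      exact (hA (by rw [Subsingleton.elim A 1, ρ.char_one, Complex.conj_natCast])).elim
    | 1, _, θ, hθ, A, hA, _, h1, h3, hU => exact iv_pt_one hU hθ.1 ⟨A, fun e => hA (by rw [e, map_one])⟩ h1.isCharacter h3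
    | a + 2, _, θ, hθ, A, hA, _, h1, h3, hU => exact iv_pt hU (by omega) hθ h1.isCharacter h3
  obtain ⟨χ, D, k1, k2, k3, k4⟩ := xchar h c hθ hn h1 h3 h2
  refine ⟨χ, D, k1, k2, fun z hz hn => ?_, k3⟩
  rcases hpar with e | e
  · rw [k4 1 (one_mul _) (by rw [e, one_mul]) h4 z hn, one_mul]
  · rw [e z hz hn]

/-- Degrees of the point characters used as `ψ`. -/
theorem pt_deg (h : Ty f r e) {q n : ℕ} (hq : Fintype.card F = q)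
    (hn : (r = 1 ∧ e = 1 ∧ n = q) ∨ (r = 1 ∧ e = 2 ∧ n = q ^ 2) ∨ (r = 2 ∧ e = 0 ∧ n = q ^ 2) ∨
      (r = 3 ∧ e = 0 ∧ n = q ^ 2 * (q ^ 2 + 1)) ∨ (r = 3 ∧ e = 0 ∧ n = q * (q ^ 2 + q + 1)) ∨
      (r = 2 ∧ e = 2 ∧ n = q ^ 2 * (q ^ 2 + 1))) :
    ∃ ψ : f.O → ℂ, IsIrrCharacter _ ψ ∧ ψ 1 = n ∧ PtC f ψ := by
  have q2 : 2 ≤ q := hq ▸ Fintype.one_lt_card
  have p1 : ∀ k, 1 ≤ q ^ k := fun k => Nat.one_le_pow _ _ (by omega)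
  have pos : ∀ k, 0 < (q - 1) * (q ^ k + q) := fun k => Nat.mul_pos (by omega) (by omega)
  rcases hn with ⟨rfl, rfl, rfl⟩ | ⟨rfl, rfl, rfl⟩ | ⟨rfl, rfl, rfl⟩ | ⟨rfl, rfl, rfl⟩ | ⟨rfl, rfl, rfl⟩ | ⟨rfl, rfl, rfl⟩
  · simpa only [hq, pow_one] using pt2 h le_rfl
  · simpa only [hq] using pt2 h one_le_two
  all_goals obtain ⟨χf, χg, df, dg, k, a1, a2, a3, a4, a5, a6, a7, a8, -⟩ := pt3 h (by norm_num) hq
  · refine ⟨χg, a2, a6.trans (congrArg _ (Nat.eq_of_mul_eq_mul_right (pos 0) (a8.trans ?_))), a4⟩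
    zify [p1, show 1 ≤ q by omega]; ring
  · refine ⟨χg, a2, a6.trans (congrArg _ (Nat.eq_of_mul_eq_mul_right (pos 0) (a8.trans ?_))), a4⟩
    zify [p1, show 1 ≤ q by omega]; ring
  · refine ⟨χf, a1, a5.trans (congrArg _ (Nat.eq_of_mul_eq_mul_right (pos 0) (a7.trans ?_))), a3⟩
    zify [p1, show 1 ≤ q by omega]; ring
  · refine ⟨χf, a1, a5.trans (congrArg _ (Nat.eq_of_mul_eq_mul_right (pos 2) (a7.trans ?_))), a3⟩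
    zify [p1, show 1 ≤ q by omega]; ring

end CL.DG4
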