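/-
S4984, block H2Z: arithmetic of the norm-two lemma for integer valued phi, |Q| = 2^k with k odd and
odd total degree N.  d1 + d2 = N odd, t1 t2 = -2^k, d1 t1 + d2 t2 = 0, (t1 + t2) phi(1) an integer
(exPhi, alpha); d1 <> d2 so t1 = (t1+t2) d2/(d2-d1) is rational, integral, so t1, t2 are integers,
+-2^i, -+2^(k-i); the larger degree d has d (1 + 2^j) = 2^j N with j = |k - 2i| odd.
-/
import Cfsg.Agent.CLAS.DG4.Def

set_option autoImplicit false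

namespace CL.DG4

open Cfsg CL.Witt CL.Zel Module Submodule
open scoped ComplexConjugate

variable {G : Type} [Group G] [Finite G] {P Q : Subgroup G} {w : G} {φ : P → ℂ}

theorem H2Z.int {t : ℂ} (h : IsIntegral ℤ t) {a b : ℤ} (b0 : b ≠ 0) (e : t * b = a) : ∃ n : ℤ, t = n := by
  have : t = algebraMap ℚ ℂ ((a : ℚ) / b) := by
    rw [map_div₀, map_intCast, map_intCast, eq_div_iff (Int.cast_ne_zero.2 b0), e]
  rw [this, isIntegral_algebraMap_iff (algebraMap ℚ ℂ).injective] at h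
  obtain ⟨n, hn⟩ := IsIntegrallyClosed.isIntegral_iff.1 h
  exact ⟨n, by rw [this, ← hn]; simp⟩

theorem H2Z.ar {d₁ d₂ i j : ℕ} (h : d₁ * 2 ^ i = d₂ * 2 ^ (i + j)) : d₁ * (1 + 2 ^ j) = 2 ^ j * (d₁ + d₂) := by
  have : d₁ = d₂ * 2 ^ j := Nat.eq_of_mul_eq_mul_right (pow_pos two_pos i) (by rw [h]; ring)
  rw [this]
  ring

theorem H2Out.two {χ₁ χ₂ : G → ℂ} {t₁ t₂ : ℂ} (h : H2Out P Q w φ χ₁ χ₂ t₁ t₂)
    (hφ : IsIrrCharacter P φ) (hZ : ∀ x, ∃ n : ℤ, φ x = n) {k N : ℕ} (hk : Odd k)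
    (hQ : Nat.card Q = 2 ^ k) (hN : Odd N) (hN' : (N : ℂ) = P.index * φ 1) :
    ∃ (χ : G → ℂ) (d j : ℕ), (χ = χ₁ ∨ χ = χ₂) ∧ χ 1 = d ∧ Odd j ∧ d * (1 + 2 ^ j) = 2 ^ j * N := by
  obtain ⟨d₁, -, e₁⟩ := h.irr₁.exists_pos_degree
  obtain ⟨d₂, -, e₂⟩ := h.irr₂.exists_pos_degree
  obtain ⟨f, f0, ef⟩ := hφ.exists_pos_degree
  obtain ⟨Φ, hΦ⟩ := h.exPhi
  have sN : d₁ + d₂ = N := by
    have := h.sum
    rw [← hN', e₁, e₂] at this
    exact_mod_cast this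
  have ne : (d₂ : ℤ) - d₁ ≠ 0 := by
    obtain ⟨m, hm⟩ := hN
    omega
  choose c hc using fun u : Q => show ∃ n : ℤ, Φ u = n from
    (hΦ u u.2).elim (fun ⟨_, _, y, _, e⟩ => e ▸ hZ y) fun e => ⟨0, by rw [e.2, Int.cast_zero]⟩
  have := Fintype.ofFinite Q
  have al := h.alpha Φ hΦ
  rw [finsum_eq_sum_of_fintype, Finset.sum_congr rfl fun u _ => hc u, ← Int.cast_sum, ef] at al
  generalize ∑ u, c u = A at al
  have tr := h.tr
  rw [e₁, e₂] at tr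
  have f0' : (f : ℤ) ≠ 0 := by omega
  obtain ⟨a, rfl⟩ := H2Z.int h.int₁ (a := A * d₂) (mul_ne_zero f0' ne)
    (by push_cast; linear_combination d₂ * al - f * tr)
  obtain ⟨b, rfl⟩ := H2Z.int h.int₂ (a := -(A * d₁)) (mul_ne_zero f0' ne)
    (by push_cast; linear_combination -d₁ * al + f * tr)
  have pr : a * b = -2 ^ k := by
    have := h.prod
    rw [hQ] at this
    exact_mod_cast this
  have tr' : d₁ * a = -(d₂ * b) := eq_neg_of_add_eq_zero_left (by exact_mod_cast tr)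
  have p2 := congrArg Int.natAbs pr
  have t2 := congrArg Int.natAbs tr'
  simp only [Int.natAbs_mul, Int.natAbs_neg, Int.natAbs_pow, Int.natAbs_natCast, Int.reduceAbs] at p2 t2
  obtain ⟨i, -, hi⟩ := (Nat.dvd_prime_pow Nat.prime_two).1 (Dvd.intro _ p2)
  obtain ⟨l, -, hl⟩ := (Nat.dvd_prime_pow Nat.prime_two).1 (Dvd.intro_left _ p2)
  rw [hi, hl] at p2 t2
  rw [← pow_add] at p2
  have il := Nat.pow_right_injective le_rfl p2
  rw [Nat.odd_iff] at hk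
  rcases le_total i l with le | le <;> obtain ⟨j, rfl⟩ := Nat.exists_eq_add_of_le le
  · exact ⟨χ₁, d₁, j, .inl rfl, e₁, Nat.odd_iff.2 (by omega), sN ▸ H2Z.ar t2⟩
  · exact ⟨χ₂, d₂, j, .inr rfl, e₂, Nat.odd_iff.2 (by omega), by rw [← sN, add_comm d₁]; exact H2Z.ar t2.symm⟩

/-- `alpha = 0`: equal degrees. -/
theorem H2Out.half {χ₁ χ₂ : G → ℂ} {t₁ t₂ : ℂ} (h : H2Out P Q w φ χ₁ χ₂ t₁ t₂)
    (h0 : t₁ + t₂ = 0) : 2 * χ₁ 1 = P.index * φ 1 := by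
  have t0 : t₁ ≠ 0 := fun e => by
    have := h.prod
    rw [e, zero_mul, eq_comm, neg_eq_zero] at this
    exact Nat.card_pos.ne' (Nat.cast_eq_zero.1 this)
  exact mul_right_cancel₀ t0 (by linear_combination t₁ * h.sum + h.tr - χ₂ 1 * h0)

/-- `t = q, -q^2`: degrees in the ratio `q : 1`. -/
theorem H2Out.ratio {χ₁ χ₂ : G → ℂ} {t₁ t₂ : ℂ} (h : H2Out P Q w φ χ₁ χ₂ t₁ t₂) {q : ℕ}
    (hQ : Nat.card Q = q ^ 3) (h0 : t₁ + t₂ = q - q ^ 2) :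
    ∃ χ, (χ = χ₁ ∨ χ = χ₂) ∧ (q + 1) * χ 1 = q * (P.index * φ 1) := by
  have q0 : (q : ℂ) ≠ 0 := Nat.cast_ne_zero.2 fun e => by
    rw [e] at hQ
    exact Nat.card_pos.ne' hQ
  have pr := h.prod
  rw [hQ, Nat.cast_pow] at pr
  rcases mul_eq_zero.1 (show (t₁ - q) * (t₁ + q ^ 2) = 0 by linear_combination t₁ * h0 - pr) with e | e
  · exact ⟨χ₁, .inl rfl, mul_left_cancel₀ q0 (by
      linear_combination q ^ 2 * h.sum + h.tr - (χ₁ 1 - χ₂ 1) * e - χ₂ 1 * h0)⟩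
  · exact ⟨χ₂, .inr rfl, mul_left_cancel₀ q0 (by
      linear_combination q ^ 2 * h.sum + h.tr - (χ₁ 1 - χ₂ 1) * e - χ₂ 1 * h0)⟩

/-- Central elements in the kernel of `φ` (kcl with `K = {z}`). -/
theorem H2Out.central {χ₁ χ₂ : G → ℂ} {t₁ t₂ : ℂ} (h : H2Out P Q w φ χ₁ χ₂ t₁ t₂)
    (hφ : IsIrrCharacter P φ) (hw : w ∉ P) {z : G} (hz : ∀ g, g * z = z * g) (hzP : z ∈ P)
    (hzφ : φ ⟨z, hzP⟩ = φ 1) : χ₁ z = χ₁ 1 ∧ χ₂ z = χ₂ 1 := by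
  have := h.kcl {z} (by rintro _ rfl g; rw [hz, mul_inv_cancel_right]; rfl) (by
    rintro _ rfl ⟨x, hx, y, hy, e⟩
    exact hw ((mul_mem_cancel_left hx).1 ((mul_mem_cancel_right hy).1 (e ▸ hzP))))
  simp only [finsum_unique, Set.default_coe_singleton, CL.Char.extendByZero_of_mem P φ hzP, hzφ] at this
  exact ⟨mul_left_cancel₀ hφ.one_ne_zero (this.1.trans (mul_comm _ _)),
    mul_left_cancel₀ hφ.one_ne_zero (this.2.trans (mul_comm _ _))⟩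

end CL.DG4
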