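/-
S4984, block LN: q = 2, totally singular lines, theta = sgn2.  h2geo (IV by iv_vec), card_Q = 2^k with
k = 2(2(r-2)+e)+1 odd, index * 3 = DD 2 r e 2 odd (r + e >= 3), H2Out.two.
Reflections: K = {g | IsRefl g} is a class (Witt), no k in K is InD (opp_iff: k fixes a non-zero vector
of W, a = 2); K cap P = reflections in v in W^perp, phi = psi(tau k) = nu; U has a non-singular vector; so
kcl gives sum_K chi <> 0.  sp62: psi = 1, N = 315, j = 1 or 3, d = 210 or 280; K = the 63 transvections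
y -> y + B(v,y) v (one class), 15 lie in P with phi = 1: 63 chi(t) = 15 d, chi(t) integral, 21 | d.
-/
import Cfsg.Agent.CLAS.DG4.XH
import Cfsg.Agent.CLAS.DG4.H2Z
import Cfsg.Agent.CLAS.DG4.IVl
import Cfsg.Agent.CLAS.DG4.NRd
import Cfsg.Agent.CLAS.DG4.Al

set_option autoImplicit false
set_option linter.unusedSectionVars false

namespace CL.DG4

open Cfsg CL.Witt CL.Zel Module Submodule
open scoped ComplexConjugate

variable {F V : Type} [Field F] [Fintype F] [DecidableEq F] [AddCommGroup V] [Module F V]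
  [Finite V] {T : FormType F} {f : Form T V} {r e a : ℕ}

namespace Ln

/-- rank one elements -/
def Tr (g : f.O) (v : V) (s : F) : Prop := ∀ y, g.1 y = y - (s * f.B v y) • v

theorem Tr.conj {k : f.O} {v : V} {s : F} (h : Tr k v s) (g : f.O) : Tr (g * k * g⁻¹) (g.1 v) s := fun y => by
  rw [XH.ap, XH.ap, h, map_sub, map_smul, XH.wi, ← g.2.B_eq v, XH.wi]

theorem WW (c : Par f a) {v y : V} (hv : v ∈ c.W) (hy : y ∈ c.W) : f.B v y = 0 :=
  c.hyp.totSing_left.2 _ hv _ hy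

theorem Tr.fix {k : f.O} {v : V} {s : F} (h : Tr k v s) {y : V} (hy : f.B v y = 0) : k.1 y = y := by
  rw [h, hy, mul_zero, zero_smul, sub_zero]

theorem Tr.not_opp (c : Par f 2) {k : f.O} {v : V} {s : F} (h : Tr k v s) : ¬ c.Opp k := fun ho => by
  have x0 : c.x 0 ∈ c.W := subset_span ⟨0, rfl⟩
  have x1 : c.x 1 ∈ c.W := subset_span ⟨1, rfl⟩
  have key : ∀ y ∈ c.W, f.B v y = 0 → y = 0 := fun y hy h0 => ho y hy fun z hz => by
    conv_lhs => rw [← h.fix h0]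
    rw [k.2.B_eq, WW c hy hz]
  have h1 := key _ (c.W.sub_mem (c.W.smul_mem (f.B v (c.x 1)) x0) (c.W.smul_mem (f.B v (c.x 0)) x1)) (by
    rw [f.B_sub_right, f.B_smul_right, f.B_smul_right]; ring)
  have h2 := congrArg (fun y => f.B (c.x' 0) y) h1
  simp only [f.B_sub_right, f.B_smul_right, f.B_zero_right, c.hyp.B_pair'] at h2
  have h3 : f.B v (c.x 1) = 0 := by simpa [T.ε_ne_zero] using h2
  have h4 := congrArg (fun y => f.B y (c.x' 1)) (key _ x1 h3)
  simp [c.hyp.B_pair] at h4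

theorem Tr.memP (c : Par f a) {k : f.O} {v : V} {s : F} (h : Tr k v s) (hv : v ∈ f.perp c.W) : k ∈ c.P :=
  VanA.memP.2 fun i => by
    rw [h.fix (f.mem_perp'.1 hv _ (subset_span ⟨i, rfl⟩))]
    exact subset_span ⟨i, rfl⟩

theorem Tr.rho (c : Par f a) {k : c.P} {v : V} {s : F} (h : Tr k.1 v s) (hv : v ∈ f.perp c.W) : c.ρ k = 1 :=
  XH.rho_eq c fun j => by
    rw [h.fix (f.mem_perp'.1 hv _ (subset_span ⟨j, rfl⟩))]
    simp [Matrix.one_apply]

theorem Tr.perp (c : Par f a) {k : c.P} {v : V} {s : F} (h : Tr k.1 v s) (hs : s ≠ 0)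
    (hv : v ∈ c.W → v ∈ f.perp c.W) : v ∈ f.perp c.W := by
  by_contra hn
  obtain ⟨y, hy, h0⟩ : ∃ y ∈ c.W, f.B v y ≠ 0 := by
    by_contra! h1
    exact hn (f.mem_perp'.2 h1)
  have h1 := c.W.sub_mem hy (GeoA.P_mem k hy)
  rw [h, sub_sub_cancel] at h1
  exact hn (hv ((c.W.smul_mem_iff (mul_ne_zero hs h0)).1 h1))

theorem Tr.tau (c : Par f a) {k : c.P} {v : V} {s : F} (h : Tr k.1 v s) (hv : v ∈ f.perp c.W) :
    ∃ u : c.U, c.fU.q u = f.q v ∧ Tr (c.τ k) u s := by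
  have hW := GeoA.pW_mem (f := f) c.x c.x' v
  refine ⟨⟨_, GeoA.sub_pW c.hyp hv⟩, ?_, fun y => GeoA.U_uniq c.hyp (c.hτ k y) ?_⟩
  · rw [Form.restrict_q, f.q_sub, c.hyp.totSing_left.1 _ hW, f.mem_perp'.1 hv _ hW, map_zero, add_zero, sub_zero]
  · rw [h, Form.restrict_B]
    simp only [Submodule.coe_sub, Submodule.coe_smul, f.B_sub_left, f.mem_perp.1 (GeoA.U_le c.hyp y.2) _ hW,
      sub_zero, smul_sub]
    convert c.W.neg_mem (c.W.smul_mem (s * f.B v y) hW) using 1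
    abel

theorem base (h : Ty f r e) (hq : Fintype.card F = 2) (hre : 3 ≤ r + e) (c : Par f 2)
    {ψ : c.fU.O → ℂ} (hψ : IsIrrCharacter _ ψ) (hv : VecC c.fU ψ) (hZ : ∀ g, ∃ n : ℤ, ψ g = n)
    {n : ℕ} (hn : ψ 1 = n) (hodd : Odd n) :
    ∃ (χ : f.O → ℂ) (d j : ℕ) (θ : GL (Fin 2) F → ℂ), IsIrrCharacter _ χ ∧ χ 1 = d ∧ Odd j ∧
      3 * d * (1 + 2 ^ j) = 2 ^ j * (n * DD 2 r e 2) ∧ θ 1 = 1 ∧
      ∀ K : Set f.O, (∀ k ∈ K, ∀ g, g * k * g⁻¹ ∈ K) → (∀ k ∈ K, ¬ c.Opp k) →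
        n * ∑ᶠ k : K, χ k = d * ∑ᶠ k : K, extendByZero c.P (c.phi θ ψ) k := by
  have := XH.fin f
  have : CharP F 2 := charP_of_card_eq_prime_pow (p := 2) (f := 1) hq
  obtain ⟨θ, hθ, hl⟩ := sgn2 hq
  have h1 : θ 1 = 1 := by
    have h2 := hl.1 1 1
    rw [mul_one] at h2
    rcases hl.2 1 with h3 | h3
    · exact h3
    · rw [h3] at h2; norm_num at h2
  have hm : (-1 : GL (Fin 2) F) = 1 := by
    ext i j
    simp [CharTwo.neg_eq]
  have hr := h.le_of_isHyp c.hyp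
  obtain ⟨χ₁, χ₂, t₁, t₂, H⟩ := h2geo h c one_le_two hθ hl (fun _ => by rw [hm, h1]) hψ
    (iv_vec (h.ty_UU c.hyp) le_rfl hθ hψ.isCharacter hv)
  have hI := h.index_P c
  have hQ := h.card_Q c
  rw [hq] at hI hQ
  norm_num [Finset.prod_range_succ] at hI hQ
  have hD : Odd (DD 2 r e 2) := by
    have o1 : ∀ k, 1 ≤ k → Odd (2 ^ k - 1) := fun k hk =>
      Nat.Even.sub_odd Nat.one_le_two_pow ((Nat.even_pow' (by omega)).2 even_two) odd_one
    have o2 : ∀ k, 1 ≤ k → Odd (2 ^ k + 1) := fun k hk => ((Nat.even_pow' (by omega)).2 even_two).add_one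
    simp only [DD, np, Finset.prod_range_succ, Finset.prod_range_zero, one_mul]
    exact ((o1 _ (by omega)).mul (o2 _ (by omega))).mul ((o1 _ (by omega)).mul (o2 _ (by omega)))
  have hφ1 : c.phi θ ψ 1 = n := by rw [Par.phi, map_one, map_one, h1, hn, one_mul]
  obtain ⟨χ, d, j, hχ, hd, hj, e⟩ := H.two (c.phi_irr hθ.1 hψ) (fun x => by
      obtain ⟨m, hm⟩ := hZ (c.τ x)
      rcases hl.2 (c.ρ x) with h3 | h3
      · exact ⟨m, by rw [Par.phi, h3, hm, one_mul]⟩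
      · exact ⟨-m, by rw [Par.phi, h3, hm]; push_cast; ring⟩) (N := c.P.index * n)
    (by rw [Nat.odd_iff]; omega) hQ ((Nat.odd_mul.1 (hI ▸ hD)).1.mul hodd) (by rw [hφ1]; push_cast; rfl)
  refine ⟨χ, d, j, θ, ?_, hd, hj, by rw [mul_assoc, e, ← hI]; ring, h1, fun K hK ho => ?_⟩
  · rcases hχ with rfl | rfl
    exacts [H.irr₁, H.irr₂]
  · have h2 := H.kcl K hK fun k hk => mt (c.opp_iff h k).2 (ho k hk)
    rw [hφ1] at h2
    rw [← hd]
    rcases hχ with rfl | rfl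
    exacts [h2.1, h2.2]

end Ln
open Ln

theorem lines (h : Ty f r e) (hq : Fintype.card F = 2) (hre : 3 ≤ r + e) (c : Par f 2)
    {ψ : c.fU.O → ℂ} (hψ : IsIrrCharacter _ ψ) (hv : VecC c.fU ψ) (hZ : ∀ g, ∃ n : ℤ, ψ g = n)
    {n : ℕ} (hn : ψ 1 = n) (hodd : Odd n) {ν : ℂ} (hν : ∀ g, IsRefl g → ψ g = ν) :
    ∃ (χ : f.O → ℂ) (d j : ℕ), IsIrrCharacter _ χ ∧ χ 1 = d ∧ Odd j ∧
      3 * d * (1 + 2 ^ j) = 2 ^ j * (n * DD 2 r e 2) ∧
      (T = .quad F → ν ≠ 0 → ∃ g, IsRefl g ∧ χ g ≠ 0) := by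
  classical
  have := XH.fin f
  obtain ⟨χ, d, j, θ, hχ, hd, hj, e, h1, hK⟩ := base h hq hre c hψ hv hZ hn hodd
  refine ⟨χ, d, j, hχ, hd, hj, e, fun hT hν0 => ?_⟩
  subst hT
  by_contra! h0
  have h2 := hK {g | IsRefl g} (fun k ⟨v, hv, hk⟩ g => ⟨g.1 v, by rwa [g.2.q_eq], by
    rw [g.2.q_eq]; exact Tr.conj hk g⟩) fun k ⟨v, hv, hk⟩ => Tr.not_opp c hk
  rw [finsum_congr (g := fun _ => 0) fun k : {g : f.O | IsRefl g} => h0 k k.2, finsum_zero, mul_zero,
    finsum_congr (g := fun k : {g : f.O | IsRefl g} => if k.1 ∈ c.P then ν else 0) fun ⟨k, v, hv, hk⟩ => by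
      split_ifs with hP
      · have h3 := Tr.perp c (k := ⟨k, hP⟩) hk (inv_ne_zero hv) fun h4 => (hv (c.hyp.totSing_left.1 _ h4)).elim
        obtain ⟨u, hu, h4⟩ := Tr.tau c (k := ⟨k, hP⟩) hk h3
        rw [CL.Char.extendByZero_of_mem _ _ hP, Par.phi, Tr.rho c (k := ⟨k, hP⟩) hk h3, h1, one_mul,
          hν _ ⟨u, by rwa [hu], by rwa [hu]⟩]
      · exact CL.Char.extendByZero_of_not_mem _ _ hP] at h2
  have := Fintype.ofFinite {g : f.O | IsRefl g}
  obtain ⟨d', d0, hd'⟩ := hχ.exists_pos_degree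
  rw [finsum_eq_sum_of_fintype, ← Finset.sum_filter, Finset.sum_const, nsmul_eq_mul, ← hd, hd', eq_comm] at h2
  simp only [mul_eq_zero, Nat.cast_eq_zero, d0.ne', hν0, or_false, false_or, Finset.card_eq_zero] at h2
  obtain ⟨u, hu⟩ : ∃ u : c.U, f.q u ≠ 0 := by
    by_contra! h3
    have hU := h.ty_UU c.hyp
    have hr := h.le_of_isHyp c.hyp
    have h4 : ∀ u : c.U, u = 0 := fun u => hU.1 u fun y => by
      rw [Form.quad_B, Form.restrict_q, Form.restrict_q, Form.restrict_q, h3, h3, h3]; ring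
    have h5 : finrank F (UU f c.x c.x') = 0 := (finrank_zero_iff_forall_zero (K := F)).2 h4
    rcases hU.2.1 with ⟨h6, -⟩ | ⟨-, -, h7⟩
    · simpa [FormType.quad_π, FormType.alt_π] using congrArg (fun T : FormType F => T.π 1) h6
    · omega
  obtain ⟨R, hR⟩ := h.exists_R
  have h3 : Tr (R u (f.q u)) (u : V) (f.q u)⁻¹ := hR u (f.q u) hu rfl
  have h4 : R u (f.q u) ∈ {g : f.O | IsRefl g} := ⟨u, hu, h3⟩
  rw [Finset.filter_eq_empty_iff] at h2
  exact h2 (Finset.mem_univ ⟨_, h4⟩) (h3.memP c (GeoA.U_le c.hyp u.2))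

theorem sp62 (h : Ty f 3 1) (hq : Fintype.card F = 2) :
    ∃ χ : f.O → ℂ, IsIrrCharacter _ χ ∧ χ 1 = 210 := by
  classical
  have := XH.fin f
  have := Fintype.ofFinite V
  obtain ⟨hT, -, hV⟩ := h.2.1.resolve_right fun h1 => by
    have := h.odd_card h1.1
    rw [hq] at this
    exact absurd this (by decide)
  subst hT
  obtain ⟨c⟩ := h.exists_par (a := 2) (by norm_num)
  obtain ⟨χ, d, j, θ, hχ, hd, hj, e, h1, hK⟩ := base h hq (by norm_num) c CL.Char.isIrrCharacter_one vecC_one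
    (fun _ => ⟨1, by simp⟩) (n := 1) (by simp) odd_one
  rw [show DD 2 3 1 2 = 945 by decide] at e
  have e2 : 1 + 2 ^ j ∣ 315 := by
    refine Nat.Coprime.dvd_of_dvd_mul_left (Nat.Coprime.pow_right j (Nat.coprime_two_right.2
      (((Nat.even_pow' hj.pos.ne').2 even_two).one_add))) ⟨d, ?_⟩
    nlinarith
  have e3 : j < 9 := by
    have h2 := Nat.le_of_dvd (by norm_num) e2
    exact (Nat.pow_lt_pow_iff_right (a := 2) (by norm_num)).1 (by omega)
  have e4 : d = 210 ∨ d = 280 := by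
    rw [Nat.odd_iff] at hj
    interval_cases j <;> omega
  refine ⟨χ, hχ, ?_⟩
  rw [hd, e4.resolve_right fun e5 => ?_]
  · norm_num
  obtain ⟨R, hR⟩ := h.exists_R
  have h3 : ∀ v, Tr (R v 1) v 1 := fun v y => by
    rw [hR v 1 one_ne_zero (f.alt_q v).symm, inv_one]
  have uq : ∀ {g k : f.O} {v : V}, Tr g v 1 → Tr k v 1 → g = k := fun hg hk =>
    Subtype.ext (LinearEquiv.ext fun y => (hg y).trans (hk y).symm)
  have inj : Set.InjOn (R · 1) (Finset.univ.erase (0 : V) : Finset V) := fun v hv v' _ e => by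
    have hv0 : v ≠ 0 := by simpa using hv
    obtain ⟨z, hz⟩ := h.1.exists_B_eq hv0 1
    have h4 := (h3 v z).symm.trans ((congrArg (fun g : f.O => g.1 z) e).trans (h3 v' z))
    rw [hz, mul_one, one_smul, one_mul, sub_right_inj] at h4
    have h5 := FiniteField.pow_card_sub_one_eq_one (f.B v' z) fun h0 => hv0 (by rw [h4, h0, zero_smul])
    rw [hq, pow_one] at h5
    rw [h4, h5, one_smul]
  have h2 := hK ((R · 1) '' (Finset.univ.erase (0 : V) : Finset V)) (by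
    rintro _ ⟨v, hv, rfl⟩ g
    exact ⟨g.1 v, by simpa using hv, uq (h3 _) ((h3 v).conj g)⟩) (by
    rintro _ ⟨v, hv, rfl⟩
    exact (h3 v).not_opp c)
  have x0 : c.x 0 ≠ 0 := c.hyp.linearIndependent_left.ne_zero 0
  have cV : Fintype.card V = 64 := by
    rw [Module.card_eq_pow_finrank (K := F), hq, hV]
    rfl
  have cW : Nat.card (f.perp c.W) = 16 := by
    rw [card_submodule_eq_pow, h.1.finrank_perp, hV, finrank_span_eq_card c.hyp.linearIndependent_left,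
      Nat.card_eq_fintype_card, hq]
    rfl
  have a1 : ∀ v ∈ Finset.univ.erase (0 : V), χ (R v 1) = χ (R (c.x 0) 1) := fun v hv => by
    obtain ⟨g, hg, e⟩ := h.1.witt_vector x0 (Finset.ne_of_mem_erase hv) (by rw [f.alt_q, f.alt_q])
    rw [uq (h3 v) (e ▸ (h3 (c.x 0)).conj ⟨g, hg⟩), hχ.isClassFunction]
  have a2 : ∀ v ∈ Finset.univ.erase (0 : V), extendByZero c.P (c.phi θ fun _ => 1) (R v 1) =
      if v ∈ f.perp c.W then (1 : ℂ) else 0 := fun v _ => by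
    split_ifs with hP
    · have h4 := (h3 v).memP c hP
      rw [CL.Char.extendByZero_of_mem _ _ h4, Par.phi, Tr.rho c (k := ⟨_, h4⟩) (h3 v) hP, h1, one_mul]
    · exact CL.Char.extendByZero_of_not_mem _ _ fun h4 => hP (Tr.perp c (k := ⟨_, h4⟩) (h3 v) one_ne_zero
        fun h5 => f.mem_perp'.2 fun y hy => WW c h5 hy)
  rw [finsum_set_coe_eq_finsum_mem, finsum_set_coe_eq_finsum_mem, finsum_mem_image inj, finsum_mem_image inj,
    finsum_mem_coe_finset, finsum_mem_coe_finset, Finset.sum_congr rfl a1, Finset.sum_congr rfl a2,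
    Finset.sum_const, Finset.card_erase_of_mem (Finset.mem_univ _), Finset.card_univ, cV,
    Finset.sum_erase_eq_sub (Finset.mem_univ _), Finset.sum_boole, if_pos (zero_mem _), ← Fintype.card_subtype,
    ← Nat.card_eq_fintype_card, cW, e5] at h2
  obtain ⟨m, hm⟩ := H2Z.int (hχ.isCharacter.isIntegral (R (c.x 0) 1)) (a := 200) (b := 3) (by norm_num) (by
    norm_num at h2 ⊢
    linear_combination h2 / 21)
  rw [hm] at h2
  norm_num at h2
  norm_cast at h2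
  omega

end CL.DG4
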