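/-
S4984, block NS: q = 2, rank3 on X = non-singular vectors, R x y := x <> y and B x y = 0 (Witt: rank 3).
O6+(2): n = 28, k = 15, lam = 6, mu = 10, (s, t) = (-5, 1), chi_s(1) = 7; a reflection fixes 16.
O4-(2): n = 10, k = 3, lam = 0, mu = 1, (s, t) = (1, -2), chi_s(1) = 5; a reflection fixes 4.
Values are rational algebraic integers.  (Counts: transport to a coordinate model and decide, or
x^perp/x has one non-singular vector in each coset.)
-/
import Cfsg.Agent.CLAS.DG4.Cnt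
import Cfsg.Agent.CLAS.DG4.T2

set_option autoImplicit false

namespace CL.DG4

open Cfsg CL.Witt CL.Zel Module Submodule
open scoped ComplexConjugate

variable {F V : Type} [Field F] [Fintype F] [DecidableEq F] [AddCommGroup V] [Module F V]
  [Finite V] {T : FormType F} {f : Form T V} {r e a : ℕ}

namespace NS
open Finset

abbrev Z := ZMod 2

/-- adjacency in a coordinate model -/
def R0 {M : Type} [Add M] (q : M → Z) (a b : M) : Prop := a ≠ b ∧ q (a + b) = 0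

instance {M : Type} [Add M] [DecidableEq M] (q : M → Z) (a b : M) : Decidable (R0 q a b) :=
  inferInstanceAs (Decidable (_ ∧ _))

omit [DecidableEq F] in
theorem iso (hq : Fintype.card F = 2) : Nonempty (Z ≃+* F) :=
  ⟨ZMod.ringEquivOfPrime F Nat.prime_two hq⟩

theorem int_of {x : ℂ} (hx : IsIntegral ℤ x) {d m : ℤ} (hd : d ≠ 0) (e : (d : ℂ) * x = m) : ∃ n : ℤ, x = n := by
  have d0 : (d : ℂ) ≠ 0 := Int.cast_ne_zero.2 hd
  have e1 : x = algebraMap ℚ ℂ ((m : ℚ) / d) := by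
    simp only [map_div₀, map_intCast]
    rw [← e, mul_div_cancel_left₀ _ d0]
  rw [e1, isIntegral_algebraMap_iff (algebraMap ℚ ℂ).injective] at hx
  obtain ⟨n, hn⟩ := IsIntegrallyClosed.isIntegral_iff.1 hx
  exact ⟨n, by rw [e1, ← hn]; simp⟩

omit [Fintype F] [DecidableEq F] in
theorem core {f : Form (.quad F) V} (hf : f.Nondeg) (ι : Z ≃+* F) {M : Type} [AddCommGroup M] [Fintype M]
    [DecidableEq M] (φ : M → V) (q0 : M → Z) (ad : ∀ a b, φ (a + b) = φ a + φ b) (hφ : ∀ a, f.q (φ a) = ι (q0 a))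
    (nd : ∀ a, (∀ c, q0 (a + c) = q0 c) → a = 0) (cd : Nat.card V = Fintype.card M) {n k lam mu : ℕ} {s t : ℤ}
    (hn : #{a | q0 a ≠ 0} = n) (hk : ∀ a, q0 a ≠ 0 → #{b | q0 b ≠ 0 ∧ R0 q0 a b} = k)
    (hl : ∀ a b, q0 a ≠ 0 → q0 b ≠ 0 → R0 q0 a b → #{c | q0 c ≠ 0 ∧ R0 q0 a c ∧ R0 q0 b c} = lam)
    (hm : ∀ a b, q0 a ≠ 0 → q0 b ≠ 0 → a ≠ b → ¬ R0 q0 a b → #{c | q0 c ≠ 0 ∧ R0 q0 a c ∧ R0 q0 b c} = mu)
    (h1 : ∃ a b, q0 a ≠ 0 ∧ q0 b ≠ 0 ∧ R0 q0 a b) (h2 : ∃ a b, q0 a ≠ 0 ∧ q0 b ≠ 0 ∧ a ≠ b ∧ ¬ R0 q0 a b)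
    (hst : s + t = lam - mu) (hst' : s * t = mu - k) (hne : s ≠ t) :
    ∃ ψ : f.O → ℂ, IsIrrCharacter _ ψ ∧ ((s : ℂ) - t) * ψ 1 = -t * n - (k - t) ∧ VecC f ψ ∧ (∀ g, ∃ n : ℤ, ψ g = n) ∧
      ∀ g, IsRefl g → ((s : ℂ) - t) * ψ g = -t * (k + 1) - (k - t) := by
  classical
  have two : (1 : F) + 1 = 0 := by rw [← map_one ι, ← map_add]; exact (map_eq_zero_iff ι ι.injective).2 rfl
  have c01 : ∀ c : F, c = 0 ∨ c = 1 := fun c => by
    obtain ⟨c, rfl⟩ := ι.surjective c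
    have : c = 0 ∨ c = 1 := by revert c; decide
    rcases this with rfl | rfl <;> simp
  have q1 : ∀ {v}, f.q v ≠ 0 → f.q v = 1 := fun {v} h => (c01 _).resolve_left h
  have fin : Finite F := Finite.of_surjective _ ι.surjective
  have : Module.Finite F V := Module.Finite.of_finite
  have : Finite (V ≃ₗ[F] V) := Finite.of_injective (fun g : V ≃ₗ[F] V => (g : V → V)) DFunLike.coe_injective
  let Φ : M →+ V := AddMonoidHom.mk' φ ad
  have inj : Function.Injective φ := (injective_iff_map_eq_zero Φ).2 fun a (e : φ a = 0) =>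
    nd a fun c => ι.injective (by rw [← hφ, ← hφ, ad, e, zero_add])
  have bij : Function.Bijective φ := inj.bijective_of_nat_card_le (by rw [cd, Nat.card_eq_fintype_card])
  have hz : ∀ a, f.q (φ a) = 0 ↔ q0 a = 0 := fun a => by rw [hφ, map_eq_zero_iff ι ι.injective]
  let X : SubMulAction f.O V := ⟨{v | f.q v ≠ 0}, fun g v (h : f.q v ≠ 0) => by
    show f.q (g.1 v) ≠ 0
    rwa [Form.mem_O_q g.2]⟩
  have sm : ∀ (g : f.O) (x : X), (g • x).1 = g.1 x.1 := fun _ _ => rfl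
  let R : V → V → Prop := fun x y => x ≠ y ∧ f.q (x + y) = 0
  have hR : ∀ a b, R (φ a) (φ b) ↔ R0 q0 a b := fun a b => and_congr inj.ne_iff (by rw [← ad, hz])
  have RB : ∀ {x y}, f.q x ≠ 0 → f.q y ≠ 0 → f.B x y = f.q (x + y) := fun {x y} a b => by
    rw [f.quad_B, q1 a, q1 b, sub_sub, two, sub_zero]
  have cnt : ∀ (P : V → Prop) (P0 : M → Prop) [DecidablePred fun b => q0 b ≠ 0 ∧ P0 b], (∀ b, P (φ b) ↔ P0 b) →
      Nat.card {y : X // P y.1} = #{b | q0 b ≠ 0 ∧ P0 b} := fun P P0 _ h => by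
    rw [← Fintype.card_subtype, ← Nat.card_eq_fintype_card]
    exact Nat.card_congr ((Equiv.subtypeSubtypeEquivSubtypeInter (fun v => f.q v ≠ 0) P).trans
      ((Equiv.ofBijective φ bij).subtypeEquiv fun b => and_congr (hz b).not.symm (h b).symm).symm)
  have ex : ∀ x : X, ∃ a, q0 a ≠ 0 ∧ x.1 = φ a := fun x => by
    obtain ⟨a, e⟩ := bij.2 x.1
    exact ⟨a, (hz a).not.1 (e ▸ x.2), e.symm⟩
  have li : ∀ x y : X, x ≠ y → LinearIndependent F ![x.1, y.1] := fun x y e =>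
    LinearIndependent.pair_iff.2 fun c d h => by
      have x0 : x.1 ≠ 0 := fun h => x.2 (by rw [h, f.q_zero])
      have y0 : y.1 ≠ 0 := fun h => y.2 (by rw [h, f.q_zero])
      rcases c01 c with rfl | rfl <;> rcases c01 d with rfl | rfl
      · exact ⟨rfl, rfl⟩
      · exact (y0 (by simpa using h)).elim
      · exact (x0 (by simpa using h)).elim
      · refine (e (Subtype.ext ?_)).elim
        rw [← one_smul F x.1, eq_neg_of_add_eq_zero_left h, ← neg_smul, neg_eq_of_add_eq_zero_left two, one_smul]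
  have hk' : ∀ x : X, Nat.card {y : X // R x.1 y.1} = k := fun x => by
    obtain ⟨a, ha, e⟩ := ex x
    rw [e, cnt (R (φ a)) (R0 q0 a) (hR a), hk a ha]
  obtain ⟨ψ, χ, i1, i2, su, val⟩ := rank3 (G := f.O) (fun x y : X => R x.1 y.1) (k := k) (lam := lam) (mu := mu)
    (fun x y h => ⟨h.1.symm, add_comm x.1 y.1 ▸ h.2⟩) (fun x h => h.1 rfl)
    (fun g x y h => ⟨fun e => h.1 (g.1.injective e), by rw [sm, sm, ← map_add, Form.mem_O_q g.2, h.2]⟩)
    (fun x y x' y' e e' h => by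
      obtain ⟨g, hg, a, b⟩ := hf.witt_pair (li x y e) (li x' y' e') ((q1 x'.2).trans (q1 x.2).symm)
        ((q1 y'.2).trans (q1 y.2).symm) (by
          rw [RB x.2 y.2, RB x'.2 y'.2]
          have h' : f.q (x.1 + y.1) = 0 ↔ f.q (x'.1 + y'.1) = 0 :=
            ⟨fun c => (h.1 ⟨Subtype.coe_ne_coe.2 e, c⟩).2, fun c => (h.2 ⟨Subtype.coe_ne_coe.2 e', c⟩).2⟩
          by_cases c : f.q (x.1 + y.1) = 0
          · rw [c, h'.1 c]
          · rw [q1 c, q1 (h'.not.1 c)])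
      exact ⟨⟨g, hg⟩, Subtype.ext a, Subtype.ext b⟩)
    (let ⟨a, b, ha, hb, e⟩ := h1; ⟨⟨φ a, (hz a).not.2 ha⟩, ⟨φ b, (hz b).not.2 hb⟩, (hR a b).2 e⟩)
    (let ⟨a, b, ha, hb, e, e'⟩ := h2; ⟨⟨φ a, (hz a).not.2 ha⟩, ⟨φ b, (hz b).not.2 hb⟩,
      fun c => e (inj (congrArg Subtype.val c)), (hR a b).not.2 e'⟩) hk'
    (fun x y h => by
      obtain ⟨a, ha, e⟩ := ex x
      obtain ⟨b, hb, e'⟩ := ex y
      rw [e, e'] at h ⊢
      rw [cnt (fun v => R (φ a) v ∧ R (φ b) v) (fun c => R0 q0 a c ∧ R0 q0 b c)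
        fun c => and_congr (hR a c) (hR b c), hl a b ha hb ((hR a b).1 h)])
    (fun x y ne h => by
      obtain ⟨a, ha, e⟩ := ex x
      obtain ⟨b, hb, e'⟩ := ex y
      have ab : a ≠ b := fun c => ne (Subtype.ext (by rw [e, e', c]))
      rw [e, e'] at h ⊢
      rw [cnt (fun v => R (φ a) v ∧ R (φ b) v) (fun c => R0 q0 a c ∧ R0 q0 b c)
        fun c => and_congr (hR a c) (hR b c), hm a b ha hb ab ((hR a b).not.1 h)]) hst hst' hne
  have z0 : ∀ g : f.O, (∀ x : X, ¬ R x.1 (g • x).1) → Nat.card {x : X // R x.1 (g • x).1} = 0 := fun g h =>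
    Nat.card_eq_zero.2 (.inl ⟨fun x => h x.1 x.2⟩)
  refine ⟨ψ, i1, ?_, ⟨{v | f.q v ≠ 0}, fun g => 1 + χ g, fun g v h => (X.smul_mem g h :), 
    CL.Char.isCharacter_one.add i2.isCharacter, fun g => ?_⟩, fun g => ?_, fun g ⟨v, hv, hg⟩ => ?_⟩
  · have e : Nat.card {x : X // (1 : f.O) • x = x} = n := by
      rw [← hn, Nat.card_congr (Equiv.subtypeEquivRight (q := fun _ => True) fun x => by simp),
        cnt (fun _ => True) (fun _ => True) fun _ => Iff.rfl]
      simp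
    rw [val, z0 1 fun x h => h.1 (by simp), e]
    push_cast
    ring
  · have e : Nat.card {x : X // g • x = x} = Nat.card {v // v ∈ {v | f.q v ≠ 0} ∧ g.1 v = v} :=
      Nat.card_congr ((Equiv.subtypeEquivRight (q := fun x : X => g.1 x.1 = x.1) fun x => Subtype.ext_iff).trans
        (Equiv.subtypeSubtypeEquivSubtypeInter (fun v => f.q v ≠ 0) fun v => g.1 v = v))
    rw [← e, ← su g]
    ring
  · refine int_of (i1.isIntegral g) (sub_ne_zero.2 hne) (m := Nat.card {x : X // R x.1 (g • x).1} -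
      t * Nat.card {x : X // g • x = x} - (k - t)) ?_
    push_cast
    exact val g
  · rw [q1 hv, inv_one] at hg
    have v0 : v ≠ 0 := fun h => hv (by rw [h, f.q_zero])
    have vv : v + v = 0 := by rw [← one_smul F v, ← add_smul, two, zero_smul]
    have fx : ∀ x : X, g • x = x ↔ f.q (v + x.1) = 0 := fun x => by
      rw [Subtype.ext_iff, sm, hg, sub_eq_self, smul_eq_zero, or_iff_left v0, one_mul, RB hv x.2]
    have e : Nat.card {x : X // g • x = x} = k + 1 := by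
      rw [← hk' ⟨v, hv⟩, Nat.card_congr (Equiv.subtypeEquivRight fx), ← Finite.card_option]
      refine Nat.card_congr (Equiv.symm (Equiv.ofBijective (fun o => o.elim ⟨⟨v, hv⟩, by rw [vv, f.q_zero]⟩
        fun y => ⟨y.1, y.2.2⟩) ⟨?_, fun y => ?_⟩))
      · rintro (_ | x) (_ | y) h
        · rfl
        · exact (y.2.1 (congrArg (·.1.1) h)).elim
        · exact (x.2.1 (congrArg (·.1.1) h).symm).elim
        · exact congrArg some (Subtype.ext (congrArg (·.1) h))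
      · by_cases c : v = y.1.1
        · exact ⟨none, Subtype.ext (Subtype.ext c)⟩
        · exact ⟨some ⟨y.1, c, y.2⟩, rfl⟩
    rw [val, z0 g fun x h => ?_, e]
    · push_cast
      ring
    · rw [sm, hg, one_mul] at h
      rcases c01 (f.B v x.1) with c | c
      · exact h.1 (by rw [c, zero_smul, sub_zero])
      · refine hv ?_
        have xx : x.1 + x.1 = 0 := by rw [← one_smul F x.1, ← add_smul, two, zero_smul]
        rw [← f.q_neg, ← h.2, c, one_smul, ← add_sub_assoc, xx, zero_sub]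

abbrev M6 := Z × Z × Z × Z × Z × Z
abbrev M4 := Z × Z × Z × Z
def q6 (a : M6) : Z := a.1 * a.2.2.2.1 + a.2.1 * a.2.2.2.2.1 + a.2.2.1 * a.2.2.2.2.2
def q4 (a : M4) : Z := a.1 * a.2.1 + (a.2.2.1 * a.2.2.1 + a.2.2.2 * a.2.2.2 + a.2.2.1 * a.2.2.2)

set_option synthInstance.maxSize 4000
set_option synthInstance.maxHeartbeats 200000

instance : DecidableEq M6 := inferInstance
instance : DecidableEq M4 := inferInstance

theorem m6 : ∀ a b, q6 a ≠ 0 → q6 b ≠ 0 → a ≠ b → ¬ R0 q6 a b → #{c | q6 c ≠ 0 ∧ R0 q6 a c ∧ R0 q6 b c} = 10 := by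
  decide +kernel

theorem m4 : ∀ a b, q4 a ≠ 0 → q4 b ≠ 0 → a ≠ b → ¬ R0 q4 a b → #{c | q4 c ≠ 0 ∧ R0 q4 a c ∧ R0 q4 b c} = 1 := by
  decide +kernel

end NS

theorem psi7 (h : Ty f 3 0) (hq : Fintype.card F = 2) : ∃ ψ : f.O → ℂ, IsIrrCharacter _ ψ ∧
    ψ 1 = 7 ∧ VecC f ψ ∧ (∀ g, ∃ n : ℤ, ψ g = n) ∧ ∀ g, IsRefl g → ψ g = 5 := by
  obtain ⟨hf, ⟨-, c, -⟩ | ⟨rfl, -, d⟩, x, y, hx, -⟩ := h
  · omega
  obtain ⟨ι⟩ := NS.iso hq
  have : Module.Finite F V := Module.Finite.of_finite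
  obtain ⟨ψ, a, b, c, d, e⟩ := NS.core hf ι (fun a : NS.M6 => ι a.1 • x 0 + ι a.2.1 • x 1 + ι a.2.2.1 • x 2 +
      ι a.2.2.2.1 • y 0 + ι a.2.2.2.2.1 • y 1 + ι a.2.2.2.2.2 • y 2) NS.q6
    (fun a b => by simp only [Prod.fst_add, Prod.snd_add, map_add, add_smul]; abel)
    (fun a => by
      simp [f.quad_q_add, f.quad_q_smul, hx.q_left, hx.q_right, hx.B_left, hx.B_right, hx.B_pair, NS.q6,
        FormType.quad_σ, mul_comm])
    (by decide +kernel) (by rw [Module.natCard_eq_pow_finrank (K := F), d, Nat.card_eq_fintype_card, hq]; rfl)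
    (n := 28) (k := 15) (lam := 6) (mu := 10) (s := -5) (t := 1) (by decide +kernel) (by decide +kernel)
    (by decide +kernel) NS.m6 (by decide +kernel) (by decide +kernel) rfl rfl (by decide)
  refine ⟨ψ, a, ?_, c, d, fun g hg => ?_⟩
  · push_cast at b
    linear_combination (-1 / 6 : ℂ) * b
  · have := e g hg
    push_cast at this
    linear_combination (-1 / 6 : ℂ) * this

theorem psi5 (h : Ty f 1 2) (hq : Fintype.card F = 2) : ∃ ψ : f.O → ℂ, IsIrrCharacter _ ψ ∧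
    ψ 1 = 5 ∧ VecC f ψ ∧ (∀ g, ∃ n : ℤ, ψ g = n) ∧ ∀ g, IsRefl g → ψ g = 1 := by
  obtain ⟨hf, ⟨-, c, -⟩ | ⟨rfl, -, d⟩, x, y, hx, an⟩ := h
  · omega
  obtain ⟨ι⟩ := NS.iso hq
  have : Module.Finite F V := Module.Finite.of_finite
  have d2 : finrank F (UU f x y) = 2 := by rw [hx.finrank_perp, d]; rfl
  let b := Module.finBasisOfFinrankEq F _ d2
  have two : (1 : F) + 1 = 0 := by rw [← map_one ι, ← map_add]; exact (map_eq_zero_iff ι ι.injective).2 rfl
  have q1 : ∀ c : Fin 2 → F, c ≠ 0 → f.q (b.equivFun.symm c).1 = 1 := fun c h => by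
    obtain ⟨t, e⟩ := ι.surjective (f.q (b.equivFun.symm c).1)
    have : t = 0 ∨ t = 1 := by clear e; revert t; decide
    rcases this with rfl | rfl
    · exact (h (b.equivFun.symm.map_eq_zero_iff.1 (Subtype.ext (an _ (b.equivFun.symm c).2 (by rw [← e, map_zero]))))).elim
    · rw [← e, map_one]
  have u0 : f.q (b 0).1 = 1 := by simpa using q1 ![1, 0] (by simp)
  have u1 : f.q (b 1).1 = 1 := by simpa using q1 ![0, 1] (by simp)
  have u2 : f.B (b 0).1 (b 1).1 = 1 := by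
    have : f.q ((b 0).1 + (b 1).1) = 1 := by simpa using q1 ![1, 1] (by simp)
    rw [f.quad_B, this, u0, u1, sub_self, zero_sub, neg_eq_of_add_eq_zero_left two]
  have pu := fun u : UU f x y => hx.mem_perp_span.1 u.2
  obtain ⟨ψ, a, b, c, d, e⟩ := NS.core hf ι (fun a : NS.M4 => ι a.1 • x 0 + ι a.2.1 • y 0 + ι a.2.2.1 • (b 0).1 +
      ι a.2.2.2 • (b 1).1) NS.q4
    (fun a b => by simp only [Prod.fst_add, Prod.snd_add, map_add, add_smul]; abel)
    (fun a => by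
      simp [f.quad_q_add, f.quad_q_smul, hx.q_left, hx.q_right, hx.B_pair, NS.q4, FormType.quad_σ, pu, u0, u1, u2]
      ring)
    (by decide +kernel) (by rw [Module.natCard_eq_pow_finrank (K := F), d, Nat.card_eq_fintype_card, hq]; rfl)
    (n := 10) (k := 3) (lam := 0) (mu := 1) (s := 1) (t := -2) (by decide +kernel) (by decide +kernel)
    (by decide +kernel) NS.m4 (by decide +kernel) (by decide +kernel) rfl rfl (by decide)
  refine ⟨ψ, a, ?_, c, d, fun g hg => ?_⟩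
  · push_cast at b
    linear_combination (1 / 3 : ℂ) * b
  · have := e g hg
    push_cast at this
    linear_combination (1 / 3 : ℂ) * this

end CL.DG4
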