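/-
S4984, block NT: number theory.  DD q r e r = prod_{i=1}^r (q^i - 1)(q^(i+e-1) + 1).  Let d be the order of q
mod l, d' = d (d odd) or d/2: l | q^(2i) - 1 iff d' | i.  With b = r - a + e/2, m = r + e/2:
e = 1: DD_a = prod_{i=b+1}^{m} (q^(2i) - 1); e = 0: (q^m - 1)(q^b + 1) prod_{b+1}^{m-1}; e = 2:
(q^m + 1)(q^b - 1) prod_{b+1}^{m-1}.  D keeps all factors i <> a and q^a + 1.  d' > b: i = d' (d' = a with
d = 2a: q^a + 1; d = a odd is the exception; d' = m: first factor).  d' <= b <= 3 < ..: another multiple of d'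
in the range, or the two extra factors.
-/
import Cfsg.Agent.CLAS.DG4.Cnt

set_option autoImplicit false

namespace CL.DG4

namespace NT
open Finset
variable {q r e a D l : ℕ}

theorem m1 (hq : 1 ≤ q) (s : ℕ) : l ∣ q ^ s - 1 ↔ (q : ZMod l) ^ s = 1 := by
  rw [← ZMod.natCast_eq_zero_iff, Nat.cast_sub (Nat.one_le_pow s q hq), sub_eq_zero]; simp

theorem m2 (j : ℕ) : l ∣ q ^ j + 1 ↔ (q : ZMod l) ^ j = -1 := by
  rw [← ZMod.natCast_eq_zero_iff, eq_neg_iff_add_eq_zero]; simp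

theorem pos (hq : 2 ≤ q) (ha : 2 ≤ a) : 0 < q ^ a - 1 := Nat.sub_pos_of_lt (Nat.one_lt_pow (by omega) hq)

theorem fac (hq : 2 ≤ q) (ha : 2 ≤ a) (har : a ≤ r) (h : r - a < a) (hD : D * (q ^ a - 1) = DD q r e a) :
    D = (∏ i ∈ (range a).erase (r - a), (q ^ (r - i) - 1)) * ∏ i ∈ range a, (q ^ (r - i + e - 1) + 1) := by
  refine Nat.eq_of_mul_eq_mul_right (pos hq ha) ?_
  rw [hD, DD]
  simp only [np]
  rw [prod_mul_distrib, ← mul_prod_erase _ _ (mem_range.2 h), Nat.sub_sub_self har]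
  ring

theorem fac2 (hq : 2 ≤ q) (ha : 2 ≤ a) (hD : D * (q ^ a - 1) = DD q (2 * a) e a) :
    D = (q ^ a + 1) * (q ^ (2 * a + e - 1) + 1) * ∏ i ∈ range (a - 1), np q (2 * a - (i + 1)) e := by
  refine Nat.eq_of_mul_eq_mul_right (pos hq ha) ?_
  obtain ⟨b, rfl⟩ : ∃ b, a = b + 1 := ⟨a - 1, by omega⟩
  rw [hD, DD, prod_range_succ', Nat.sub_zero, show np q (2 * (b + 1)) e = _ * _ from rfl,
    ← OrthE.sub_one_mul_add_one, Nat.add_sub_cancel]
  ring

theorem neg_one_ne (hl : l.Prime) (h2 : l ≠ 2) : (-1 : ZMod l) ≠ 1 :=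
  have : Fact (2 < l) := ⟨lt_of_le_of_ne hl.two_le h2.symm⟩
  ZMod.neg_one_ne_one

theorem z2 : ∀ x : ZMod 2, x ≠ 0 → x = 1 := by decide

end NT
open NT Finset

theorem nt {q r e a D l : ℕ} (hq : 2 ≤ q) (he : e ≤ 2) (ha : 2 ≤ a) (har : a ≤ r) (h3 : r - a ≤ 3)
    (hb : r - a + e / 2 < a ∨ (e = 0 ∧ r = 4 ∧ a = 2)) (hD : D * (q ^ a - 1) = DD q r e a)
    (hl : l.Prime) (hlq : ¬ l ∣ q) (hd : l ∣ DD q r e r) :
    l ∣ D ∨ (Odd a ∧ l ≠ 2 ∧ orderOf (q : ZMod l) = a) := by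
  have q1 : 1 ≤ q := by omega
  have := Fact.mk hl
  obtain ⟨A, B⟩ : (∀ s, r - a < s → s ≤ r → s ≠ a → (q : ZMod l) ^ s = 1 → l ∣ D) ∧
      ∀ j, r - a + e ≤ j → j ≤ r + e - 1 → (q : ZMod l) ^ j = -1 → l ∣ D := by
    rcases hb with hb | ⟨rfl, rfl, rfl⟩
    · rw [fac hq ha har (by omega) hD]
      refine ⟨fun s h1 h2 h3 h => (((m1 q1 s).2 h).trans ?_).mul_right _,
        fun j h1 h2 h => (((m2 j).2 h).trans ?_).mul_left _⟩
      · have := dvd_prod_of_mem (fun i => q ^ (r - i) - 1) (s := (range a).erase (r - a)) (a := r - s)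
          (mem_erase.2 ⟨by omega, mem_range.2 (by omega)⟩)
        rwa [Nat.sub_sub_self h2] at this
      · have := dvd_prod_of_mem (fun i => q ^ (r - i + e - 1) + 1) (s := range a) (a := r + e - 1 - j)
          (mem_range.2 (by omega))
        rwa [show r - (r + e - 1 - j) + e - 1 = j by omega] at this
    · rw [fac2 (a := 2) hq ha hD, ← ZMod.natCast_eq_zero_iff]
      simp only [np, Nat.add_one_sub_one, prod_range_one, Nat.cast_mul, Nat.cast_add, Nat.cast_pow, Nat.cast_one,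
        Nat.cast_sub (Nat.one_le_pow _ q q1)]
      generalize (q : ZMod l) = x
      norm_num
      refine ⟨fun s h1 h2 _ h => ?_, fun j h1 h2 h => ?_⟩
      · obtain rfl | rfl : s = 3 ∨ s = 4 := by omega
        · simp [h]
        · have : (x ^ 2 + 1) * ((x + 1) * (x - 1)) = 0 := by linear_combination h
          rcases mul_eq_zero.1 this with e | e
          · simp [e]
          · rcases mul_eq_zero.1 e with e | e
            · rw [eq_neg_of_add_eq_zero_left e]; norm_num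
            · rw [sub_eq_zero.1 e]; norm_num
      · obtain rfl | rfl : j = 2 ∨ j = 3 := by omega
        all_goals simp [h]
  by_cases h2 : l = 2
  · subst h2
    refine Or.inl (B (r + e - 1) (by omega) le_rfl ?_)
    have : (q : ZMod 2) = 1 := z2 _
      (mt (ZMod.natCast_eq_zero_iff q 2).1 hlq)
    rw [this, one_pow]; rfl
  have n1 := neg_one_ne hl h2
  obtain ⟨d, hd'⟩ : ∃ d, orderOf (q : ZMod l) = d := ⟨_, rfl⟩
  have P : ∀ s, (q : ZMod l) ^ s = 1 ↔ d ∣ s := fun s => hd' ▸ orderOf_dvd_iff_pow_eq_one.symm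
  obtain ⟨d0, k1, k2⟩ : 0 < d ∧ (Odd d → d ≤ r) ∧ ∀ d', d = 2 * d' → d' ≤ r + e - 1 := by
    obtain ⟨i, hi, h⟩ := (hl.prime.dvd_finsetProd_iff _).1 hd
    rw [mem_range] at hi
    rcases (Nat.Prime.dvd_mul hl).1 h with h | h
    · have h := (P _).1 ((m1 q1 _).1 h)
      have := Nat.le_of_dvd (by omega) h
      exact ⟨Nat.pos_of_dvd_of_pos h (by omega), fun _ => by omega, fun _ _ => by omega⟩
    · rw [m2] at h
      generalize hj : r - i + e - 1 = j at h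
      have a1 : ¬ d ∣ j := fun k => n1 (h.symm.trans ((P j).2 k))
      have a2 : d ∣ 2 * j := (P _).1 (by rw [pow_mul', h, neg_one_sq])
      have j0 : 0 < j := Nat.pos_of_ne_zero fun k => a1 (k ▸ dvd_zero d)
      have := Nat.le_of_dvd (by omega) a2
      exact ⟨Nat.pos_of_dvd_of_pos a2 (by omega),
        fun o => absurd ((Nat.coprime_two_right.2 o).dvd_of_dvd_mul_left a2) a1, fun _ _ => by omega⟩
  rcases Nat.even_or_odd' d with ⟨d', rfl | rfl⟩
  · have k := k2 d' rfl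
    have e1 : (q : ZMod l) ^ d' = -1 := by
      refine (mul_self_eq_one_iff.1 ?_).resolve_left fun h => ?_
      · rw [← pow_add, P, two_mul]
      · have := Nat.le_of_dvd (by omega) ((P _).1 h); omega
    have e2 : ∀ n, Odd n → (q : ZMod l) ^ (n * d') = -1 := fun n o => by rw [pow_mul', e1, o.neg_one_pow]
    have e3 : ∀ n, (q : ZMod l) ^ (n * (2 * d')) = 1 := fun n => (P _).2 (dvd_mul_left _ _)
    left
    by_cases c0 : r - a + e ≤ d'
    · exact B d' c0 k e1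
    by_cases c1 : r - a + e ≤ 3 * d' ∧ 3 * d' ≤ r + e - 1
    · exact B _ c1.1 c1.2 (e2 3 (by decide))
    by_cases c2 : r - a + e ≤ 5 * d' ∧ 5 * d' ≤ r + e - 1
    · exact B _ c2.1 c2.2 (e2 5 (by decide))
    by_cases c3 : r - a < 1 * (2 * d') ∧ 1 * (2 * d') ≤ r ∧ 1 * (2 * d') ≠ a
    · exact A _ c3.1 c3.2.1 c3.2.2 (e3 1)
    by_cases c4 : r - a < 2 * (2 * d') ∧ 2 * (2 * d') ≤ r ∧ 2 * (2 * d') ≠ a
    · exact A _ c4.1 c4.2.1 c4.2.2 (e3 2)
    exact A (3 * (2 * d')) (by omega) (by omega) (by omega) (e3 3)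
  · have k := k1 ⟨d', rfl⟩
    by_cases c0 : 2 * d' + 1 = a
    · exact Or.inr ⟨⟨d', c0.symm⟩, h2, hd'.trans c0⟩
    left
    by_cases c1 : r - a < 2 * d' + 1
    · exact A _ c1 k c0 ((P _).2 dvd_rfl)
    obtain rfl | rfl : d' = 0 ∨ d' = 1 := by omega
    · by_cases c2 : r = a
      · omega
      · exact A r (by omega) le_rfl c2 ((P _).2 (one_dvd _))
    · by_cases c2 : a = 6
      · exact A 9 (by omega) (by omega) (by omega) ((P _).2 (by decide))
      · exact A 6 (by omega) (by omega) (by omega) ((P _).2 (by decide))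

theorem nt8 {q r e a D : ℕ} (hq : Odd q) (hq2 : 2 ≤ q) (ha : 2 ≤ a) (har : a ≤ r) (h2 : r ≤ 2 * a)
    (hD : D * (q ^ a - 1) = DD q r e a) : 8 ∣ D := by
  have e1 : ∀ s, 2 ∣ q ^ s - 1 := fun s => (Nat.Odd.sub_odd hq.pow odd_one).two_dvd
  have e2 : ∀ s, 2 ∣ q ^ s + 1 := fun s => (hq.pow.add_one).two_dvd
  rcases h2.eq_or_lt with rfl | h
  · rw [fac2 hq2 ha hD]
    exact mul_dvd_mul (mul_dvd_mul (e2 _) (e2 _)) (((e1 _).mul_right _).trans
      (dvd_prod_of_mem (fun i => np q (2 * a - (i + 1)) e) (a := 0) (mem_range.2 (by omega))))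
  · rw [fac hq2 ha har (by omega) hD]
    have a1 := prod_dvd_prod_of_dvd (s := (range a).erase (r - a)) (fun _ => 2) _ fun i _ => e1 (r - i)
    have a2 := prod_dvd_prod_of_dvd (s := range a) (fun _ => 2) _ fun i _ => e2 (r - i + e - 1)
    rw [prod_const, card_erase_of_mem (mem_range.2 (by omega)), card_range] at a1
    rw [prod_const, card_range] at a2
    exact mul_dvd_mul ((pow_dvd_pow 2 (by omega : 1 ≤ a - 1)).trans a1) ((pow_dvd_pow 2 ha).trans a2)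

/-- A prime of odd order `a > 1` divides `q^(a k) - 1` and none of `q - 1`, `q^j + 1`, `q`. -/
theorem ord_facts {q a l : ℕ} (hl : l.Prime) (h2 : l ≠ 2) (ha : Odd a) (h1 : 1 < a) (hq : 1 ≤ q)
    (h : orderOf (q : ZMod l) = a) :
    (∀ k, l ∣ q ^ (a * k) - 1) ∧ ¬ l ∣ q - 1 ∧ (∀ j, ¬ l ∣ q ^ j + 1) ∧ ¬ l ∣ q := by
  have := Fact.mk hl
  have P : ∀ s, (q : ZMod l) ^ s = 1 ↔ a ∣ s := fun s => h ▸ orderOf_dvd_iff_pow_eq_one.symm
  refine ⟨fun k => (m1 hq _).2 ((P _).2 (dvd_mul_right a k)), fun k => ?_, fun j k => ?_, fun k => ?_⟩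
  · have := Nat.le_of_dvd one_pos ((P 1).1 ((m1 hq 1).1 (by rwa [pow_one]))); omega
  · rw [m2] at k
    exact neg_one_ne hl h2 (k.symm.trans ((P j).2 ((Nat.coprime_two_right.2 ha).dvd_of_dvd_mul_left
      ((P _).1 (by rw [pow_mul', k, neg_one_sq])))))
  · have := (P a).2 dvd_rfl
    rw [(ZMod.natCast_eq_zero_iff q l).2 k, zero_pow (by omega)] at this
    exact zero_ne_one this

end CL.DG4
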