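/-
S4984, block Om3: a character of degree 47970 of the orthogonal group of minus type in dimension 8 over three elements.
-/
import Cfsg.Agent.CLAS.DG4.XH
import Cfsg.Agent.CLAS.DG4.H2Z
import Cfsg.Agent.CLAS.DG4.IVl
import Cfsg.Agent.CLAS.DG4.Al
import Cfsg.Agent.CLAS.DG4.PT
import Cfsg.Agent.CLAS.DG4.NRd

set_option autoImplicit false

namespace CL.DG4.Om3

open Cfsg CL.Witt CL.Zel Module Submodule
open scoped ComplexConjugate

variable {F V : Type} [Field F] [Fintype F] [DecidableEq F] [AddCommGroup V] [Module F V]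
  [Finite V] {T : FormType F} {f : Form T V} {r e a : ℕ}

theorem psi {f : Form (.quad F) V} (h : Ty f 2 2) (hq : Fintype.card F = 3) :
    ∃ ψ : f.O → ℂ, IsIrrCharacter _ ψ ∧ PtC f ψ ∧ ψ 1 = 90 ∧
      ∀ (g : f.O) (v : V), f.q v ≠ 0 → (∀ y, g.1 y = y - ((f.q v)⁻¹ * f.B v y) • v) → ψ g = 30 := by
  obtain ⟨ψ, -, df, -, k, i1, -, p1, -, d1, -, e1, -, e3, e4⟩ := pt3 h le_rfl hq
  have e1' : df = 90 := by norm_num at e1; omega
  have e3' : k = 30 := by norm_num [np] at e3; omega
  refine ⟨ψ, i1, p1, by rw [d1, e1']; norm_num, fun g v hv hg => ?_⟩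
  have h1 := e4 g ⟨v, hv, hg⟩
  have h2 := (h.ty_perp (by norm_num) (by rw [hq]; decide) hv).card_Pt
  rw [← fixPt_refl rfl hv hg, hq] at h2
  have h3 : fixPt f g = 40 := by norm_num [np] at h2; omega
  rw [h3, e3'] at h1
  norm_num at h1
  linear_combination h1 / 12

theorem three (hq : Fintype.card F = 3) {b : F} (hb : b ≠ 0) : b = 1 ∨ b = -1 := by
  have := FiniteField.pow_card_sub_one_eq_one b hb
  rw [hq] at this
  exact sq_eq_one_iff.1 this

open Classical in
theorem zero {f : Form (.quad F) V} (h : Ty f 2 2) (hq : Fintype.card F = 3) {lam : F → ℂ} (l1 : lam 1 = 1)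
    (l2 : lam (-1) = -1) : ∑ᶠ u : V, ∑ b : F, (if b ≠ 0 ∧ b = f.q u then lam (-b) * 30 else 0) = 0 := by
  have := Fintype.ofFinite V
  rw [finsum_eq_sum_of_fintype, Finset.sum_comm]
  have e : ∀ b : F, ∑ u : V, (if b ≠ 0 ∧ b = f.q u then lam (-b) * 30 else 0) =
      if b ≠ 0 then Nat.card {v // f.q v = 1} * (lam (-b) * 30) else 0 := by
    intro b
    by_cases hb : b = 0
    · simp [hb]
    · rw [if_pos hb, h.card_q_eq (by norm_num) one_ne_zero hb, T2.cnt, Finset.sum_mul]
      refine Finset.sum_congr rfl fun u _ => ?_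
      by_cases e : f.q u = b
      · simp [e, hb]
      · simp [e, Ne.symm e]
  simp only [e]
  refine Finset.sum_ninvolution (fun b => -b) (fun b => ?_) (fun b hb e => ?_) (fun _ => Finset.mem_univ _) neg_neg
  · by_cases hb : b = 0
    · simp [hb]
    · rcases three hq hb with rfl | rfl <;> simp [l1, l2]
  · by_cases h0 : b = 0
    · simp [h0] at hb
    · have h2 : lam (-b) = lam b := by rw [e]
      rcases three hq h0 with rfl | rfl
      · rw [l1, l2] at h2; norm_num at h2
      · rw [neg_neg, l1, l2] at h2; norm_num at h2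

theorem om3 (h : Ty f 3 2) (hq : Fintype.card F = 3) :
    ∃ χ : f.O → ℂ, IsIrrCharacter _ χ ∧ χ 1 = 47970 := by
  obtain rfl : T = .quad F := by
    rcases h.2.1 with k | k
    · exact absurd k.2.1 (by norm_num)
    · exact k.1
  obtain ⟨c⟩ := h.exists_par (a := 1) (by norm_num)
  have hU : Ty c.fU 2 2 := h.ty_UU c.hyp
  obtain ⟨θ, lam, cu, li, hl, l1, l2⟩ := quad1 hq
  obtain ⟨ψ, i1, p1, d1, rf⟩ := psi hU hq
  have t1 : θ (-1) = -1 := by rw [hl, ← l2]; simp
  have iv := iv_pt_one hU cu.1 ⟨-1, by rw [t1]; norm_num⟩ i1.isCharacter p1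
  have na : FormType.quad F = .alt F → θ (-1) = 1 := fun e => by
    have : (FormType.quad F).π 1 = (FormType.alt F).π 1 := by rw [e]
    exact absurd this one_ne_zero
  obtain ⟨χ₁, χ₂, t₁, t₂, o⟩ := h2geo h c le_rfl cu li na i1 iv
  obtain ⟨R, hR⟩ := hU.exists_R
  obtain ⟨Φ, ok, s⟩ := alpha1 h c θ ψ lam hl R hR
  have p0 : c.phi θ ψ 1 = 90 := by
    rw [Par.phi, map_one, map_one, d1, hl]; simp [l1]
  have z : t₁ + t₂ = 0 := by
    have := o.alpha Φ ok
    rw [s, p0] at this
    have e := zero hU hq l1 l2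
    rw [← mul_left_inj' (show (90 : ℂ) ≠ 0 by norm_num), this, zero_mul]
    refine Eq.trans (finsum_congr fun u => Finset.sum_congr rfl fun b _ => ?_) e
    rw [FormType.quad_π, FormType.quad_ε, one_mul]
    split_ifs with k
    · rw [rf _ u (k.2 ▸ k.1) (k.2 ▸ hR u b k.1 k.2)]
    · rfl
  have ix := h.index_P c
  rw [hq] at ix
  have ix' : c.P.index = 1066 := by norm_num [DD, np] at ix; omega
  have := o.half z
  rw [ix', p0] at this
  exact ⟨χ₁, o.irr₁, by push_cast at this; linear_combination this / 2⟩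

end CL.DG4.Om3
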