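/-
S4984, block SL2c: an even cuspidal character of Sp_2(q) = SL_2(q).  f.O is SL_2 (symplectic basis);
take a constituent psi of the restriction of theta (even2, degree q-1 by Cusp.irr); Z SL_2 has index <= 2
in GL_2, so q - 1 = n or 2 n.  theta has no fixed vectors of the
transvection group of u (Cusp, Ses.sum_eq), so neither has psi.
-/
import Cfsg.Agent.CLAS.DG4.Geo
import Cfsg.Agent.CLAS.DG4.NRd
import Cfsg.Agent.CLAS.DG4.IVl
import Cfsg.Agent.CHAR.Ramified
import Cfsg.Agent.CHAR.Scalar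

set_option autoImplicit false
set_option linter.unusedSectionVars false

namespace CL.DG4

open Cfsg CL.Witt CL.Zel Module Submodule
open scoped ComplexConjugate

variable {F V : Type} [Field F] [Fintype F] [DecidableEq F] [AddCommGroup V] [Module F V]
  [Finite V] {T : FormType F} {f : Form T V} {r e a : ℕ}

namespace SL2c
open CL.Char

/-- A constituent of the restriction to a subgroup whose product with the centre has index `≤ 2`. -/
theorem gen {G H : Type} [Group G] [Group H] [Finite G] [Finite H] (ι : H →* G) (K : Subgroup G)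
    [K.Normal] (hK : K.index ≤ 2) (hι : ∀ h, ι h ∈ K)
    (hs : ∀ k ∈ K, ∃ h, ∃ z ∈ Subgroup.center G, k = ι h * z) {θ : G → ℂ}
    (hθ : IsIrrCharacter G θ) :
    ∃ (ψ : H → ℂ) (n : ℕ), IsIrrCharacter H ψ ∧ ψ 1 = n ∧ (θ 1 = n ∨ θ 1 = 2 * n) ∧
      (∀ z, θ (ι z) = θ 1 → ψ z = ψ 1) ∧
      ∀ j : Multiplicative F →* H, ∑ l, θ (ι (j l)) = 0 → ∑ l, ψ (j l) = 0 := by
  have := Fintype.ofFinite G
  have := Fintype.ofFinite K
  have hr := hθ.isCharacter.res K
  obtain ⟨η, hη, hne⟩ := hr.exists_irr_inner_ne_zero fun h => hθ.one_ne_zero (congrFun h 1)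
  obtain ⟨e, he⟩ := hr.exists_nat_inner hη.isCharacter
  have h1 := clifford_degree hθ hη hne
  have h2 := clifford_norm hθ hη hne
  have e0 : e ≠ 0 := by rintro rfl; exact hne (he.trans Nat.cast_zero)
  rw [he] at h1 h2
  have t0 : (inertia K η).index ≠ 0 := Subgroup.index_ne_zero_of_finite
  generalize (inertia K η).index = t at h1 h2 t0
  have h4 : e ^ 2 * t ≤ 2 :=
    (inner_res_self_le_index K hθ.inner_self (by rw [h2]; push_cast; rfl)).trans hK
  let ι' : H →* K := ι.codRestrict K hι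
  refine ⟨fun x => η (ι' x), charDegree η, hη.comp_of_range_sup_charCenter ι' ?_, ?_, ?_,
    fun z hz => ?_, fun j hj => ?_⟩
  · refine eq_top_iff.2 fun k _ => ?_
    obtain ⟨h, z, hz, hk⟩ := hs k k.2
    have zK : z ∈ K := (K.mul_mem_cancel_left (hι h)).1 (hk ▸ k.2)
    rw [show k = ι' h * ⟨z, zK⟩ from Subtype.ext hk]
    exact Subgroup.mul_mem_sup ⟨h, rfl⟩ (hη.center_le_charCenter
      (Subgroup.mem_center_iff.2 fun g => Subtype.ext (Subgroup.mem_center_iff.1 hz g)))
  · simp only [map_one]; exact hη.apply_one_eq_charDegree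
  · rw [h1, hη.apply_one_eq_charDegree]
    have e1 : e = 1 := by
      by_contra c
      have : 4 * 1 ≤ e ^ 2 * t := Nat.mul_le_mul (by nlinarith [Nat.pos_of_ne_zero e0,
        (show 2 ≤ e by omega)]) (Nat.pos_of_ne_zero t0)
      omega
    subst e1
    have : t = 1 ∨ t = 2 := by omega
    rcases this with rfl | rfl <;> simp
  · simp only [map_one]
    exact hη.mem_charKer.1 (hr.charKer_le_of_inner_ne_zero hη hne (hr.mem_charKer.2 hz))
  · by_contra n
    exact inner_comp_ne_zero_of_constituent (ι'.comp j) hr hη hne isCharacter_one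
      (fun h => n ((IVl.inn _).1 h)) ((IVl.inn _).2 hj)

/-- The transvections with centre `u` as a homomorphism. -/
def trv (hu : ∀ v, f.B v v = 0) {u : V} {R : F → f.O}
    (hR : ∀ b z, (R b).1 z = z - (b * f.B u z) • u) : Multiplicative F →* f.O :=
  MonoidHom.mk' (fun b => R b.toAdd) fun b c => Subtype.ext (LinearEquiv.ext fun z => by
    change (R _).1 z = (R _).1 ((R _).1 z)
    rw [hR, hR, hR, f.B_sub_right, f.B_smul_right, hu, toAdd_mul]
    module)

theorem cusp (hf : f.Nondeg) (hd : finrank F V = 2) (hu : ∀ v, f.B v v = 0) {ρ : Cls F → ℂ}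
    (hρ : Cusp ρ) {u : V} (u0 : u ≠ 0) {R : F → f.O}
    (hR : ∀ b z, (R b).1 z = z - (b * f.B u z) • u) : ∑ b, ρ (cls ((R b).1 : End F V)) = 0 := by
  have sj : Function.Surjective (f.B u) := by
    obtain ⟨y, hy⟩ := not_forall.1 fun h => u0 (hf u h)
    exact fun c => ⟨(c * (f.B u y)⁻¹) • y, by rw [f.B_smul_right, inv_mul_cancel_right₀ hy]⟩
  have hs : Ses (LinearMap.toSpanSingleton F V u) (f.B u) 1 1 1 := by
    refine ⟨LinearMap.ker_eq_bot.1 (LinearMap.ker_toSpanSingleton F u0), sj, ?_, fun _ => rfl,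
      fun _ => rfl⟩
    rw [← LinearMap.span_singleton_eq_range]
    refine eq_of_le_of_finrank_eq ((span_singleton_le_iff_mem _ _).2 (hu u)) ?_
    have := (f.B u).finrank_range_add_finrank_ker
    rw [LinearMap.range_eq_top.2 sj, finrank_top, finrank_self, hd] at this
    rw [finrank_span_singleton u0]
    omega
  have h2 := hs.sum_eq ρ
  rw [hρ _ _ (by rw [dim_cls, finrank_self]; exact one_ne_zero)
    (by rw [dim_cls, finrank_self]; exact one_ne_zero), mul_zero] at h2
  rw [← h2]
  refine Fintype.sum_equiv ((Equiv.neg F).trans (LinearMap.ringLmapEquivSelf F F F).symm.toEquiv)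
    _ _ fun b => ?_
  congr 2
  ext z
  simp [hR, sub_eq_add_neg, mul_comm]

end SL2c

theorem sl2cusp (h : Ty f 1 1) (hT : T = .alt F) (hq : 3 ≤ Fintype.card F) :
    ∃ (ψ : f.O → ℂ) (n : ℕ), IsIrrCharacter _ ψ ∧ ψ 1 = n ∧
      (Fintype.card F - 1 = n ∨ Fintype.card F - 1 = 2 * n) ∧ Ev f ψ 1 ∧ IV f 1 (fun _ => 1) ψ ∧
      ∀ u ≠ 0, ∀ R : F → f.O, (∀ b z, (R b).1 z = z - (b * f.B u z) • u) → ∑ b, ψ (R b) = 0 := by
  subst hT
  obtain ⟨hf, hd, x, x', hx, -⟩ := h
  have hd : finrank F V = 2 := by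
    rcases hd with h | h
    · exact h.2.2
    · have := congrArg (fun T : FormType F => T.π 1) h.1
      exact absurd this.symm one_ne_zero
  have q0 : ∀ v, f.q v = 0 := fun v => (f.lift v).choose_spec.1.symm
  have B0 : ∀ v, f.B v v = 0 := fun v => f.B_self_eq_zero (q0 v)
  have sk : ∀ v w, f.B v w = -f.B w v := fun v w => (f.symm w v).trans (neg_one_mul _)
  have li : LinearIndependent F ![x 0, x' 0] := by
    refine LinearIndependent.pair_iff.2 fun s t h => ?_
    have h1 := congrArg (f.B (x 0)) h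
    have h2 := congrArg (f.B (x' 0)) h
    rw [f.B_add_right, f.B_smul_right, f.B_smul_right, B0, f.B_zero_right] at h1 h2
    rw [hx.B_self] at h1
    rw [sk, hx.B_self] at h2
    exact ⟨by simpa using h2, by simpa using h1⟩
  let b : Basis (Fin 2) F V := basisOfLinearIndependentOfCardEqFinrank li (by simp [hd])
  have b01 : f.B (b 0) (b 1) = 1 := by simpa [b] using hx.B_self 0
  have hdet : ∀ A : Matrix (Fin 2) (Fin 2) F,
      f.B (Matrix.toLin b b A (b 0)) (Matrix.toLin b b A (b 1)) = A.det := fun A => by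
    simp only [Matrix.toLin_self, Fin.sum_univ_two, f.B_add_left, f.B_add_right, f.B_smul_left,
      f.B_smul_right, B0, sk (b 1) (b 0), b01, FormType.alt_σ, Matrix.det_fin_two]
    ring
  let ι : f.O →* GL (Fin 2) F := MonoidHom.toHomUnits
    { toFun := fun g => LinearMap.toMatrix b b (g.1 : End F V)
      map_one' := LinearMap.toMatrix_id b
      map_mul' := fun g h => LinearMap.toMatrix_mul b (g.1 : End F V) (h.1 : End F V) }
  have hι : ∀ g, (ι g).1 = LinearMap.toMatrix b b (g.1 : End F V) := fun _ => rfl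
  let K : Subgroup (GL (Fin 2) F) :=
    (powMonoidHom 2 : Fˣ →* Fˣ).range.comap Matrix.GeneralLinearGroup.det
  have : K.Normal := Subgroup.normal_comap _
  obtain ⟨θ, ⟨hθ, hc⟩, hev⟩ := even2 hq
  have := GeoB.finO f
  obtain ⟨ψ, n, hψ, h1, h2, h3, h4⟩ := SL2c.gen (F := F) ι K
    (by
      rw [Subgroup.index_comap]
      refine (Nat.le_of_dvd (Nat.pos_of_ne_zero Subgroup.index_ne_zero_of_finite)
        (Subgroup.relIndex_dvd_index_of_normal _ _)).trans ?_
      rw [IsCyclic.index_powMonoidHom_range]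
      exact Nat.gcd_le_right _ two_pos)
    (fun g => ⟨1, Units.ext (by
      have := hdet (ι g).1
      rw [hι, Matrix.toLin_toMatrix] at this
      rw [map_one, Matrix.GeneralLinearGroup.val_det_apply, hι, ← this]
      exact ((f.O_B g _ _).trans b01).symm)⟩)
    (fun k ⟨c, hk⟩ => by
      have hk' : (c : F) ^ 2 = k.1.det := congrArg Units.val hk
      have h1 := hdet ((c : F)⁻¹ • k.1)
      rw [Matrix.det_smul, Fintype.card_fin, ← hk', ← mul_pow, inv_mul_cancel₀ c.ne_zero,
        one_pow] at h1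
      obtain ⟨g, hg, hg'⟩ := Form.IsIsom.exists_mem_O hf
        (f.isIsom_of_basis f (Matrix.toLin b b ((c : F)⁻¹ • k.1)) b
          (fun i j => by
            fin_cases i <;> fin_cases j
            · exact (B0 _).trans (B0 _).symm
            · exact h1.trans b01.symm
            · exact (sk _ _).trans ((congrArg _ (h1.trans b01.symm)).trans (sk _ _).symm)
            · exact (B0 _).trans (B0 _).symm)
          fun i => (q0 _).trans (q0 _).symm)
      refine ⟨⟨g, hg⟩, Matrix.GeneralLinearGroup.scalar (Fin 2) c,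
        Matrix.GeneralLinearGroup.mem_center_iff_val_mem_range_scalar.2 ⟨c, rfl⟩, Units.ext ?_⟩
      rw [Units.val_mul, hι, show ((⟨g, hg⟩ : f.O).1 : End F V) = _ from LinearMap.ext hg',
        LinearMap.toMatrix_toLin]
      change _ = _ * Matrix.scalar (Fin 2) (c : F)
      rw [Matrix.scalar_apply, ← Matrix.smul_one_eq_diagonal, Matrix.mul_smul, Matrix.mul_one,
        smul_smul, mul_inv_cancel₀ c.ne_zero, one_smul]) hθ
  have key : ∀ u ≠ 0, ∀ R : F → f.O, (∀ b z, (R b).1 z = z - (b * f.B u z) • u) →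
      ∑ b, ψ (R b) = 0 := fun u u0 R hR => by
    refine (Fintype.sum_equiv Multiplicative.toAdd _ _ fun _ => rfl).symm.trans
      (h4 (SL2c.trv B0 hR) (Eq.trans (Fintype.sum_equiv Multiplicative.toAdd _ _ fun l => ?_)
      (SL2c.cusp hf hd B0 hc u0 hR)))
    rw [← congrFun (toGL_ofGL hθ.isClassFunction) (ι _), toGL]
    congr 1
    refine (cls_eq_of b.equivFun fun v => ?_).symm
    rw [hι, Matrix.toLin'_apply]
    exact (LinearMap.toMatrix_mulVec_repr b b _ v).symm
  refine ⟨ψ, n, hψ, h1, ?_, fun z hz => ?_, fun c => ?_, key⟩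
  · have h5 : θ 1 = phi F 1 := (Cusp.irr (χ := ⟨θ, hθ⟩) hc).2
    have h6 : θ 1 = ((Fintype.card F - 1 : ℕ) : ℂ) := by
      rw [h5, Nat.cast_sub (by omega)]; simp [phi]
    rw [h6] at h2
    exact_mod_cast h2
  · rw [one_mul]
    refine h3 z (Eq.trans (congrArg θ (Units.ext ?_)) hev)
    rw [hι, show (z.1 : End F V) = -1 from LinearMap.ext hz, map_neg, LinearMap.toMatrix_one]
    rfl
  · classical
    have := Fintype.ofFinite c.P
    have := Fintype.ofFinite c.τ.ker
    rw [finsum_eq_sum_of_fintype, ← Finset.sum_filter,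
      Finset.sum_subtype (p := fun g => g ∈ c.τ.ker) _ (by simp)]
    simp only [map_one, mul_one]
    choose k hk using fun t : F => IVl.eic c (p := c.x 0) (u := 0) (subset_span ⟨0, rfl⟩)
      (f.B_zero_right _) (b := -t) (q0 0).symm
    have hR : ∀ t z, (k t).1.1.1 z = z - (t * f.B (c.x 0) z) • c.x 0 := fun t z => by
      rw [hk, f.eich_apply, f.B_zero_left, FormType.alt_ε]
      module
    exact IVl.img (c.P.subtype.comp c.τ.ker.subtype) (SL2c.trv B0 hR) hψ.isCharacter
      (fun t => ⟨k t.toAdd, rfl⟩) ((Fintype.sum_equiv Multiplicative.toAdd _ _ fun _ => rfl).trans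
        (key _ (c.hyp.linearIndependent_left.ne_zero 0) _ hR))

end CL.DG4
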