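/-
S4984, blocks Sp4 and Om3 (a = 1, h2geo + alpha1).
sp4: theta = 1, psi = sl2cusp; alpha psi(1) = (q-1) psi(1) [u = 0] - (q^2-1) psi(1); card_Q = q^3,
H2Out.ratio, index (q-1) = q^4 - 1; H2Out.central with Par.neg.
om3: theta = quad1, psi = chi_f of pt3 on U (Ty 2 2, degree 90), IV by iv_pt_one.  R u b (b = q u) is the
reflection in u, fixPt = 40 (fixPt_refl, ty_perp, card_Pt), so psi(R u b) is constant and
sum lam(-q u) = 0 by card_q_eq; H2Out.half, index = 1066.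
-/
import Cfsg.Agent.CLAS.DG4.XH
import Cfsg.Agent.CLAS.DG4.H2Z
import Cfsg.Agent.CLAS.DG4.IVl
import Cfsg.Agent.CLAS.DG4.Al
import Cfsg.Agent.CLAS.DG4.PT
import Cfsg.Agent.CLAS.DG4.SL2c
import Cfsg.Agent.CLAS.DG4.Om3

set_option autoImplicit false

namespace CL.DG4

open Cfsg CL.Witt CL.Zel Module Submodule
open scoped ComplexConjugate

variable {F V : Type} [Field F] [Fintype F] [DecidableEq F] [AddCommGroup V] [Module F V]
  [Finite V] {T : FormType F} {f : Form T V} {r e a : ℕ}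

theorem sp4 (h : Ty f 2 1) (hT : T = .alt F) {q : ℕ} (hq : Fintype.card F = q) (h3 : 3 ≤ q) :
    ∃ (χ : f.O → ℂ) (n : ℕ), IsIrrCharacter _ χ ∧ χ 1 = (n * q * (q ^ 2 + 1) : ℕ) ∧ Ev f χ 1 ∧
      (q - 1 = n ∨ q - 1 = 2 * n) := by
  classical
  have := XH.fin f
  obtain ⟨c⟩ := h.exists_par (a := 1) (by norm_num)
  have hU : Ty c.fU 1 1 := h.ty_UU c.hyp
  obtain ⟨ψ, n, hψ, hn, hqn, hev, hiv, hs⟩ := sl2cusp hU hT (by omega)
  have hθ : Cu (fun _ : GL (Fin 1) F => (1 : ℂ)) := ⟨CL.Char.isIrrCharacter_one, cusp_one _⟩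
  obtain ⟨χ₁, χ₂, t₁, t₂, H⟩ := h2geo h c le_rfl hθ ⟨fun _ _ => (one_mul _).symm, fun _ => .inl rfl⟩
    (fun _ => rfl) hψ hiv
  obtain ⟨R, hR⟩ := hU.exists_R
  obtain ⟨Φ, hΦ, hsum⟩ := alpha1 h c _ ψ (fun _ => 1) (fun _ => rfl) R hR
  have φ1 : c.phi (fun _ => 1) ψ 1 = n := by rw [Par.phi, map_one c.τ, hn, one_mul]
  have n0 : (n : ℂ) ≠ 0 := hn ▸ hψ.one_ne_zero
  have pq : ∀ (b : F) (u : c.U), T.π b = c.fU.q u := fun b u => by
    obtain ⟨a, ha, -⟩ := c.fU.lift u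
    rw [← ha]; subst hT; rfl
  have := Fintype.ofFinite c.U
  have cU : Fintype.card c.U = q ^ 2 := by
    rw [Module.card_eq_pow_finrank (K := F), hq]
    rcases hU.2.1 with k | k
    · rw [k.2.2]
    · have := congrArg (fun T : FormType F => T.π 1) (hT.symm.trans k.1)
      exact absurd this (zero_ne_one (α := F))
  have inn : ∀ u : c.U, (∑ b : F, if b ≠ 0 ∧ T.π b = c.fU.q u then (1 : ℂ) * ψ (R u b) else 0) =
      (if u = 0 then (q : ℂ) * n else 0) - n := by
    intro u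
    have e : (∑ b : F, if b ≠ 0 ∧ T.π b = c.fU.q u then (1 : ℂ) * ψ (R u b) else 0) + n =
        ∑ b : F, ψ (if b = 0 then 1 else R u b⁻¹) := by
      rw [← Equiv.sum_comp (Equiv.inv F), ← Finset.sum_ite_eq_of_mem Finset.univ (0 : F) (fun _ => (n : ℂ)) (Finset.mem_univ _),
        ← Finset.sum_add_distrib]
      refine Finset.sum_congr rfl fun b _ => ?_
      by_cases hb : b = 0
      · simp [hb, hn]
      · rw [Equiv.inv_apply, if_pos ⟨inv_ne_zero hb, pq _ _⟩, if_neg (Ne.symm hb), if_neg hb, one_mul, add_zero]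
    rw [eq_sub_iff_add_eq, e]
    split_ifs with hu
    · rw [Finset.sum_congr rfl (g := fun _ => (n : ℂ)), Finset.sum_const, Finset.card_univ, hq, nsmul_eq_mul]
      intro b _
      rw [← hn]
      congr 1
      split_ifs with hb
      · rfl
      · refine Subtype.ext (LinearEquiv.ext fun z => ?_)
        rw [hR u _ (inv_ne_zero hb) (pq _ _), hu, smul_zero, sub_zero]; rfl
    · refine hs u hu _ fun b z => ?_
      split_ifs with hb
      · rw [hb, zero_mul, zero_smul, sub_zero]; rfl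
      · rw [hR u _ (inv_ne_zero hb) (pq _ _), inv_inv]
  have ht : t₁ + t₂ = q - q ^ 2 := by
    have := H.alpha Φ hΦ
    rw [hsum, finsum_eq_sum_of_fintype, Finset.sum_congr rfl fun u _ => inn u, Finset.sum_sub_distrib,
      Finset.sum_ite_eq', if_pos (Finset.mem_univ _), Finset.sum_const, Finset.card_univ, cU, nsmul_eq_mul, φ1] at this
    refine mul_right_cancel₀ n0 (this.trans ?_)
    push_cast; ring
  obtain ⟨χ, hχ, hd⟩ := H.ratio (q := q) (by rw [h.card_Q c, hq]) ht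
  have hi : c.P.index = (q + 1) * (q ^ 2 + 1) := by
    have := h.index_P c
    simp only [DD, np, Finset.prod_range_one, hq] at this
    obtain ⟨k, rfl⟩ : ∃ k, q = k + 1 := ⟨q - 1, by omega⟩
    refine Nat.eq_of_mul_eq_mul_right (show 0 < k by omega) ?_
    norm_num at this
    rw [this, show (k + 1) ^ 2 - 1 = (k + 1 + 1) * k from Nat.sub_eq_of_eq_add (by ring)]
    ring
  refine ⟨χ, n, by rcases hχ with rfl | rfl; exacts [H.irr₁, H.irr₂], ?_, fun z hz => ?_, hq ▸ hqn⟩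
  · rw [φ1, hi] at hd
    refine mul_left_cancel₀ (show (q : ℂ) + 1 ≠ 0 from Nat.cast_add_one_ne_zero q) (hd.trans ?_)
    push_cast; ring
  · obtain ⟨k1, hP, -, k2⟩ := c.neg hz
    have := H.central (c.phi_irr hθ.1 hψ) (c.w_notMem le_rfl) k1 hP (by
      rw [φ1, Par.phi, hev _ k2, hn, one_mul, one_mul])
    rw [one_mul]
    rcases hχ with rfl | rfl
    exacts [this.1, this.2]

theorem om3 (h : Ty f 3 2) (hq : Fintype.card F = 3) :
    ∃ χ : f.O → ℂ, IsIrrCharacter _ χ ∧ χ 1 = 47970 := by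
  exact Om3.om3 h hq

end CL.DG4
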