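/-
S4984, family e = 1 (Sp_2r(q), O_{2r+1}(q), q odd).  Primes: l | q or l | DD q r 1 r (prime_dvd).
X(a, n) := exX.  index 1 (alt) or 4 (quad, q odd; nt8 gives 8 | D).
r odd, r >= 5 or (r = 3, q >= 4 or quad): X(r-1, q) alone (nt, r-1 even).  r = 3, q = 2: sp62.
r = 3, q = 3, alt: pt3 (195, 168; PtC.ev) for the prime 3; xchar with a = 2, theta = nr23, psi odd
(exists_odd_irr, iv_big), D = 10 * 728 for the others.
r even >= 4: X(r, 1) for l, s not dividing q; X(r-1, q) unless l has order r-1; then q >= 3: chi_g of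
pt3, dg * 2 q (q-1) = q^2 (q^(r-1) - 1)(q^r + 1) (p | dg, ord_facts); q = 2: lines with psi = 1.
r = 2 (alt, q >= 3): q = 3: sp4 (30 | d).  q >= 4: X(2, 1), D = q^4 - 1; p with l | q+1 odd: chi_f of pt3,
df * 2 = q (q+1)^2; p with 2, l | q-1 odd, l | q^2+1: sp4.
-/
import Cfsg.Agent.CLAS.DG4.Ln
import Cfsg.Agent.CLAS.DG4.Sp4
import Cfsg.Agent.CLAS.DG4.NS
import Cfsg.Agent.CLAS.DG4.NR
import Cfsg.Agent.CLAS.DG4.NT
import Cfsg.Agent.CLAS.DG4.FamX

set_option autoImplicit false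
set_option linter.unusedSectionVars false

namespace CL.DG4

open Cfsg CL.Witt CL.Zel Module Submodule
open scoped ComplexConjugate

variable {F V : Type} [Field F] [Fintype F] [DecidableEq F] [AddCommGroup V] [Module F V]
  [Finite V] {T : FormType F} {f : Form T V} {r e a : ℕ}

namespace FamB
variable {H : Subgroup f.O} {p s l q : ℕ}

theorem mk (h : Ty f r 1) (hT : Tgt f H) {χ : f.O → ℂ} {d : ℕ} (hχ : IsIrrCharacter _ χ) (hd : χ 1 = d)
    (ev : ∀ z ∈ H, IsNeg z → χ z = χ 1) (hp : p ∣ d) (hs : s ∣ d)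
    (h8 : Odd (Fintype.card F) → T = .quad F → (p = 2 ∨ s = 2) → 8 ∣ d) : Wit f H p s := by
  refine ⟨χ, d, hχ, hd, ev, hp, hs, fun h2 => Or.inl ?_⟩
  rcases hT.idx with ⟨-, h1⟩ | ⟨hq, -, ⟨o, h1⟩ | ⟨ev, -⟩⟩
  · rw [h1, mul_one]; rcases h2 with rfl | rfl <;> assumption
  · rw [h1]; exact h8 o hq h2
  · exact absurd (h.odd_card hq) (Nat.not_odd_iff_even.2 ev)

theorem symm (h : Wit f H p s) : Wit f H s p :=
  let ⟨χ, d, h1, h2, h3, h4, h5, h6⟩ := h
  ⟨χ, d, h1, h2, h3, h5, h4, fun h => h6 h.symm⟩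

theorem ne (h : T = .alt F) (h' : T = .quad F) : False :=
  zero_ne_one (α := F) (congrArg (fun T : FormType F => T.π 1) (h.symm.trans h'))

theorem ev {χ : f.O → ℂ} (h : Ev f χ 1) : ∀ z ∈ H, IsNeg z → χ z = χ 1 := fun z _ hz => by
  rw [h z hz, one_mul]

theorem ev2 (hq : Fintype.card F = 2) (χ : f.O → ℂ) : ∀ z ∈ H, IsNeg z → χ z = χ 1 := fun z _ hz => by
  have h2 : (2 : F) = 0 := by simpa [hq] using FiniteField.cast_card_eq_zero F
  congr 1
  refine Subtype.ext (LinearEquiv.ext fun v => (hz v).trans ?_)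
  change -v = v
  rw [neg_eq_iff_add_eq_zero, ← two_smul F, h2, zero_smul]

theorem four (h2 : 2 ∣ Fintype.card F) (h3 : 3 ≤ Fintype.card F) : 4 ∣ Fintype.card F := by
  obtain ⟨⟨n, n0⟩, hp, hn⟩ := FiniteField.card F (ringChar F)
  rw [hn] at h2 h3 ⊢
  rw [← (Nat.prime_dvd_prime_iff_eq Nat.prime_two hp).1 (Nat.prime_two.dvd_of_dvd_pow h2)] at h3 ⊢
  refine pow_dvd_pow 2 (m := 2) ?_
  by_contra c
  obtain rfl : n = 1 := by change ¬ 2 ≤ n at c; omega
  exact absurd h3 (show ¬ 3 ≤ 2 ^ 1 by decide)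

/-- `p ∣ q` divides `d` when `d (q - 1) 2 = q m`. -/
theorem pdvd (hp : p.Prime) (hq : p ∣ Fintype.card F) (h3 : 3 ≤ Fintype.card F) {d m : ℕ}
    (h : d * (Fintype.card F - 1) * 2 = Fintype.card F * m) : p ∣ d := by
  have n1 : ¬ p ∣ Fintype.card F - 1 := fun h' => hp.not_dvd_one ((Nat.dvd_add_right h').1
    (by rwa [Nat.sub_add_cancel (by omega)]))
  refine (hp.dvd_mul.1 ?_).resolve_right n1
  by_cases h2 : p = 2
  · subst h2
    exact Nat.dvd_of_mul_dvd_mul_right two_pos (h ▸ (four hq h3).mul_right m)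
  · exact (hp.dvd_mul.1 (h ▸ hq.mul_right m)).resolve_right
      fun h' => h2 ((Nat.prime_dvd_prime_iff_eq hp Nat.prime_two).1 h')

/-- `X(r - 1, q)` -/
theorem x1 (h : Ty f r 1) (hT : Tgt f H) (hr : 3 ≤ r)
    (hθ : 3 ≤ r - 1 ∨ (r - 1 = 2 ∧ 4 ≤ Fintype.card F) ∨ ((∀ z ∈ H, IsNeg z → z = 1) ∧
      ((r - 1 = 2 ∧ Fintype.card F = 3) ∨ (r - 1 = 1 ∧ 4 ≤ Fintype.card F))))
    (hp : p.Prime) (hs : s.Prime) (hp' : p ∣ Nat.card f.O) (hs' : s ∣ Nat.card f.O) :
    Wit f H p s ∨ ∃ l, (l = p ∨ l = s) ∧ Odd (r - 1) ∧ l ≠ 2 ∧ orderOf (Fintype.card F : ZMod l) = r - 1 := by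
  obtain ⟨θ, h1, h2, h3⟩ := exists_theta H (by omega) hθ
  obtain ⟨χ, D, hχ, hd, hev, hD⟩ := exX h H (by omega) h1 h2 h3 (n := Fintype.card F)
    (Or.inr fun c => pt_deg (h.ty_UU c.hyp) rfl (Or.inl ⟨by omega, rfl, rfl⟩))
  have key : ∀ l, l.Prime → l ∣ Nat.card f.O → l ∣ Fintype.card F * D ∨
      (Odd (r - 1) ∧ l ≠ 2 ∧ orderOf (Fintype.card F : ZMod l) = r - 1) := fun l hl hd => by
    by_cases c : l ∣ Fintype.card F
    · exact Or.inl (c.mul_right D)
    · exact (nt Fintype.one_lt_card (by omega) (by omega) (by omega) (by omega) (Or.inl (by omega)) hD hl c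
        ((h.prime_dvd (by omega) hl hd).resolve_left c)).imp_left (·.mul_left _)
  rcases key p hp hp' with a1 | a1
  · rcases key s hs hs' with a2 | a2
    · exact Or.inl (mk h hT hχ hd hev a1 a2 fun o _ _ =>
        (nt8 o Fintype.one_lt_card (by omega) (by omega) (by omega) hD).mul_left _)
    · exact Or.inr ⟨s, Or.inr rfl, a2⟩
  · exact Or.inr ⟨p, Or.inl rfl, a1⟩

/-- `X(r, 1)` -/
theorem x0 (h : Ty f r 1) (hT : Tgt f H) (hr : Even r) (hθ : 3 ≤ r ∨ (r = 2 ∧ 4 ≤ Fintype.card F))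
    (hp : p.Prime) (hs : s.Prime) (hp' : p ∣ Nat.card f.O) (hs' : s ∣ Nat.card f.O)
    (np : ¬ p ∣ Fintype.card F) (ns : ¬ s ∣ Fintype.card F) : Wit f H p s := by
  have r2 : 2 ≤ r := by omega
  obtain ⟨θ, h1, h2, h3⟩ := exists_theta (a := r) H (by omega) (hθ.imp_right Or.inl)
  obtain ⟨χ, D, hχ, hd, hev, hD⟩ := exX h H le_rfl h1 h2 h3 (n := 1) (Or.inl ⟨rfl, r2⟩)
  have key : ∀ l, l.Prime → l ∣ Nat.card f.O → ¬ l ∣ Fintype.card F → l ∣ 1 * D := fun l hl hd c =>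
    ((nt Fintype.one_lt_card (by omega) r2 le_rfl (by omega) (Or.inl (by omega)) hD hl c
      ((h.prime_dvd r2 hl hd).resolve_left c)).resolve_right
        fun h' => Nat.not_odd_iff_even.2 hr h'.1).mul_left _
  exact mk h hT hχ hd hev (key p hp hp' np) (key s hs hs' ns) fun o _ _ =>
    (nt8 o Fintype.one_lt_card r2 le_rfl (by omega) hD).mul_left _

/-- `p ∣ q` and `s` of order `r - 1` -/
theorem exc (h : Ty f r 1) (hT : Tgt f H) (hr : 4 ≤ r) (hp : p.Prime) (hs : s.Prime) (hq : p ∣ Fintype.card F)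
    (o : Odd (r - 1)) (s2 : s ≠ 2) (ho : orderOf (Fintype.card F : ZMod s) = r - 1) : Wit f H p s := by
  have q2 : 2 ≤ Fintype.card F := Fintype.one_lt_card
  obtain ⟨a1, a2, a3, a4⟩ := ord_facts hs s2 o (by omega) (by omega) ho
  have a5 := a1 1
  rw [mul_one] at a5
  have h8 : ∀ d, Odd (Fintype.card F) → T = .quad F → (p = 2 ∨ s = 2) → 8 ∣ d := fun d o _ h2 =>
    absurd (h2.resolve_right s2 ▸ hq) o.not_two_dvd_nat
  by_cases h3 : 3 ≤ Fintype.card F
  · obtain ⟨-, χ, -, d, -, -, hχ, -, hP, -, hd, -, e, -⟩ := pt3 h (by omega) rfl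
    have e1 : d * (Fintype.card F - 1) * 2 = Fintype.card F *
        ((Fintype.card F ^ (r - 1) - 1) * (Fintype.card F ^ (r + 1 - 1) + 1)) :=
      Nat.eq_of_mul_eq_mul_left (by omega : 0 < Fintype.card F) (by linear_combination e)
    refine mk h hT hχ hd (ev (hP.ev hχ.isCharacter)) (pdvd hp hq h3 e1) ?_ (h8 _)
    exact (hs.dvd_mul.1 ((hs.dvd_mul.1 (e1 ▸ (a5.mul_right _).mul_left _)).resolve_right
      fun h' => s2 ((Nat.prime_dvd_prime_iff_eq hs Nat.prime_two).1 h'))).resolve_right a2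
  · have hq2 : Fintype.card F = 2 := by omega
    obtain ⟨c⟩ := h.exists_par (a := 2) (by omega)
    obtain ⟨χ, d, j, hχ, hd, oj, e, -⟩ := lines h hq2 (by omega) c Char.isIrrCharacter_one vecC_one
      (fun _ => ⟨1, by simp⟩) (n := 1) (by simp) odd_one (ν := 1) fun _ _ => rfl
    rw [hq2] at hq a3 a5
    obtain rfl := (Nat.prime_dvd_prime_iff_eq hp Nat.prime_two).1 hq
    have key : ∀ l, l.Prime → ¬ l ∣ 3 → ¬ l ∣ 1 + 2 ^ j → l ∣ 2 ^ j * (1 * DD 2 r 1 2) → l ∣ d :=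
      fun l hl n1 n2 h' => (hl.dvd_mul.1 ((hl.dvd_mul.1 (e ▸ h')).resolve_right n2)).resolve_left n1
    have j2 : 2 ∣ 2 ^ j := dvd_pow_self 2 oj.pos.ne'
    refine mk h hT hχ hd (ev2 hq2 χ) (key 2 hp (by decide) (by omega) (j2.mul_right _))
      (key s hs (a3 1) (add_comm 1 _ ▸ a3 j) ((Dvd.dvd.mul_left ?_ _).mul_left _)) (h8 _)
    rw [DD, Finset.prod_range_succ, np]
    exact (a5.mul_right _).mul_left _

theorem r32 (h : Ty f 3 1) (hT : Tgt f H) (hq : Fintype.card F = 2)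
    (hp : p.Prime) (hs : s.Prime) (hp' : p ∣ Nat.card f.O) (hs' : s ∣ Nat.card f.O) : Wit f H p s := by
  obtain ⟨χ, hχ, hd⟩ := sp62 h hq
  have key : ∀ l, l.Prime → l ∣ Nat.card f.O → l ∣ 210 := fun l hl hd => by
    have h1 := h.prime_dvd (by omega) hl hd
    rw [hq, show DD 2 3 1 3 = 2835 by decide] at h1
    refine hl.dvd_of_dvd_pow (n := 4) ?_
    rcases h1 with h1 | h1 <;> exact h1.trans (by norm_num)
  exact mk h hT hχ (d := 210) (by rw [hd]; norm_num) (ev2 hq χ) (key p hp hp') (key s hs hs')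
    fun o => absurd o (by rw [hq]; decide)

theorem odd (h : Ty f 1 1) (hq : Fintype.card F = 3) :
    ∃ ψ : f.O → ℂ, IsIrrCharacter _ ψ ∧ Ev f ψ (-1) := by
  have := GeoB.finO f
  let z : f.O := ⟨LinearEquiv.neg F, fun x y => by simp, fun x => f.q_neg x⟩
  have h3 : (3 : F) = 0 := by simpa [hq] using FiniteField.cast_card_eq_zero F
  obtain ⟨x, x', hx⟩ := h.exists_isHyp le_rfl
  obtain ⟨ψ, hψ, e⟩ := exists_odd_irr (z := z)
    (fun g => Subtype.ext (LinearEquiv.ext fun v => map_neg g.1 v))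
    (Subtype.ext (LinearEquiv.ext fun v => neg_neg v)) fun e => by
      have h1 : -x 0 = x 0 := congrArg (fun g : f.O => g.1 (x 0)) e
      refine hx.linearIndependent_left.ne_zero 0 ?_
      have h2 : (3 : F) • x 0 = x 0 + (x 0 - -x 0) := by module
      rw [h3, zero_smul, neg_eq_iff_add_eq_zero.1 h1 |> (sub_neg_eq_add (x 0) (x 0)).trans, add_zero] at h2
      exact h2.symm
  refine ⟨ψ, hψ, fun w hw => ?_⟩
  rw [show w = z from Subtype.ext (LinearEquiv.ext hw), e, neg_one_mul]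

theorem r33 (h : Ty f 3 1) (hT : Tgt f H) (ha : T = .alt F) (hq : Fintype.card F = 3)
    (hp : p.Prime) (hs : s.Prime) (hps : p ≠ s) (hp' : p ∣ Nat.card f.O) (hs' : s ∣ Nat.card f.O) :
    Wit f H p s := by
  have key : ∀ l, l.Prime → l ∣ Nat.card f.O → l ≠ 3 → l ∣ 7280 := fun l hl hd n => by
    have h1 := h.prime_dvd (by omega) hl hd
    rw [hq, show DD 3 3 1 3 = 465920 by decide] at h1
    refine hl.dvd_of_dvd_pow (n := 3) ((h1.resolve_left fun h' => n ?_).trans (by norm_num))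
    exact (Nat.prime_dvd_prime_iff_eq hl Nat.prime_three).1 h'
  have three : ∀ l, l.Prime → l ∣ Nat.card f.O → l ≠ 3 → Wit f H 3 l := fun l hl hd n => by
    obtain ⟨χf, χg, df, dg, -, hf, hg, pf, pg, d1, d2, e1, e2, -⟩ := pt3 h (by omega) hq
    obtain rfl : df = 195 := by omega
    obtain rfl : dg = 168 := by omega
    rcases hl.dvd_mul.1 (show l ∣ 65 * 112 from key l hl hd n) with h1 | h1
    · exact mk h hT hf d1 (ev (pf.ev hf.isCharacter)) (by norm_num) (h1.trans (by norm_num))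
        fun _ h' => (ne ha h').elim
    · exact mk h hT hg d2 (ev (pg.ev hg.isCharacter)) (by norm_num)
        (hl.dvd_of_dvd_pow (n := 2) (h1.trans (by norm_num))) fun _ h' => (ne ha h').elim
  by_cases p3 : p = 3
  · subst p3; exact three s hs hs' hps.symm
  by_cases s3 : s = 3
  · subst s3; exact symm (three p hp hp' p3)
  obtain ⟨c⟩ := h.exists_par (a := 2) (by omega)
  obtain ⟨θ, h1, h2, h3⟩ := nr23 hq
  obtain ⟨ψ, hψ, hev⟩ := odd (h.ty_UU c.hyp) hq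
  obtain ⟨χ, D, hχ, hd, hD, e⟩ := xchar h c h1 h2 hψ (iv_big (h.ty_UU c.hyp) (by omega) θ ψ)
    hψ.apply_one_eq_charDegree
  rw [hq, show DD 3 3 1 2 = 58240 by decide] at hD
  obtain rfl : D = 7280 := by omega
  exact mk h hT hχ hd (ev (e (-1) (by simp) (by rw [h3, neg_one_mul]) hev)) ((key p hp hp' p3).mul_left _)
    ((key s hs hs' s3).mul_left _) fun _ h' => (ne ha h').elim

theorem r2 (h : Ty f 2 1) (hT : Tgt f H) (ha : T = .alt F) (h3 : 3 ≤ Fintype.card F)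
    (hp : p.Prime) (hs : s.Prime) (hp' : p ∣ Nat.card f.O) (hs' : s ∣ Nat.card f.O) : Wit f H p s := by
  obtain ⟨χ, n, hχ, hd, hev, hn⟩ := sp4 h ha rfl h3
  obtain ⟨q, hq⟩ : ∃ q, Fintype.card F = q + 1 := ⟨Fintype.card F - 1, by omega⟩
  have e1 : (q + 1) ^ 2 - 1 = q * (q + 2) := by
    rw [Nat.sub_eq_iff_eq_add (Nat.one_le_pow _ _ (by omega : 0 < q + 1))]; ring
  have key : ∀ l, l.Prime → l ∣ Nat.card f.O →
      l ∣ n * Fintype.card F * (Fintype.card F ^ 2 + 1) ∨ (l ≠ 2 ∧ l ∣ q + 2) := fun l hl hd => by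
    by_cases c : l ∣ Fintype.card F
    · exact Or.inl ((c.mul_left _).mul_right _)
    by_cases l2 : l = 2
    · subst l2
      exact Or.inl (Dvd.dvd.mul_left ((Nat.odd_iff.2 (by omega) : Odd (Fintype.card F)).pow.add_one).two_dvd _)
    have h1 := (h.prime_dvd le_rfl hl hd).resolve_left c
    have h2 : DD (Fintype.card F) 2 1 2 = (q * (q + 2)) ^ 2 * (Fintype.card F ^ 2 + 1) := by
      rw [DD, Finset.prod_range_succ, Finset.prod_range_one, np, np, hq]
      simp only [Nat.sub_zero, e1, Nat.add_one_sub_one, pow_one]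
      ring
    rw [h2] at h1
    rcases hl.dvd_mul.1 h1 with h1 | h1
    · rcases hl.dvd_mul.1 (hl.dvd_of_dvd_pow h1) with h1 | h1
      · refine Or.inl (Dvd.dvd.mul_right (Dvd.dvd.mul_right ?_ _) _)
        rw [hq, Nat.add_sub_cancel] at hn
        rcases hn with rfl | rfl
        · exact h1
        · exact (hl.dvd_mul.1 h1).resolve_left
            fun h' => l2 ((Nat.prime_dvd_prime_iff_eq hl Nat.prime_two).1 h')
      · exact Or.inr ⟨l2, h1⟩
    · exact Or.inl (h1.mul_left _)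
  have chi : ∀ l m, l.Prime → m.Prime → l ∣ Fintype.card F → m ≠ 2 → m ∣ q + 2 → Wit f H l m := by
    intro l m hl hm a1 a2 a3
    obtain ⟨χ, -, d, -, -, hχ, -, hP, -, hd, -, e, -⟩ := pt3 h le_rfl rfl
    have e2 : d * 2 = Fintype.card F * (q + 2) ^ 2 := by
      rw [hq] at e h3 ⊢
      rw [e1, Nat.add_sub_cancel] at e
      exact Nat.eq_of_mul_eq_mul_left (Nat.mul_pos (by omega : 0 < q) (by omega : 0 < q + 1)) (by linear_combination e)
    refine mk h hT hχ hd (ev (hP.ev hχ.isCharacter))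
      (pdvd hl a1 h3 (m := (q + 2) ^ 2 * (Fintype.card F - 1)) (by linear_combination (Fintype.card F - 1) * e2))
      ((hm.dvd_mul.1 (e2 ▸ (dvd_pow a3 two_ne_zero).mul_left _)).resolve_right
        fun h' => a2 ((Nat.prime_dvd_prime_iff_eq hm Nat.prime_two).1 h')) fun _ h' => (ne ha h').elim
  have n3 : ∀ l, l.Prime → l ≠ 2 → l ∣ q + 2 → 4 ≤ Fintype.card F ∧ ¬ l ∣ Fintype.card F := by
    intro l hl a1 a2
    refine ⟨by_contra fun c => a1 ?_, fun c => hl.not_dvd_one ?_⟩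
    · obtain rfl : q = 2 := by omega
      exact (Nat.prime_dvd_prime_iff_eq hl Nat.prime_two).1 (hl.dvd_of_dvd_pow (n := 2) a2)
    · exact (Nat.dvd_add_right (hq ▸ c)).1 a2
  rcases key p hp hp' with a1 | a1 <;> rcases key s hs hs' with a2 | a2
  · exact mk h hT hχ hd (ev hev) a1 a2 fun _ h' => (ne ha h').elim
  · by_cases c : p ∣ Fintype.card F
    · exact chi p s hp hs c a2.1 a2.2
    · exact x0 h hT even_two (Or.inr ⟨rfl, (n3 s hs a2.1 a2.2).1⟩) hp hs hp' hs' c (n3 s hs a2.1 a2.2).2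
  · by_cases c : s ∣ Fintype.card F
    · exact symm (chi s p hs hp c a1.1 a1.2)
    · exact x0 h hT even_two (Or.inr ⟨rfl, (n3 p hp a1.1 a1.2).1⟩) hp hs hp' hs' (n3 p hp a1.1 a1.2).2 c
  · exact x0 h hT even_two (Or.inr ⟨rfl, (n3 p hp a1.1 a1.2).1⟩) hp hs hp' hs' (n3 p hp a1.1 a1.2).2
      (n3 s hs a2.1 a2.2).2

end FamB

theorem famB (h : Ty f r 1) {H : Subgroup f.O} (hT : Tgt f H) (hr : 2 ≤ r)
    (h2 : r = 2 → T = .alt F ∧ 3 ≤ Fintype.card F) (hneg : T = .quad F → ∀ z ∈ H, IsNeg z → z = 1)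
    {p s : ℕ} (hp : p.Prime) (hs : s.Prime) (hps : p ≠ s) (hp' : p ∣ Nat.card f.O)
    (hs' : s ∣ Nat.card f.O) : Wit f H p s := by
  have q2 : 2 ≤ Fintype.card F := Fintype.one_lt_card
  by_cases r2 : r = 2
  · subst r2
    exact FamB.r2 h hT (h2 rfl).1 (h2 rfl).2 hp hs hp' hs'
  by_cases r3 : r = 3
  · subst r3
    by_cases c2 : Fintype.card F = 2
    · exact FamB.r32 h hT c2 hp hs hp' hs'
    have fin : ∀ hθ, Wit f H p s := fun hθ => (FamB.x1 h hT le_rfl hθ hp hs hp' hs').resolve_right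
      fun ⟨_, _, o, _⟩ => absurd o (by decide)
    by_cases c3 : Fintype.card F = 3
    · rcases hT.idx with h1 | h1
      · exact FamB.r33 h hT h1.1 c3 hp hs hps hp' hs'
      · exact fin (Or.inr (Or.inr ⟨hneg h1.1, Or.inl ⟨rfl, c3⟩⟩))
    · exact fin (Or.inr (Or.inl ⟨rfl, by omega⟩))
  rcases FamB.x1 h hT (by omega) (Or.inl (by omega)) hp hs hp' hs' with w | ⟨l, hl, o, l2, ho⟩
  · exact w
  have ev : Even r := by rw [Nat.even_iff]; rw [Nat.odd_iff] at o; omega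
  rcases hl with rfl | rfl
  · by_cases c : s ∣ Fintype.card F
    · exact FamB.symm (FamB.exc h hT (by omega) hs hp c o l2 ho)
    · exact FamB.x0 h hT ev (Or.inl (by omega)) hp hs hp' hs'
        (ord_facts hp l2 o (by omega) (by omega) ho).2.2.2 c
  · by_cases c : p ∣ Fintype.card F
    · exact FamB.exc h hT (by omega) hp hs c o l2 ho
    · exact FamB.x0 h hT ev (Or.inl (by omega)) hp hs hp' hs' c
        (ord_facts hs l2 o (by omega) (by omega) ho).2.2.2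

end CL.DG4
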