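/- S4984, family e = 2 over the field with two elements: `O⁻₈(2)` and `O⁻₁₀(2)`. -/
import Cfsg.Agent.CLAS.DG4.Ln
import Cfsg.Agent.CLAS.DG4.NS
import Cfsg.Agent.CLAS.DG4.FamX

set_option autoImplicit false

namespace CL.DG4.FamM2

open Cfsg CL.Witt CL.Zel Module Submodule

variable {F V : Type} [Field F] [Fintype F] [DecidableEq F] [AddCommGroup V] [Module F V]
  [Finite V] {T : FormType F} {f : Form T V} {r : ℕ}

theorem quad (h : Ty f r 2) : T = .quad F := by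
  rcases h.2.1 with ⟨-, e, -⟩ | ⟨e, -⟩
  · omega
  · exact e

theorem wit (h : Ty f r 2) {H : Subgroup f.O} (hT : Tgt f H) (hq : Fintype.card F = 2) {χ : f.O → ℂ} {d : ℕ}
    (hχ : IsIrrCharacter _ χ) (hd : χ 1 = d) {p s : ℕ} (hp : p ∣ d) (hs : s ∣ d)
    (h2 : (p = 2 ∨ s = 2) → 4 ∣ d ∨ ∃ g, IsRefl g ∧ χ g ≠ 0) : Wit f H p s := by
  have i2 : H.index = 2 := by
    rcases hT.idx with ⟨e, -⟩ | ⟨-, -, ⟨o, -⟩ | ⟨-, e⟩⟩
    · exact absurd (congrArg (fun t : FormType F => t.π 1) ((quad h).symm.trans e)) one_ne_zero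
    · rw [hq] at o; exact absurd o (by decide)
    · exact e
  refine ⟨χ, d, hχ, hd, fun z _ hz => ?_, hp, hs, fun c => ?_⟩
  · have t : (2 : F) = 0 := by have := FiniteField.cast_card_eq_zero F; rwa [hq] at this
    have : z = 1 := Subtype.ext (LinearEquiv.ext fun v => by
      rw [hz v]
      change -v = v
      rw [neg_eq_iff_add_eq_zero, ← two_smul F, t, zero_smul])
    rw [this]
  · rw [i2]
    exact (h2 c).imp id fun e => ⟨by rcases c with rfl | rfl <;> assumption, e⟩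

theorem ar {d j N m : ℕ} (hj : Odd j) (e : 3 * d * (1 + 2 ^ j) = 2 ^ j * (3 * N)) (hN : N < 2 ^ 15) (h0 : 0 < N)
    (hm : ∀ j < 15, Odd j → (1 + 2 ^ j) ∣ N → m ∣ 2 ^ j * (N / (1 + 2 ^ j))) : m ∣ d := by
  have e1 : d * (1 + 2 ^ j) = 2 ^ j * N := by nlinarith
  have c : Nat.Coprime (1 + 2 ^ j) (2 ^ j) := by simp
  have h1 : 1 + 2 ^ j ∣ N := c.dvd_of_dvd_mul_left (e1 ▸ dvd_mul_left _ _)
  have h2 : j < 15 := by
    have := Nat.le_of_dvd h0 h1
    exact (Nat.pow_lt_pow_iff_right (by norm_num : 1 < 2)).1 (by omega)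
  have := hm j h2 hj h1
  obtain ⟨k, rfl⟩ := h1
  rw [Nat.mul_div_cancel_left _ (by positivity)] at this
  rwa [show d = 2 ^ j * k from Nat.eq_of_mul_eq_mul_right (show 0 < 1 + 2 ^ j by positivity) (by rw [e1]; ring)]

theorem pr {l : ℕ} (hl : l.Prime) (h : l ∣ 2 ∨ l ∣ 7952175) :
    l = 2 ∨ l = 3 ∨ l = 5 ∨ l = 7 ∨ l = 11 ∨ l = 17 := by
  rcases h with h | h
  · exact Or.inl ((Nat.prime_dvd_prime_iff_eq hl Nat.prime_two).1 h)
  · rw [show 7952175 = 3 ^ 5 * (5 ^ 2 * (7 * (11 * 17))) by norm_num] at h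
    simp only [hl.dvd_mul] at h
    rcases h with h | h | h | h | h
    · have := (Nat.prime_dvd_prime_iff_eq hl (by norm_num)).1 (hl.dvd_of_dvd_pow h); omega
    · have := (Nat.prime_dvd_prime_iff_eq hl (by norm_num)).1 (hl.dvd_of_dvd_pow h); omega
    all_goals have := (Nat.prime_dvd_prime_iff_eq hl (by norm_num)).1 h; omega

theorem three (h : Ty f 3 2) {H : Subgroup f.O} (hT : Tgt f H) (hq : Fintype.card F = 2)
    {p s : ℕ} (hp : p.Prime) (hs : s.Prime) (hps : p ≠ s) (hp' : p ∣ Nat.card f.O)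
    (hs' : s ∣ Nat.card f.O) : Wit f H p s := by
  have k : ∀ {l : ℕ}, l.Prime → l ∣ Nat.card f.O → l = 2 ∨ l = 3 ∨ l = 5 ∨ l = 7 ∨ l = 17 := fun {l} hl hd => by
    have := h.prime_dvd (by norm_num) hl hd
    rw [hq, show DD 2 3 2 3 = 16065 by decide] at this
    have h1 := pr hl (this.imp id fun e => e.trans (by norm_num))
    have : l ≠ 11 := by rintro rfl; revert this; norm_num
    omega
  obtain ⟨θ, c1, c2, c3⟩ := exists_theta (a := 3) H (by norm_num) (Or.inl le_rfl)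
  obtain ⟨χ1, D, i1, d1, -, e1⟩ := exX h H le_rfl c1 c2 c3 (n := 1) (Or.inl ⟨rfl, by norm_num⟩)
  rw [hq, show DD 2 3 2 3 = 16065 by decide] at e1
  obtain rfl : D = 2295 := by omega
  obtain ⟨χ2, -, d, -, -, i2, -, -, -, d2, -, e2, -⟩ := pt3 h (by norm_num) hq
  obtain rfl : d = 84 := by omega
  obtain ⟨c⟩ := h.exists_par (a := 2) (by norm_num)
  obtain ⟨ψ, j1, j2, j3, j4, j5⟩ := psi5 (h.ty_UU c.hyp) hq
  obtain ⟨χ3, d, j, i3, d3, oj, e3, rf⟩ := lines h hq (by norm_num) c j1 j3 j4 (n := 5) (by exact_mod_cast j2)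
    (by decide) j5
  have m : 1190 ∣ d := ar (N := 5355) oj (by rw [e3, show DD 2 3 2 2 = 3213 by decide]) (by norm_num)
    (by norm_num) (by decide +kernel)
  have rf' := rf (quad h) one_ne_zero
  have w1 := fun a b c => wit h hT hq i1 d1 (p := p) (s := s) a b c
  have w2 := fun a b => wit h hT hq i2 d2 (p := p) (s := s) a b fun _ => Or.inl (by norm_num)
  have w3 := fun (a : p ∣ 1190) (b : s ∣ 1190) => wit h hT hq i3 d3 (a.trans m) (b.trans m) fun _ => Or.inr rf'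
  rcases k hp hp' with rfl | rfl | rfl | rfl | rfl <;> rcases k hs hs' with rfl | rfl | rfl | rfl | rfl <;>
    first
    | exact absurd rfl hps
    | (refine w3 ?_ ?_ <;> decide)
    | (refine w2 ?_ ?_ <;> decide)
    | (refine w1 ?_ ?_ fun c => absurd c ?_ <;> decide)

theorem four (h : Ty f 4 2) {H : Subgroup f.O} (hT : Tgt f H) (hq : Fintype.card F = 2)
    {p s : ℕ} (hp : p.Prime) (hs : s.Prime) (hps : p ≠ s) (hp' : p ∣ Nat.card f.O)
    (hs' : s ∣ Nat.card f.O) : Wit f H p s := by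
  have k : ∀ {l : ℕ}, l.Prime → l ∣ Nat.card f.O → _ := fun {l} hl hd => pr hl (by
    have := h.prime_dvd (by norm_num) hl hd
    rwa [hq, show DD 2 4 2 4 = 7952175 by decide] at this)
  obtain ⟨θ, c1, c2, c3⟩ := exists_theta (a := 4) H (by norm_num) (Or.inl (by norm_num))
  obtain ⟨χ1, D, i1, d1, -, e1⟩ := exX h H le_rfl c1 c2 c3 (n := 1) (Or.inl ⟨rfl, by norm_num⟩)
  rw [hq, show DD 2 4 2 4 = 7952175 by decide] at e1
  obtain rfl : D = 530145 := by omega
  obtain ⟨θ', c1', c2', c3'⟩ := exists_theta (a := 3) H (by norm_num) (Or.inl le_rfl)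
  obtain ⟨χ2, D, i2, d2, -, e2⟩ := exX h H (by norm_num) c1' c2' c3' (n := 2 ^ 2)
    (Or.inr fun c => pt_deg (h.ty_UU c.hyp) hq (Or.inr (Or.inl ⟨rfl, rfl, rfl⟩)))
  rw [hq, show DD 2 4 2 3 = 1590435 by decide] at e2
  obtain rfl : D = 227205 := by omega
  obtain ⟨c⟩ := h.exists_par (a := 2) (by norm_num)
  obtain ⟨χ3, d, j, i3, d3, oj, e3, rf⟩ := lines h hq (by norm_num) c (ψ := fun _ => 1) CL.Char.isIrrCharacter_one
    vecC_one (fun _ => ⟨1, by simp⟩) (n := 1) (by simp) (by decide) (ν := 1) fun _ _ => rfl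
  have m : 14 ∣ d := ar (N := 19635) oj (by rw [e3, show DD 2 4 2 2 = 58905 by decide]) (by norm_num)
    (by norm_num) (by decide +kernel)
  have rf' := rf (quad h) one_ne_zero
  have w1 := fun a b c => wit h hT hq i1 d1 (p := p) (s := s) a b c
  have w2 := fun a b => wit h hT hq i2 d2 (p := p) (s := s) a b fun _ => Or.inl (by norm_num)
  have w3 := fun (a : p ∣ 14) (b : s ∣ 14) => wit h hT hq i3 d3 (a.trans m) (b.trans m) fun _ => Or.inr rf'
  rcases k hp hp' with rfl | rfl | rfl | rfl | rfl | rfl <;>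
    rcases k hs hs' with rfl | rfl | rfl | rfl | rfl | rfl <;>
    first
    | exact absurd rfl hps
    | (refine w3 ?_ ?_ <;> decide)
    | (refine w2 ?_ ?_ <;> decide)
    | (refine w1 ?_ ?_ fun c => absurd c ?_ <;> decide)

theorem two (h : Ty f r 2) {H : Subgroup f.O} (hT : Tgt f H) (hr : r = 3 ∨ r = 4) (hq : Fintype.card F = 2)
    {p s : ℕ} (hp : p.Prime) (hs : s.Prime) (hps : p ≠ s) (hp' : p ∣ Nat.card f.O)
    (hs' : s ∣ Nat.card f.O) : Wit f H p s := by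
  rcases hr with rfl | rfl
  · exact three h hT hq hp hs hps hp' hs'
  · exact four h hT hq hp hs hps hp' hs'

end CL.DG4.FamM2
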