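/-
S4984, family e = 2, Witt index three.
-/
import Cfsg.Agent.CLAS.DG4.Ln
import Cfsg.Agent.CLAS.DG4.Sp4
import Cfsg.Agent.CLAS.DG4.NS
import Cfsg.Agent.CLAS.DG4.FamX

set_option autoImplicit false
set_option linter.unusedSectionVars false

namespace CL.DG4.FamM3

open Cfsg CL.Witt CL.Zel Module Submodule
open scoped ComplexConjugate

variable {F V : Type} [Field F] [Fintype F] [DecidableEq F] [AddCommGroup V] [Module F V]
  [Finite V] {T : FormType F} {f : Form T V} {H : Subgroup f.O} {p s : ℕ}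

theorem symm (h : Wit f H p s) : Wit f H s p :=
  let ⟨χ, d, a, b, c, e, g, k⟩ := h; ⟨χ, d, a, b, c, g, e, fun h => k h.symm⟩

theorem i2 (hT : Tgt f H) (h : Even (Fintype.card F)) : H.index ∣ 2 := by
  rcases hT.idx with ⟨-, e⟩ | ⟨-, -, ⟨o, -⟩ | ⟨-, e⟩⟩
  exacts [e ▸ one_dvd _, (Nat.not_odd_iff_even.2 h o).elim, e ▸ dvd_rfl]

theorem mk (hT : Tgt f H) {χ : f.O → ℂ} {d : ℕ} (hχ : IsIrrCharacter _ χ) (e : χ 1 = d)
    (hn : ∀ z ∈ H, IsNeg z → χ z = χ 1) (hp : p ∣ d) (hs : s ∣ d)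
    (h2 : p = 2 ∨ s = 2 → 8 ∣ d ∨ (Even (Fintype.card F) ∧ 4 ∣ d)) : Wit f H p s := by
  refine ⟨χ, d, hχ, e, hn, hp, hs, fun h => .inl ?_⟩
  rcases h2 h with a | ⟨a, b⟩
  · have : H.index ∣ 4 := by
      rcases hT.idx with ⟨-, e⟩ | ⟨-, -, ⟨-, e⟩ | ⟨-, e⟩⟩ <;> rw [e] <;> norm_num
    exact (Nat.mul_dvd_mul_left 2 this).trans a
  · exact (Nat.mul_dvd_mul_left 2 (i2 hT a)).trans b

theorem two (h : Ty f 3 2) (hT : Tgt f H) (hneg : ∀ z ∈ H, IsNeg z → z = 1) (hq : Fintype.card F = 2)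
    (hp : p = 2 ∨ p = 3 ∨ p = 5 ∨ p = 7 ∨ p = 17) (hs : s = 2 ∨ s = 3 ∨ s = 5 ∨ s = 7 ∨ s = 17) (hps : p ≠ s) :
    Wit f H p s := by
  have ng : ∀ χ : f.O → ℂ, ∀ z ∈ H, IsNeg z → χ z = χ 1 := fun χ z a b => by rw [hneg z a b]
  have ev : Even (Fintype.card F) := hq ▸ even_two
  have w1 : ∀ {p s}, p ∣ 2295 → s ∣ 2295 → Wit f H p s := fun {p s} a b => by
    obtain ⟨θ, t1, t2, t3⟩ := exists_theta (a := 3) H (by norm_num) (.inl le_rfl)
    obtain ⟨χ, D, c1, c2, c3, c4⟩ := exX h H le_rfl t1 t2 t3 (n := 1) (.inl ⟨rfl, by norm_num⟩)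
    obtain rfl : D = 2295 := by
      rw [hq, show DD 2 3 2 3 = 16065 by decide] at c4
      omega
    exact mk hT c1 c2 c3 a b (by rintro (rfl | rfl) <;> omega)
  have w2 : ∀ {p s}, p ∣ 84 → s ∣ 84 → Wit f H p s := fun {p s} a b => by
    obtain ⟨χ, -, d, -, -, c1, -, -, -, c2, -, c3, -⟩ := pt3 h (by norm_num) hq
    obtain rfl : d = 84 := by omega
    exact mk hT c1 c2 (ng χ) a b fun _ => .inr ⟨ev, by norm_num⟩
  have w3 : ∀ {p s}, p ∣ 1190 → s ∣ 1190 → Wit f H p s := fun {p s} a b => by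
    obtain ⟨c⟩ := h.exists_par (a := 2) (by norm_num)
    obtain ⟨ψ, p1, p2, p3, p4, p5⟩ := psi5 (h.ty_UU c.hyp) hq
    obtain ⟨χ, d, j, c1, c2, c3, c4, c5⟩ := lines h hq (by norm_num) c p1 p3 p4 (n := 5) (by simpa using p2)
      (by decide) p5
    rw [show DD 2 3 2 2 = 3213 by decide] at c4
    have d1 : 1 + 2 ^ j ∣ 16065 :=
      (Nat.Coprime.dvd_mul_left (by simp [Nat.coprime_add_self_left])).1 (c4 ▸ dvd_mul_left _ _)
    have j1 : j < 14 := by
      by_contra c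
      have := Nat.pow_le_pow_right (show 0 < 2 by norm_num) (not_lt.1 c)
      have := Nat.le_of_dvd (by norm_num) d1
      omega
    have d2 : 1190 ∣ d := by
      obtain ⟨k, rfl⟩ := c3
      have : k < 7 := by omega
      interval_cases k <;> omega
    have tq : T = .quad F := h.2.1.elim (fun a => by omega) (·.1)
    exact ⟨χ, d, c1, c2, ng χ, a.trans d2, b.trans d2, fun _ =>
      .inr ⟨(i2 hT ev).trans (Dvd.dvd.trans (by norm_num) d2), c5 tq one_ne_zero⟩⟩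
  rcases hp with rfl | rfl | rfl | rfl | rfl <;> rcases hs with rfl | rfl | rfl | rfl | rfl <;>
    first
    | exact (hps rfl).elim
    | (refine w1 ?_ ?_ <;> decide)
    | (refine w2 ?_ ?_ <;> decide)
    | (refine w3 ?_ ?_ <;> decide)

theorem three (h : Ty f 3 2) (hT : Tgt f H) (hneg : ∀ z ∈ H, IsNeg z → z = 1) (hp : p.Prime) (hs : s.Prime)
    (hps : p ≠ s) (hp' : p ∣ Nat.card f.O) (hs' : s ∣ Nat.card f.O) : Wit f H p s := by
  have ng : ∀ χ : f.O → ℂ, ∀ z ∈ H, IsNeg z → χ z = χ 1 := fun χ z a b => by rw [hneg z a b]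
  have a1 := h.prime_dvd (by norm_num) hp hp'
  have a2 := h.prime_dvd (by norm_num) hs hs'
  obtain ⟨m, hq⟩ : ∃ m, Fintype.card F = m + 1 := Nat.exists_eq_succ_of_ne_zero Fintype.card_ne_zero
  have m1 : 1 ≤ m := by have := Fintype.one_lt_card (α := F); omega
  rw [hq] at a1 a2
  rcases m1.eq_or_lt with rfl | m2
  · have k : ∀ {l : ℕ}, l.Prime → l ∣ 1 + 1 ∨ l ∣ DD (1 + 1) 3 2 3 → l = 2 ∨ l = 3 ∨ l = 5 ∨ l = 7 ∨ l = 17 :=
      fun {l} a b => by
        rw [show DD (1 + 1) 3 2 3 = 3 * (3 * (3 * (5 * (7 * 17)))) by decide] at b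
        simp only [a.dvd_mul, Nat.prime_dvd_prime_iff_eq a (show Nat.Prime (1 + 1) by norm_num),
          Nat.prime_dvd_prime_iff_eq a (show Nat.Prime 3 by norm_num),
          Nat.prime_dvd_prime_iff_eq a (show Nat.Prime 5 by norm_num),
          Nat.prime_dvd_prime_iff_eq a (show Nat.Prime 7 by norm_num),
          Nat.prime_dvd_prime_iff_eq a (show Nat.Prime 17 by norm_num)] at b
        omega
    exact two h hT hneg hq (k hp a1) (k hs a2) hps
  obtain ⟨q, hm⟩ : ∃ q, q = m + 1 := ⟨_, rfl⟩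
  obtain ⟨u, hu⟩ : ∃ u, u = q ^ 2 + q + 1 := ⟨_, rfl⟩
  obtain ⟨w, hw⟩ : ∃ w, w = m * (q ^ 4 + 1) * (q ^ 3 + 1) := ⟨_, rfl⟩
  rw [← hm] at hq a1 a2
  have e1 : q ^ 1 - 1 = m := by rw [pow_one, hm]; rfl
  have e2 : q ^ 2 - 1 = m * (q + 1) := Nat.sub_eq_of_eq_add (by rw [hm]; ring)
  have e3 : q ^ 3 - 1 = m * u := Nat.sub_eq_of_eq_add (by rw [hu, hm]; ring)
  have u0 : 0 < u := by omega
  have f1 : DD q 3 2 1 = u * (q ^ 4 + 1) * m := by
    simp only [DD, np, Finset.prod_range_succ, Finset.prod_range_zero, Nat.reduceAdd, Nat.reduceSub, e3]; ring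
  have f2 : DD q 3 2 2 = w * u * (m * (q + 1)) := by
    simp only [DD, np, Finset.prod_range_succ, Finset.prod_range_zero, Nat.reduceAdd, Nat.reduceSub, e2, e3, hw]; ring
  have f3 : DD q 3 2 3 = w * (q ^ 2 + 1) * (m * (q + 1)) * (m * u) := by
    simp only [DD, np, Finset.prod_range_succ, Finset.prod_range_zero, Nat.reduceAdd, Nat.reduceSub, e1, e2, e3, hw]
    ring
  have w8 : Odd q → 8 ∣ w := fun o => by
    have : 2 ∣ m := by obtain ⟨k, e⟩ := o; omega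
    rw [hw]
    exact mul_dvd_mul (mul_dvd_mul this o.pow.add_one.two_dvd) o.pow.add_one.two_dvd
  have q4 : Even q → 4 ∣ q ^ 2 := fun o => pow_dvd_pow_of_dvd o.two_dvd 2
  have cls : ∀ {l : ℕ}, l.Prime → l ∣ q ∨ l ∣ DD q 3 2 3 → l ∣ w ∨ l ∣ q ^ 2 * u ∨ l ∣ q ^ 2 + 1 := fun {l} a b => by
    have mw : m ∣ w := hw ▸ (dvd_mul_right _ _).mul_right _
    have qw : q + 1 ∣ w := hw ▸ Dvd.dvd.mul_left (by simpa using Odd.nat_add_dvd_pow_add_pow q 1 (n := 3) (by decide)) _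
    simp only [f3, a.dvd_mul] at b
    rcases b with b | ((b | b) | b | b) | b | b
    exacts [.inr (.inl ((b.pow two_ne_zero).mul_right _)), .inl b, .inr (.inr b), .inl (b.trans mw), .inl (b.trans qw),
      .inl (b.trans mw), .inr (.inl (b.mul_left _))]
  have w2 : ∀ {p s}, p ∣ w * (q ^ 2 * u) → s ∣ w * (q ^ 2 * u) → Wit f H p s := fun {p s} a b => by
    obtain ⟨θ, t1, t2, t3⟩ := exists_theta (a := 2) H (by norm_num)
      (.inr ((by omega : 4 ≤ q ∨ q = 3).imp (fun c => ⟨rfl, hq ▸ c⟩) fun c => ⟨hneg, .inl ⟨rfl, hq.trans c⟩⟩))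
    obtain ⟨χ, D, c1, c2, c3, c4⟩ := exX h H (by norm_num) t1 t2 t3 (n := q ^ 2)
      (.inr fun c => pt_deg (h.ty_UU c.hyp) hq (.inr (.inl ⟨rfl, rfl, rfl⟩)))
    rw [hq, f2, e2] at c4
    obtain rfl := Nat.eq_of_mul_eq_mul_right (by positivity) c4
    rw [mul_left_comm] at c2
    refine mk hT c1 c2 c3 a b fun _ => (Nat.even_or_odd q).elim (fun o => .inr ⟨hq ▸ o, ?_⟩) fun o => .inl ((w8 o).mul_right _)
    exact ((q4 o).mul_right _).mul_left _
  have w3 : ∀ {p s}, p ∣ w * (q ^ 2 + 1) → s ∣ w * (q ^ 2 + 1) → Wit f H p s := fun {p s} a b => by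
    obtain ⟨θ, t1, t2, t3⟩ := exists_theta (a := 3) H (by norm_num) (.inl le_rfl)
    obtain ⟨χ, D, c1, c2, c3, c4⟩ := exX h H le_rfl t1 t2 t3 (n := 1) (.inl ⟨rfl, by norm_num⟩)
    rw [hq, f3, e3] at c4
    obtain rfl := Nat.eq_of_mul_eq_mul_right (by positivity) c4
    rw [one_mul] at c2
    refine mk hT c1 c2 c3 (a.mul_right _) (b.mul_right _) fun c => .inl (((w8 ?_).mul_right _).mul_right _)
    refine (Nat.even_or_odd q).resolve_left fun o => ?_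
    have k : ∀ n, n ≠ 0 → Odd (q ^ n + 1) := fun n h => (o.pow_of_ne_zero h).add_one
    have : Odd (w * (q ^ 2 + 1)) := by
      rw [hw]
      refine ((Odd.mul ?_ (k 4 (by norm_num))).mul (k 3 (by norm_num))).mul (k 2 (by norm_num))
      obtain ⟨j, e⟩ := o
      exact ⟨j - 1, by omega⟩
    rcases c with rfl | rfl
    exacts [this.not_two_dvd_nat a, this.not_two_dvd_nat b]
  have w1 : ∀ {p s}, p ∣ q ^ 2 * u → s ∣ q ^ 2 + 1 → Wit f H p s := fun {p s} a b => by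
    by_cases pw : p ∣ w
    · exact w3 (pw.mul_right _) (b.mul_left _)
    by_cases sw : s ∣ w
    · exact w2 (a.mul_left _) (sw.mul_right _)
    have ev : p = 2 ∨ s = 2 → Even q := fun c => (Nat.even_or_odd q).resolve_right fun o => by
      have : 2 ∣ w := Dvd.dvd.trans (by norm_num) (w8 o)
      rcases c with rfl | rfl
      exacts [pw this, sw this]
    rcases (by omega : q = 3 ∨ 4 ≤ q) with c | c
    · obtain ⟨χ, c1, c2⟩ := om3 h (hq.trans c)
      subst c hu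
      exact mk hT (d := 47970) c1 (by simpa using c2) (ng χ) (a.trans (by norm_num)) (b.trans (by norm_num))
        fun c => absurd (ev c) (by decide)
    obtain ⟨θ, t1, t2, t3⟩ := exists_theta (a := 1) H le_rfl (.inr (.inr ⟨hneg, .inr ⟨rfl, hq ▸ c⟩⟩))
    obtain ⟨χ, D, c1, c2, c3, c4⟩ := exX h H (by norm_num) t1 t2 t3 (n := q ^ 2 * (q ^ 2 + 1))
      (.inr fun c => pt_deg (h.ty_UU c.hyp) hq (.inr (.inr (.inr (.inr (.inr ⟨rfl, rfl, rfl⟩))))))
    rw [hq, f1, e1] at c4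
    obtain rfl := Nat.eq_of_mul_eq_mul_right (by positivity) c4
    exact mk hT c1 c2 c3 (a.trans ⟨(q ^ 2 + 1) * (q ^ 4 + 1), by ring⟩) ((b.mul_left _).mul_right _)
      fun c => .inr ⟨hq ▸ ev c, ((q4 (ev c)).mul_right _).mul_right _⟩
  rcases cls hp a1 with a | a | a <;> rcases cls hs a2 with b | b | b
  exacts [w2 (a.mul_right _) (b.mul_right _), w2 (a.mul_right _) (b.mul_left _), w3 (a.mul_right _) (b.mul_left _),
    w2 (a.mul_left _) (b.mul_right _), w2 (a.mul_left _) (b.mul_left _), w1 a b,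
    w3 (a.mul_left _) (b.mul_right _), symm (w1 b a), w3 (a.mul_left _) (b.mul_left _)]

end CL.DG4.FamM3
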