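/-
S4984, family e = 2: Witt index at least five, or four with q at least three.
-/
import Cfsg.Agent.CLAS.DG4.Ln
import Cfsg.Agent.CLAS.DG4.Sp4
import Cfsg.Agent.CLAS.DG4.NS
import Cfsg.Agent.CLAS.DG4.NR
import Cfsg.Agent.CLAS.DG4.NT
import Cfsg.Agent.CLAS.DG4.FamX

set_option autoImplicit false

namespace CL.DG4

open Cfsg CL.Witt CL.Zel Module Submodule
open scoped ComplexConjugate

variable {F V : Type} [Field F] [Fintype F] [DecidableEq F] [AddCommGroup V] [Module F V]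
  [Finite V] {T : FormType F} {f : Form T V} {r e a : ℕ}

namespace FamM

omit [Finite V] [Fintype F] [DecidableEq F] in
theorem symm {H : Subgroup f.O} {p s : ℕ} (h : Wit f H p s) : Wit f H s p := by
  obtain ⟨χ, d, h1, h2, h3, h4, h5, h6⟩ := h
  exact ⟨χ, d, h1, h2, h3, h5, h4, fun e => h6 e.symm⟩

theorem idx (h : Ty f r 2) {H : Subgroup f.O} (hT : Tgt f H) :
    (¬ 2 ∣ Fintype.card F ∧ H.index = 4) ∨ (2 ∣ Fintype.card F ∧ H.index = 2) := by
  rcases hT.idx with ⟨h1, -⟩ | ⟨-, -, ⟨h1, h2⟩ | ⟨h1, h2⟩⟩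
  · rcases h.2.1 with ⟨-, h2, -⟩ | ⟨h2, -⟩
    · omega
    · rw [h1] at h2
      exact absurd (congrArg (fun t : FormType F => t.π 1) h2) zero_ne_one
  · exact Or.inl ⟨h1.not_two_dvd_nat, h2⟩
  · exact Or.inr ⟨h1.two_dvd, h2⟩

theorem witX (h : Ty f r 2) {H : Subgroup f.O} (hT : Tgt f H) (ha : 3 ≤ a) (har : a ≤ r)
    (hb : r - a + 1 < a) (h3 : r - a ≤ 3) {n : ℕ}
    (hψ : (n = 1 ∧ 2 ≤ a) ∨
      ∀ c : Par f a, ∃ ψ : c.fU.O → ℂ, IsIrrCharacter _ ψ ∧ ψ 1 = n ∧ PtC c.fU ψ)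
    {p s : ℕ} (hl : ∀ l, l = p ∨ l = s → l.Prime ∧ l ∣ Nat.card f.O ∧
      (l ∣ Fintype.card F → l ∣ n ∧ (l = 2 → 4 ∣ n)) ∧
      ¬ (Odd a ∧ l ≠ 2 ∧ orderOf (Fintype.card F : ZMod l) = a)) : Wit f H p s := by
  obtain ⟨θ, hθ, hn, hpar⟩ := exists_theta (f := f) H (by omega) (Or.inl ha)
  obtain ⟨χ, D, h1, h2, h4, hD⟩ := exX h H har hθ hn hpar hψ
  have hq : 2 ≤ Fintype.card F := Fintype.one_lt_card
  have key : ∀ l, l = p ∨ l = s → l ∣ n * D := fun l e => by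
    obtain ⟨a1, a2, a3, a4⟩ := hl l e
    by_cases hlq : l ∣ Fintype.card F
    · exact (a3 hlq).1.mul_right _
    · exact ((nt hq le_rfl (by omega) har h3 (Or.inl hb) hD a1 hlq
        ((h.prime_dvd (by omega) a1 a2).resolve_left hlq)).resolve_right a4).mul_left _
  refine ⟨χ, n * D, h1, h2, h4, key p (Or.inl rfl), key s (Or.inr rfl), fun e => Or.inl ?_⟩
  rcases idx h hT with ⟨a1, a2⟩ | ⟨a1, a2⟩ <;> rw [a2]
  · exact (nt8 (Nat.odd_iff.2 (by omega)) hq (by omega) har (by omega) hD).mul_left _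
  · exact (((hl 2 (by omega)).2.2.1 a1).2 rfl).mul_right _

theorem sq {q l : ℕ} (h : l ∣ q) : l ∣ q ^ 2 ∧ (l = 2 → 4 ∣ q ^ 2) :=
  ⟨h.pow two_ne_zero, fun e => by subst e; exact pow_dvd_pow_of_dvd h 2⟩

theorem exc (h : Ty f 4 2) {H : Subgroup f.O} (hT : Tgt f H) (hq : 3 ≤ Fintype.card F) {p s : ℕ}
    (hs : s.Prime) (hp : p ∣ Fintype.card F) (h2 : s ≠ 2)
    (ho : orderOf (Fintype.card F : ZMod s) = 3) : Wit f H p s := by
  obtain ⟨-, χ, -, d, -, -, h1, -, h3, -, h4, -, h5, -⟩ := pt3 h (by omega) rfl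
  obtain ⟨a1, a2, -, -⟩ := ord_facts hs h2 (by decide) (by omega) (by omega) ho
  have h4q : 2 ∣ Fintype.card F → 4 ∣ Fintype.card F := fun e => by
    obtain ⟨p, -, n, hp, hn⟩ := FiniteField.card' F
    rw [hn] at e hq ⊢
    obtain rfl : 2 = p := (Nat.prime_dvd_prime_iff_eq Nat.prime_two hp).1 (Nat.prime_two.dvd_of_dvd_pow e)
    refine pow_dvd_pow 2 (show 2 ≤ (n : ℕ) from ?_)
    by_contra h0
    have : (n : ℕ) = 1 := by have := n.pos; omega
    rw [this] at hq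
    omega
  have hi := idx h hT
  generalize Fintype.card F = q at *
  obtain ⟨k, rfl⟩ : ∃ k, q = k + 1 := ⟨q - 1, by omega⟩
  have e1 : (k + 1) ^ 3 - 1 = k * ((k + 1) ^ 2 + (k + 1) + 1) := by
    rw [Nat.sub_eq_of_eq_add]; ring
  have e2 : d = (k + 1) * (((k + 1) ^ 2 + (k + 1) + 1) * (k ^ 4 + 3 * k ^ 3 + 4 * k ^ 2 + 2 * k + 1)) := by
    refine Nat.eq_of_mul_eq_mul_right (show 0 < k * ((k + 1) ^ 2 + (k + 1)) from
      Nat.mul_pos (by omega) (by positivity)) ?_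
    rw [Nat.add_sub_cancel, show 4 - 1 = 3 from rfl, e1] at h5
    rw [h5]; ring
  have a3 := a1 1
  rw [mul_one, e1] at a3
  rw [Nat.add_sub_cancel] at a2
  have a4 := ((Nat.Prime.dvd_mul hs).1 a3).resolve_left a2
  refine ⟨χ, d, h1, h4, fun z _ hz => by rw [h3.ev h1.isCharacter z hz, one_mul], ?_, ?_,
    fun e => Or.inl ?_⟩
  · rw [e2]; exact hp.mul_right _
  · rw [e2]; exact (a4.mul_right _).mul_left _
  · obtain rfl : p = 2 := e.resolve_right h2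
    rcases hi with ⟨b1, -⟩ | ⟨b1, b2⟩
    · exact absurd hp b1
    · rw [b2, e2]; exact (h4q b1).mul_right _

theorem four (h : Ty f 4 2) {H : Subgroup f.O} (hT : Tgt f H) (hq : 3 ≤ Fintype.card F) {p s : ℕ}
    (hp : p.Prime) (hs : s.Prime) (hp' : p ∣ Nat.card f.O) (hs' : s ∣ Nat.card f.O)
    (hpq : p ∣ Fintype.card F) : Wit f H p s := by
  by_cases hx : s ≠ 2 ∧ orderOf (Fintype.card F : ZMod s) = 3
  · exact exc h hT hq hs hpq hx.1 hx.2
  · refine witX (a := 3) h hT le_rfl (by omega) (by omega) (by omega)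
      (Or.inr fun c => pt_deg (h.ty_UU c.hyp) rfl (Or.inr (Or.inl ⟨rfl, rfl, rfl⟩))) ?_
    rintro l (rfl | rfl)
    · exact ⟨hp, hp', sq, fun e => (ord_facts hp e.2.1 e.1 (by omega) (by omega) e.2.2).2.2.2 hpq⟩
    · exact ⟨hs, hs', sq, fun e => hx e.2⟩

theorem big (h : Ty f r 2) {H : Subgroup f.O} (hT : Tgt f H)
    (hr : 5 ≤ r ∨ (r = 4 ∧ 3 ≤ Fintype.card F))
    {p s : ℕ} (hp : p.Prime) (hs : s.Prime) (hp' : p ∣ Nat.card f.O)
    (hs' : s ∣ Nat.card f.O) : Wit f H p s := by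
  have hl : ∀ l, l = p ∨ l = s → l.Prime ∧ l ∣ Nat.card f.O := by
    rintro l (rfl | rfl) <;> exact ⟨‹_›, ‹_›⟩
  rcases hr with hr | ⟨rfl, hq⟩
  · rcases Nat.even_or_odd r with hr2 | hr2
    · rw [Nat.even_iff] at hr2
      refine witX (a := r - 2) (n := Fintype.card F ^ 2 * (Fintype.card F ^ 2 + 1)) h hT (by omega)
        (by omega) (by omega) (by omega) (Or.inr fun c => pt_deg (h.ty_UU c.hyp) rfl
          (Or.inr (Or.inr (Or.inr (Or.inr (Or.inr ⟨by omega, rfl, rfl⟩)))))) fun l e => ?_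
      refine ⟨(hl l e).1, (hl l e).2, fun h1 => ⟨(sq h1).1.mul_right _, fun h2 =>
        ((sq h1).2 h2).mul_right _⟩, fun h1 => ?_⟩
      have := Nat.odd_iff.1 h1.1
      omega
    · rw [Nat.odd_iff] at hr2
      refine witX (a := r - 1) (n := Fintype.card F ^ 2) h hT (by omega)
        (by omega) (by omega) (by omega) (Or.inr fun c => pt_deg (h.ty_UU c.hyp) rfl
          (Or.inr (Or.inl ⟨by omega, rfl, rfl⟩))) fun l e => ?_
      refine ⟨(hl l e).1, (hl l e).2, sq, fun h1 => ?_⟩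
      have := Nat.odd_iff.1 h1.1
      omega
  · by_cases h1 : p ∣ Fintype.card F
    · exact four h hT hq hp hs hp' hs' h1
    by_cases h2 : s ∣ Fintype.card F
    · exact symm (four h hT hq hs hp hs' hp' h2)
    refine witX (a := 4) (n := 1) h hT (by omega) le_rfl (by omega) (by omega)
      (Or.inl ⟨rfl, by omega⟩) fun l e => ⟨(hl l e).1, (hl l e).2, fun h3 => ?_, fun h3 => ?_⟩
    · rcases e with rfl | rfl <;> contradiction
    · exact absurd h3.1 (by decide)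

end FamM

end CL.DG4
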