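/-
S4984, family e = 2 (O-_{2r+2}(q), Witt index r >= 3).  index 4 (q odd, nt8) or 2 (q even, 4 | n).
r odd >= 5: X(r-1, q^2).  r even >= 6: X(r-2, q^2 (q^2+1)).
r = 4: X(4, 1); X(3, q^2) unless l has order 3; then q >= 3: chi_g of pt3,
dg (q^2-1) = q (q^3-1)(q^5+1) (q even gives 4 | q); q = 2 (l = 7): lines with psi = 1 (N = 19635).
r = 3 (primes divide q, q^2-1, q^2+1, q^2+q+1, q^2-q+1, q^4+1): X(3, 1): all l not dividing q except order 3.
q >= 3: X(2, q^2), D = (q^6-1)(q^4+1): all except odd l | q^2+1.  Remaining pairs (odd l | q^2+1 with p or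
with order 3): q >= 4: X(1, q^2 (q^2+1)), D (q-1) = (q^3-1)(q^4+1); q = 3: om3 = 47970.
q = 2: X(3,1) = 17*15*9, chi_f = 84, lines with psi5 (N = 5355, d = 3570 or 4760).
-/
import Cfsg.Agent.CLAS.DG4.Ln
import Cfsg.Agent.CLAS.DG4.Sp4
import Cfsg.Agent.CLAS.DG4.NS
import Cfsg.Agent.CLAS.DG4.NR
import Cfsg.Agent.CLAS.DG4.NT
import Cfsg.Agent.CLAS.DG4.FamX
import Cfsg.Agent.CLAS.DG4.FamM2
import Cfsg.Agent.CLAS.DG4.FamM3
import Cfsg.Agent.CLAS.DG4.FamM4

set_option autoImplicit false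

namespace CL.DG4

open Cfsg CL.Witt CL.Zel Module Submodule
open scoped ComplexConjugate

variable {F V : Type} [Field F] [Fintype F] [DecidableEq F] [AddCommGroup V] [Module F V]
  [Finite V] {T : FormType F} {f : Form T V} {r e a : ℕ}

theorem famM (h : Ty f r 2) {H : Subgroup f.O} (hT : Tgt f H) (hr : 3 ≤ r)
    (hneg : r = 3 → ∀ z ∈ H, IsNeg z → z = 1)
    {p s : ℕ} (hp : p.Prime) (hs : s.Prime) (hps : p ≠ s) (hp' : p ∣ Nat.card f.O)
    (hs' : s ∣ Nat.card f.O) : Wit f H p s := by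
  by_cases h3 : r = 3
  · subst h3
    exact FamM3.three h hT (hneg rfl) hp hs hps hp' hs'
  by_cases h2 : r = 4 ∧ Fintype.card F = 2
  · exact FamM2.two h hT (Or.inr h2.1) h2.2 hp hs hps hp' hs'
  have : 2 ≤ Fintype.card F := Fintype.one_lt_card
  exact FamM.big h hT (by omega) hp hs hp' hs'

end CL.DG4
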