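/-
S4984, family e = 0 (O+_2r(q), r >= 4).  index 4 (q odd, nt8) or 2 (q even, 4 | n).
r even >= 6: X(r-2, q^2).  r odd >= 7: X(r-3, q^2 (q^2+1)).
r = 5: X(4, 1) for primes not dividing q; X(3, q^2) unless l has order 3; then q >= 3:
X(2, q (q^2+q+1)) (hneg for q = 3; l | q^2+q+1; q even gives 4 | q); q = 2 (l = 7): lines with psi7.
r = 4: q >= 4: X(2, q^2).  q = 2: X(4,1); chi_g = 84 for (2,3), (2,7); (2,5): lines with psi = 1
(N = 1575, d = 1050 or 1400).  q = 3: X(4,1); chi_g = 819 for (3,7), (3,13); chi_f = 300 for (3,5), (2,3),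
non-zero on a reflection (36 chi_f = 10 fix - 400, fix = 364 by fixPt_refl, ty_perp, card_Pt).
-/
import Cfsg.Agent.CLAS.DG4.Ln
import Cfsg.Agent.CLAS.DG4.Sp4
import Cfsg.Agent.CLAS.DG4.NS
import Cfsg.Agent.CLAS.DG4.NR
import Cfsg.Agent.CLAS.DG4.NT
import Cfsg.Agent.CLAS.DG4.FamX

set_option autoImplicit false
set_option linter.unusedSectionVars false

namespace CL.DG4

open Cfsg CL.Witt CL.Zel Module Submodule
open scoped ComplexConjugate

variable {F V : Type} [Field F] [Fintype F] [DecidableEq F] [AddCommGroup V] [Module F V]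
  [Finite V] {T : FormType F} {f : Form T V} {r e a : ℕ}

namespace FamP

theorem pp (F : Type) [Field F] [Fintype F] {p : ℕ} (hp : p.Prime) (h : p ∣ Fintype.card F) :
    ∃ k, Fintype.card F = p ^ (k + 1) := by
  obtain ⟨l, -, n, hl, e⟩ := FiniteField.card' F
  rw [e] at h
  obtain rfl := (Nat.prime_dvd_prime_iff_eq hp hl).1 (hp.dvd_of_dvd_pow h)
  exact ⟨n - 1, by rw [e, Nat.sub_add_cancel (show 1 ≤ (n : ℕ) from n.2)]⟩

theorem neg_one (hq : Even (Fintype.card F)) {z : f.O} (hz : IsNeg z) : z = 1 := by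
  have h2 : ringChar F = 2 := FiniteField.even_card_iff_char_two.2 (Nat.even_iff.1 hq)
  have h3 : (2 : F) = 0 := by
    have := ringChar.Nat.cast_ringChar (R := F)
    rwa [h2] at this
  refine Subtype.ext (LinearEquiv.ext fun v => ?_)
  rw [hz, neg_eq_iff_add_eq_zero]
  change v + v = 0
  rw [← two_smul F, h3, zero_smul]

variable {H : Subgroup f.O} {p s : ℕ}

theorem symm (h : Wit f H p s) : Wit f H s p :=
  let ⟨χ, d, h1, h2, h3, h4, h5, h6⟩ := h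
  ⟨χ, d, h1, h2, h3, h5, h4, fun e => h6 e.symm⟩

theorem wit (hT : Tgt f H) {χ : f.O → ℂ} {d : ℕ} (h1 : IsIrrCharacter _ χ) (h2 : χ 1 = d)
    (h3 : ∀ z ∈ H, IsNeg z → χ z = χ 1) (h4 : p ∣ d) (h5 : s ∣ d)
    (h6 : p = 2 ∨ s = 2 → ((Odd (Fintype.card F) → 8 ∣ d) ∧ (Even (Fintype.card F) → 4 ∣ d)) ∨
      ((Odd (Fintype.card F) → 4 ∣ d) ∧ ∃ g, IsRefl g ∧ χ g ≠ 0)) : Wit f H p s := by
  refine ⟨χ, d, h1, h2, h3, h4, h5, fun e => ?_⟩
  have d2 : 2 ∣ d := e.elim (fun e => e ▸ h4) fun e => e ▸ h5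
  rcases hT.idx with ⟨-, i⟩ | ⟨-, -, ⟨o, i⟩ | ⟨o, i⟩⟩ <;> rw [i]
  · exact .inl d2
  · exact (h6 e).imp (fun k => k.1 o) fun k => ⟨k.1 o, k.2⟩
  · exact (h6 e).imp (fun k => k.2 o) fun k => ⟨d2, k.2⟩

theorem witX (h : Ty f r e) (hT : Tgt f H) (a n : ℕ) (har : a ≤ r) (ha : 2 ≤ a)
    (hθ : 3 ≤ a ∨ (a = 2 ∧ 4 ≤ Fintype.card F) ∨ ((∀ z ∈ H, IsNeg z → z = 1) ∧
      ((a = 2 ∧ Fintype.card F = 3) ∨ (a = 1 ∧ 4 ≤ Fintype.card F))))
    (hψ : n = 1 ∨ ∀ c : Par f a, ∃ ψ : c.fU.O → ℂ, IsIrrCharacter _ ψ ∧ ψ 1 = n ∧ PtC c.fU ψ)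
    (hD : ∀ D, D * (Fintype.card F ^ a - 1) = DD (Fintype.card F) r e a → p ∣ n * D ∧ s ∣ n * D ∧
      (p = 2 ∨ s = 2 → (Odd (Fintype.card F) → 8 ∣ n * D) ∧ (Even (Fintype.card F) → 4 ∣ n * D))) :
    Wit f H p s := by
  obtain ⟨θ, t1, t2, t3⟩ := exists_theta H (a := a) (by omega) hθ
  obtain ⟨χ, D, h1, h2, h3, h4⟩ := exX h H har t1 t2 t3 (hψ.imp_left fun e => ⟨e, ha⟩)
  obtain ⟨h5, h6, h7⟩ := hD D h4
  exact wit hT h1 h2 h3 h5 h6 fun e => .inl (h7 e)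

/-- `X(a, n)` with `a` even. -/
theorem witE (h : Ty f r 0) (hT : Tgt f H) (hr : 2 ≤ r) (hp : p.Prime) (hs : s.Prime)
    (hp' : p ∣ Nat.card f.O) (hs' : s ∣ Nat.card f.O) (a n : ℕ) (har : a ≤ r) (ha : 2 ≤ a) (ev : Even a)
    (h3 : r - a ≤ 3) (hb : r - a < a ∨ (r = 4 ∧ a = 2)) (hθ : 3 ≤ a ∨ (a = 2 ∧ 4 ≤ Fintype.card F))
    (hψ : (n = 1 ∧ ¬ p ∣ Fintype.card F ∧ ¬ s ∣ Fintype.card F) ∨ (Fintype.card F ^ 2 ∣ n ∧
      ∀ c : Par f a, ∃ ψ : c.fU.O → ℂ, IsIrrCharacter _ ψ ∧ ψ 1 = n ∧ PtC c.fU ψ)) : Wit f H p s := by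
  refine witX h hT a n har ha (hθ.imp_right .inl) (hψ.imp (·.1) (·.2)) fun D hD => ?_
  have q2 : 2 ≤ Fintype.card F := Fintype.one_lt_card
  have key : ∀ l : ℕ, l.Prime → l ∣ Nat.card f.O → (l ∣ Fintype.card F → l ∣ n) → l ∣ n * D := by
    intro l hl h1 h2
    by_cases c : l ∣ Fintype.card F
    · exact (h2 c).mul_right _
    · refine Dvd.dvd.mul_left ((nt q2 (by omega) ha har h3 (by omega) hD hl c
        ((h.prime_dvd hr hl h1).resolve_left c)).resolve_right fun k => ?_) _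
      exact Nat.not_odd_iff_even.2 ev k.1
  have sq : ∀ {l : ℕ}, l ∣ Fintype.card F → l ∣ Fintype.card F ^ 2 := fun c => c.pow (by omega)
  refine ⟨key p hp hp' fun c => hψ.elim (fun k => (k.2.1 c).elim) fun k => (sq c).trans k.1,
    key s hs hs' fun c => hψ.elim (fun k => (k.2.2 c).elim) fun k => (sq c).trans k.1, fun e =>
    ⟨fun o => (nt8 o q2 ha har (by omega) hD).mul_left _, fun o => ?_⟩⟩
  rcases hψ with k | k
  · exact (e.elim (fun e => k.2.1 (e ▸ o.two_dvd)) fun e => k.2.2 (e ▸ o.two_dvd)).elim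
  · exact ((pow_dvd_pow_of_dvd o.two_dvd 2).trans k.1).mul_right _

theorem two_dvd {d j N : ℕ} (hj : Odd j) (h : 3 * d * (1 + 2 ^ j) = 2 ^ j * N) : 2 ∣ d := by
  obtain ⟨i, rfl⟩ := hj
  have h1 : 2 ∣ 3 * d * (1 + 2 ^ (2 * i + 1)) := h ▸ (dvd_pow_self 2 (by omega)).mul_right _
  rcases (Nat.prime_two.dvd_mul).1 h1 with h2 | h2
  · omega
  · rw [pow_succ] at h2; omega

theorem l_dvd {d j N l : ℕ} (hl : l = 5 ∨ l = 7) (hj : Odd j) (h : 3 * d * (1 + 2 ^ j) = 2 ^ j * N)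
    (hN : l ∣ N) : l ∣ d := by
  obtain ⟨i, rfl⟩ := hj
  have h1 : l ∣ 3 * d * (1 + 2 ^ (2 * i + 1)) := h ▸ hN.mul_left _
  have key : ∀ i, (2 ^ (2 * i + 1) % 5 = 2 ∨ 2 ^ (2 * i + 1) % 5 = 3) ∧
      (2 ^ (2 * i + 1) % 7 = 1 ∨ 2 ^ (2 * i + 1) % 7 = 2 ∨ 2 ^ (2 * i + 1) % 7 = 4) := by
    intro i
    induction i with
    | zero => simp
    | succ i ih =>
      rw [show 2 * (i + 1) + 1 = 2 * i + 1 + 2 by ring, pow_add]
      omega
  have := key i
  rcases hl with rfl | rfl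
  · rcases (Nat.prime_five.dvd_mul).1 h1 with h2 | h2 <;> omega
  · rcases ((by norm_num : Nat.Prime 7).dvd_mul).1 h1 with h2 | h2 <;> omega

theorem ev {χ : f.O → ℂ} (h1 : IsIrrCharacter _ χ) (h2 : PtC f χ) (z : f.O) (_ : z ∈ H) (hz : IsNeg z) :
    χ z = χ 1 := (h2.ev h1.isCharacter z hz).trans (one_mul _)

theorem five (h : Ty f 5 0) (hT : Tgt f H) (hQ : T = .quad F)
    (hneg : Fintype.card F = 3 → ∀ z ∈ H, IsNeg z → z = 1) (hp : p.Prime) (hs : s.Prime) (hps : p ≠ s)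
    (hs' : s ∣ Nat.card f.O) (c : p ∣ Fintype.card F) : Wit f H p s := by
  have q2 : 2 ≤ Fintype.card F := Fintype.one_lt_card
  obtain ⟨k, hk⟩ := pp F hp c
  have c' : ¬ s ∣ Fintype.card F := fun e =>
    hps ((Nat.prime_dvd_prime_iff_eq hs hp).1 (hs.dvd_of_dvd_pow (hk ▸ e))).symm
  by_cases o : s ≠ 2 ∧ orderOf (Fintype.card F : ZMod s) = 3
  swap
  · refine witX h hT 3 (Fintype.card F ^ 2) (by omega) (by omega) (.inl le_rfl)
      (.inr fun c => pt_deg (h.ty_UU c.hyp) rfl (by simp)) fun D hD => ⟨(c.pow (by omega)).mul_right _,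
      Dvd.dvd.mul_left ((nt q2 (by omega) (by omega) (by omega) (by omega) (by omega) hD hs c'
        ((h.prime_dvd (by omega) hs hs').resolve_left c')).resolve_right fun k => o k.2) _, fun _ =>
      ⟨fun o => (nt8 o q2 (by omega) (by omega) (by omega) hD).mul_left _,
        fun o => (pow_dvd_pow_of_dvd o.two_dvd 2).mul_right _⟩⟩
  obtain ⟨o1, o2, -, -⟩ := ord_facts hs o.1 (by decide) (by omega) (by omega) o.2
  have o3 : s ∣ Fintype.card F ^ 2 + Fintype.card F + 1 := by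
    refine (hs.dvd_mul.1 ?_).resolve_left o2
    convert o1 1 using 1
    obtain ⟨m, hm⟩ : ∃ m, Fintype.card F = m + 1 := ⟨Fintype.card F - 1, by omega⟩
    rw [hm, Nat.add_sub_cancel]
    exact Nat.eq_sub_of_add_eq (by ring)
  by_cases h2 : Fintype.card F = 2
  · obtain ⟨d⟩ := h.exists_par (a := 2) (by omega)
    obtain ⟨ψ, p1, p2, p3, p4, p5⟩ := psi7 (h.ty_UU d.hyp) h2
    obtain ⟨χ, D, j, x1, x2, x3, x4, x5⟩ := lines h h2 (by omega) d p1 p3 p4 (n := 7)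
      (by rw [p2]; norm_num) (by decide) p5
    rw [h2] at c o3
    obtain rfl := (Nat.prime_dvd_prime_iff_eq hp Nat.prime_two).1 c
    obtain rfl := (Nat.prime_dvd_prime_iff_eq hs (by norm_num : Nat.Prime 7)).1 o3
    exact wit hT x1 x2 (fun z _ hz => by rw [neg_one (by rw [h2]; decide) hz]) (two_dvd x3 x4)
      (l_dvd (.inr rfl) x3 x4 (dvd_mul_right _ _)) fun _ =>
      .inr ⟨fun o => absurd (h2 ▸ o) (by decide), x5 hQ (by norm_num)⟩
  · refine witX h hT 2 (Fintype.card F * (Fintype.card F ^ 2 + Fintype.card F + 1)) (by omega) le_rfl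
      (.inr ?_) (.inr fun c => pt_deg (h.ty_UU c.hyp) rfl (by simp)) fun D _ =>
      ⟨(c.mul_right _).mul_right _, (o3.mul_left _).mul_right _, fun e => ?_⟩
    · by_cases h3 : Fintype.card F = 3
      · exact .inr ⟨hneg h3, .inl ⟨rfl, h3⟩⟩
      · exact .inl ⟨rfl, by omega⟩
    · obtain rfl := e.resolve_right o.1
      refine ⟨fun o => absurd c o.not_two_dvd_nat, fun _ => ((?_ : 4 ∣ Fintype.card F).mul_right _).mul_right _⟩
      rcases k with _ | k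
      · exact (h2 hk).elim
      · exact hk ▸ pow_dvd_pow 2 (by omega : 2 ≤ k + 1 + 1)

theorem four2 (h : Ty f 4 0) (hT : Tgt f H) (hQ : T = .quad F) (hq : Fintype.card F = 2)
    (hs : s.Prime) (h2 : 2 ≠ s) (hs' : s ∣ Nat.card f.O) : Wit f H 2 s := by
  have h1 := h.prime_dvd (by omega) hs hs'
  rw [hq, show DD 2 4 0 4 = 2 * (3 ^ 5 * (5 ^ 2 * 7)) by decide] at h1
  have k : ∀ {l : ℕ}, l.Prime → s ∣ l → s = l := fun hl => (Nat.prime_dvd_prime_iff_eq hs hl).1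
  have h3 : s = 5 ∨ s ∣ 84 := by
    simp only [hs.dvd_mul, hs.prime.dvd_pow_iff_dvd, ne_eq, OfNat.ofNat_ne_zero, not_false_eq_true] at h1
    rcases h1 with h1 | h1 | h1 | h1 | h1
    exacts [.inr (h1.trans (by norm_num)), .inr (h1.trans (by norm_num)), .inr (h1.trans (by norm_num)),
      .inl (k Nat.prime_five h1), .inr (h1.trans (by norm_num))]
  rcases h3 with rfl | h3
  · obtain ⟨d⟩ := h.exists_par (a := 2) (by omega)
    obtain ⟨χ, D, j, x1, x2, x3, x4, x5⟩ := lines h hq (by omega) d Char.isIrrCharacter_one vecC_one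
      (fun _ => ⟨1, by simp⟩) (n := 1) (by simp) (by decide) (ν := 1) fun _ _ => rfl
    exact wit hT x1 x2 (fun z _ hz => by rw [neg_one (by rw [hq]; decide) hz]) (two_dvd x3 x4)
      (l_dvd (.inl rfl) x3 x4 (by decide)) fun _ =>
      .inr ⟨fun o => absurd (hq ▸ o) (by decide), x5 hQ one_ne_zero⟩
  · obtain ⟨-, χ, -, d, -, -, x1, -, x2, -, x3, -, x4, -⟩ := pt3 h (by omega) hq
    obtain rfl : d = 84 := by norm_num at x4; omega
    exact wit hT x1 x3 (ev x1 x2) (by norm_num) h3 fun _ =>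
      .inl ⟨fun o => absurd (hq ▸ o) (by decide), fun _ => by norm_num⟩

theorem four3 (h : Ty f 4 0) (hT : Tgt f H) (hQ : T = .quad F) (hq : Fintype.card F = 3)
    (hs : s.Prime) (hs' : s ∣ Nat.card f.O) : Wit f H 3 s := by
  have h1 := h.prime_dvd (by omega) hs hs'
  rw [hq, show DD 3 4 0 4 = 2 ^ 15 * (5 ^ 2 * (7 * 13)) by decide] at h1
  obtain ⟨χ, χ', d, d', k, x1, y1, x2, y2, x3, y3, x4, y4, k1, k2⟩ := pt3 h (by omega) hq
  obtain rfl : d = 300 := by norm_num at x4; omega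
  obtain rfl : d' = 819 := by norm_num at y4; omega
  obtain rfl : k = 390 := by norm_num [np] at k1; omega
  have h3 : s ∣ 300 ∨ (s ∣ 819) := by
    simp only [hs.dvd_mul, hs.prime.dvd_pow_iff_dvd, ne_eq, OfNat.ofNat_ne_zero, not_false_eq_true] at h1
    rcases h1 with h1 | h1 | h1 | h1 | h1
    exacts [.inr (h1.trans (by norm_num)), .inl (h1.trans (by norm_num)), .inl (h1.trans (by norm_num)),
      .inr (h1.trans (by norm_num)), .inr (h1.trans (by norm_num))]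
  rcases h3 with h3 | h3
  · refine wit hT x1 x3 (ev x1 x2) (by norm_num) h3 fun _ => .inr ⟨fun _ => by norm_num, ?_⟩
    obtain ⟨x, x', hx⟩ := h.exists_isHyp (a := 1) (by omega)
    obtain ⟨R, hR⟩ := h.exists_R
    have hπ : ∀ b, T.π b = b := fun b => by subst hQ; rfl
    have hv : f.q (x 0 + x' 0) ≠ 0 := by
      rw [f.q_add, hx.q_left, hx.q_right, hx.B_self, hπ]
      norm_num
    have hg := hR _ _ hv (hπ _)
    refine ⟨R _ _, ⟨_, hv, hg⟩, fun e => ?_⟩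
    have e1 := k2 _ ⟨_, hv, hg⟩
    have e2 := (h.ty_perp (by omega) (by rw [hq]; decide) hv).card_Pt
    rw [← fixPt_refl hQ hv hg, hq] at e2
    have e3 : fixPt f (R (x 0 + x' 0) (f.q (x 0 + x' 0))) = 364 := by norm_num [np] at e2; omega
    rw [e, e3] at e1
    norm_num at e1
  · refine wit hT y1 y3 (ev y1 y2) (by norm_num) h3 fun e => ?_
    obtain rfl := e.resolve_left (by norm_num)
    norm_num at h3

end FamP

theorem famP (h : Ty f r 0) {H : Subgroup f.O} (hT : Tgt f H) (hr : 4 ≤ r)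
    (hneg : r = 5 → Fintype.card F = 3 → ∀ z ∈ H, IsNeg z → z = 1)
    {p s : ℕ} (hp : p.Prime) (hs : s.Prime) (hps : p ≠ s) (hp' : p ∣ Nat.card f.O)
    (hs' : s ∣ Nat.card f.O) : Wit f H p s := by
  have hQ : T = .quad F := h.2.1.elim (fun k => absurd k.2.1 (by omega)) (·.1)
  have q2 : 2 ≤ Fintype.card F := Fintype.one_lt_card
  have E := FamP.witE h hT (by omega) hp hs hp' hs'
  by_cases h6 : 6 ≤ r
  · rcases Nat.even_or_odd r with ⟨m, o⟩ | ⟨m, o⟩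
    · exact E (r - 2) (Fintype.card F ^ 2) (by omega) (by omega) ⟨m - 1, by omega⟩ (by omega) (by omega)
        (by omega) (.inr ⟨dvd_rfl, fun c => pt_deg (h.ty_UU c.hyp) rfl
          (.inr (.inr (.inl ⟨by omega, rfl, rfl⟩)))⟩)
    · exact E (r - 3) (Fintype.card F ^ 2 * (Fintype.card F ^ 2 + 1)) (by omega) (by omega)
        ⟨m - 1, by omega⟩ (by omega) (by omega) (by omega) (.inr ⟨dvd_mul_right _ _, fun c =>
          pt_deg (h.ty_UU c.hyp) rfl (.inr (.inr (.inr (.inl ⟨by omega, rfl, rfl⟩))))⟩)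
  by_cases c : ¬ p ∣ Fintype.card F ∧ ¬ s ∣ Fintype.card F
  · exact E 4 1 hr (by omega) (by decide) (by omega) (by omega) (by omega) (.inl ⟨rfl, c⟩)
  have key : ∀ {p s : ℕ}, p.Prime → s.Prime → p ≠ s → p ∣ Nat.card f.O → s ∣ Nat.card f.O →
      p ∣ Fintype.card F → Wit f H p s := by
    intro p s hp hs hps hp' hs' c
    obtain rfl | rfl : r = 5 ∨ r = 4 := by omega
    · exact FamP.five h hT hQ (hneg rfl) hp hs hps hs' c
    obtain h2 | h3 | h4 : Fintype.card F = 2 ∨ Fintype.card F = 3 ∨ 4 ≤ Fintype.card F := by omega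
    · obtain rfl := (Nat.prime_dvd_prime_iff_eq hp Nat.prime_two).1 (h2 ▸ c)
      exact FamP.four2 h hT hQ h2 hs hps hs'
    · obtain rfl := (Nat.prime_dvd_prime_iff_eq hp Nat.prime_three).1 (h3 ▸ c)
      exact FamP.four3 h hT hQ h3 hs hs'
    · exact FamP.witE h hT (by omega) hp hs hp' hs' 2 (Fintype.card F ^ 2) (by omega) le_rfl (by decide)
        (by omega) (by omega) (.inr ⟨rfl, h4⟩)
        (.inr ⟨dvd_rfl, fun c => pt_deg (h.ty_UU c.hyp) rfl (by simp)⟩)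
  by_cases c1 : p ∣ Fintype.card F
  · exact key hp hs hps hp' hs' c1
  · exact FamP.symm (key hs hp hps.symm hs' hp' (by tauto))

end CL.DG4
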