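/-
S4984, block H2, part a: the functions `F g = π ρ(g) j` attached to an irreducible constituent of the
induced character.
-/
import Cfsg.Agent.CLAS.DG4.Def
import Cfsg.Agent.CHAR.RepEquiv
import Cfsg.Agent.CHAR.Central
import Cfsg.Agent.CHAR.Values
import Cfsg.Agent.CHAR.IndRep

set_option autoImplicit false

namespace CL.DG4.H2a

open Cfsg CL.Char Module
open scoped ComplexConjugate

variable {G : Type} [Group G] {P Q L : Subgroup G} {w : G}
variable {W V V' : Type} [AddCommGroup W] [Module ℂ W] [FiniteDimensional ℂ W]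
  [AddCommGroup V] [Module ℂ V] [FiniteDimensional ℂ V]
  [AddCommGroup V'] [Module ℂ V'] [FiniteDimensional ℂ V']

theorem hom_zero {D : Type} [Group D] [Fintype D] (τ₁ : Representation ℂ D V)
    (τ₂ : Representation ℂ D W) (h : classInner τ₂.character τ₁.character = 0) (f : V →ₗ[ℂ] W)
    (hf : ∀ s, f ∘ₗ τ₁ s = τ₂ s ∘ₗ f) : f = 0 := by
  rw [classInner_character] at h
  have h' : finrank ℂ (τ₁.IntertwiningMap τ₂) = 0 := by exact_mod_cast h
  have : Subsingleton (τ₁.IntertwiningMap τ₂) := Module.finrank_zero_iff.mp h'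
  have e : (⟨f, hf⟩ : τ₁.IntertwiningMap τ₂) = 0 := Subsingleton.elim _ _
  exact congrArg (fun x : τ₁.IntertwiningMap τ₂ => x.toLinearMap) e

open Classical in
/-- the representation of `P` extended by zero -/
noncomputable def S (σ : Representation ℂ P W) (g : G) : Module.End ℂ W :=
  if h : g ∈ P then σ ⟨g, h⟩ else 0

section S
variable (σ : Representation ℂ P W)

omit [FiniteDimensional ℂ W] in
theorem S_mem {g : G} (h : g ∈ P) : S σ g = σ ⟨g, h⟩ := dif_pos h

omit [FiniteDimensional ℂ W] in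
theorem S_coe (p : P) : S σ p = σ p := dif_pos p.2

omit [FiniteDimensional ℂ W] in
theorem S_not {g : G} (h : g ∉ P) : S σ g = 0 := dif_neg h

omit [FiniteDimensional ℂ W] in
theorem S_mul {x y : G} (hx : x ∈ P) (hy : y ∈ P) : S σ (x * y) = S σ x * S σ y := by
  rw [S_mem σ hx, S_mem σ hy, S_mem σ (P.mul_mem hx hy), ← map_mul]; rfl

omit [FiniteDimensional ℂ W] in
theorem S_one : S σ 1 = 1 := by
  rw [S_mem σ P.one_mem]; exact map_one σ

omit [FiniteDimensional ℂ W] in
theorem tr_S (g : G) : LinearMap.trace ℂ W (S σ g) = extendByZero P σ.character g := by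
  by_cases h : g ∈ P
  · rw [S_mem σ h, extendByZero_of_mem _ _ h]; rfl
  · rw [S_not σ h, extendByZero_of_not_mem _ _ h, map_zero]

theorem S_ker [Finite G] {g : G} (hg : g ∈ P)
    (h : ∀ x : P, extendByZero P σ.character (g * x) = σ.character x) : S σ g = 1 := by
  rw [S_mem σ hg]
  refine (mem_charKer_character σ).mp (mem_charKer_iff.mpr fun x => ?_)
  rw [← h x, ← extendByZero_coe P σ.character]; rfl

end S

/-- the hypotheses of the Hecke lemma -/
structure Hyp (P Q L : Subgroup G) (w : G) (σ : Representation ℂ P W) : Prop where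
  irr : σ.IsIrreducible
  hQ : Q ≤ P
  hL : L ≤ P
  hQL : ∀ x ∈ P, ∃ u ∈ Q, ∃ l ∈ L, x = u * l
  hdis : ∀ u ∈ Q, u ∈ L → u = 1
  hwL : ∀ l ∈ L, w⁻¹ * l * w ∈ L
  hint : ∀ x ∈ P, w⁻¹ * x * w ∈ P → x ∈ L
  hw : w ∉ P
  hw2 : w * w ∈ P
  kQ : ∀ u ∈ Q, S σ u = 1
  kw : S σ (w * w) = 1
  kL : ∀ l ∈ L, S σ (w⁻¹ * l * w) = S σ l
  van : ∀ g, g ∉ P → ¬ InD P w g → Van P σ.character g

/-- `W` is a direct summand of the restriction of `ρ` -/
structure Dat (σ : Representation ℂ P W) (ρ : Representation ℂ G V) (j : W →ₗ[ℂ] V)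
    (π : V →ₗ[ℂ] W) : Prop where
  hj : ∀ (p : P) v, ρ p (j v) = j (σ p v)
  hπ : ∀ (p : P) v, π (ρ p v) = σ p (π v)
  one : ∀ v, π (j v) = v

/-- the spherical function -/
def F (ρ : Representation ℂ G V) (j : W →ₗ[ℂ] V) (π : V →ₗ[ℂ] W) (g : G) : Module.End ℂ W :=
  π ∘ₗ ρ g ∘ₗ j

theorem exists_dat [Fintype P] (σ : Representation ℂ P W) (hσ : σ.IsIrreducible)
    (ρ : Representation ℂ G V) (h : classInner (fun p : P => ρ.character p) σ.character ≠ 0) :
    ∃ j π, Dat σ ρ j π := by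
  obtain ⟨f, hf⟩ := exists_ne_zero_intertwining σ (ρ.comp P.subtype : Representation ℂ P V) h
  have hi := (Representation.IsIrreducible.injective_or_eq_zero f).resolve_right hf
  obtain ⟨π₀, hπ₀⟩ := LinearMap.exists_leftInverse_of_injective f.toLinearMap
    (LinearMap.ker_eq_bot.mpr hi)
  have hj : ∀ (p : P) v, ρ p (f.toLinearMap v) = f.toLinearMap (σ p v) := fun p v =>
    (f.isIntertwining _ _ p v).symm
  have h0 : ∀ v, π₀ (f.toLinearMap v) = v := fun v => LinearMap.congr_fun hπ₀ v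
  refine ⟨f.toLinearMap, (Nat.card P : ℂ)⁻¹ • ∑ p : P, σ p ∘ₗ π₀ ∘ₗ ρ ((p⁻¹ : P) : G), hj, ?_, ?_⟩
  · intro q v
    simp only [LinearMap.smul_apply, LinearMap.sum_apply, LinearMap.comp_apply, map_smul, map_sum]
    congr 1
    refine Fintype.sum_equiv (Equiv.mulLeft q⁻¹) _ _ fun p => ?_
    simp only [Equiv.coe_mulLeft]
    rw [← Module.End.mul_apply (σ q), ← map_mul, ← Module.End.mul_apply (ρ _) (ρ _), ← map_mul]
    simp
  · intro v
    simp only [LinearMap.smul_apply, LinearMap.sum_apply, LinearMap.comp_apply, hj, h0]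
    have : ∀ p : P, σ p (σ p⁻¹ v) = v := fun p => by
      rw [← Module.End.mul_apply, ← map_mul]; simp
    simp only [this, Finset.sum_const, Finset.card_univ, ← Nat.card_eq_fintype_card]
    rw [← Nat.cast_smul_eq_nsmul ℂ, smul_smul, inv_mul_cancel₀ (card_ne_zero P), one_smul]

namespace Dat
variable {σ : Representation ℂ P W} {ρ : Representation ℂ G V} {j : W →ₗ[ℂ] V} {π : V →ₗ[ℂ] W}

omit [FiniteDimensional ℂ W] [FiniteDimensional ℂ V] in
theorem left (d : Dat σ ρ j π) {x : G} (hx : x ∈ P) (g : G) :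
    F ρ j π (x * g) = S σ x * F ρ j π g := by
  ext v
  simp only [F, S_mem σ hx, map_mul, LinearMap.comp_apply, Module.End.mul_apply]
  exact d.hπ ⟨x, hx⟩ _

omit [FiniteDimensional ℂ W] [FiniteDimensional ℂ V] in
theorem right (d : Dat σ ρ j π) (g : G) {x : G} (hx : x ∈ P) :
    F ρ j π (g * x) = F ρ j π g * S σ x := by
  ext v
  simp only [F, S_mem σ hx, map_mul, LinearMap.comp_apply, Module.End.mul_apply]
  rw [← d.hj ⟨x, hx⟩]

omit [FiniteDimensional ℂ W] [FiniteDimensional ℂ V] in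
theorem F_one (d : Dat σ ρ j π) : F ρ j π 1 = 1 := by
  ext v
  simp [F, d.one]

omit [FiniteDimensional ℂ W] [FiniteDimensional ℂ V] in
theorem F_mem (d : Dat σ ρ j π) {x : G} (hx : x ∈ P) : F ρ j π x = S σ x := by
  have := d.left hx 1
  rwa [mul_one, d.F_one, mul_one] at this

omit [FiniteDimensional ℂ V] in
theorem F_van [Finite G] (d : Dat σ ρ j π) {g : G} (h : Van P σ.character g) : F ρ j π g = 0 := by
  classical
  have := Fintype.ofFinite G
  refine hom_zero (σ.comp (mackeyHom P P g) : Representation ℂ (mackeySub P P g) W)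
    (σ.comp (mackeySub P P g).subtype : Representation ℂ (mackeySub P P g) W) ?_ _ fun s => ?_
  · rw [classInner_eq_zero_comm, classInner_def]
    rw [Van, finsum_eq_sum_of_fintype] at h
    rw [mul_eq_zero]
    right
    refine Eq.trans ?_ h
    refine Fintype.sum_of_injective (fun s : mackeySub P P g => ((s : P) : G))
      (Subtype.val_injective.comp Subtype.val_injective) _ _ (fun x hx => ?_) (fun s => ?_)
    · by_cases h1 : x ∈ P
      · by_cases h2 : g⁻¹ * x * g ∈ P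
        · exact absurd ⟨⟨⟨x, h1⟩, mem_mackeySub.mpr h2⟩, rfl⟩ hx
        · rw [extendByZero_of_not_mem _ _ h2, zero_mul]
      · rw [extendByZero_of_not_mem _ _ h1, map_zero, mul_zero]
    · rw [extendByZero_coe, ← mackeyHom_coe, extendByZero_coe]; rfl
  · have h1 := d.left (s : P).2 g
    have h2 := d.right g (mackeyHom P P g s).2
    rw [S_coe] at h1 h2
    have e : g * (mackeyHom P P g s : G) = ((s : P) : G) * g := by
      rw [mackeyHom_coe]; group
    rw [e, h1] at h2
    exact h2.symm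

omit [FiniteDimensional ℂ V] in
theorem F_w (d : Dat σ ρ j π) (h : Hyp P Q L w σ) : ∃ s : ℂ, F ρ j π w = s • 1 := by
  have := h.irr
  refine schur_scalar σ _ fun p => ?_
  obtain ⟨u, hu, l, hl, e⟩ := h.hQL p p.2
  have e1 : σ p = S σ l := by
    rw [← S_coe, e, S_mul σ (h.hQ hu) (h.hL hl), h.kQ u hu, one_mul]
  rw [e1, ← d.left (h.hL hl), ← h.kL l hl, ← d.right w (h.hL (h.hwL l hl))]
  congr 1; group

omit [FiniteDimensional ℂ W] [FiniteDimensional ℂ V] in
theorem F_winv (d : Dat σ ρ j π) (h : Hyp P Q L w σ) (g : G) :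
    F ρ j π (w⁻¹ * g) = F ρ j π (w * g) := by
  have := d.left h.hw2 (w⁻¹ * g)
  rw [h.kw, one_mul] at this
  rw [← this]; congr 1; group

omit [FiniteDimensional ℂ V] in
theorem F_out [Finite G] (d : Dat σ ρ j π) (h : Hyp P Q L w σ) {g : G} (hg : ¬ InD P w g) :
    F ρ j π g = S σ g := by
  by_cases h1 : g ∈ P
  · exact d.F_mem h1
  · rw [S_not σ h1, d.F_van (h.van g h1 hg)]

end Dat

omit [FiniteDimensional ℂ W] in
theorem Hyp.split {σ : Representation ℂ P W} (h : Hyp P Q L w σ) [Fintype G] [Fintype P] [Fintype Q]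
    {M : Type} [AddCommMonoid M] (f : G → M) (hf : ∀ g, g ∉ P → ¬ InD P w g → f g = 0) :
    ∑ g, f g = ∑ p : P, f p + ∑ u : Q, ∑ y : P, f (u * w * y) := by
  rw [← Fintype.sum_prod_type']
  refine Eq.trans ?_ (Fintype.sum_sum_type (fun x : P ⊕ (Q × P) =>
    f (Sum.elim (fun p : P => (p : G)) (fun x : Q × P => x.1 * w * x.2) x)))
  symm
  have key : ∀ (p : P) (x : Q × P), (p : G) ≠ x.1 * w * x.2 := fun p x e => by
    apply h.hw
    have : w = (x.1 : G)⁻¹ * p * (x.2 : G)⁻¹ := by rw [e]; group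
    rw [this]
    exact P.mul_mem (P.mul_mem (P.inv_mem (h.hQ x.1.2)) p.2) (P.inv_mem x.2.2)
  refine Fintype.sum_of_injective
    (Sum.elim (fun p : P => (p : G)) (fun x : Q × P => x.1 * w * x.2)) ?_ _ _ (fun g hg => ?_)
    (fun _ => rfl)
  · refine Function.Injective.sumElim Subtype.val_injective ?_ key
    rintro ⟨u, y⟩ ⟨u', y'⟩ e
    simp only at e
    have hm : (u' : G)⁻¹ * u ∈ Q := Q.mul_mem (Q.inv_mem u'.2) u.2
    have e2 : w⁻¹ * ((u' : G)⁻¹ * u) * w = y' * (y : G)⁻¹ := by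
      have : (u : G) = u' * w * y' * (y : G)⁻¹ * w⁻¹ := by rw [← e]; group
      rw [this]; group
    have h3 := h.hdis _ hm (h.hint _ (h.hQ hm) (e2 ▸ P.mul_mem y'.2 (P.inv_mem y.2)))
    have h4 : u = u' := Subtype.ext (by rw [inv_mul_eq_one] at h3; exact h3.symm)
    subst h4
    have : y = y' := Subtype.ext (mul_left_cancel e)
    rw [this]
  · refine hf g (fun h1 => hg ⟨Sum.inl ⟨g, h1⟩, rfl⟩) ?_
    rintro ⟨x, hx, y, hy, e⟩
    obtain ⟨u, hu, l, hl, e'⟩ := h.hQL x hx
    refine hg ⟨Sum.inr (⟨u, hu⟩, ⟨w⁻¹ * l * w * y, P.mul_mem (h.hL (h.hwL l hl)) hy⟩), ?_⟩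
    simp only [Sum.elim_inr]
    rw [e, e']; group

section Orth
variable [Fintype G] {σ : Representation ℂ P W} {ρ : Representation ℂ G V} {j : W →ₗ[ℂ] V}
  {π : V →ₗ[ℂ] W} {ρ' : Representation ℂ G V'} {j' : W →ₗ[ℂ] V'} {π' : V' →ₗ[ℂ] W}

omit [FiniteDimensional ℂ V] [FiniteDimensional ℂ V'] in
theorem conv [Fintype Q] (h : Hyp P Q L w σ) (d : Dat σ ρ j π) (d' : Dat σ ρ' j' π') {s : ℂ}
    (hs : F ρ j π w = s • 1) (k : G) :
    ∑ g, F ρ j π g * F ρ' j' π' (g⁻¹ * k) =
      (Nat.card P : ℂ) • (F ρ' j' π' k + s • ∑ u : Q, F ρ' j' π' (w * u * k)) := by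
  have := Fintype.ofFinite P
  rw [h.split (fun g => F ρ j π g * F ρ' j' π' (g⁻¹ * k)) (fun g h1 h2 => by
    rw [d.F_out h h2, S_not σ h1, zero_mul])]
  have e1 : ∀ p : P, F ρ j π p * F ρ' j' π' ((p : G)⁻¹ * k) = F ρ' j' π' k := fun p => by
    rw [d.F_mem p.2, ← d'.left p.2]; congr 1; group
  have e2 : ∀ (u : Q) (y : P), F ρ j π (u * w * y) * F ρ' j' π' (((u : G) * w * y)⁻¹ * k) =
      s • F ρ' j' π' (w * ((u⁻¹ : Q) : G) * k) := fun u y => by
    rw [d.right _ y.2, d.left (h.hQ u.2), h.kQ u u.2, one_mul, hs, mul_assoc, ← d'.left y.2,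
      smul_mul_assoc, one_mul, mul_assoc w, ← d'.F_winv h]
    congr 2
    simp only [InvMemClass.coe_inv]; group
  simp only [e1, e2, Finset.sum_const, Finset.card_univ, ← Nat.card_eq_fintype_card]
  rw [← Finset.smul_sum, ← Finset.smul_sum, ← smul_add, Nat.cast_smul_eq_nsmul]
  congr 3
  exact Fintype.sum_equiv (Equiv.inv Q) _ _ fun u => rfl

omit [FiniteDimensional ℂ V] [FiniteDimensional ℂ V'] [FiniteDimensional ℂ W] in
theorem conv_eq (k : G) : ∑ g, F ρ j π g * F ρ' j' π' (g⁻¹ * k) =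
    π ∘ₗ (∑ g, ρ g ∘ₗ (j ∘ₗ π') ∘ₗ ρ' g⁻¹) ∘ₗ ρ' k ∘ₗ j' := by
  ext v
  simp [F, LinearMap.sum_apply, map_sum]

omit [FiniteDimensional ℂ W] in
theorem conv_zero (hne : classInner ρ.character ρ'.character = 0) (k : G) :
    ∑ g, F ρ j π g * F ρ' j' π' (g⁻¹ * k) = 0 := by
  rw [conv_eq, hom_zero ρ' ρ hne (∑ g, ρ g ∘ₗ (j ∘ₗ π') ∘ₗ ρ' g⁻¹)]
  · simp
  · intro x
    ext v
    simp only [LinearMap.comp_apply, LinearMap.sum_apply, map_sum]
    refine Fintype.sum_equiv (Equiv.mulLeft x⁻¹) _ _ fun g => ?_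
    simp only [Equiv.coe_mulLeft]
    rw [← Module.End.mul_apply (ρ x), ← map_mul, ← Module.End.mul_apply (ρ' _) (ρ' _), ← map_mul]
    simp

theorem conv_self (d : Dat σ ρ j π) (hρ : ρ.IsIrreducible) :
    ∑ g, F ρ j π g * F ρ j π (g⁻¹ * 1) =
      ((Nat.card G : ℂ) * σ.character 1 / ρ.character 1) • 1 := by
  rw [conv_eq]
  have e := sum_conj_eq_smul ρ (j ∘ₗ π)
  have e' : ∑ g, ρ g ∘ₗ (j ∘ₗ π) ∘ₗ ρ g⁻¹ = ∑ g, ρ g * (j ∘ₗ π) * ρ g⁻¹ := rfl
  have e3 : π ∘ₗ j = LinearMap.id := LinearMap.ext d.one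
  rw [e', e, LinearMap.trace_comp_comm', e3, LinearMap.trace_id, Representation.char_one,
    Representation.char_one]
  ext v
  simp [d.one]

omit [FiniteDimensional ℂ V] [FiniteDimensional ℂ W] [Fintype G] in
theorem sum_wu [Fintype Q] (h : Hyp P Q L w σ) (d : Dat σ ρ j π) {s : ℂ} (hs : F ρ j π w = s • 1) :
    ∑ u : Q, F ρ j π (w * u * 1) = ((Nat.card Q : ℂ) * s) • 1 := by
  have : ∀ u : Q, F ρ j π (w * u * 1) = s • 1 := fun u => by
    rw [mul_one, d.right _ (h.hQ u.2), h.kQ u u.2, mul_one, hs]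
  simp only [this, Finset.sum_const, Finset.card_univ, ← Nat.card_eq_fintype_card]
  rw [← Nat.cast_smul_eq_nsmul ℂ, smul_smul]

omit [Fintype G] [FiniteDimensional ℂ W] in
theorem sc_inj (h : Hyp P Q L w σ) {a b : ℂ} (e : a • (1 : Module.End ℂ W) = b • 1) : a = b := by
  have := nontrivial_of_isIrreducible h.irr
  exact smul_left_injective ℂ one_ne_zero e

theorem deg (h : Hyp P Q L w σ) (d : Dat σ ρ j π) (hρ : ρ.IsIrreducible) {s : ℂ}
    (hs : F ρ j π w = s • 1) :
    ρ.character 1 * (1 + s * (Nat.card Q * s)) = P.index * σ.character 1 := by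
  have := Fintype.ofFinite Q
  have e := conv h d d hs 1
  rw [conv_self d hρ, sum_wu h d hs, d.F_one, smul_smul] at e
  have e2 : (1 : Module.End ℂ W) + (s * (Nat.card Q * s)) • 1 = (1 + s * (Nat.card Q * s)) • 1 := by
    rw [add_smul, one_smul]
  rw [e2, smul_smul] at e
  have e3 := sc_inj h e
  have h1 : ρ.character 1 ≠ 0 := (isIrrCharacter_character ρ).one_ne_zero
  rw [div_eq_iff h1, ← P.card_mul_index, Nat.cast_mul] at e3
  refine mul_left_cancel₀ (card_ne_zero P) ?_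
  linear_combination -e3

theorem prod (h : Hyp P Q L w σ) (d : Dat σ ρ j π) (d' : Dat σ ρ' j' π')
    (hne : classInner ρ.character ρ'.character = 0) {s s' : ℂ}
    (hs : F ρ j π w = s • 1) (hs' : F ρ' j' π' w = s' • 1) : 1 + s * (Nat.card Q * s') = 0 := by
  have := Fintype.ofFinite Q
  have e := conv h d d' hs 1
  rw [conv_zero hne, sum_wu h d' hs', d'.F_one, smul_smul] at e
  have e2 : (1 : Module.End ℂ W) + (s * (Nat.card Q * s')) • 1 = (1 + s * (Nat.card Q * s')) • 1 := by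
    rw [add_smul, one_smul]
  rw [e2, smul_smul, ← zero_smul ℂ (1 : Module.End ℂ W)] at e
  exact (mul_eq_zero.mp (sc_inj h e).symm).resolve_left (card_ne_zero P)

theorem quad [Fintype Q] (h : Hyp P Q L w σ) (d : Dat σ ρ j π) (d' : Dat σ ρ' j' π')
    (hne : classInner ρ.character ρ'.character = 0) {s s' : ℂ}
    (hs : F ρ j π w = s • 1) (hs' : F ρ' j' π' w = s' • 1) {Φ : G → ℂ}
    (hΦ : PhiOK P Q w σ.character Φ) :
    ∃ (a : Q → ℂ) (y : Q → P), (∀ u, IsIntegral ℤ (a u)) ∧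
      (∀ u : Q, Φ u = a u * σ.character (y u)) ∧
      ∑ u, a u • σ (y u) = (Nat.card Q * s + Nat.card Q * s') • (1 : Module.End ℂ W) := by
  classical
  have key : ∀ u : Q, ∃ (a : ℂ) (y : P), IsIntegral ℤ a ∧ Φ u = a * σ.character y ∧
      F ρ' j' π' (w * u * w) = (if u = 1 then 1 else 0) + s' • a • σ y := fun u => by
    rcases hΦ u u.2 with ⟨u₁, h1, y, e, e'⟩ | ⟨h1, e'⟩
    · refine ⟨1, y, isIntegral_one, by rw [e', one_mul], ?_⟩
      have hu : u ≠ 1 := by
        rintro rfl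
        apply h.hw
        have : w = u₁⁻¹ * (w * w) * (y : G)⁻¹ := by
          have e2 : w * w = u₁ * w * y := by rw [← e]; simp
          rw [e2]; group
        rw [this]
        exact P.mul_mem (P.mul_mem (P.inv_mem (h.hQ h1)) h.hw2) (P.inv_mem y.2)
      rw [if_neg hu, zero_add, e, d'.right _ y.2, d'.left (h.hQ h1), h.kQ _ h1, one_mul, hs', S_coe,
        one_smul, smul_mul_assoc, one_mul]
    · refine ⟨0, 1, isIntegral_zero, by rw [e', zero_mul], ?_⟩
      rw [zero_smul, smul_zero, add_zero, d'.F_out h h1]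
      split_ifs with hu
      · subst hu
        simpa using h.kw
      · refine S_not σ fun h2 => hu (Subtype.ext (h.hdis _ u.2 (h.hint _ (h.hQ u.2) ?_)))
        have : w⁻¹ * u * w = (w * w)⁻¹ * (w * u * w) := by group
        rw [this]
        exact P.mul_mem (P.inv_mem h.hw2) h2
  choose a y h1 h2 h3 using key
  refine ⟨a, y, h1, h2, ?_⟩
  have e := conv h d d' hs w
  rw [conv_zero hne, hs'] at e
  simp only [h3, Finset.sum_add_distrib, Finset.sum_ite_eq', Finset.mem_univ, if_true,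
    ← Finset.smul_sum] at e
  have e2 := (smul_eq_zero.mp e.symm).resolve_left (card_ne_zero P)
  have e3 := prod h d d' hne hs hs'
  set B := ∑ u, a u • σ (y u)
  have e4 : B = (Nat.card Q : ℂ) • (s' • 1 + s • 1) - (Nat.card Q : ℂ) • (s' • 1 + s • (1 + s' • B)) +
      (1 + s * (Nat.card Q * s')) • B := by module
  rw [e4, e2, e3]
  module

omit [Fintype G] in
theorem kcl [Finite G] (h : Hyp P Q L w σ) (d : Dat σ ρ j π) (hρ : ρ.IsIrreducible) (K : Set G)
    (hK : ∀ k ∈ K, ∀ g, g * k * g⁻¹ ∈ K) (hn : ∀ k ∈ K, ¬ InD P w k) :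
    σ.character 1 * ∑ᶠ k : K, ρ.character k =
      ρ.character 1 * ∑ᶠ k : K, extendByZero P σ.character k := by
  classical
  have := Fintype.ofFinite G
  have hs : ∀ f : G → ℂ, ∑ᶠ k : K, f k = ∑ g, (if g ∈ K then 1 else 0) * f g := fun f => by
    rw [finsum_eq_sum_of_fintype]
    refine Fintype.sum_of_injective Subtype.val Subtype.val_injective _ _ (fun g hg => ?_)
      (fun k => ?_)
    · rw [if_neg (fun h1 => hg ⟨⟨g, h1⟩, rfl⟩), zero_mul]
    · rw [if_pos k.2, one_mul]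
  have hc : IsClassFunction G (fun g => if g ∈ K then (1 : ℂ) else 0) := fun g x => by
    have : x * g * x⁻¹ ∈ K ↔ g ∈ K := ⟨fun h1 => by simpa [mul_assoc] using hK _ h1 x⁻¹,
      fun h1 => hK _ h1 x⟩
    simp only [this]
  have e := sum_classFun_smul ρ hc
  have e2 : ∑ g, (if g ∈ K then (1 : ℂ) else 0) • S σ g =
      ((∑ g, (if g ∈ K then (1 : ℂ) else 0) * ρ.character g) / finrank ℂ V) •
        (1 : Module.End ℂ W) := by
    have e3 : ∑ g, (if g ∈ K then (1 : ℂ) else 0) • S σ g =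
        π ∘ₗ (∑ g, (if g ∈ K then (1 : ℂ) else 0) • ρ g) ∘ₗ j := by
      ext v
      simp only [LinearMap.comp_apply, LinearMap.sum_apply, map_sum]
      refine Finset.sum_congr rfl fun g _ => ?_
      split_ifs with h1
      · rw [one_smul, one_smul, ← d.F_out h (hn g h1)]; rfl
      · simp
    rw [e3, e]
    ext v
    simp only [LinearMap.comp_apply, LinearMap.smul_apply, Module.End.one_apply, map_smul, d.one]
  have e4 := congrArg (LinearMap.trace ℂ W) e2
  simp only [map_sum, map_smul, tr_S, smul_eq_mul, LinearMap.trace_one] at e4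
  rw [hs, hs, e4, Representation.char_one, Representation.char_one]
  have := rep_finrank_ne_zero ρ
  field_simp

theorem norm_two (h : Hyp P Q L w σ) :
    classInner (indFun P σ.character) (indFun P σ.character) = 2 := by
  classical
  have := Fintype.ofFinite P
  have := Fintype.ofFinite Q
  have := Fintype.ofFinite L
  have := h.irr
  have hφ := isIrrCharacter_character σ
  have hc := hφ.isClassFunction
  set φ := σ.character with hφd
  have hP : ∑ k : P, φ k * conj (φ k) = Nat.card P := by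
    rw [← card_mul_classInner, hφ.inner_self, mul_one]
  have hb : Function.Bijective (fun x : Q × L =>
      (⟨x.1 * x.2, P.mul_mem (h.hQ x.1.2) (h.hL x.2.2)⟩ : P)) := by
    constructor
    · rintro ⟨u, l⟩ ⟨u', l'⟩ e
      have e1 : (u : G) * l = u' * l' := congrArg Subtype.val e
      have e2 : (u' : G)⁻¹ * u = l' * (l : G)⁻¹ := by
        have : (u : G) = u' * l' * (l : G)⁻¹ := by rw [← e1]; group
        rw [this]; group
      have h3 := h.hdis _ (Q.mul_mem (Q.inv_mem u'.2) u.2) (e2 ▸ L.mul_mem l'.2 (L.inv_mem l.2))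
      have h4 : u = u' := Subtype.ext (by rw [inv_mul_eq_one] at h3; exact h3.symm)
      subst h4
      have : l = l' := Subtype.ext (mul_left_cancel e1)
      rw [this]
    · intro p
      obtain ⟨u, hu, l, hl, e⟩ := h.hQL p p.2
      exact ⟨(⟨u, hu⟩, ⟨l, hl⟩), Subtype.ext e.symm⟩
  have hL : (Nat.card Q : ℂ) * ∑ l : L, extendByZero P φ l * conj (extendByZero P φ l) =
      Nat.card P := by
    rw [← hP, ← Fintype.sum_bijective _ hb
      (fun x : Q × L => extendByZero P φ x.2 * conj (extendByZero P φ x.2)) _ (fun x => ?_)]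
    · rw [Fintype.sum_prod_type]
      simp only [Finset.sum_const, Finset.card_univ, ← Nat.card_eq_fintype_card, nsmul_eq_mul]
    · have : φ ⟨x.1 * x.2, P.mul_mem (h.hQ x.1.2) (h.hL x.2.2)⟩ = extendByZero P φ x.2 := by
        rw [← extendByZero_coe P φ, ← tr_S, ← tr_S, S_mul σ (h.hQ x.1.2) (h.hL x.2.2),
          h.kQ _ x.1.2, one_mul]
      rw [this]
  have hw : ∑ k : P, extendByZero P φ (w⁻¹ * k * w) * conj (φ k) =
      ∑ l : L, extendByZero P φ l * conj (extendByZero P φ l) := by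
    symm
    refine Fintype.sum_of_injective (fun l : L => (⟨l, h.hL l.2⟩ : P))
      (fun a b e => Subtype.ext (congrArg (fun x : P => (x : G)) e)) _ _ (fun k hk => ?_)
      (fun l => ?_)
    · rw [extendByZero_of_not_mem _ _ (fun h1 => hk ⟨⟨k, h.hint _ k.2 h1⟩, rfl⟩), zero_mul]
    · rw [← extendByZero_coe P φ ⟨l, h.hL l.2⟩, ← tr_S σ (w⁻¹ * _ * w), h.kL _ l.2, tr_S]
  rw [classInner_indFun_indFun, h.split (fun g => ∑ k : P, extendByZero P φ (g⁻¹ * k * g) * conj (φ k))]
  · have e1 : ∀ p : P, ∑ k : P, extendByZero P φ ((p : G)⁻¹ * k * p) * conj (φ k) = Nat.card P :=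
      fun p => by
        simp only [extendByZero_conj_mem' P hc p.2, extendByZero_coe]; exact hP
    have e2 : ∀ (u : Q) (y : P), ∑ k : P, extendByZero P φ (((u : G) * w * y)⁻¹ * k * (u * w * y)) *
        conj (φ k) = ∑ l : L, extendByZero P φ l * conj (extendByZero P φ l) := fun u y => by
      rw [← hw]
      refine Fintype.sum_equiv (MulAut.conj (⟨u, h.hQ u.2⟩ : P)⁻¹).toEquiv _ _ fun k => ?_
      have e : ((u : G) * w * y)⁻¹ * k * (u * w * y) = (y : G)⁻¹ * (w⁻¹ * ((u : G)⁻¹ * k * u) * w) * y := by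
        group
      rw [e, extendByZero_conj_mem' P hc y.2]
      simp only [MulEquiv.toEquiv_eq_coe, MulEquiv.coe_toEquiv, MulAut.conj_apply, inv_inv,
        hc.conj_inv]
      rfl
    simp only [e1, e2, Finset.sum_const, Finset.card_univ, ← Nat.card_eq_fintype_card, nsmul_eq_mul]
    have := card_ne_zero P
    rw [mul_left_comm, hL]
    field_simp
    norm_num
  · intro g h1 h2
    have := h.van g h1 h2
    rw [Van, finsum_eq_sum_of_fintype] at this
    rw [← this]
    refine Fintype.sum_of_injective Subtype.val Subtype.val_injective _ _ (fun x hx => ?_)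
      (fun k => ?_)
    · rw [extendByZero_of_not_mem P φ (g := x) (fun h3 => hx ⟨⟨x, h3⟩, rfl⟩), map_zero, mul_zero]
    · rw [extendByZero_coe]

theorem two [Fintype P] (h : Hyp P Q L w σ) : ∃ χ₁ χ₂, IsIrrCharacter G χ₁ ∧ IsIrrCharacter G χ₂ ∧
    χ₁ ≠ χ₂ ∧ classInner (fun p : P => χ₁ p) σ.character ≠ 0 ∧
    classInner (fun p : P => χ₂ p) σ.character ≠ 0 := by
  classical
  have h2 := norm_two h
  have hI := (isCharacter_character σ).ind (G := G)
  have hc := hI.isClassFunction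
  have h0 : indFun P σ.character ≠ 0 := fun e => by
    rw [e, classInner_zero_left] at h2; norm_num at h2
  obtain ⟨χ₁, i₁, n₁⟩ := hc.exists_irr_inner_ne_zero h0
  have tr : ∀ χ, IsIrrCharacter G χ → classInner (indFun P σ.character) χ ≠ 0 →
      classInner (fun p : P => χ p) σ.character ≠ 0 := fun χ i n => by
    rw [← classInner_indFun_right P i.isClassFunction, Ne, classInner_eq_zero_comm]; exact n
  by_contra hn
  have hz : ∀ χ : IrrCharacter G, χ ≠ ⟨χ₁, i₁⟩ → classInner (indFun P σ.character) χ = 0 :=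
    fun χ hχ => by
      by_contra n
      exact hn ⟨χ₁, χ, i₁, χ.2, fun e => hχ (Subtype.ext e.symm), tr _ i₁ n₁, tr _ χ.2 n⟩
  rw [hc.inner_eq_sum hc, Finset.sum_eq_single ⟨χ₁, i₁⟩ (fun χ _ hχ => by rw [hz χ hχ, zero_mul])
    (fun hh => absurd (Finset.mem_univ _) hh)] at h2
  obtain ⟨m, hm⟩ := hI.exists_nat_inner i₁.isCharacter
  simp only [hm, map_natCast] at h2
  have h3 : m * m = 2 := by exact_mod_cast h2
  have h4 : m ≤ 2 := by nlinarith
  interval_cases m <;> omega

end Orth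

end CL.DG4.H2a
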