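/-
S4984, block H2: the norm-two Hecke lemma.
E = extendByZero P phi.  Mackey: the terms g in P and g in PwP give 1 each (P cap P^w = L, phi^w = phi
on L, phi|L irreducible as Q <= ker), so Ind phi = chi1 + chi2, each with <chi_i|P, phi> = 1.
e = phi(1)/|P| sum phi(p^-1) p idempotent, central in CP; Van g => e g e = 0.  On a module M_i of
chi_i the space V_i = e M_i is the irreducible P-module of phi.  A = (sum_{u in Q} u) * w maps V_i to
V_i (Q-fixed vectors, L-type phi^w = phi, multiplicity one) and commutes with L (hker), so it is a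
scalar t_i (Schur), integral over Z (Z[G] finite).  F_i(g) = chi_i(e g): F_i = phi on P,
F_i(u w y) = t_i phi(y)/|Q|, F_i = 0 off P and PwP; d1 F1 + d2 F2 = |G| phi(1)/|P| * E (regular
character) gives tr at g = w.  A^2 on V_i: t_i^2 phi(1) = sum_u chi_i(Qhat w u w e) =
|Q| phi(1) + t_i sum Phi, t1 <> t2 by tr, hence prod and alpha.  kcl: omega_i(K) phi(1) = sum_K F_i.
-/
import Cfsg.Agent.CLAS.DG4.MX
import Cfsg.Agent.CLAS.DG4.H2a

set_option autoImplicit false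

namespace CL.DG4

open Cfsg CL.Witt CL.Zel Module Submodule
open scoped ComplexConjugate

variable {G : Type} [Group G] [Finite G] {P Q L : Subgroup G} {w : G} {φ : P → ℂ}

theorem h2 (hφ : IsIrrCharacter P φ) (hQ : Q ≤ P) (hL : L ≤ P)
    (hQn : ∀ x ∈ P, ∀ u ∈ Q, x * u * x⁻¹ ∈ Q)
    (hQφ : ∀ u ∈ Q, ∀ x : P, extendByZero P φ (u * x) = φ x)
    (hQL : ∀ x ∈ P, ∃ u ∈ Q, ∃ l ∈ L, x = u * l) (hdis : ∀ u ∈ Q, u ∈ L → u = 1)
    (hwL : ∀ l ∈ L, w * l * w⁻¹ ∈ L ∧ w⁻¹ * l * w ∈ L)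
    (hint : ∀ x ∈ P, w⁻¹ * x * w ∈ P → x ∈ L) (hw : w ∉ P) (hw2 : w * w ∈ L)
    (hw2φ : ∀ x : P, extendByZero P φ (w * w * x) = φ x)
    (hker : ∀ l ∈ L, ∀ x : P, extendByZero P φ (w⁻¹ * l * w * l⁻¹ * x) = φ x)
    (hvan : ∀ g, g ∉ P → ¬ InD P w g → Van P φ g) :
    ∃ χ₁ χ₂ t₁ t₂, H2Out P Q w φ χ₁ χ₂ t₁ t₂ := by
  classical
  have := Fintype.ofFinite G
  have := Fintype.ofFinite P
  have := Fintype.ofFinite Q
  obtain ⟨n, σ, hσ, rfl⟩ := hφ
  have _ := hQn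
  have h : H2a.Hyp P Q L w σ :=
    { irr := hσ, hQ := hQ, hL := hL, hQL := hQL, hdis := hdis, hwL := fun l hl => (hwL l hl).2
      hint := hint, hw := hw, hw2 := hL hw2
      kQ := fun u hu => H2a.S_ker σ (hQ hu) (hQφ u hu)
      kw := H2a.S_ker σ (hL hw2) hw2φ
      kL := fun l hl => by
        have h1 : w⁻¹ * l * w * l⁻¹ ∈ P := hL (L.mul_mem (hwL l hl).2 (L.inv_mem hl))
        have := H2a.S_mul σ h1 (hL hl)
        rwa [H2a.S_ker σ h1 (hker l hl), one_mul, inv_mul_cancel_right] at this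
      van := hvan }
  obtain ⟨χ₁, χ₂, i₁, i₂, hne, n₁, n₂⟩ := H2a.two h
  have hz := i₁.inner_of_ne i₂ hne
  have i₁' := i₁
  have i₂' := i₂
  obtain ⟨m₁, ρ₁, r₁, rfl⟩ := i₁'
  obtain ⟨m₂, ρ₂, r₂, rfl⟩ := i₂'
  obtain ⟨j₁, π₁, d₁⟩ := H2a.exists_dat σ hσ ρ₁ n₁
  obtain ⟨j₂, π₂, d₂⟩ := H2a.exists_dat σ hσ ρ₂ n₂
  obtain ⟨s₁, hs₁⟩ := d₁.F_w h
  obtain ⟨s₂, hs₂⟩ := d₂.F_w h
  have e₁ := H2a.deg h d₁ r₁ hs₁
  have e₂ := H2a.deg h d₂ r₂ hs₂
  have e₃ := H2a.prod h d₁ d₂ hz hs₁ hs₂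
  have hq := CL.Char.card_ne_zero Q
  have hN : (P.index : ℂ) * σ.character 1 ≠ 0 :=
    mul_ne_zero (Nat.cast_ne_zero.mpr Subgroup.index_ne_zero_of_finite)
      (CL.Char.isIrrCharacter_character σ).one_ne_zero
  have f₁ : ρ₁.character 1 * (s₂ - s₁) = P.index * σ.character 1 * s₂ := by
    linear_combination s₂ * e₁ - ρ₁.character 1 * s₁ * e₃
  have f₂ : ρ₂.character 1 * (s₁ - s₂) = P.index * σ.character 1 * s₁ := by
    linear_combination s₁ * e₂ - ρ₂.character 1 * s₂ * e₃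
  have hs : s₂ - s₁ ≠ 0 := fun e => by
    rw [e, mul_zero] at f₁
    have h0 := (mul_eq_zero.mp f₁.symm).resolve_left hN
    rw [h0] at e₃
    simp at e₃
  have hΦ : ∃ Φ, PhiOK P Q w σ.character Φ := by
    have : ∀ u : G, ∃ c : ℂ, (∃ u₁ ∈ Q, ∃ y : P, w * u * w = u₁ * w * y ∧ c = σ.character y) ∨
        (¬ InD P w (w * u * w) ∧ c = 0) := fun u => by
      by_cases h1 : InD P w (w * u * w)
      · obtain ⟨x, hx, y, hy, e⟩ := h1
        obtain ⟨u₁, hu, l, hl, e'⟩ := hQL x hx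
        refine ⟨_, Or.inl ⟨u₁, hu, ⟨w⁻¹ * l * w * y, P.mul_mem (hL (hwL l hl).2) hy⟩, ?_, rfl⟩⟩
        rw [e, e']; simp only []; group
      · exact ⟨0, Or.inr ⟨h1, rfl⟩⟩
    choose Φ hΦ using this
    exact ⟨Φ, fun u _ => hΦ u⟩
  have hb : IsIntegral ℤ ((Nat.card Q : ℂ) * s₁ + Nat.card Q * s₂) := by
    obtain ⟨Φ, hΦ⟩ := hΦ
    obtain ⟨a, y, h1, -, h3⟩ := H2a.quad h d₁ d₂ hz hs₁ hs₂ hΦ
    have := CL.Char.nontrivial_of_isIrreducible hσ
    exact CL.Char.isIntegral_of_sum_smul_rep_eq σ Finset.univ a y (fun u _ => h1 u) h3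
  have hp : (Nat.card Q : ℂ) * s₁ * (Nat.card Q * s₂) = -(Nat.card Q : ℂ) := by
    linear_combination (Nat.card Q : ℂ) * e₃
  have hi : ∀ a b : ℂ, IsIntegral ℤ (a + b) → a * b = -(Nat.card Q : ℂ) → IsIntegral ℤ a :=
    fun a b h1 h2 => by
      let R := integralClosure ℤ ℂ
      have h4 : IsIntegral R a := by
        refine ⟨Polynomial.X ^ 2 - Polynomial.C (⟨a + b, h1⟩ : R) * Polynomial.X -
          Polynomial.C ((Nat.card Q : ℕ) : R), by monicity!, ?_⟩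
        simp only [Polynomial.eval₂_sub, Polynomial.eval₂_mul, Polynomial.eval₂_C,
          Polynomial.eval₂_X, Polynomial.eval₂_X_pow, map_natCast, Polynomial.eval₂_natCast]
        change a ^ 2 - (a + b) * a - _ = 0
        linear_combination -h2
      exact isIntegral_trans a h4
  refine ⟨ρ₁.character, ρ₂.character, Nat.card Q * s₁, Nat.card Q * s₂,
    { irr₁ := i₁, irr₂ := i₂, sum := ?_, prod := hp, tr := ?_
      int₁ := hi _ _ hb hp
      int₂ := hi _ (Nat.card Q * s₁) (by rw [add_comm]; exact hb) (by rw [mul_comm]; exact hp)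
      exPhi := hΦ, alpha := fun Φ hΦ => ?_
      kcl := fun K hK hn => ⟨H2a.kcl h d₁ r₁ K hK hn, H2a.kcl h d₂ r₂ K hK hn⟩ }⟩
  · refine mul_right_cancel₀ hs ?_
    linear_combination f₁ - f₂
  · refine mul_right_cancel₀ hs ?_
    linear_combination (Nat.card Q : ℂ) * s₁ * f₁ - (Nat.card Q : ℂ) * s₂ * f₂
  · obtain ⟨a, y, -, h2, h3⟩ := H2a.quad h d₁ d₂ hz hs₁ hs₂ hΦ
    have e := congrArg (LinearMap.trace ℂ _) h3
    simp only [map_sum, map_smul, smul_eq_mul, LinearMap.trace_one] at e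
    rw [finsum_eq_sum_of_fintype, Representation.char_one, ← e]
    exact Finset.sum_congr rfl fun u _ => (h2 u).symm

end CL.DG4
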